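import Cfsg.Agent.H42.PcDefs
import Cfsg.Agent.H85.Basic

/-! Elements of `2`-power order in the coset `y S` are `S`-conjugate into `y T`. -/

set_option autoImplicit false

namespace Cfsg.Agent.H76.PcSyl

open Subgroup Cfsg.Agent.H85 Cfsg.Agent.H42.Pc

universe u

theorem isPGroup_zpowers_of_two {G : Type u} [Group G] {y : G} (h : Two y) :
    IsPGroup 2 (zpowers y) := by
  obtain ⟨k, hk⟩ := h
  rintro ⟨x, n, rfl⟩
  refine ⟨k, Subtype.ext ?_⟩
  show (y ^ n) ^ 2 ^ k = 1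
  rw [← zpow_natCast, ← zpow_mul, mul_comm, zpow_mul, zpow_natCast, hk, one_zpow]

theorem syl : SylStmt.{u} := by
  intro G _ _ S T y hST hyS hyT hy y' hy' hy2
  have : Fact (Nat.Prime 2) := ⟨Nat.prime_two⟩
  obtain ⟨hle, hT, hodd⟩ := hST
  have hS : IsSyl 2 T S := isSyl_of_not_dvd_relIndex hle hT (by
    intro h
    exact (Nat.not_even_iff_odd.2 hodd) (even_iff_two_dvd.2 h))
  have hzS : zpowers y ≤ normalizer (S : Set G) := zpowers_le.2 hyS
  have hzT : zpowers y ≤ normalizer (T : Set G) := zpowers_le.2 hyT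
  have hT1 : IsPGroup 2 (T ⊔ zpowers y : Subgroup G) :=
    IsPGroup.to_sup_of_normal_left' hT (isPGroup_zpowers_of_two hy) hzT
  have hinf : ∀ Q : Subgroup G, IsPGroup 2 Q → T ≤ Q → Q ⊓ S = T := fun Q hQ h =>
    hS.eq_of_le hQ.to_inf_left (le_inf h hle) inf_le_right
  have hS1 : IsSyl 2 (T ⊔ zpowers y) (S ⊔ zpowers y) := by
    refine ⟨sup_le_sup_right hle _, hT1, fun Q hQ h1 h2 => le_antisymm ?_ h1⟩
    intro q hq
    obtain ⟨a, ha, b, hb, rfl⟩ := (mem_sup_of_le_normalizer hzS).1 (h2 hq)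
    have hbQ : b ∈ Q := h1 (mem_sup_right hb)
    have haQ : a ∈ Q := by
      have := Q.mul_mem hq (Q.inv_mem hbQ)
      simpa using this
    have haT : a ∈ T := by
      rw [← hinf Q hQ (le_sup_left.trans h1)]
      exact ⟨haQ, ha⟩
    exact mul_mem (mem_sup_left haT) (mem_sup_right hb)
  have hy'G : zpowers y' ≤ S ⊔ zpowers y := by
    rw [zpowers_le]
    have e : y' = y * (y⁻¹ * y') := by group
    rw [e]
    exact mul_mem (mem_sup_right (mem_zpowers y)) (mem_sup_left hy')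
  obtain ⟨g, hg, hgc⟩ := hS1.exists_cj_le (isPGroup_zpowers_of_two hy2) hy'G
  have hy'S : y' ∈ normalizer (S : Set G) := by
    have e : y' = y * (y⁻¹ * y') := by group
    rw [e]
    exact mul_mem hyS (le_normalizer hy')
  have hsup : S ⊔ zpowers y ≤ S ⊔ zpowers y' := by
    refine sup_le le_sup_left ?_
    rw [zpowers_le]
    have e : y = y' * (y⁻¹ * y')⁻¹ := by group
    have hm : y' * (y⁻¹ * y')⁻¹ ∈ S ⊔ zpowers y' :=
      mul_mem (mem_sup_right (mem_zpowers y')) (mem_sup_left (S.inv_mem hy'))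
    rwa [← e] at hm
  obtain ⟨s, hs, b, hb, rfl⟩ := (mem_sup_of_le_normalizer (zpowers_le.2 hy'S)).1 (hsup hg)
  refine ⟨s, hs, ?_⟩
  have hby : b * y' * b⁻¹ = y' := by
    obtain ⟨n, rfl⟩ := hb
    show y' ^ n * y' * (y' ^ n)⁻¹ = y'
    group
  have h1 : s * y' * s⁻¹ ∈ T ⊔ zpowers y := by
    have h2 := hgc (conj_mem_cj (g := s * b) (mem_zpowers y'))
    have e : s * b * y' * (s * b)⁻¹ = s * (b * y' * b⁻¹) * s⁻¹ := by group
    rwa [e, hby] at h2
  rw [← hinf _ hT1 le_sup_left]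
  refine mem_inf.2 ⟨(T ⊔ zpowers y).mul_mem ((T ⊔ zpowers y).inv_mem (mem_sup_right (mem_zpowers y))) h1, ?_⟩
  have e : y⁻¹ * (s * y' * s⁻¹) = (y⁻¹ * s * y⁻¹⁻¹) * (y⁻¹ * y') * s⁻¹ := by group
  rw [e]
  exact mul_mem (mul_mem ((mem_normalizer_iff.1 (inv_mem hyS) s).1 hs) hy') (inv_mem hs)

end Cfsg.Agent.H76.PcSyl
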