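import Cfsg.Agent.H35.S4Defs
import Cfsg.Agent.H27.EndKit

/-!
# Standard subgroups of type `Sp₄(q)`: the second layer over a long root
-/

set_option autoImplicit false

namespace Cfsg.Agent.H76.S4Lv3c

open Cfsg Cfsg.Agent.H63 Cfsg.Agent.H63.SL Cfsg.Agent.H35.S4 Subgroup
open Cfsg.Agent.H27.End (mem_C comm_of_C eq_one_of_is2)
open scoped commutatorElement

universe u v

variable {F : Type v} [Field F] {G : Type u} [Group G] {A : Type v} [CommRing A]
  {L : Subgroup G} {x : ZMod 8 → F → G} {t : G} {j : F →+* A} {σ : A ≃+* A} {y : ZMod 8 → A → G}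

variable (y) in
/-- `g` centralizes the two doubled short root groups next to the root `2`. -/
def CB (g : G) : Prop := (∀ a, Commute g (y 1 a)) ∧ ∀ a, Commute g (y 3 a)

theorem CB.mul {g h : G} (hg : CB y g) (hh : CB y h) : CB y (g * h) :=
  ⟨fun a => (hg.1 a).mul_left (hh.1 a), fun a => (hg.2 a).mul_left (hh.2 a)⟩

theorem CB.inv {g : G} (hg : CB y g) : CB y g⁻¹ :=
  ⟨fun a => (hg.1 a).inv_left, fun a => (hg.2 a).inv_left⟩

theorem comm_cm {g a b : G} (ha : Commute g a) (hb : Commute g b) : Commute g ⁅a, b⁆ :=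
  ((ha.mul_right hb).mul_right ha.inv_right).mul_right hb.inv_right

theorem is2_of_mul {e o : G} (h : Commute e o) (he : Is2 e) (hp : Is2 (e * o)) : Is2 o := by
  obtain ⟨k, hk⟩ := he
  obtain ⟨l, hl⟩ := hp
  refine ⟨k + l, ?_⟩
  have h1 : (e * o) ^ 2 ^ (k + l) = 1 := by rw [pow_add, mul_comm (2 ^ k), pow_mul, hl, one_pow]
  rwa [h.mul_pow, pow_add, pow_mul, hk, one_pow, one_mul, ← pow_add] at h1

variable (D : DblS L x t j σ y)
include D

theorem cm13 {ω : A} (hω : σ ω = ω + 1) (a : F) :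
    ⁅y 1 (j a), y 3 ω⁆ = x 2 a ∧ ⁅y 1 ω, y 3 (j a)⁆ = x 2 a := by
  have e : σ (j a) = j a := (D.quad.fix _).2 ⟨a, rfl⟩
  refine ⟨D.s2 1 (by decide) _ _ _ ?_, D.s2 1 (by decide) _ _ _ ?_⟩ <;> rw [map_mul, e, hω] <;>
    linear_combination (-(j a * ω)) * D.quad.two

theorem CB.two {g : G} (hg : CB y g) (a : F) : Commute g (x 2 a) := by
  obtain ⟨ω, hω⟩ := D.quad.tr
  rw [← (cm13 D hω a).1]
  exact comm_cm (hg.1 _) (hg.2 _)

theorem ycom {i : ZMod 8} (hi : sh i) (a b : A) : Commute (y i a) (y i b) := by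
  rw [Commute, SemiconjBy, ← D.add i hi, ← D.add i hi, add_comm]

theorem fixB (hC : Ctx L x t) {g : G} (hg : CB y g) (ht : Commute g t) :
    ∃ v, ∃ o ∈ Od L t, g = x 2 v * o := by
  obtain ⟨ω, hω⟩ := D.quad.tr
  have x0 : ∀ i, x i 0 = 1 := fun i => by simpa using hC.mod.pin.add i 0 0
  have hA : g ∈ C[A3 x 2] := mem_C fun u hu => by
    obtain ⟨a, b, c, rfl⟩ := (hC.kp.memA 2 u).1 hu
    refine Commute.mul_right (Commute.mul_right ?_ (hg.two D b)) ?_
    · exact D.res 1 (by decide) a ▸ hg.1 _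
    · exact D.res 3 (by decide) c ▸ hg.2 _
  obtain ⟨w, hw, o, ho, e⟩ := hC.kb.cA 2 g ht hA
  obtain ⟨a, b, c, rfl⟩ := (hC.kp.memA 2 w).1 hw
  have oB : CB y o := ⟨fun a => D.odd 1 (by decide) o ho.1 ho.2.1 ho.2.2 _ ⟨a, rfl⟩,
    fun a => D.odd 3 (by decide) o ho.1 ho.2.1 ho.2.2 _ ⟨a, rfl⟩⟩
  have xB : CB y (x 2 b) := ⟨fun a => (D.c1 1 (by decide) a b).1.symm,
    fun a => (D.c1 3 (by decide) a b).2.symm⟩
  have r1 : x (2 - 1) a = y 1 (j a) := (D.res 1 (by decide) a).symm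
  have r3 : x (2 + 1) c = y 3 (j c) := (D.res 3 (by decide) c).symm
  rw [r1, r3] at e
  have c3 : Commute (x 2 b * y 3 (j c) * o) (y 3 ω) :=
    ((xB.2 ω).mul_left (ycom D (by decide) _ _)).mul_left (oB.2 ω)
  rcases e with rfl | rfl
  · have h3 : Commute (y 1 (j a)) (y 3 ω) := by
      simpa [mul_assoc] using (hg.2 ω).mul_left c3.inv_left
    have h1 : Commute (y 3 (j c)) (y 1 ω) := by
      simpa [mul_assoc] using (((ycom D (by decide) (j a) ω).mul_left (xB.1 ω)).inv_left.mul_left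
        (hg.1 ω)).mul_left (oB.1 ω).inv_left
    have a0 : a = 0 := hC.mod.pin.inj 2 a
      ((cm13 D hω a).1.symm.trans (commutatorElement_eq_one_iff_commute.2 h3))
    have c0 : c = 0 := hC.mod.pin.inj 2 c
      ((cm13 D hω c).2.symm.trans (commutatorElement_eq_one_iff_commute.2 h1.symm))
    refine ⟨b, o, ho, ?_⟩
    rw [a0, c0, D.res 1 (by decide), D.res 3 (by decide), x0, x0, one_mul, mul_one]
  · exfalso
    have h3 : Commute (t * y 1 (j a)) (y 3 ω) := by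
      simpa [mul_assoc] using (hg.2 ω).mul_left c3.inv_left
    have h4 : y 1 (j a) * y 3 ω * (y 1 (j a))⁻¹ = x 2 a * y 3 ω := by
      rw [← (cm13 D hω a).1, commutatorElement_def]; group
    have h5 : t * (x 2 a * y 3 ω) * t⁻¹ = y 3 ω := by
      rw [← h4]
      calc _ = t * y 1 (j a) * y 3 ω * (t * y 1 (j a))⁻¹ := by group
        _ = _ := by rw [h3.eq]; group
    rw [← conj_mul, (hC.kb.tL _ (hC.kb.xL 2 a)).eq, mul_inv_cancel_right, D.conj 3 (by decide), hω,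
      add_comm ω, D.add 3 (by decide), ← map_one j, D.res 3 (by decide), ← mul_assoc,
      mul_eq_right] at h5
    exact one_ne_zero (hC.kp.uniq 2 a 1 0 0 (by rw [x0, x0, mul_one, mul_one]; exact h5)).2.1

omit D in
theorem lv3c : Lv3cStmt.{u, v} := by
  intro F _ _ G _ _ L x t hC A _ j σ y Yh S P R W2 W4 T B p
  have D := T.ds
  have x0 : ∀ i, x i 0 = 1 := fun i => by simpa using hC.mod.pin.add i 0 0
  have y0 : y 3 0 = 1 := by simpa using D.add 3 (by decide) 0 0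
  have mR : ∀ e ∈ W2, Is2 e ∧ e ∈ C[S] ∧ OddC L t {e} := fun e he => by
    rw [T.l3.two] at he
    have := (T.l2.mem e).1 he.1
    exact ⟨this.1, this.2.1, this.2.2.1⟩
  have mB : ∀ e ∈ W2, CB y e := fun e he => ⟨fun a => (B.c1 a e he).symm, fun b =>
    comm_of_C (mR e he).2.1 ((T.l1.memS _).2 ⟨0, b, 0, by rw [x0, x0, one_mul, mul_one]⟩)⟩
  refine ⟨fun he => ⟨(mR p he).1, ?_, ?_, (T.hl.mem 2 (by decide) _).1 (T.l3.mov p he)⟩,
    fun ⟨h2, _, hr, hl⟩ => ?_⟩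
  · have c4 : ∀ u, Commute p (x 4 u) := fun u => comm_of_C (mR p he).2.1
      ((T.l1.memS _).2 ⟨0, 0, u, by rw [x0, y0, one_mul, one_mul]⟩)
    have m4 : ∀ u, x 4 u ∈ KK x (2 + 2) := fun u => mem_sup_left (subset_closure ⟨u, rfl⟩)
    have nK : n2 x 4 ∈ KK x (2 + 2) :=
      mul_mem (mul_mem (m4 1) (mem_sup_right (subset_closure ⟨1, rfl⟩))) (m4 1)
    set n := n2 x 4 with hn
    have cj : ∀ {a b : G}, Commute p a → n * a * n⁻¹ = b → Commute (n * p * n⁻¹) b := fun h e =>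
      e ▸ h.map (MulAut.conj n)
    have nB : CB y (n * p * n⁻¹) :=
      ⟨fun a => cj ((mB p he).2 (σ a)) ((D.wey 4 3 (by decide) _).trans (by rw [D.quad.sq]; rfl)),
        fun a => cj ((mB p he).1 (σ a)) ((D.wey 4 1 (by decide) _).trans (by rw [D.quad.sq]; rfl))⟩
    have c1 : Commute n (t * (t⁻¹ * (p * t * p⁻¹))) := (hC.kb.tL _ (hC.kb.nL 4)).symm.mul_right
      (comm_of_C (T.hl.cK 2 (by decide) (T.l3.mov p he)) nK).symm
    have c2 : t * n = n * t := (hC.kb.tL _ (hC.kb.nL 4)).eq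
    rw [mul_inv_cancel_left] at c1
    have c3 : Commute (p⁻¹ * (n * p * n⁻¹)) t := by
      rw [Commute, SemiconjBy]
      calc _ = p⁻¹ * n * p * n⁻¹ * (t * n) * n⁻¹ := by group
        _ = p⁻¹ * (n * (p * t * p⁻¹)) * p * n⁻¹ := by rw [c2]; group
        _ = _ := by rw [c1.eq]; group
    obtain ⟨v, o, ho, e⟩ := fixB D hC ((mB p he).inv.mul nB) c3
    refine mem_C fun g hg => ?_
    refine (H27.End.mem_C1.1 ((sup_le ((closure_le _).2 ?_) ((closure_le _).2 ?_) :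
      KK x (2 + 2) ≤ C1[p]) hg)).symm
    · rintro _ ⟨u, rfl⟩
      exact H27.End.mem_C1.2 (c4 u).symm
    · rintro _ ⟨u, rfl⟩
      have c5 : Commute (n * p * n⁻¹) (x 4 u) := by
        rw [← mul_inv_cancel_left p (n * p * n⁻¹), e]
        exact (c4 u).mul_left ((hC.mod.pin.c2 2 v u).mul_left (comm_of_C ho.1 (hC.kb.xL 4 u)))
      have c6 := c5.map (MulAut.conj n⁻¹)
      have c7 : n * x 0 u * n⁻¹ = x 4 u := hC.kp.nn 4 0 u
      rw [← c7] at c6
      exact H27.End.mem_C1.2 (show Commute (x 0 u) p by simpa [mul_assoc] using c6.symm)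
  · rintro r (hr | hr)
    · obtain ⟨a, rfl⟩ := (D.hat 1 (by decide) r).1 hr
      exact (mB p he).1 a
    · obtain ⟨a, rfl⟩ := (D.hat 3 (by decide) r).1 hr
      exact (mB p he).2 a
  · have pB : CB y p := ⟨fun a => hr _ (.inl ((D.hat 1 (by decide) _).2 ⟨a, rfl⟩)),
      fun a => hr _ (.inr ((D.hat 3 (by decide) _).2 ⟨a, rfl⟩))⟩
    obtain ⟨e, he, h1⟩ := T.l3.onto _ ((T.hl.mem 2 (by decide) _).2 hl)
    obtain ⟨w, hw⟩ := (hC.kp.memX 2 _).1 h1
    obtain ⟨Q, hQ, h3⟩ := T.hl.surj 2 (by decide) w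
    have he' : e * Q ∈ W2 := mul_mem he (T.l3.le hQ)
    have ww : x 2 w * x 2 w = 1 := by
      rw [← hC.mod.pin.add, ← two_mul, hC.mod.pin.two, zero_mul, x0]
    have h4 : e * Q * t * (e * Q)⁻¹ = p * t * p⁻¹ :=
      calc _ = e * (Q * t * Q⁻¹) * e⁻¹ := by group
        _ = e * t * e⁻¹ * (e * x 2 w) * e⁻¹ := by rw [h3]; group
        _ = p * t * p⁻¹ * ((t⁻¹ * (p * t * p⁻¹))⁻¹ * (t⁻¹ * (e * t * e⁻¹))) * x 2 w := by
          rw [((mB e he).two D w).eq]; group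
        _ = _ := by rw [hw, mul_assoc, ww, mul_one]
    have c3 : Commute ((e * Q)⁻¹ * p) t := by
      rw [Commute, SemiconjBy]
      calc _ = (e * Q)⁻¹ * (p * t * p⁻¹) * p := by group
        _ = _ := by rw [← h4]; group
    obtain ⟨v, o, ho, h5⟩ := fixB D hC ((mB _ he').inv.mul pB) c3
    have h6 : e * Q * x 2 v ∈ W2 := mul_mem he' (T.l3.le (T.hl.le 2 (by decide) v))
    have h7 : p = e * Q * x 2 v * o := by rw [mul_assoc (e * Q), ← h5]; group
    have h8 : o = 1 := eq_one_of_is2 (is2_of_mul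
      ((mR _ h6).2.2 o ho.1 ho.2.1 ho.2.2 _ rfl).symm (mR _ h6).1 (h7 ▸ h2)) ho.2.2
    rwa [h7, h8, mul_one]

end Cfsg.Agent.H76.S4Lv3c
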