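import Cfsg.Agent.H76.C2Code

/-! A lower bound for the class numbers of orthogonal groups in characteristic two. -/

set_option autoImplicit false

namespace Cfsg.Agent.H76

open QuadraticMap Module Polynomial
open H30 (O perp mem_perp)
open H28 (tp tpw)

universe u v w

theorem sum_sum_symm {F ι : Type*} [CommRing F] (h2 : (2 : F) = 0) {f : ι → ι → F}
    (hf : ∀ i j, f i j = f j i) (s : Finset ι) : ∑ i ∈ s, ∑ j ∈ s, f i j = ∑ i ∈ s, f i i := by
  classical
  induction s using Finset.induction_on with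
  | empty => simp
  | insert a s ha ih =>
    simp only [Finset.sum_insert ha, Finset.sum_add_distrib, ih, hf _ a]
    linear_combination (∑ j ∈ s, f a j) * h2

section Model

variable {F : Type u} [Field F] {A : Type*} [CommRing A] [Algebra F A] {Φ : A →ₗ[F] F} {s u : A}

/-- The norm form of `A[g]`, `g² = s g + 1`, followed by a linear functional. -/
def qMod (Φ : A →ₗ[F] F) (s : A) : QuadraticForm F (A × A) :=
  LinearMap.BilinMap.toQuadraticMap (LinearMap.mk₂ F
    (fun x y : A × A => Φ (x.1 * y.1 + s * x.1 * y.2 + x.2 * y.2))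
    (fun x y z => by rw [← map_add]; congr 1; simp only [Prod.fst_add, Prod.snd_add]; ring)
    (fun c x y => by rw [← map_smul]; simp [smul_add])
    (fun x y z => by rw [← map_add]; congr 1; simp only [Prod.fst_add, Prod.snd_add]; ring)
    fun c x y => by rw [← map_smul]; simp [smul_add])

theorem qMod_apply (x : A × A) : qMod Φ s x = Φ (x.1 * x.1 + s * x.1 * x.2 + x.2 * x.2) := rfl

theorem two_alg (h2 : (2 : F) = 0) (A : Type*) [CommRing A] [Algebra F A] : (2 : A) = 0 := by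
  rw [← map_ofNat (algebraMap F A) 2, h2, map_zero]

theorem polar_qMod (h2 : (2 : F) = 0) (x y : A × A) :
    polar (qMod Φ s) x y = Φ (s * (x.1 * y.2 + y.1 * x.2)) := by
  simp only [polar, qMod_apply, ← map_sub, Prod.fst_add, Prod.snd_add]
  congr 1
  linear_combination (x.1 * y.1 + x.2 * y.2) * two_alg h2 A

theorem nondegenerate_qMod (h2 : (2 : F) = 0) (hΦ : ∀ a, (∀ b, Φ (a * b) = 0) → a = 0)
    (hs : s * u = 1) : (polarBilin (qMod Φ s)).Nondegenerate :=
  H30.nondegenerate_of_forall fun x hx => Prod.ext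
    (hΦ _ fun b => by
      rw [← hx (0, u * b), polar_qMod h2]
      congr 1
      linear_combination -x.1 * b * hs)
    (hΦ _ fun b => by
      rw [← hx (u * b, 0), polar_qMod h2]
      congr 1
      linear_combination -x.2 * b * hs)

theorem exists_gMod (h2 : (2 : F) = 0) (Φ : A →ₗ[F] F) (s : A) :
    ∃ g : O (qMod Φ s), ∀ x, g.1 x + (g⁻¹).1 x = s • x := by
  have h := two_alg h2 A
  let g : (A × A) ≃ₗ[F] (A × A) :=
    { toFun := fun x => (x.2, x.1 + s * x.2)
      invFun := fun x => (x.2 + s * x.1, x.1)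
      map_add' := fun x y => Prod.ext rfl (by simp only [Prod.fst_add, Prod.snd_add]; ring)
      map_smul' := fun c x => Prod.ext rfl (by simp)
      left_inv := fun x => Prod.ext (by linear_combination s * x.2 * h) rfl
      right_inv := fun x => Prod.ext rfl (by linear_combination s * x.1 * h) }
  refine ⟨⟨g, fun x => ?_⟩, fun x => Prod.ext ?_ ?_⟩
  · rw [qMod_apply, qMod_apply]
    congr 1
    change x.2 * x.2 + s * x.2 * (x.1 + s * x.2) + (x.1 + s * x.2) * (x.1 + s * x.2) = _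
    linear_combination (s * x.1 * x.2 + s ^ 2 * x.2 ^ 2) * h
  · change x.2 + (x.2 + s * x.1) = s * x.1
    linear_combination x.2 * h
  · change x.1 + s * x.2 + x.1 = s * x.2
    linear_combination x.1 * h

variable [FiniteDimensional F A]

theorem trace_eq_char (h2 : (2 : F) = 0) (hΦ : ∀ a, (∀ b, Φ (a * b) = 0) → a = 0) {ρ : A}
    (hρ : ∀ a, Φ (a * ρ) ^ 2 = Φ (a * a)) (u : A) : Φ (u * ρ * ρ) = Algebra.trace F A u := by
  classical
  let B : LinearMap.BilinForm F A := (LinearMap.mul F A).compr₂ Φ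
  have hB : B.Nondegenerate := ⟨hΦ, fun a h => hΦ a fun b => by rw [mul_comm]; exact h b⟩
  let b := Module.finBasis F A
  let d := B.dualBasis hB b
  have h1 : ∀ x, ∑ i, Φ (x * b i) • d i = x := fun x => by
    conv_rhs => rw [← d.sum_repr x]
    exact Finset.sum_congr rfl fun i _ => by rw [LinearMap.BilinForm.dualBasis_repr_apply]; rfl
  have h3 : ∀ x y, Φ (x * y) = ∑ i, Φ (x * b i) * Φ (d i * y) := fun x y => by
    conv_lhs => rw [← h1 x, Finset.sum_mul, map_sum]
    simp
  have h4 : Φ (u * ρ * ρ) = ∑ i, ∑ j, Φ (b i * ρ) * Φ (b j * ρ) * Φ (d i * d j * u) := by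
    rw [mul_assoc, mul_comm, mul_assoc, h3]
    refine Finset.sum_congr rfl fun i _ => ?_
    rw [mul_left_comm, h3 ρ (d i * u), Finset.mul_sum]
    exact Finset.sum_congr rfl fun j _ => by rw [mul_comm ρ, mul_comm ρ]; ring_nf
  have h5 : Algebra.trace F A u = ∑ i, ∑ j, Φ (b i * b j) * Φ (d i * d j * u) := by
    rw [Algebra.trace_apply, LinearMap.trace_eq_matrix_trace F d, Matrix.trace]
    refine Finset.sum_congr rfl fun i _ => ?_
    rw [Matrix.diag_apply, LinearMap.toMatrix_apply, LinearMap.BilinForm.dualBasis_repr_apply]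
    change Φ (u * d i * b i) = _
    rw [mul_comm, h3]
    exact Finset.sum_congr rfl fun j _ => by ring_nf
  rw [h4, h5, sum_sum_symm h2 fun i j => by ring_nf, sum_sum_symm h2 fun i j => by ring_nf]
  exact Finset.sum_congr rfl fun i _ => by rw [← hρ, _root_.sq]

variable [Fintype F]

theorem tpw_qMod (h2 : (2 : F) = 0) (hΦ : ∀ a, (∀ b, Φ (a * b) = 0) → a = 0) (hs : s * u = 1)
    {δ : F} (hδ : ∀ t : F, t ^ 2 + t + δ ≠ 0) {c : F} {ε : Bool}
    (hc : Algebra.trace F A u ^ 2 + c ^ 2 + c = lb δ ε) : tpw (qMod Φ s) = ε.toNat := by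
  have hA := two_alg h2 A
  obtain ⟨l, hl⟩ := exists_sqrt_lin h2 (D := fun a => Φ (a * a)) (fun x y => by
    rw [← map_add]; congr 1; linear_combination x * y * hA) fun c x => by simp [_root_.sq, mul_assoc]
  let B : LinearMap.BilinForm F A := (LinearMap.mul F A).compr₂ Φ
  have hB : B.Nondegenerate := ⟨hΦ, fun a h => hΦ a fun b => by rw [mul_comm]; exact h b⟩
  obtain ⟨ρ, hρ⟩ := (B.toDual hB).surjective l
  have h1 : ∀ a, Φ (a * ρ) = l a := fun a => by rw [← hρ, mul_comm]; rfl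
  have h3 := trace_eq_char h2 hΦ (fun a => by rw [h1, hl]) u
  rw [h1] at h3
  rw [← h3] at hc
  have h4 : ∀ a, Φ (s * (a * (u * ρ))) = l a := fun a => by
    rw [← h1]; congr 1; linear_combination a * ρ * hs
  have h5 := H30.nondegOn_top (nondegenerate_qMod h2 hΦ hs)
  have h6 : ∀ x : A × A, qMod Φ s x = l x.1 ^ 2 + Φ (s * (x.1 * x.2)) + l x.2 ^ 2 := fun x => by
    rw [qMod_apply, map_add, map_add, hl, hl, mul_assoc]
  rw [← H28.tp_top]
  by_cases h7 : l (u * ρ) = 0
  · obtain rfl : ε = false := by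
      cases ε
      · rfl
      · exact absurd (by simp only [lb, if_true, h7] at hc; linear_combination hc + δ * h2) (hδ c)
    refine H28.tp_eq_zero_of_ts
      (U := LinearMap.range (LinearMap.id.prod (l.smulRight (u * ρ)))) h5 le_top ?_ ?_
    · rintro _ ⟨a, rfl⟩
      simp only [h6, LinearMap.prod_apply, Function.prod, LinearMap.id_apply,
        LinearMap.smulRight_apply, mul_smul_comm, map_smul, h4, h7, smul_eq_mul]
      linear_combination l a ^ 2 * h2
    · rw [LinearMap.finrank_range_of_inj fun a b h => congrArg Prod.fst h, finrank_top,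
        finrank_prod, two_mul]
  · have h8 : qMod Φ s ((l (u * ρ))⁻¹ • (u * ρ), 0) = 1 := by simp [h6, h7]
    have h9 : polar (qMod Φ s) ((l (u * ρ))⁻¹ • (u * ρ), 0) (0, u * ρ) = 1 := by
      rw [polar_qMod h2, zero_mul, add_zero, h4, map_smul, smul_eq_mul, inv_mul_cancel₀ h7]
    refine tp_plane h2 hδ h5 (x := ((l (u * ρ))⁻¹ • (u * ρ), 0))
      (y := (0, u * ρ) + c • ((l (u * ρ))⁻¹ • (u * ρ), 0)) trivial trivial h8 ?_ ?_
      (T := (LinearMap.ker l).map (LinearMap.inl F A A)) le_top ?_ ?_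
    · rw [Q_add_smul, h8, polar_comm, h9, h6, ← hc]
      simp
    · rw [polar_add_right, h9, H30.polar_smul_right', polar_qMod h2]
      simp
    · rintro _ ⟨a, ha, rfl⟩
      have ha' : l a = 0 := ha
      refine ⟨by simp [h6, ha'], by simp [polar_qMod h2], ?_⟩
      rw [polar_add_left, H30.polar_smul_left', polar_qMod h2, polar_qMod h2]
      simp [h4, ha']
    · have := LinearMap.finrank_range_add_finrank_ker l
      have h10 := (LinearMap.range l).finrank_le
      rw [finrank_self] at h10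
      rw [← (Submodule.equivMapOfInjective _ LinearMap.inl_injective _).finrank_eq, finrank_top,
        finrank_prod]
      omega

end Model

variable {F : Type u} [Field F]

theorem exists_frob_form {p : F[X]} (hp : p.Monic) :
    ∃ Φ : AdjoinRoot p →ₗ[F] F, ∀ a, (∀ b, Φ (a * b) = 0) → a = 0 := by
  refine ⟨lcoeff F (p.natDegree - 1) ∘ₗ AdjoinRoot.modByMonicHom hp, fun a ha => ?_⟩
  by_contra h
  have h1 := AdjoinRoot.mk_leftInverse hp a
  have h2 : (AdjoinRoot.modByMonicHom hp a).degree < p.degree := by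
    obtain ⟨a, rfl⟩ := AdjoinRoot.mk_surjective a
    exact degree_modByMonic_lt _ hp
  generalize AdjoinRoot.modByMonicHom hp a = f at h1 h2
  subst h1
  have h3 : f ≠ 0 := fun h' => h (by rw [h', map_zero])
  have h4 := natDegree_lt_natDegree h3 h2
  obtain ⟨d, hd⟩ := Nat.exists_eq_add_of_lt h4
  have h5 := ha (AdjoinRoot.mk p (X ^ d))
  rw [← map_mul, LinearMap.comp_apply, AdjoinRoot.modByMonicHom_mk,
    (modByMonic_eq_self_iff hp).2 (degree_lt_degree (by rw [natDegree_mul_X_pow _ h3]; omega)),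
    lcoeff_apply, hd, Nat.add_sub_cancel, coeff_mul_X_pow] at h5
  exact leadingCoeff_ne_zero.2 h3 h5

theorem exists_root_inv {p : F[X]} (h : p.coeff 0 ≠ 0) : ∃ s, s * AdjoinRoot.root p = 1 := by
  refine ⟨AdjoinRoot.mk p (-C (p.coeff 0)⁻¹ * divX p), ?_⟩
  rw [← AdjoinRoot.mk_X, ← map_mul, ← map_one (AdjoinRoot.mk p), AdjoinRoot.mk_eq_mk]
  refine ⟨-C (p.coeff 0)⁻¹, ?_⟩
  have h1 := divX_mul_X_add p
  have h2 : C (p.coeff 0)⁻¹ * C (p.coeff 0) = 1 := by rw [← C_mul, inv_mul_cancel₀ h, C_1]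
  linear_combination -C (p.coeff 0)⁻¹ * h1 + h2

variable {V : Type v} [AddCommGroup V] [Module F V] {Q : QuadraticForm F V}

/-- `g + g⁻¹`. -/
def sig (g : O Q) : End F V := (g.1 : V →ₗ[F] V) + ((g⁻¹).1 : V →ₗ[F] V)

theorem aeval_intertwine' {W : Type*} [AddCommGroup W] [Module F W] {f : End F V} {f' : End F W}
    {e : W →ₗ[F] V} (h : ∀ x, f (e x) = e (f' x)) (r : F[X]) (x : W) :
    aeval f r (e x) = e (aeval f' r x) :=
  (aeval_intertwine e (fun v => (h v).symm) r x).symm

theorem sig_conj {g g' : O Q} (h : IsConj g g') {r : F[X]} (hr : aeval (sig g) r * sig g = 0) :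
    aeval (sig g') r * sig g' = 0 := by
  obtain ⟨x, rfl⟩ := isConj_iff.1 h
  have h1 : ∀ v, sig (x * g * x⁻¹) ((x.1 : V →ₗ[F] V) v) = (x.1 : V →ₗ[F] V) (sig g v) := fun v => by
    simp [sig]
  ext v
  obtain ⟨v, rfl⟩ := x.1.surjective v
  have h2 := aeval_intertwine' h1 r (sig g v)
  rw [← h1, ← End.mul_apply, ← End.mul_apply (aeval (sig g) r), hr] at h2
  simpa using h2

variable [Fintype F] [FiniteDimensional F V]

theorem exists_elt_of_poly (h2 : (2 : F) = 0) (hQ : (polarBilin Q).Nondegenerate) {δ : F}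
    (hδ : ∀ t : F, t ^ 2 + t + δ ≠ 0) {p : F[X]} (hp : p.Monic) (h0 : p.coeff 0 ≠ 0)
    (h1 : 0 < p.natDegree) (h3 : 2 * p.natDegree ≤ finrank F V)
    (h4 : 2 * p.natDegree = finrank F V → ∃ c, p.nextCoeff ^ 2 + c ^ 2 + c = lb δ (tpw Q != 0)) :
    ∃ g : O Q, aeval (sig g) p.reverse * sig g = 0 ∧
      ∀ r : F[X], aeval (sig g) r.reverse * sig g = 0 → p ∣ r := by
  obtain ⟨Φ, hΦ⟩ := exists_frob_form hp
  obtain ⟨s, hs⟩ := exists_root_inv h0
  have := (AdjoinRoot.powerBasis' hp).finite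
  have := AdjoinRoot.nontrivial p (natDegree_pos_iff_degree_pos.1 h1).ne'
  have h5 : finrank F (AdjoinRoot p × AdjoinRoot p) = 2 * p.natDegree := by
    rw [finrank_prod, (AdjoinRoot.powerBasis' hp).finrank, two_mul]
    rfl
  obtain ⟨g', hg'⟩ := exists_gMod h2 Φ s
  obtain ⟨M, -, hM⟩ := (H28.exists_ndt_iff (H30.nondegOn_top hQ) (m := 2 * p.natDegree)
    (δ := tpw (qMod Φ s)) fun _ => even_two_mul _).2 ⟨by rwa [finrank_top], by omega, fun h => by
      rw [finrank_top] at h
      obtain ⟨c, hc⟩ := h4 h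
      have h6 := (AdjoinRoot.powerBasis hp.ne_zero).trace_gen_eq_nextCoeff_minpoly
      rw [AdjoinRoot.powerBasis_gen, AdjoinRoot.minpoly_root hp.ne_zero, hp.leadingCoeff, inv_one,
        C_1, mul_one] at h6
      rw [tpw_qMod h2 hΦ hs hδ (c := c) (by rw [h6, neg_sq, hc]), H28.tp_top]
      have := H28.tpw_lt Q
      interval_cases tpw Q <;> rfl⟩
  obtain ⟨g, e, k1, k2, -, k3, k4, -⟩ :=
    H28.exists_ext hQ (nondegenerate_qMod h2 hΦ hs) g' (h5 ▸ hM)
  have k5 : ∀ x, sig g (e x) = e (Algebra.lsmul F F (AdjoinRoot p × AdjoinRoot p) s x) := fun x => by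
    have : (g⁻¹).1 (e x) = e ((g'⁻¹).1 x) := by rw [H30.O_inv_apply_eq, k3, H30.O_apply_inv]
    change _ = e (s • x)
    rw [← hg', map_add, ← this, ← k3]
    rfl
  let _ : Invertible (AdjoinRoot.root p) := ⟨s, hs, by rw [mul_comm, hs]⟩
  have k6 : ∀ r : F[X], aeval s r.reverse = 0 ↔ p ∣ r := fun r => by
    rw [← AdjoinRoot.mk_eq_zero, ← AdjoinRoot.aeval_eq]
    exact eval₂_reverse_eq_zero_iff _ (AdjoinRoot.root p) r
  have k7 : ∀ (r : F[X]) x, (aeval (sig g) r * sig g) (e x) = e ((aeval s r * s) • x) := fun r x => by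
    rw [End.mul_apply, k5, aeval_intertwine' k5, aeval_algHom_apply, mul_smul]
    rfl
  refine ⟨g, LinearMap.ext fun v => ?_, fun r hr => (k6 r).1 ?_⟩
  · obtain ⟨a, ha, b, hb, rfl⟩ := Submodule.mem_sup.1
      (hM.1.isCompl.sup_eq_top ▸ Submodule.mem_top (x := v))
    obtain ⟨a, rfl⟩ := k2 ▸ ha
    have : sig g b = 0 := by
      have h6 : (g⁻¹).1 b = b := by rw [H30.O_inv_apply_eq, k4 b hb]
      change g.1 b + (g⁻¹).1 b = 0
      rw [h6, k4 b hb, ← two_smul F, h2, zero_smul]
    rw [map_add, k7, (k6 p).2 dvd_rfl, End.mul_apply, this]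
    simp
  · have := k7 r.reverse (AdjoinRoot.root p, 0)
    rw [hr, LinearMap.zero_apply, eq_comm, map_eq_zero_iff _ k1] at this
    simpa [mul_assoc, hs] using congrArg Prod.fst this

theorem le_card_o_two (h2 : (2 : F) = 0) (hQ : (polarBilin Q).Nondegenerate) {n : ℕ} (hn : 2 ≤ n)
    (hV : finrank F V = 2 * n) : Fintype.card F ^ n ≤ 2 * Nat.card (ConjClasses (O Q)) := by
  classical
  obtain ⟨m, rfl⟩ := Nat.exists_eq_add_of_le' hn
  obtain ⟨δ, hδ⟩ := H79.exists_aniso F
  replace hδ := H79.aniso_one_iff.1 hδ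
  obtain ⟨γ, hγ⟩ := H79.exists_sq_eq_of_two_eq_zero h2 (lb δ (tpw Q != 0))
  let R := Finset.univ.image fun d : F => γ + d ^ 2 + d
  have h1 : Fintype.card F ≤ 2 * R.card := Finset.card_le_mul_card_image _ 2 fun a ha => by
    obtain ⟨d, -, rfl⟩ := Finset.mem_image.1 ha
    refine (Finset.card_le_card (t := {d, d + 1}) fun x hx => ?_).trans Finset.card_le_two
    have : (x - d) * (x - (d + 1)) = 0 := by
      linear_combination (Finset.mem_filter.1 hx).2 + (d ^ 2 + d - x - x * d) * h2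
    simpa [sub_eq_zero] using this
  let P : Fˣ × (Fin m → F) × Option R → F[X] := fun x =>
    x.2.2.elim (X ^ (m + 1)) (fun t => X ^ (m + 2) + C t.1 * X ^ (m + 1)) +
      (ofFn m x.2.1 * X + C x.1.1)
  have h3 : ∀ (c : F) (w : Fin m → F), (ofFn m w * X + C c).degree < ((m + 1 : ℕ) : WithBot ℕ) := fun c w =>
    (degree_lt_iff_coeff_zero _ _).2 fun k hk => by
      obtain ⟨k, rfl⟩ := Nat.exists_eq_add_one.2 (by omega : 0 < k)
      rw [coeff_add, coeff_mul_X, coeff_C_succ, ofFn_coeff_eq_zero_of_ge _ (by omega), add_zero]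
  have h4 : ∀ x, (P x).coeff 0 = x.1 := by
    rintro ⟨c, w, _ | t⟩ <;> simp [P]
  have h5 : ∀ x (i : Fin m), (P x).coeff (i + 1) = x.2.1 i := by
    rintro ⟨c, w, _ | t⟩ i <;>
      simp [P, coeff_X_pow, coeff_C_succ, i.2.ne, show (i : ℕ) ≠ m + 1 by omega]
  have h6 : ∀ c w, IsMonicOfDegree (P (c, w, none)) (m + 1) := fun c w =>
    (isMonicOfDegree_X_pow F (m + 1)).add_right (by
      by_cases h : ofFn m w * X + C c.1 = 0
      · simp [h]
      · exact (natDegree_lt_iff_degree_lt h).2 (h3 _ _))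
  have h7 : ∀ c w t, IsMonicOfDegree (P (c, w, some t)) (m + 2) := fun c w t =>
    ((isMonicOfDegree_X_pow F (m + 2)).add_right
      ((natDegree_C_mul_X_pow_le _ _).trans_lt (by omega))).add_right
      ((natDegree_le_of_degree_le (h3 _ _).le).trans_lt (by omega))
  have h8 : ∀ c w t, (P (c, w, some t)).coeff (m + 1) = t := fun c w t => by
    simp [P, coeff_X_pow, coeff_C_succ]
  have h9 : Function.Injective P := by
    rintro ⟨c, w, o⟩ ⟨c', w', o'⟩ h
    refine Prod.ext (Units.ext ((h4 _).symm.trans (h ▸ h4 _)))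
      (Prod.ext (funext fun i => (h5 _ i).symm.trans (h ▸ h5 _ i)) ?_)
    rcases o with _ | t <;> rcases o' with _ | t'
    · rfl
    · exact absurd ((h6 c w).natDegree_eq.symm.trans (h ▸ (h7 c' w' t').natDegree_eq)) (by omega)
    · exact absurd ((h7 c w t).natDegree_eq.symm.trans (h ▸ (h6 c' w').natDegree_eq)) (by omega)
    · exact congrArg some (Subtype.ext ((h8 c w t).symm.trans (h ▸ h8 c' w' t')))
  have h10 : ∀ x, (P x).Monic := by
    rintro ⟨c, w, _ | t⟩
    exacts [(h6 c w).monic, (h7 c w t).monic]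
  have h11 : ∀ x, ∃ g : O Q, aeval (sig g) (P x).reverse * sig g = 0 ∧
      ∀ r : F[X], aeval (sig g) r.reverse * sig g = 0 → P x ∣ r := by
    rintro ⟨c, w, _ | t⟩
    · have := (h6 c w).natDegree_eq
      exact exists_elt_of_poly h2 hQ hδ (h10 _) (h4 _ ▸ c.ne_zero) (by omega) (by omega) (by omega)
    · have := (h7 c w t).natDegree_eq
      refine exists_elt_of_poly h2 hQ hδ (h10 _) (h4 _ ▸ c.ne_zero) (by omega) (by omega)
        fun _ => ?_
      obtain ⟨d, -, hd⟩ := Finset.mem_image.1 t.2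
      refine ⟨d ^ 2, ?_⟩
      rw [nextCoeff_of_natDegree_pos (by omega), this, Nat.add_succ_sub_one, h8, ← hd, ← hγ]
      linear_combination (d ^ 4 + d ^ 2 + γ * d ^ 2 + γ * d + d ^ 3) * h2
  choose g hg hg' using h11
  have : Finite V := Module.finite_of_finite F
  have : Finite (O Q) := Finite.of_injective (fun g => (g.1 : V → V)) fun _ _ h =>
    Subtype.ext (DFunLike.coe_injective h)
  have h12 := Nat.card_le_card_of_injective (fun x => ConjClasses.mk (g x)) fun x y h => by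
    have h := ConjClasses.mk_eq_mk_iff_isConj.1 h
    exact h9 (eq_of_monic_of_associated (h10 x) (h10 y) (associated_of_dvd_dvd
      (hg' _ _ (sig_conj h.symm (hg y))) (hg' _ _ (sig_conj h (hg x)))))
  rw [Nat.card_eq_fintype_card, Fintype.card_prod, Fintype.card_prod, Fintype.card_units,
    Fintype.card_option, Fintype.card_coe, Fintype.card_fun, Fintype.card_fin] at h12
  obtain ⟨k, hk⟩ := Nat.exists_eq_add_of_le' (Fintype.one_lt_card (α := F))
  rw [hk] at h1 h12 ⊢
  rw [pow_add]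
  have h13 : (k + 2) ^ 2 ≤ 2 * ((k + 1) * (R.card + 1)) := by nlinarith
  calc _ ≤ (k + 2) ^ m * (2 * ((k + 1) * (R.card + 1))) := Nat.mul_le_mul_left _ h13
    _ = 2 * ((k + 1) * ((k + 2) ^ m * (R.card + 1))) := by ring
    _ ≤ _ := Nat.mul_le_mul_left _ h12

end Cfsg.Agent.H76
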