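import Cfsg.Agent.H28.EloG

/-! Unipotent isometries in characteristic two: Gram data of cyclic vectors. -/

set_option autoImplicit false

namespace Cfsg.Agent.H76

open QuadraticMap Module
open H30 (NondegOn perp mem_perp mem_perp' polar_smul_left' polar_smul_right')

universe u v w

variable {F V V' : Type*} [Field F] [AddCommGroup V] [Module F V] [AddCommGroup V'] [Module F V']
  {Q : QuadraticForm F V} {N : End F V} {Q' : QuadraticForm F V'} {N' : End F V'}

theorem down_ind {P : ℕ → Prop} (m : ℕ) (h1 : ∀ c, m ≤ c → P c) (h2 : ∀ c, P (c + 1) → P c)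
    (c : ℕ) : P c := by
  have : ∀ d c, m ≤ c + d → P c := fun d => by
    induction d with
    | zero => exact h1
    | succ d ih => exact fun c hc => h2 c (ih _ (by omega))
  exact this m c (by omega)

theorem pow_succ_apply (N : End F V) (a : ℕ) (x : V) : (N ^ (a + 1)) x = N ((N ^ a) x) := by
  rw [pow_succ', End.mul_apply]

theorem pow_succ_apply' (N : End F V) (a : ℕ) (x : V) : (N ^ (a + 1)) x = (N ^ a) (N x) := by
  rw [pow_succ, End.mul_apply]

theorem pow_add_apply (N : End F V) (a c : ℕ) (x : V) : (N ^ a) ((N ^ c) x) = (N ^ (a + c)) x := by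
  rw [pow_add, End.mul_apply]

theorem pow_apply_eq_zero {m c : ℕ} {y : V} (hy : (N ^ m) y = 0) (h : m ≤ c) : (N ^ c) y = 0 := by
  obtain ⟨d, rfl⟩ := Nat.exists_eq_add_of_le' h
  rw [← pow_add_apply, hy, map_zero]

/-- `1 + N` is an isometry of `Q`, in characteristic two. -/
structure Iso2 (Q : QuadraticForm F V) (N : End F V) : Prop where
  two : (2 : F) = 0
  map : ∀ v, Q (N v) = polar Q v (N v)

theorem Q_add' (Q : QuadraticForm F V) (x y : V) : Q (x + y) = Q x + Q y + polar Q x y := by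
  simp [polar]

theorem Q_smul' (Q : QuadraticForm F V) (c : F) (x : V) : Q (c • x) = c ^ 2 * Q x := by
  rw [QuadraticMap.map_smul, smul_eq_mul, _root_.sq]

theorem Q_add_smul (Q : QuadraticForm F V) (x y : V) (c : F) :
    Q (x + c • y) = Q x + c ^ 2 * Q y + c * polar Q x y := by
  rw [Q_add', Q_smul', polar_smul_right']

namespace Iso2

theorem polar_self (h : Iso2 Q N) (x : V) : polar Q x x = 0 := by
  rw [QuadraticMap.polar_self, two_smul, ← two_mul, h.two, zero_mul]

theorem polar_map (h : Iso2 Q N) (v w : V) :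
    polar Q (N v) (N w) = polar Q v (N w) + polar Q (N v) w := by
  have := h.map (v + w)
  rw [map_add, Q_add', h.map, h.map, polar_add_left, polar_add_right, polar_add_right,
    polar_comm Q w (N v)] at this
  linear_combination this

theorem step (h : Iso2 Q N) (a c : ℕ) (x y : V) : polar Q ((N ^ (a + 1)) x) ((N ^ c) y) =
    polar Q ((N ^ (a + 1)) x) ((N ^ (c + 1)) y) + polar Q ((N ^ a) x) ((N ^ (c + 1)) y) := by
  rw [pow_succ_apply, pow_succ_apply, h.polar_map]
  linear_combination (-polar Q ((N ^ a) x) (N ((N ^ c) y))) * h.two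

theorem eq_zero (h : Iso2 Q N) {m : ℕ} {y : V} (hy : (N ^ m) y = 0) (x : V) {a c : ℕ}
    (hac : m ≤ a + c) : polar Q ((N ^ a) x) ((N ^ c) y) = 0 := by
  induction a generalizing c with
  | zero => rw [pow_apply_eq_zero hy (by omega), polar_zero_right]
  | succ a ih =>
    induction c using down_ind m with
    | h1 c hc => rw [pow_apply_eq_zero hy hc, polar_zero_right]
    | h2 c ih' => rw [h.step, ih' (by omega), ih (by omega), add_zero]

theorem eq_zero' (h : Iso2 Q N) {m : ℕ} {x : V} (hx : (N ^ m) x = 0) (y : V) {a c : ℕ}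
    (hac : m ≤ a + c) : polar Q ((N ^ a) x) ((N ^ c) y) = 0 := by
  rw [polar_comm, h.eq_zero hx y (by omega)]

theorem eq_top (h : Iso2 Q N) {m : ℕ} {y : V} (hy : (N ^ (m + 1)) y = 0) (x : V) {a c : ℕ}
    (hac : a + c = m) : polar Q ((N ^ a) x) ((N ^ c) y) = polar Q x ((N ^ m) y) := by
  induction a generalizing c with
  | zero => rw [← hac, zero_add, pow_zero, End.one_apply]
  | succ a ih => rw [h.step, h.eq_zero hy x (by omega), ih (by omega), zero_add]

theorem top_comm (h : Iso2 Q N) {m : ℕ} {y : V} (hy : (N ^ (m + 1)) y = 0) (x : V) :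
    polar Q y ((N ^ m) x) = polar Q x ((N ^ m) y) := by
  rw [polar_comm, ← h.eq_top hy x (a := m) (c := 0) rfl, pow_zero, End.one_apply]

theorem q_succ (h : Iso2 Q N) (j : ℕ) (v : V) :
    Q ((N ^ (j + 1)) v) = polar Q ((N ^ j) v) ((N ^ (j + 1)) v) := by
  rw [pow_succ_apply, h.map]

theorem q_eq_zero (h : Iso2 Q N) {m j : ℕ} {v : V} (hv : (N ^ m) v = 0) (hj : m < 2 * j) :
    Q ((N ^ j) v) = 0 := by
  obtain ⟨j, rfl⟩ := Nat.exists_eq_add_one.2 (by omega : 0 < j)
  rw [h.q_succ, h.eq_zero hv v (by omega)]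

theorem q_top (h : Iso2 Q N) {k : ℕ} {v : V} (hv : (N ^ (2 * k + 1 + 1)) v = 0) :
    polar Q v ((N ^ (2 * k + 1)) v) = Q ((N ^ (k + 1)) v) := by
  rw [h.q_succ, h.eq_top hv v (by omega)]

theorem top_self (h : Iso2 Q N) {k : ℕ} {v : V} (hv : (N ^ (2 * k + 1)) v = 0) :
    polar Q v ((N ^ (2 * k)) v) = 0 := by
  rw [← h.eq_top hv v (a := k) (c := k) (by omega), h.polar_self]

theorem gram_self (h : Iso2 Q N) (h' : Iso2 Q' N') {v : V} {v' : V'}
    (hq : ∀ j, Q ((N ^ (j + 1)) v) = Q' ((N' ^ (j + 1)) v')) (a c : ℕ) :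
    polar Q ((N ^ a) v) ((N ^ c) v) = polar Q' ((N' ^ a) v') ((N' ^ c) v') := by
  have key : ∀ d a, polar Q ((N ^ a) v) ((N ^ (a + d)) v) =
      polar Q' ((N' ^ a) v') ((N' ^ (a + d)) v') := fun d => by
    induction d using Nat.twoStepInduction with
    | zero => intro a; rw [add_zero, h.polar_self, h'.polar_self]
    | one => intro a; rw [← h.q_succ, ← h'.q_succ, hq]
    | more d ih1 ih2 =>
      intro a
      have h1 := h.step a (a + 1 + d) v v
      have h2 := h'.step a (a + 1 + d) v' v'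
      have h3 := ih1 (a + 1)
      have h4 := ih2 (a + 1)
      rw [show a + (d + 2) = a + 1 + d + 1 by ring]
      rw [← add_assoc] at h4
      linear_combination h2 - h1 + h3 - h4
  rcases le_total a c with hac | hac
  · obtain ⟨d, rfl⟩ := Nat.exists_eq_add_of_le hac
    exact key d a
  · obtain ⟨d, rfl⟩ := Nat.exists_eq_add_of_le hac
    rw [polar_comm, key, polar_comm]

theorem gram_cross (h : Iso2 Q N) (h' : Iso2 Q' N') {v w : V} {v' w' : V'} {m : ℕ}
    (hw : (N ^ m) w = 0) (hw' : (N' ^ m) w' = 0)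
    (hb : ∀ l, polar Q v ((N ^ l) w) = polar Q' v' ((N' ^ l) w')) (a c : ℕ) :
    polar Q ((N ^ a) v) ((N ^ c) w) = polar Q' ((N' ^ a) v') ((N' ^ c) w') := by
  induction a generalizing c with
  | zero => simpa using hb c
  | succ a ih =>
    induction c using down_ind m with
    | h1 c hc => rw [pow_apply_eq_zero hw hc, pow_apply_eq_zero hw' hc, polar_zero_right,
        polar_zero_right]
    | h2 c ih' => rw [h.step, h'.step, ih', ih]

end Iso2

/-! ### Cyclic spans -/

section Cy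

variable {ι : Type*}

/-- The `N`-invariant subspace generated by a family. -/
def cy (N : End F V) (x : ι → V) : Submodule F V :=
  Submodule.span F (Set.range fun p : ι × ℕ => (N ^ p.2) (x p.1))

/-- `W` is `N`-invariant. -/
def NInv (N : End F V) (W : Submodule F V) : Prop := ∀ v ∈ W, N v ∈ W

theorem NInv.pow {W : Submodule F V} (h : NInv N W) (j : ℕ) {v : V} (hv : v ∈ W) :
    (N ^ j) v ∈ W := by
  induction j with
  | zero => simpa using hv
  | succ j ih => rw [pow_succ_apply]; exact h _ ih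

theorem pow_mem_cy (x : ι → V) (i : ι) (j : ℕ) : (N ^ j) (x i) ∈ cy N x :=
  Submodule.subset_span ⟨(i, j), rfl⟩

theorem mem_cy (x : ι → V) (i : ι) : x i ∈ cy N x := by simpa using pow_mem_cy (N := N) x i 0

theorem cy_le {W : Submodule F V} (h : NInv N W) {x : ι → V} (hx : ∀ i, x i ∈ W) : cy N x ≤ W :=
  Submodule.span_le.2 (by rintro _ ⟨p, rfl⟩; exact h.pow _ (hx _))

theorem cy_ind {x : ι → V} {W : Submodule F V} (h : ∀ i j, (N ^ j) (x i) ∈ W) : cy N x ≤ W :=
  Submodule.span_le.2 (by rintro _ ⟨p, rfl⟩; exact h _ _)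

theorem nInv_cy (x : ι → V) : NInv N (cy N x) := fun _ hv =>
  cy_ind (W := (cy N x).comap N) (fun i j => by
    rw [Submodule.mem_comap, ← pow_succ_apply]; exact pow_mem_cy x i _) hv

theorem pow_eq_zero_of_mem_cy {x : ι → V} {m : ℕ} (h : ∀ i, (N ^ m) (x i) = 0) {y : V}
    (hy : y ∈ cy N x) : (N ^ m) y = 0 :=
  cy_ind (W := LinearMap.ker (N ^ m)) (fun i j => by
    rw [LinearMap.mem_ker, pow_add_apply, pow_apply_eq_zero (h i) (by omega)]) hy

theorem cy_eq_sup (x : ι → V) :
    cy N x = Submodule.span F (Set.range x) ⊔ cy N fun i => N (x i) := by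
  refine le_antisymm (cy_ind fun i j => ?_) (sup_le (Submodule.span_le.2 ?_)
    (cy_le (nInv_cy x) fun i => nInv_cy x _ (mem_cy x i)))
  · rcases j with _ | j
    · exact Submodule.mem_sup_left (Submodule.subset_span ⟨i, by simp⟩)
    · rw [pow_succ_apply']
      exact Submodule.mem_sup_right (pow_mem_cy (fun i => N (x i)) i j)
  · rintro _ ⟨i, rfl⟩
    exact mem_cy x i

theorem cy_eq_bot {x : ι → V} (h : ∀ i, x i = 0) : cy N x = ⊥ :=
  eq_bot_iff.2 (cy_ind fun i j => by simp [h i])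

variable [Fintype ι]

theorem exists_of_mem_cy {x : ι → V} {y : V} (hy : y ∈ cy N x) :
    ∃ (a : ι → F) (z : V), z ∈ cy N (fun i => N (x i)) ∧ y = ∑ i, a i • x i + z := by
  rw [cy_eq_sup, Submodule.mem_sup] at hy
  obtain ⟨s, hs, z, hz, rfl⟩ := hy
  obtain ⟨a, rfl⟩ := (Submodule.mem_span_range_iff_exists_fun F).1 hs
  exact ⟨a, z, hz, rfl⟩

theorem finrank_cy [FiniteDimensional F V] {x : ι → V} {m : ℕ} (h0 : ∀ i, (N ^ (m + 1)) (x i) = 0)
    (h1 : LinearIndependent F fun i => (N ^ m) (x i)) (j : ℕ) :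
    finrank F (cy N fun i => (N ^ j) (x i)) = Fintype.card ι * (m + 1 - j) := by
  induction j using down_ind (m + 1) with
  | h1 j hj =>
    rw [cy_eq_bot fun i => pow_apply_eq_zero (h0 i) hj, finrank_bot, Nat.sub_eq_zero_of_le hj,
      mul_zero]
  | h2 j ih =>
    rcases le_or_gt (m + 1) j with hj | hj
    · rw [cy_eq_bot fun i => pow_apply_eq_zero (h0 i) hj, finrank_bot, Nat.sub_eq_zero_of_le hj,
        mul_zero]
    obtain ⟨d, rfl⟩ := Nat.exists_eq_add_of_le' (Nat.lt_succ_iff.1 hj)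
    replace h1 : LinearIndependent F fun i => (N ^ d) ((N ^ j) (x i)) := by
      simpa only [pow_add_apply] using h1
    rw [funext fun i => pow_succ_apply N j (x i)] at ih
    have h2 : LinearIndependent F fun i => (N ^ j) (x i) := LinearIndependent.of_comp (N ^ d) h1
    rw [cy_eq_sup, H28.finrank_sup_of_disjoint, ih, finrank_span_eq_card h2,
      show d + j + 1 - j = d + j + 1 - (j + 1) + 1 by omega]
    · ring
    · rw [Submodule.disjoint_def]
      intro y hy hy'
      obtain ⟨a, rfl⟩ := (Submodule.mem_span_range_iff_exists_fun F).1 hy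
      have h3 := pow_eq_zero_of_mem_cy (m := d) (fun i => by
        rw [← pow_succ_apply, pow_add_apply, ← add_assoc, h0]) hy'
      simp only [map_sum, map_smul] at h3
      simp [Fintype.linearIndependent_iff.1 h1 a h3]

theorem linearIndependent_top {x : ι → V} {m : ℕ}
    (h1 : ∀ a : ι → F, (∀ k, ∑ i, a i * polar Q (x k) ((N ^ m) (x i)) = 0) → ∀ i, a i = 0) :
    LinearIndependent F fun i => (N ^ m) (x i) :=
  Fintype.linearIndependent_iff.2 fun a ha => h1 a fun k => by
    have := congrArg (polarBilin Q (x k)) ha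
    simpa [map_sum] using this

theorem Iso2.nondegOn_cy (h : Iso2 Q N) {x : ι → V} {m : ℕ} (h0 : ∀ i, (N ^ (m + 1)) (x i) = 0)
    (h1 : ∀ a : ι → F, (∀ k, ∑ i, a i * polar Q (x k) ((N ^ m) (x i)) = 0) → ∀ i, a i = 0) :
    NondegOn Q (cy N x) := by
  intro y hy hy'
  have key : ∀ j, j ≤ m + 1 → y ∈ cy N fun i => (N ^ j) (x i) := fun j hj => by
    induction j with
    | zero => simpa using hy
    | succ j ih =>
      obtain ⟨a, z, hz, hyz⟩ := exists_of_mem_cy (ih (by omega))
      obtain ⟨d, rfl⟩ := Nat.exists_eq_add_of_le' (by omega : j ≤ m)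
      have h2 : ∀ i, a i = 0 := h1 a fun k => by
        have h3 := hy' _ (pow_mem_cy x k d)
        have h4 : polar Q z ((N ^ d) (x k)) = 0 :=
          cy_ind (W := LinearMap.ker (polarBilin Q ((N ^ d) (x k)))) (fun i l => by
            rw [LinearMap.mem_ker, polarBilin_apply_apply, ← pow_succ_apply, pow_add_apply,
              h.eq_zero (h0 i) _ (by omega)]) hz ▸ polar_comm _ _ _
        rw [hyz, polar_add_left, h4, add_zero, polar_comm, ← polarBilin_apply_apply,
          map_sum] at h3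
        rw [← h3]
        refine Finset.sum_congr rfl fun i _ => ?_
        rw [map_smul, polarBilin_apply_apply, h.eq_top (h0 i) _ rfl, smul_eq_mul]
      simpa [hyz, h2, pow_succ_apply] using hz
  have := key _ le_rfl
  rwa [cy_eq_bot h0] at this

end Cy

/-! ### Isometries given by their graphs -/

section Rel

/-- An isometry `U → U'` intertwining `N` and `N'`, given by its graph; it preserves the polar
forms, and the quadratic forms if `o` holds. -/
def Rel (o : Prop) (Q : QuadraticForm F V) (N : End F V) (Q' : QuadraticForm F V') (N' : End F V')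
    (U : Submodule F V) (U' : Submodule F V') : Prop :=
  ∃ Γ : Submodule F (V × V'), Γ.map (LinearMap.fst F V V') = U ∧
    Γ.map (LinearMap.snd F V V') = U' ∧ (∀ p ∈ Γ, (N p.1, N' p.2) ∈ Γ) ∧
    (∀ p ∈ Γ, ∀ r ∈ Γ, polar Q p.1 r.1 = polar Q' p.2 r.2) ∧ (o → ∀ p ∈ Γ, Q p.1 = Q' p.2)

variable {o : Prop} {U W : Submodule F V} {U' W' : Submodule F V'}

theorem rel_bot : Rel o Q N Q' N' ⊥ ⊥ :=
  ⟨⊥, by simp, by simp, by simp, by simp, by simp⟩

theorem Rel.sup (h : Rel o Q N Q' N' U U') (h' : Rel o Q N Q' N' W W') (hW : W ≤ perp Q U)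
    (hW' : W' ≤ perp Q' U') : Rel o Q N Q' N' (U ⊔ W) (U' ⊔ W') := by
  obtain ⟨Γ, rfl, rfl, h3, h4, h5⟩ := h
  obtain ⟨Δ, rfl, rfl, k3, k4, k5⟩ := h'
  have h6 : ∀ p ∈ Γ, ∀ r ∈ Δ, polar Q p.1 r.1 = 0 := fun p hp r hr =>
    mem_perp.1 (hW ⟨r, hr, rfl⟩) _ ⟨p, hp, rfl⟩
  have h7 : ∀ p ∈ Γ, ∀ r ∈ Δ, polar Q' p.2 r.2 = 0 := fun p hp r hr =>
    mem_perp.1 (hW' ⟨r, hr, rfl⟩) _ ⟨p, hp, rfl⟩
  refine ⟨Γ ⊔ Δ, Submodule.map_sup _ _ _, Submodule.map_sup _ _ _, fun p hp => ?_,
    fun p hp r hr => ?_, fun ho p hp => ?_⟩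
  · obtain ⟨a, ha, b, hb, rfl⟩ := Submodule.mem_sup.1 hp
    simpa using Submodule.add_mem_sup (h3 a ha) (k3 b hb)
  · obtain ⟨a, ha, b, hb, rfl⟩ := Submodule.mem_sup.1 hp
    obtain ⟨c, hc, d, hd, rfl⟩ := Submodule.mem_sup.1 hr
    simp only [Prod.fst_add, Prod.snd_add, polar_add_left, polar_add_right, h4 a ha c hc,
      k4 b hb d hd, h6 a ha d hd, h7 a ha d hd, polar_comm Q b.1 c.1, polar_comm Q' b.2 c.2,
      h6 c hc b hb, h7 c hc b hb]
  · obtain ⟨a, ha, b, hb, rfl⟩ := Submodule.mem_sup.1 hp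
    simp only [Prod.fst_add, Prod.snd_add, Q_add', h5 ho a ha, k5 ho b hb, h6 a ha b hb,
      h7 a ha b hb]

theorem rel_cy {ι : Type*} {x : ι → V} {x' : ι → V'}
    (hb : ∀ i k a c, polar Q ((N ^ a) (x i)) ((N ^ c) (x k)) =
      polar Q' ((N' ^ a) (x' i)) ((N' ^ c) (x' k)))
    (hq : o → ∀ i a, Q ((N ^ a) (x i)) = Q' ((N' ^ a) (x' i))) :
    Rel o Q N Q' N' (cy N x) (cy N' x') := by
  have h1 : ∀ (j : ℕ) (p : V × V'), (N.prodMap N' ^ j) p = ((N ^ j) p.1, (N' ^ j) p.2) :=
    fun j p => by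
      induction j with
      | zero => simp
      | succ j ih => simp [pow_succ_apply, ih]
  set Γ := cy (N.prodMap N') fun i => (x i, x' i)
  have h2 : ∀ p ∈ Γ, ∀ r ∈ Γ, polar Q p.1 r.1 = polar Q' p.2 r.2 := fun p hp r hr => by
    induction hp, hr using Submodule.span_induction₂ with
    | mem_mem p r hp hr =>
      obtain ⟨p, rfl⟩ := hp
      obtain ⟨r, rfl⟩ := hr
      simp only [h1, hb]
    | zero_left => simp
    | zero_right => simp
    | add_left _ _ _ _ _ _ k1 k2 => simp only [Prod.fst_add, Prod.snd_add, polar_add_left, k1, k2]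
    | add_right _ _ _ _ _ _ k1 k2 => simp only [Prod.fst_add, Prod.snd_add, polar_add_right, k1, k2]
    | smul_left _ _ _ _ _ k => simp only [Prod.smul_fst, Prod.smul_snd, polar_smul_left', k]
    | smul_right _ _ _ _ _ k => simp only [Prod.smul_fst, Prod.smul_snd, polar_smul_right', k]
  refine ⟨Γ, ?_, ?_, fun p hp => nInv_cy _ p hp, h2, fun ho p hp => ?_⟩
  · simp only [Γ, cy, Submodule.map_span, ← Set.range_comp, Function.comp_def, h1,
      LinearMap.fst_apply]
  · simp only [Γ, cy, Submodule.map_span, ← Set.range_comp, Function.comp_def, h1,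
      LinearMap.snd_apply]
  · induction hp using Submodule.span_induction with
    | mem p hp =>
      obtain ⟨p, rfl⟩ := hp
      simp only [h1, hq ho]
    | zero => simp
    | add p r hp hr k1 k2 => simp only [Prod.fst_add, Prod.snd_add, Q_add', k1, k2, h2 p hp r hr]
    | smul c p _ k => simp only [Prod.smul_fst, Prod.smul_snd, Q_smul', k]

theorem Rel.exists_equiv (h : Rel o Q N Q' N' U U') (hU : NondegOn Q U) (hU' : NondegOn Q' U') :
    ∃ e : U ≃ₗ[F] U', (∀ x y : U, (y : V) = N x → (e y : V') = N' (e x)) ∧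
      (∀ x y : U, polar Q' (e x : V') (e y : V') = polar Q (x : V) (y : V)) ∧
      (o → ∀ x : U, Q' (e x) = Q x) := by
  obtain ⟨Γ, rfl, rfl, h3, h4, h5⟩ := h
  have h6 : Function.Injective ((LinearMap.fst F V V').submoduleMap Γ) := by
    refine (injective_iff_map_eq_zero _).2 fun p hp => ?_
    have hp' : (p : V × V').1 = 0 := congrArg Subtype.val hp
    refine Subtype.ext (Prod.ext hp' (hU' _ ⟨p, p.2, rfl⟩ ?_))
    rintro _ ⟨r, hr, rfl⟩
    rw [LinearMap.snd_apply, ← h4 _ p.2 r hr, hp', polar_zero_left]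
  have h7 : Function.Injective ((LinearMap.snd F V V').submoduleMap Γ) := by
    refine (injective_iff_map_eq_zero _).2 fun p hp => ?_
    have hp' : (p : V × V').2 = 0 := congrArg Subtype.val hp
    refine Subtype.ext (Prod.ext (hU _ ⟨p, p.2, rfl⟩ ?_) hp')
    rintro _ ⟨r, hr, rfl⟩
    rw [LinearMap.fst_apply, h4 _ p.2 r hr, hp', polar_zero_left]
  let a := LinearEquiv.ofBijective _ ⟨h6, LinearMap.submoduleMap_surjective _ _⟩
  let b := LinearEquiv.ofBijective _ ⟨h7, LinearMap.submoduleMap_surjective _ _⟩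
  have h8 : ∀ p : Γ, ((a.symm.trans b) (a p) : V') = (p : V × V').2 := fun p => by
    rw [LinearEquiv.trans_apply, LinearEquiv.symm_apply_apply]
    rfl
  refine ⟨a.symm.trans b, fun x y hxy => ?_, fun x y => ?_, fun ho x => ?_⟩
  · obtain ⟨p, rfl⟩ := a.surjective x
    rw [show y = a ⟨_, h3 _ p.2⟩ from Subtype.ext hxy, h8, h8]
  · obtain ⟨p, rfl⟩ := a.surjective x
    obtain ⟨r, rfl⟩ := a.surjective y
    rw [h8, h8, ← h4 _ p.2 _ r.2]
    rfl
  · obtain ⟨p, rfl⟩ := a.surjective x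
    rw [h8, ← h5 ho _ p.2]
    rfl

theorem rel_of_equiv (hU : NInv N U) (e : U ≃ₗ[F] U')
    (h1 : ∀ x y : U, (y : V) = N x → (e y : V') = N' (e x))
    (h2 : ∀ x y : U, polar Q' (e x : V') (e y : V') = polar Q (x : V) (y : V))
    (h3 : o → ∀ x : U, Q' (e x) = Q x) : Rel o Q N Q' N' U U' := by
  refine ⟨LinearMap.range (U.subtype.prod (U'.subtype ∘ₗ (e : U →ₗ[F] U'))), ?_, ?_, ?_, ?_, ?_⟩
  · rw [← LinearMap.range_comp, LinearMap.fst_prod, Submodule.range_subtype]
  · rw [← LinearMap.range_comp, LinearMap.snd_prod, LinearMap.range_comp, LinearEquiv.range,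
      Submodule.map_top, Submodule.range_subtype]
  · rintro _ ⟨x, rfl⟩
    exact ⟨⟨_, hU _ x.2⟩, Prod.ext rfl (h1 x _ rfl)⟩
  · rintro _ ⟨x, rfl⟩ _ ⟨y, rfl⟩
    exact (h2 x y).symm
  · rintro ho _ ⟨x, rfl⟩
    exact (h3 ho x).symm

end Rel

end Cfsg.Agent.H76
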