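import Cfsg.Agent.H76.C2Basic

/-! Unipotent isometries in characteristic two: the indecomposable blocks. -/

set_option autoImplicit false

namespace Cfsg.Agent.H76

open QuadraticMap Module
open H30 (NondegOn perp mem_perp mem_perp' polar_smul_left' polar_smul_right')
open H28 (tp)

universe u v w

variable {F V V' : Type*} [Field F] [AddCommGroup V] [Module F V] [AddCommGroup V'] [Module F V']
  {Q : QuadraticForm F V} {N : End F V} {Q' : QuadraticForm F V'} {N' : End F V'}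
  {U W : Submodule F V} {δ : F}

theorem NInv.inf (hU : NInv N U) (hW : NInv N W) : NInv N (U ⊓ W) :=
  fun v hv => ⟨hU v hv.1, hW v hv.2⟩

theorem NInv.sup (hU : NInv N U) (hW : NInv N W) : NInv N (U ⊔ W) := fun v hv => by
  obtain ⟨a, ha, b, hb, rfl⟩ := Submodule.mem_sup.1 hv
  rw [map_add]
  exact Submodule.add_mem_sup (hU a ha) (hW b hb)

namespace Iso2

theorem nInv_perp (h : Iso2 Q N) (hU : NInv N U) {m : ℕ} (h0 : ∀ x ∈ U, (N ^ m) x = 0) :
    NInv N (perp Q U) := fun y hy => mem_perp'.2 fun u hu => by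
  have key : ∀ c, polar Q ((N ^ (0 + 1)) y) ((N ^ c) u) = 0 := fun c => by
    induction c using down_ind m with
    | h1 c hc => rw [pow_apply_eq_zero (h0 u hu) hc, polar_zero_right]
    | h2 c ih => rw [h.step, ih, pow_zero, End.one_apply, mem_perp'.1 hy _ (hU.pow _ hu), add_zero]
  simpa using key 0

theorem kill (h : Iso2 Q N) (hW : NInv N W) {m J : ℕ} {w y : V} (hyW : y ∈ W)
    (hy : (N ^ (m + 1)) y = 0) (hb : polar Q w ((N ^ m) y) ≠ 0) (hJ : 2 * J ≤ m + 1)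
    (hq : ∀ j, m + 1 ≤ j + J → Q ((N ^ j) y) = 0) :
    ∃ z ∈ W, ∀ j, Q ((N ^ j) (w + N z)) = if j < J then 0 else Q ((N ^ j) w) := by
  induction J generalizing w with
  | zero => exact ⟨0, W.zero_mem, by simp⟩
  | succ J ih =>
    obtain ⟨i, rfl⟩ : ∃ i, m = 2 * J + i + 1 := ⟨m - 2 * J - 1, by omega⟩
    set c := -Q ((N ^ J) w) / polar Q w ((N ^ (2 * J + i + 1)) y) with hc
    have h1 : ∀ j, Q ((N ^ j) (w + N (c • (N ^ i) y))) = Q ((N ^ j) w) +
        c ^ 2 * Q ((N ^ (j + (i + 1))) y) + c * polar Q ((N ^ j) w) ((N ^ (j + (i + 1))) y) :=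
      fun j => by
        rw [map_add, map_smul, map_smul, ← pow_succ_apply, pow_add_apply, Q_add_smul]
    obtain ⟨z, hz, h2⟩ := ih (w := w + N (c • (N ^ i) y)) (by
      rwa [polar_add_left, map_smul, ← pow_succ_apply, polar_smul_left', h.eq_zero hy _ (by omega),
        mul_zero, add_zero]) (by omega) fun j hj => hq j (by omega)
    refine ⟨c • (N ^ i) y + z, W.add_mem (W.smul_mem _ (hW.pow _ hyW)) hz, fun j => ?_⟩
    rw [map_add N, ← add_assoc, h2, h1]
    rcases lt_trichotomy j J with hj | rfl | hj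
    · rw [if_pos hj, if_pos (by omega)]
    · rw [if_neg (by omega), if_pos (by omega), hq _ (by omega), h.eq_top hy _ (by omega), hc]
      field_simp
      ring
    · rw [if_neg (by omega), if_neg (by omega), hq _ (by omega), h.eq_zero hy _ (by omega)]
      ring

end Iso2

theorem exists_dual (hW : NInv N W) {m J : ℕ} {v w : V} (hwW : w ∈ W) (hw : (N ^ (m + 1)) w = 0)
    (hb : polar Q v ((N ^ m) w) ≠ 0) (hJ : J ≤ m) (t : ℕ → F) :
    ∃ z ∈ W, ∀ l, polar Q v ((N ^ l) (N z)) = if l < J then t l else 0 := by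
  induction J generalizing t with
  | zero => exact ⟨0, W.zero_mem, by simp⟩
  | succ J ih =>
    obtain ⟨i, rfl⟩ : ∃ i, m = J + i + 1 := ⟨m - J - 1, by omega⟩
    set c := t J / polar Q v ((N ^ (J + i + 1)) w) with hc
    obtain ⟨z, hz, h2⟩ := ih (by omega) fun l => t l - c * polar Q v ((N ^ (l + (i + 1))) w)
    refine ⟨c • (N ^ i) w + z, W.add_mem (W.smul_mem _ (hW.pow _ hwW)) hz, fun l => ?_⟩
    rw [map_add, map_add, polar_add_right, h2, map_smul, map_smul, ← pow_succ_apply, pow_add_apply,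
      polar_smul_right']
    rcases lt_trichotomy l J with hj | rfl | hj
    · rw [if_pos hj, if_pos (by omega)]
      ring
    · rw [if_neg (by omega), if_pos (by omega), hc, ← add_assoc]
      field_simp
      ring
    · rw [if_neg (by omega), if_neg (by omega), pow_apply_eq_zero hw (by omega)]
      simp

/-- The sequence with the single value `a` at `k`. -/
def spk (k : ℕ) (a : F) (j : ℕ) : F := if j = k then a else 0

@[simp] theorem spk_self (k : ℕ) (a : F) : spk k a k = a := if_pos rfl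

theorem spk_of_ne {k j : ℕ} (h : j ≠ k) (a : F) : spk k a j = 0 := if_neg h

/-- The Gram data of a pair of generators. -/
structure Pr (Q : QuadraticForm F V) (N : End F V) (m : ℕ) (φ ψ : ℕ → F) (v w : V) : Prop where
  nv : (N ^ (m + 1)) v = 0
  nw : (N ^ (m + 1)) w = 0
  qv : ∀ j, Q ((N ^ j) v) = φ j
  qw : ∀ j, Q ((N ^ j) w) = ψ j
  b : ∀ l, polar Q v ((N ^ l) w) = spk m 1 l

theorem Iso2.exists_pr (h : Iso2 Q N) (hW : NInv N W) {m J : ℕ} (h0 : ∀ x ∈ W, (N ^ (m + 1)) x = 0)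
    (hJ : 2 * J ≤ m + 1) (hJ' : m ≤ 2 * J) (hq : ∀ y ∈ W, ∀ j, m + 1 ≤ j + J → Q ((N ^ j) y) = 0)
    {v w : V} (hv : v ∈ W) (hw : w ∈ W) (hb : polar Q v ((N ^ m) w) = 1)
    (hvv : polar Q v ((N ^ m) v) = 0) (hww : polar Q w ((N ^ m) w) = 0) :
    ∃ v' ∈ W, ∃ w' ∈ W, Pr Q N m (fun j => if j < J then 0 else Q ((N ^ j) v))
      (fun j => if j < J then 0 else Q ((N ^ j) w)) v' w' := by
  have h1 : ∀ x, ∀ y ∈ W, ∀ z ∈ W, polar Q (x + N z) ((N ^ m) y) = polar Q x ((N ^ m) y) :=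
    fun x y hy z hz => by
      have := h.eq_zero (h0 y hy) z (a := 1) (c := m) (by omega)
      rw [pow_one] at this
      rw [polar_add_left, this, add_zero]
  have h2 : ∀ x y, ∀ z ∈ W, polar Q x ((N ^ m) (y + N z)) = polar Q x ((N ^ m) y) :=
    fun x y z hz => by rw [map_add, ← pow_succ_apply', h0 z hz, add_zero]
  obtain ⟨z₁, hz₁, k1⟩ := h.kill hW hw (h0 w hw) (hb ▸ one_ne_zero) hJ (hq w hw)
  have hb₁ := (h1 v w hw z₁ hz₁).trans hb
  have hv₁ := W.add_mem hv (hW _ hz₁)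
  have hvv₁ := (h1 v _ hv₁ z₁ hz₁).trans ((h2 v v z₁ hz₁).trans hvv)
  set v₁ := v + N z₁
  obtain ⟨z₂, hz₂, k2⟩ := exists_dual (Q := Q) hW hw (h0 w hw) (hb₁ ▸ one_ne_zero) le_rfl
    fun l => -polar Q v₁ ((N ^ l) w)
  obtain ⟨z₃, hz₃, k3⟩ := exists_dual (Q := Q) hW hw (h0 w hw) (hb₁ ▸ one_ne_zero) le_rfl
    fun l => -polar Q v₁ ((N ^ l) v₁)
  have hw₁ := W.add_mem hw (hW _ hz₂)
  have hy := W.add_mem hv₁ (hW _ hz₃)
  let K : Submodule F V := ⨅ l, LinearMap.ker (polarBilin Q v₁ ∘ₗ (N ^ l : End F V))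
  have hK : ∀ x, x ∈ K ↔ ∀ l, polar Q v₁ ((N ^ l) x) = 0 := fun x => by simp [K]
  obtain ⟨z₄, hz₄, k4⟩ := h.kill (W := W ⊓ K) (hW.inf fun x hx => (hK _).2 fun l => by
    rw [← pow_succ_apply', (hK _).1 hx]) (w := w + N z₂) ⟨hy, (hK _).2 fun l => by
      rw [map_add, polar_add_right, k3]
      rcases lt_trichotomy l m with hl | rfl | hl
      · rw [if_pos hl, add_neg_cancel]
      · rw [if_neg (by omega), hvv₁, add_zero]
      · rw [if_neg (by omega), pow_apply_eq_zero (h0 _ hv₁) hl, polar_zero_right, add_zero]⟩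
    (h0 _ hy) (by
      rw [h1 _ _ hy _ hz₂, h2 _ _ _ hz₃, h.top_comm (h0 w hw), hb₁]
      exact one_ne_zero) hJ (hq _ hy)
  have hw₂ := W.add_mem hw₁ (hW _ hz₄.1)
  refine ⟨v₁, hv₁, _, hw₂, h0 _ hv₁, h0 _ hw₂, k1, fun j => ?_, fun l => ?_⟩
  · rw [k4]
    split_ifs with hj
    · rfl
    · rw [map_add, Q_add', ← pow_succ_apply', hq _ hz₂ _ (by omega),
        h.eq_zero (h0 _ hz₂) _ (by omega), add_zero, add_zero]
  · rw [map_add, polar_add_right, ← pow_succ_apply', (hK _).1 hz₄.2, add_zero, map_add,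
      polar_add_right, k2]
    rcases lt_trichotomy l m with hl | rfl | hl
    · rw [if_pos hl, add_neg_cancel, spk_of_ne hl.ne]
    · rw [if_neg (by omega), hb₁, add_zero, spk_self]
    · rw [if_neg (by omega), pow_apply_eq_zero (h0 _ hw) hl, polar_zero_right, add_zero,
        spk_of_ne hl.ne']

/-! ### Blocks -/

/-- The blocks `V(2k+2)`, `W(2k+1)` (both with a label) and `W(2k+2)`. -/
inductive Blk
  | cyc (k : ℕ) (ε : Bool)
  | odd (k : ℕ) (ε : Bool)
  | ev (k : ℕ)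
  deriving DecidableEq

namespace Blk

/-- Half of the dimension. -/
def wt : Blk → ℕ
  | cyc k _ => k + 1
  | odd k _ => 2 * k + 1
  | ev k => 2 * k + 2

/-- The size of the Jordan blocks, minus one. -/
def top : Blk → ℕ
  | cyc k _ => 2 * k + 1
  | odd k _ => 2 * k
  | ev k => 2 * k + 1

/-- The largest `j` such that `Q ∘ N ^ j` does not vanish. -/
def lev : Blk → ℕ
  | cyc k _ => k + 1
  | odd k _ => k
  | ev k => k

/-- The label. -/
def lab : Blk → Bool
  | cyc _ ε => ε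
  | odd _ ε => ε
  | ev _ => false

/-- Unless `o` holds, erase the labels that only the values of `Q` see. -/
def er (o : Bool) : Blk → Blk
  | cyc k ε => cyc k ((o || k != 0) && ε)
  | odd k ε => odd k ((o || k != 0) && ε)
  | ev k => ev k

end Blk

/-- The value attached to a label. -/
def lb (δ : F) (ε : Bool) : F := if ε then δ else 0

/-- `U` is a block of type `b`. -/
def IsBlk (δ : F) (Q : QuadraticForm F V) (N : End F V) : Blk → Submodule F V → Prop
  | .cyc k ε, U => ∃ v, U = cy N ![v] ∧ (N ^ (2 * k + 1 + 1)) v = 0 ∧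
      ∀ j, Q ((N ^ j) v) = spk (k + 1) 1 j + spk k (lb δ ε) j
  | .odd k ε, U => ∃ v w, U = cy N ![v, w] ∧ Pr Q N (2 * k) (spk k 1) (spk k (lb δ ε)) v w
  | .ev k, U => ∃ v w, U = cy N ![v, w] ∧ Pr Q N (2 * k + 1) 0 0 v w

theorem Pr.top {m : ℕ} {φ ψ : ℕ → F} {v w : V} (h : Pr Q N m φ ψ v w) :
    polar Q v ((N ^ m) w) = 1 := by rw [h.b, spk_self]

theorem Pr.pow {m : ℕ} {φ ψ : ℕ → F} {v w : V} (h : Pr Q N m φ ψ v w) (i : Fin 2) :
    (N ^ (m + 1)) (![v, w] i) = 0 := by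
  fin_cases i
  exacts [h.nv, h.nw]

theorem Pr.indep {m : ℕ} {φ ψ : ℕ → F} {v w : V} (h : Pr Q N m φ ψ v w) (hI : Iso2 Q N)
    (hv : polar Q v ((N ^ m) v) = 0) (hw : polar Q w ((N ^ m) w) = 0) (a : Fin 2 → F)
    (ha : ∀ k, ∑ i, a i * polar Q (![v, w] k) ((N ^ m) (![v, w] i)) = 0) (i : Fin 2) : a i = 0 := by
  have h1 := ha 0
  have h2 := ha 1
  simp only [Fin.sum_univ_two, Matrix.cons_val_zero, Matrix.cons_val_one, Matrix.cons_val_fin_one,
    hv, hw, h.top, hI.top_comm h.nw v, mul_zero, mul_one, zero_add, add_zero] at h1 h2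
  fin_cases i
  exacts [h2, h1]

theorem Pr.rel {o : Prop} {m : ℕ} {φ ψ φ' ψ' : ℕ → F} {v w : V} {v' w' : V'}
    (h : Pr Q N m φ ψ v w) (h' : Pr Q' N' m φ' ψ' v' w') (hI : Iso2 Q N) (hI' : Iso2 Q' N')
    (h1 : ∀ j, (o ∨ j ≠ 0) → φ j = φ' j) (h2 : ∀ j, (o ∨ j ≠ 0) → ψ j = ψ' j) :
    Rel o Q N Q' N' (cy N ![v, w]) (cy N' ![v', w']) := by
  have h3 := hI.gram_cross hI' h.nw h'.nw fun l => (h.b l).trans (h'.b l).symm
  refine rel_cy (fun i k a c => ?_) fun ho i a => ?_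
  · fin_cases i <;> fin_cases k
    · exact hI.gram_self (v := v) (v' := v') hI' (fun j => by
        rw [h.qv, h'.qv, h1 _ (Or.inr j.succ_ne_zero)]) a c
    · exact h3 a c
    · exact (polar_comm _ _ _).trans ((h3 c a).trans (polar_comm _ _ _))
    · exact hI.gram_self (v := w) (v' := w') hI' (fun j => by
        rw [h.qw, h'.qw, h2 _ (Or.inr j.succ_ne_zero)]) a c
  · fin_cases i
    · exact (h.qv a).trans ((h1 a (Or.inl ho)).trans (h'.qv a).symm)
    · exact (h.qw a).trans ((h2 a (Or.inl ho)).trans (h'.qw a).symm)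

theorem spk_lb_eq {o : Bool} {k : ℕ} {ε ε' : Bool}
    (h : ((o || k != 0) && ε) = ((o || k != 0) && ε')) {j : ℕ} (hj : o = true ∨ j ≠ 0) :
    spk k (lb δ ε) j = spk k (lb δ ε') j := by
  by_cases hjk : j = k
  · subst hjk
    rw [show (o || j != 0) = true by simpa using hj, Bool.true_and, Bool.true_and] at h
    rw [h]
  · rw [spk_of_ne hjk, spk_of_ne hjk]

namespace IsBlk

variable {b b' : Blk}

theorem rel {o : Bool} {U' : Submodule F V'} (h : IsBlk δ Q N b U) (h' : IsBlk δ Q' N' b' U')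
    (hI : Iso2 Q N) (hI' : Iso2 Q' N') (hb : b.er o = b'.er o) : Rel o Q N Q' N' U U' := by
  rcases b with ⟨k, ε⟩ | ⟨k, ε⟩ | k <;> rcases b' with ⟨k', ε'⟩ | ⟨k', ε'⟩ | k' <;>
    simp only [Blk.er, reduceCtorEq, Blk.cyc.injEq, Blk.odd.injEq, Blk.ev.injEq] at hb
  · obtain ⟨rfl, hb⟩ := hb
    obtain ⟨v, rfl, -, h1⟩ := h
    obtain ⟨v', rfl, -, h2⟩ := h'
    refine rel_cy (fun i k a c => ?_) fun ho i a => ?_
    · fin_cases i
      fin_cases k
      exact hI.gram_self (v := v) (v' := v') hI' (fun j => by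
        rw [h1, h2, spk_lb_eq hb (Or.inr j.succ_ne_zero)]) a c
    · fin_cases i
      exact (h1 a).trans (Eq.trans (by rw [spk_lb_eq hb (Or.inl ho)]) (h2 a).symm)
  · obtain ⟨rfl, hb⟩ := hb
    obtain ⟨v, w, rfl, h1⟩ := h
    obtain ⟨v', w', rfl, h2⟩ := h'
    exact h1.rel h2 hI hI' (fun _ _ => rfl) fun j hj => spk_lb_eq hb hj
  · subst hb
    obtain ⟨v, w, rfl, h1⟩ := h
    obtain ⟨v', w', rfl, h2⟩ := h'
    exact h1.rel h2 hI hI' (fun _ _ => rfl) fun _ _ => rfl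

/-- the generators of a block -/
theorem exists_gen (h : IsBlk δ Q N b U) (hI : Iso2 Q N) : ∃ (r : ℕ) (x : Fin (r + 1) → V),
    U = cy N x ∧ (r + 1) * (b.top + 1) = 2 * b.wt ∧ (∀ i, (N ^ (b.top + 1)) (x i) = 0) ∧
    ∀ a : Fin (r + 1) → F, (∀ k, ∑ i, a i * polar Q (x k) ((N ^ b.top) (x i)) = 0) →
      ∀ i, a i = 0 := by
  rcases b with ⟨k, ε⟩ | ⟨k, ε⟩ | k
  · obtain ⟨v, rfl, h1, h2⟩ := h
    refine ⟨0, _, rfl, by simp only [Blk.top, Blk.wt]; ring, fun i => by fin_cases i; exact h1,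
      fun a ha i => ?_⟩
    have := ha 0
    simp only [Blk.top, Nat.reduceAdd, Finset.univ_unique, Finset.sum_singleton,
      Matrix.cons_val_fin_one, hI.q_top h1, h2, spk_self, spk_of_ne k.succ_ne_self, add_zero,
      mul_one] at this
    fin_cases i
    exact this
  · obtain ⟨v, w, rfl, h1⟩ := h
    exact ⟨1, _, rfl, by simp only [Blk.top, Blk.wt], h1.pow,
      h1.indep hI (hI.top_self h1.nv) (hI.top_self h1.nw)⟩
  · obtain ⟨v, w, rfl, h1⟩ := h
    exact ⟨1, _, rfl, by simp only [Blk.top, Blk.wt], h1.pow,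
      h1.indep hI (by rw [hI.q_top h1.nv, h1.qv]; rfl) (by rw [hI.q_top h1.nw, h1.qw]; rfl)⟩

theorem nInv (h : IsBlk δ Q N b U) (hI : Iso2 Q N) : NInv N U := by
  obtain ⟨r, x, rfl, -⟩ := h.exists_gen hI
  exact nInv_cy x

theorem pow_eq_zero (h : IsBlk δ Q N b U) (hI : Iso2 Q N) : ∀ y ∈ U, (N ^ (b.top + 1)) y = 0 := by
  obtain ⟨r, x, rfl, -, h1, -⟩ := h.exists_gen hI
  exact fun y hy => pow_eq_zero_of_mem_cy h1 hy

theorem nondegOn (h : IsBlk δ Q N b U) (hI : Iso2 Q N) : NondegOn Q U := by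
  obtain ⟨r, x, rfl, -, h1, h2⟩ := h.exists_gen hI
  exact hI.nondegOn_cy h1 h2

theorem exists_top (h : IsBlk δ Q N b U) (hI : Iso2 Q N) : ∃ y ∈ U, (N ^ b.top) y ≠ 0 := by
  obtain ⟨r, x, rfl, -, h1, h2⟩ := h.exists_gen hI
  exact ⟨x 0, mem_cy x 0, (linearIndependent_top h2).ne_zero 0⟩

theorem finrank_eq [FiniteDimensional F V] (h : IsBlk δ Q N b U) (hI : Iso2 Q N) :
    finrank F U = 2 * b.wt := by
  obtain ⟨r, x, rfl, h0, h1, h2⟩ := h.exists_gen hI
  have := finrank_cy h1 (linearIndependent_top h2) 0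
  rwa [show (fun i => (N ^ 0) (x i)) = x from funext fun i => by simp, Fintype.card_fin,
    Nat.sub_zero, h0] at this

theorem exists_lev (h : IsBlk δ Q N b U) (hI : Iso2 Q N) : ∃ z ∈ U, Q ((N ^ b.lev) z) ≠ 0 := by
  rcases b with ⟨k, ε⟩ | ⟨k, ε⟩ | k
  · obtain ⟨v, rfl, h1, h2⟩ := h
    exact ⟨v, mem_cy ![v] 0, by simp [Blk.lev, h2, spk_of_ne k.succ_ne_self]⟩
  · obtain ⟨v, w, rfl, h1⟩ := h
    exact ⟨v, mem_cy ![v, w] 0, by simp [Blk.lev, h1.qv]⟩
  · obtain ⟨v, w, rfl, h1⟩ := h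
    refine ⟨v + N w, Submodule.add_mem _ (mem_cy ![v, w] 0) (nInv_cy _ _ (mem_cy ![v, w] 1)), ?_⟩
    rw [Blk.lev, map_add, Q_add', ← pow_succ_apply', h1.qv, h1.qw, hI.eq_top h1.nw _ (by omega),
      h1.top]
    simp

end IsBlk

/-! ### Types -/

section Tp

variable [Fintype F] [FiniteDimensional F V]

theorem tp_plane (h2 : (2 : F) = 0) (hδ : ∀ t : F, t ^ 2 + t + δ ≠ 0) (hU : NondegOn Q U) {x y : V}
    (hx : x ∈ U) (hy : y ∈ U) {ε : Bool} (h3 : Q x = 1) (h4 : Q y = lb δ ε) (h5 : polar Q x y = 1)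
    {T : Submodule F V} (hT : T ≤ U) (h6 : ∀ t ∈ T, Q t = 0 ∧ polar Q x t = 0 ∧ polar Q y t = 0)
    (hd : finrank F U ≤ 2 * finrank F T + 2) : tp Q U = ε.toNat := by
  have hI : Iso2 Q 0 := ⟨h2, by simp⟩
  have hP : Pr Q 0 0 (spk 0 1) (spk 0 (lb δ ε)) x y :=
    ⟨by simp, by simp, fun j => by cases j <;> simp [h3, spk], fun j => by
      cases j <;> simp [h4, spk], fun j => by cases j <;> simp [h5, spk]⟩
  have hB : IsBlk δ Q 0 (.odd 0 ε) (cy 0 ![x, y]) := ⟨x, y, rfl, hP⟩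
  have h7 := hB.nondegOn hI
  have h8 : finrank F (cy 0 ![x, y]) = 2 := hB.finrank_eq hI
  have h9 : ∀ z ∈ cy (0 : End F V) ![x, y], ∃ a c : F, z = a • x + c • y := fun z hz => by
    obtain ⟨a, z, hz', rfl⟩ := exists_of_mem_cy hz
    rw [cy_eq_bot fun _ => by simp, Submodule.mem_bot] at hz'
    exact ⟨a 0, a 1, by simp [hz']⟩
  set P := cy (0 : End F V) ![x, y]
  have h10 : P ≤ U := fun z hz => by
    obtain ⟨a, c, rfl⟩ := h9 z hz
    exact U.add_mem (U.smul_mem _ hx) (U.smul_mem _ hy)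
  obtain ⟨h11, h12⟩ := H28.tp_perp h7 hU h10
  rw [H28.tp_eq_zero_of_ts (U := T) (H28.ndOn_inf_perp h7 hU h10) (fun t ht => ⟨hT ht,
    mem_perp.2 fun z hz => by
      obtain ⟨a, c, rfl⟩ := h9 z hz
      rw [polar_add_left, polar_smul_left', polar_smul_left', (h6 t ht).2.1, (h6 t ht).2.2]
      simp⟩) (fun t ht => (h6 t ht).1) (by omega), h8] at h11
  have h13 := H28.tp_lt Q U
  have h14 := H28.tp_lt Q P
  have h15 : tp Q U = tp Q P := by omega
  rw [h15]
  cases ε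
  · have h16 : y ≠ 0 := by
      rintro rfl
      simp at h5
    refine H28.tp_eq_zero_of_ts (U := F ∙ y) h7 ((Submodule.span_singleton_le_iff_mem _ _).2
      (mem_cy ![x, y] 1)) (fun u hu => ?_) (by rw [finrank_span_singleton h16, h8])
    obtain ⟨a, rfl⟩ := Submodule.mem_span_singleton.1 hu
    simp [Q_smul', h4, lb]
  · have : tp Q P ≠ 0 := fun h => by
      obtain ⟨T', k1, k2, k3⟩ := (H28.tp_eq_zero_iff h7 (by rw [h8]; exact even_two)).1 h
      obtain ⟨z, hz, hz'⟩ := (Submodule.ne_bot_iff T').1 (by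
        rintro rfl
        rw [finrank_bot] at k3
        omega)
      obtain ⟨a, c, rfl⟩ := h9 z (k1 hz)
      have k4 := k2 _ hz
      rw [Q_add_smul, Q_smul', polar_smul_left', h3, h4, h5] at k4
      obtain ⟨rfl, rfl⟩ := H79.aniso_one_iff.2 hδ a c (by
        simp only [lb, if_true] at k4
        linear_combination k4)
      simp at hz'
    simp only [Bool.toNat_true]
    omega

theorem ts_cy {ι : Type*} {x : ι → V} (hb : ∀ i k a c, polar Q ((N ^ a) (x i)) ((N ^ c) (x k)) = 0)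
    (hq : ∀ i a, Q ((N ^ a) (x i)) = 0) : ∀ t ∈ cy N x, Q t = 0 := by
  obtain ⟨Γ, h1, -, -, -, h2⟩ := rel_cy (o := True) (Q' := (0 : QuadraticForm F V)) (N' := N)
    (x' := x) (fun i k a c => by rw [hb]; simp [polar]) fun _ i a => by rw [hq]; simp
  rw [← h1]
  rintro _ ⟨p, hp, rfl⟩
  exact h2 trivial p hp

theorem polar_cy {ι : Type*} {x : ι → V} {y : V} (hb : ∀ i a, polar Q y ((N ^ a) (x i)) = 0) :
    ∀ t ∈ cy N x, polar Q y t = 0 := fun _ ht =>
  cy_ind (W := LinearMap.ker (polarBilin Q y)) hb ht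

theorem IsBlk.tp_eq {b : Blk} (hδ : ∀ t : F, t ^ 2 + t + δ ≠ 0) (h : IsBlk δ Q N b U)
    (hI : Iso2 Q N) : tp Q U = b.lab.toNat := by
  have h1 := h.nondegOn hI
  have h2 := h.finrank_eq hI
  have h3 := h.pow_eq_zero hI
  have h4 := h.nInv hI
  rcases b with ⟨k, ε⟩ | ⟨k, ε⟩ | k
  · obtain ⟨v, rfl, k1, k2⟩ := h
    have hv : v ∈ cy N ![v] := mem_cy ![v] 0
    have k3 : (N ^ (2 * k + 1)) v ≠ 0 := fun h => by
      have := hI.q_top k1
      rw [h, k2, spk_self, spk_of_ne k.succ_ne_self] at this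
      simp at this
    have k4 := finrank_cy (x := fun _ : Unit => v) (fun _ => k1)
      (linearIndependent_unique_iff.2 k3) (k + 2)
    refine tp_plane hI.two hδ h1 (h4.pow (k + 1) hv) (h4.pow k hv)
      (by rw [k2, spk_self, spk_of_ne k.succ_ne_self, add_zero])
      (by rw [k2, spk_self, spk_of_ne k.succ_ne_self.symm, zero_add]; rfl)
      (by rw [polar_comm, ← hI.q_succ, k2, spk_self, spk_of_ne k.succ_ne_self, add_zero])
      (cy_le h4 fun _ : Unit => h4.pow (k + 2) hv) (fun t ht => ⟨ts_cy (fun _ _ a c => ?_)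
        (fun _ a => ?_) t ht, polar_cy (fun _ a => ?_) t ht, polar_cy (fun _ a => ?_) t ht⟩) ?_
    · rw [pow_add_apply, pow_add_apply, hI.eq_zero k1 _ (by omega)]
    · rw [pow_add_apply, hI.q_eq_zero k1 (by omega)]
    · rw [pow_add_apply, hI.eq_zero k1 _ (by omega)]
    · rw [pow_add_apply, hI.eq_zero k1 _ (by omega)]
    · rw [k4, h2, Fintype.card_unit, Blk.wt]
      omega
  · obtain ⟨v, w, rfl, k1⟩ := h
    have k4 := finrank_cy k1.pow
      (linearIndependent_top (k1.indep hI (hI.top_self k1.nv) (hI.top_self k1.nw))) (k + 1)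
    refine tp_plane hI.two hδ h1 (h4.pow k (mem_cy ![v, w] 0)) (h4.pow k (mem_cy ![v, w] 1))
      ((k1.qv k).trans (spk_self _ _)) ((k1.qw k).trans (spk_self _ _))
      ((hI.eq_top k1.nw v (by omega)).trans k1.top)
      (cy_le h4 fun i => h4.pow (k + 1) (mem_cy ![v, w] i)) (fun t ht => ⟨ts_cy (fun _ _ a c => ?_)
        (fun _ a => ?_) t ht, polar_cy (fun _ a => ?_) t ht, polar_cy (fun _ a => ?_) t ht⟩) ?_
    · rw [pow_add_apply, pow_add_apply, hI.eq_zero (k1.pow _) _ (by omega)]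
    · rw [pow_add_apply, hI.q_eq_zero (k1.pow _) (by omega)]
    · rw [pow_add_apply, hI.eq_zero (k1.pow _) _ (by omega)]
    · rw [pow_add_apply, hI.eq_zero (k1.pow _) _ (by omega)]
    · rw [k4, h2, Fintype.card_fin, Blk.wt]
      omega
  · obtain ⟨v, w, rfl, k1⟩ := h
    have k3 : (N ^ (2 * k + 1)) v ≠ 0 := fun h => by
      have := hI.top_comm k1.nw v
      rw [h, k1.top] at this
      simp at this
    have k4 := finrank_cy (x := fun _ : Unit => v) (fun _ => k1.nv)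
      (linearIndependent_unique_iff.2 k3) 0
    refine H28.tp_eq_zero_of_ts h1 (cy_le h4 fun _ : Unit => h4.pow 0 (mem_cy ![v, w] 0))
      (ts_cy (fun _ _ a c => ?_) fun _ a => ?_) ?_
    · rw [pow_add_apply, pow_add_apply]
      exact (hI.gram_self (v := v) (v' := 0) hI (fun j => by rw [k1.qv]; simp) _ _).trans (by simp)
    · rw [pow_add_apply]
      exact k1.qv _
    · refine h2.le.trans (le_of_eq_of_le ?_ (Nat.mul_le_mul_left 2 k4.ge))
      rw [Fintype.card_unit, Blk.wt]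
      omega

end Tp

end Cfsg.Agent.H76
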