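import Cfsg.Agent.H76.C2NF
import Cfsg.Agent.H28.EloFree

/-! Isometries in characteristic two: the data which determine a conjugacy class. -/

set_option autoImplicit false

namespace Cfsg.Agent.H76

open QuadraticMap Module
open H30 (NondegOn perp mem_perp mem_perp' O fixSp)
open H28 (tp tpw)
open H77 (HasJOn)

universe u v w

variable {F V V' : Type*} [Field F] [AddCommGroup V] [Module F V] [AddCommGroup V'] [Module F V']
  {Q : QuadraticForm F V} {Q' : QuadraticForm F V'} {δ : F}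

/-- `g - 1`. -/
def nil (g : O Q) : End F V := (g.1 : V →ₗ[F] V) - 1

theorem nil_apply (g : O Q) (v : V) : nil g v = g.1 v - v := rfl

theorem iso2_nil (h2 : (2 : F) = 0) (g : O Q) : Iso2 Q (nil g) :=
  ⟨h2, fun v => by
    have h1 := Q_add' Q v (g.1 v - v)
    rw [add_sub_cancel, H30.O_map] at h1
    rw [nil_apply]
    linear_combination -h1 - polar Q v (g.1 v - v) * h2⟩

theorem exists_sqrt_lin [Finite F] (h2 : (2 : F) = 0) {D : V → F} (h1 : ∀ x y, D (x + y) = D x + D y)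
    (h3 : ∀ (c : F) x, D (c • x) = c ^ 2 * D x) : ∃ l : V →ₗ[F] F, ∀ x, l x ^ 2 = D x := by
  choose r hr using H79.exists_sq_eq_of_two_eq_zero h2
  have h4 : ∀ a b : F, a ^ 2 = b ^ 2 → a = b := fun a b h =>
    sub_eq_zero.1 (pow_eq_zero_iff two_ne_zero |>.1 (by linear_combination h + (b ^ 2 - a * b) * h2))
  exact ⟨⟨⟨fun x => r (D x), fun x y => h4 _ _ (by
    rw [add_sq, hr, hr, hr, h1, h2]; ring)⟩, fun c x => h4 _ _ (by
    rw [RingHom.id_apply, smul_eq_mul, mul_pow, hr, hr, h3])⟩, fun x => hr _⟩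

/-- Every element of a symplectic group in characteristic two fixes a quadratic form. -/
theorem exists_dye [Finite F] (h2 : (2 : F) = 0) (Q₀ : QuadraticForm F V) {g : V ≃ₗ[F] V}
    (hg : ∀ x y, polar Q₀ (g x) (g y) = polar Q₀ x y) :
    ∃ Q : QuadraticForm F V, (∀ x y, polar Q x y = polar Q₀ x y) ∧ g ∈ O Q := by
  obtain ⟨l, hl⟩ := exists_sqrt_lin h2 (D := fun x => Q₀ (g x) - Q₀ x)
    (fun x y => by simp only [map_add, Q_add', hg]; ring)
    fun c x => by simp only [map_smul, Q_smul']; ring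
  obtain ⟨μ, hμ⟩ : l ∈ LinearMap.range ((g : V →ₗ[F] V) - 1 : End F V).dualMap := by
    rw [LinearMap.range_dualMap_eq_dualAnnihilator_ker, Submodule.mem_dualAnnihilator]
    intro x hx
    have : g x = x := sub_eq_zero.1 hx
    exact pow_eq_zero_iff two_ne_zero |>.1 (by rw [hl, this, sub_self])
  have h3 : ∀ x, μ (g x) - μ x = l x := fun x => by rw [← hμ, ← map_sub]; rfl
  refine ⟨Q₀ + linMulLin μ μ, fun x y => ?_, fun x => ?_⟩
  · simp only [polar, QuadraticMap.add_apply, linMulLin_apply, map_add μ]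
    linear_combination μ x * μ y * h2
  · simp only [QuadraticMap.add_apply, linMulLin_apply]
    linear_combination (μ (g x) + μ x + l x) * h3 x - hl x + (l x ^ 2 + μ x * l x) * h2

variable (L : Type w) [Field L] [Algebra F L] [IsAlgClosed L] [FiniteDimensional F V]
  [FiniteDimensional F V']

/-- The Jordan data away from the eigenvalue `1` and the blocks of the unipotent part. -/
def Dat (δ : F) (g : O Q) (t : Multiset (Lˣ × ℕ)) (s : Multiset Blk) : Prop :=
  ∃ U W : Submodule F V, U ⊔ W = ⊤ ∧ W ≤ perp Q U ∧ HasJOn L (g.1 : V →ₗ[F] V) U t ∧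
    Disjoint (fixSp g) U ∧ NF δ Q (nil g) W s

variable [Fintype F]

theorem exists_dat (h2 : (2 : F) = 0) (hδ : ∀ t : F, t ^ 2 + t + δ ≠ 0)
    (hQ : (polarBilin Q).Nondegenerate) (g : O Q) : ∃ t s, Dat L δ g t s ∧ Good s := by
  obtain ⟨d, hd, hd'⟩ := ((nil g).eventually_isCompl_ker_pow_range_pow.and
    (Filter.eventually_ge_atTop 1)).exists
  have hI := iso2_nil h2 g
  have h1 : LinearMap.ker (nil g ^ d) ≤ perp Q (LinearMap.range (nil g ^ d)) := fun x hx =>
    mem_perp.2 (by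
      rintro _ ⟨y, rfl⟩
      simpa using hI.eq_zero hx y (a := d) (c := 0) le_rfl)
  have h3 := hd.symm.sup_eq_top
  obtain ⟨s, h4, h5⟩ := hI.exists_nf hδ (W := LinearMap.ker (nil g ^ d)) (fun x hx => by
    rw [LinearMap.mem_ker, ← pow_succ_apply', pow_apply_eq_zero hx d.le_succ])
    (H28.ndOn_of_sup' (h3 ▸ H30.nondegOn_top hQ) h1) fun x hx => hx
  obtain ⟨t, h6⟩ := H77.exists_hasJOn (L := L) (W := LinearMap.range (nil g ^ d))
    ((isEForm_polar hQ).sep.isUnit_of_pres (H28.pres_O g)) (by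
      rintro _ ⟨y, rfl⟩
      refine ⟨g.1 y, ?_⟩
      rw [show g.1 y = y + nil g y by simp [nil_apply], map_add, ← pow_succ_apply',
        pow_succ_apply, nil_apply]
      simp)
  exact ⟨t, s, ⟨_, _, h3, h1, h6, hd.disjoint.mono_left fun x hx =>
    pow_apply_eq_zero (m := 1) (by simpa [nil_apply, sub_eq_zero] using H30.mem_fixSp.1 hx) hd',
    h4⟩, h5⟩

variable {L} {t : Multiset (Lˣ × ℕ)} {s s' : Multiset Blk} {g : O Q} {g' : O Q'}

theorem Dat.spec (h2 : (2 : F) = 0) (hQ : (polarBilin Q).Nondegenerate) (h : Dat L δ g t s) :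
    (∀ x ∈ t, 0 < x.2) ∧ t.map (frob (Fintype.card F : ℤ)) = t ∧ t.map (frob (-1)) = t ∧
      (∀ x ∈ t, x.1 ≠ 1) ∧ wt t + 2 * (s.map Blk.wt).sum = finrank F V := by
  obtain ⟨U, W, h1, h3, h4, h5, h6⟩ := h
  have h7 := H28.ndOn_of_sup (h1 ▸ H30.nondegOn_top hQ) h3
  refine ⟨h4.adm.pos, h4.adm.stab,
    h4.dual_eq (H77.dualLaw_id L) (isEForm_polar hQ) (H28.pres_O g) h7,
    (H28.hasJOn_ne_one_iff h4).2 h5, ?_⟩
  rw [h4.wt_eq, ← h6.finrank_eq (iso2_nil h2 g), ← H28.finrank_sup_perp h7 h3, h1, finrank_top]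

theorem rel_free (h2 : (2 : F) = 0) {U : Submodule F V} {U' : Submodule F V'} (hU : NondegOn Q U)
    (hU' : NondegOn Q' U') (h : HasJOn L (g.1 : V →ₗ[F] V) U t)
    (h' : HasJOn L (g'.1 : V' →ₗ[F] V') U' t) (hd : Disjoint (fixSp g) U) (o : Prop) :
    Rel o Q (nil g) Q' (nil g') U U' := by
  have h1 : ∀ x ∈ U, nil g x ∈ U := fun x hx => U.sub_mem (h.1 x hx) hx
  have h3 : Function.Injective ((nil g).restrict h1) :=
    (injective_iff_map_eq_zero _).2 fun x hx => Subtype.ext (Submodule.disjoint_def.1 hd x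
      (H30.mem_fixSp.2 (sub_eq_zero.1 (congrArg Subtype.val hx))) x.2)
  have h4 : IsUnit ((nil g).restrict h1) :=
    (End.isUnit_iff _).2 ⟨h3, LinearMap.surjective_of_injective h3⟩
  obtain ⟨e, h5, h6⟩ := (isEForm_polar hU.restrict).exists_isom_of_sim (isEForm_polar hU'.restrict)
    (g := (g.1 : V →ₗ[F] V).restrict h.1) (g' := (g'.1 : V' →ₗ[F] V').restrict h'.1)
    (fun v w => H30.O_polar g v w) (fun v w => H30.O_polar g' v w) (h.2.sim h'.2) (Or.inr (by
      convert h4.mul h4 using 1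
      ext x
      have : (2 : F) • (g.1 x - x) = 0 := by rw [h2, zero_smul]
      simp only [nil_apply, LinearMap.sub_apply, End.mul_apply, LinearMap.restrict_coe_apply,
        LinearEquiv.coe_coe, End.one_apply, AddSubgroupClass.coe_sub, map_sub]
      rw [two_smul] at this
      rw [← sub_eq_zero, ← this]
      abel))
  have h7 : ∀ x y : U, (y : V) = nil g x → (e y : V') = nil g' (e x) := fun x y hy => by
    rw [show y = (g.1 : V →ₗ[F] V).restrict h.1 x - x from Subtype.ext hy, map_sub, h5]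
    rfl
  refine rel_of_equiv h1 e h7 h6 fun _ x => ?_
  obtain ⟨y, rfl⟩ := LinearMap.surjective_of_injective h3 x
  have h8 := h6 y ((nil g).restrict h1 y)
  rw [h7 y _ rfl, (iso2_nil h2 g').map, LinearMap.restrict_coe_apply, (iso2_nil h2 g).map,
    ← h7 y ((nil g).restrict h1 y) rfl]
  exact h8

theorem Dat.rel (h2 : (2 : F) = 0) (hQ : (polarBilin Q).Nondegenerate)
    (hQ' : (polarBilin Q').Nondegenerate) (h : Dat L δ g t s) (h' : Dat L δ g' t s') {o : Bool}
    (hs : s.map (Blk.er o) = s'.map (Blk.er o)) : ∃ e : V ≃ₗ[F] V', (∀ x, e (g.1 x) = g'.1 (e x)) ∧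
      (∀ x y, polar Q' (e x) (e y) = polar Q x y) ∧ (o → ∀ x, Q' (e x) = Q x) := by
  obtain ⟨U, W, h1, h3, h4, h5, h6⟩ := h
  obtain ⟨U', W', k1, k3, k4, -, k6⟩ := h'
  have h7 := (rel_free h2 (H28.ndOn_of_sup (h1 ▸ H30.nondegOn_top hQ) h3)
    (H28.ndOn_of_sup (k1 ▸ H30.nondegOn_top hQ') k3) h4 k4 h5 o).sup
    (h6.rel k6 (iso2_nil h2 g) (iso2_nil h2 g') hs) h3 k3
  rw [h1, k1] at h7
  obtain ⟨e, h8, h9, h10⟩ := h7.exists_equiv (H30.nondegOn_top hQ) (H30.nondegOn_top hQ')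
  refine ⟨Submodule.topEquiv.symm.trans (e.trans Submodule.topEquiv), fun x => ?_,
    fun x y => h9 ⟨x, trivial⟩ ⟨y, trivial⟩, fun ho x => h10 ho ⟨x, trivial⟩⟩
  have := h8 ⟨x, trivial⟩ (⟨g.1 x, trivial⟩ - ⟨x, trivial⟩) rfl
  rw [map_sub, nil_apply, Submodule.coe_sub, sub_left_inj] at this
  exact this

theorem Dat.tpw_eq (h2 : (2 : F) = 0) (hδ : ∀ t : F, t ^ 2 + t + δ ≠ 0)
    (hQ : (polarBilin Q).Nondegenerate) (hQ' : (polarBilin Q').Nondegenerate) (h : Dat L δ g t s)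
    (h' : Dat L δ g' t s') : (tpw Q + (s.map fun b => b.lab.toNat).sum) % 2 =
      (tpw Q' + (s'.map fun b => b.lab.toNat).sum) % 2 := by
  obtain ⟨U, W, h1, h3, h4, h5, h6⟩ := h
  obtain ⟨U', W', k1, k3, k4, -, k6⟩ := h'
  have h7 := H28.ndOn_of_sup (h1 ▸ H30.nondegOn_top hQ) h3
  have k7 := H28.ndOn_of_sup (k1 ▸ H30.nondegOn_top hQ') k3
  obtain ⟨e, -, -, h8⟩ := (rel_free h2 h7 k7 h4 k4 h5 True).exists_equiv h7 k7
  have h9 := H28.tp_eq_of_iso e (h8 trivial)
  have h10 := H28.tp_sup_even h7 (h6.nondegOn (iso2_nil h2 g)) h3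
    (Or.inl (H28.even_finrank_of_two h2 h7))
  have k10 := H28.tp_sup_even k7 (k6.nondegOn (iso2_nil h2 g')) k3
    (Or.inl (H28.even_finrank_of_two h2 k7))
  rw [h1, H28.tp_top] at h10
  rw [k1, H28.tp_top] at k10
  have h11 := h6.tp_eq hδ (iso2_nil h2 g)
  have k11 := k6.tp_eq hδ (iso2_nil h2 g')
  omega

end Cfsg.Agent.H76
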