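import Cfsg.Agent.H76.C2Num
import Cfsg.Agent.H76.C2Dat

/-! Upper bounds for the class numbers of symplectic and orthogonal groups in characteristic two. -/

set_option autoImplicit false

namespace Cfsg.Agent.H76

open Finset

universe u v w

section Code

variable {s s' : Multiset Blk} {n κ : ℕ}

theorem sum_map_blk {M : Type*} [AddCommMonoid M] (f : Blk → M) (h : ∀ b ∈ s, b.top / 2 < n) :
    (s.map f).sum = ∑ k ∈ range n, (s.count (.cyc k false) • f (.cyc k false) +
      s.count (.cyc k true) • f (.cyc k true) + s.count (.odd k false) • f (.odd k false) +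
      s.count (.odd k true) • f (.odd k true) + s.count (.ev k) • f (.ev k)) := by
  induction s using Multiset.induction_on with
  | empty => simp
  | cons b s ih =>
    have h1 := h b (Multiset.mem_cons_self _ _)
    rw [Multiset.map_cons, Multiset.sum_cons, ih fun c hc => h c (Multiset.mem_cons_of_mem hc)]
    simp only [Multiset.count_cons, add_smul, sum_add_distrib, ite_smul, one_smul, zero_smul]
    rcases b with ⟨k, _ | _⟩ | ⟨k, _ | _⟩ | k <;> simp only [Blk.top] at h1 <;>
      simp [show k < n by omega] <;> abel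

theorem top_lt_of_wt (h : (s.map Blk.wt).sum ≤ n) : ∀ b ∈ s, b.top / 2 < n := fun b hb => by
  have := Multiset.single_le_sum (fun _ _ => Nat.zero_le _) _ (Multiset.mem_map_of_mem Blk.wt hb)
  cases b <;> simp only [Blk.top, Blk.wt] at * <;> omega

/-- The letter attached to the blocks of sizes `2k+1` and `2k+2`. -/
def letter (κ : ℕ) (s : Multiset Blk) (k : ℕ) : Dg :=
  (Fin.ofNat 3 (s.count (.cyc k false) + s.count (.cyc k true)),
    decide (0 < s.count (.cyc k true) + s.count (.odd k true) ∧ k ≠ κ))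

theorem Good.letter_fst (h : Good s) (k : ℕ) :
    ((letter κ s k).1 : ℕ) = s.count (.cyc k false) + s.count (.cyc k true) :=
  Nat.mod_eq_of_lt (Nat.lt_succ_of_le (h.two k))

theorem Good.letter_link (h : Good s) (k : ℕ) (hk : (letter κ s (k + 1)).2 = true) :
    (letter κ s k).1 = 0 :=
  Fin.ext ((h.letter_fst k).trans (h.link k (of_decide_eq_true hk).1))

/-- The number of blocks `W(2k+1)` which are not recorded in the letter. -/
def co (κ : ℕ) (s : Multiset Blk) (k : ℕ) : ℕ :=
  s.count (.odd k false) + s.count (.odd k true) -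
    if (letter κ s k).2 = true ∧ (letter κ s k).1 = 0 then 1 else 0

theorem Good.co_add (h : Good s) (k : ℕ) :
    co κ s k + (if (letter κ s k).2 = true ∧ (letter κ s k).1 = 0 then 1 else 0) =
      s.count (.odd k false) + s.count (.odd k true) := by
  refine Nat.sub_add_cancel ?_
  split_ifs with h1
  · have h2 := h.letter_fst (κ := κ) k
    have h3 := (of_decide_eq_true h1.1).1
    rw [h1.2, Fin.val_zero] at h2
    omega
  · exact Nat.zero_le _

variable {A : Type*} [CommGroup A] {t t' : Multiset (A × ℕ)}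

/-- Jordan data together with the blocks `W(m)`. -/
def et (κ n : ℕ) (t : Multiset (A × ℕ)) (s : Multiset Blk) : Multiset (A × ℕ) :=
  t + ∑ k ∈ range n, (Multiset.replicate (2 * s.count (.ev k)) (1, 2 * k + 2) +
    Multiset.replicate (2 * co κ s k) (1, 2 * k + 1))

theorem wt_replicate' {T : Type*} (k : ℕ) (x : T × ℕ) : wt (Multiset.replicate k x) = k * x.2 := by
  simp [wt]

theorem Good.wt_et (h : Good s) (hn : ∀ b ∈ s, b.top / 2 < n) :
    wt (et κ n t s) + 2 * ∑ i : Fin n, dw i (letter κ s i) = wt t + 2 * (s.map Blk.wt).sum := by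
  rw [et, wt_add, wt_sum, sum_map_blk _ hn, Fin.sum_univ_eq_sum_range
    (fun i => dw i (letter κ s i)), add_assoc, mul_sum, mul_sum, ← sum_add_distrib]
  refine congrArg _ (sum_congr rfl fun k _ => ?_)
  have h1 := h.co_add (κ := κ) k
  simp only [wt_add, wt_replicate', dw, h.letter_fst, Blk.wt, smul_eq_mul]
  split_ifs at h1 ⊢
  · linear_combination 2 * (2 * k + 1) * h1
  · linear_combination 2 * (2 * k + 1) * h1

theorem fadm_et {Q : ℤ} {m : ℕ} (h : FAdm (fun _ => False) Q m t) :
    FAdm (fun _ => False) Q (wt (et κ n t s)) (et κ n t s) := by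
  have key : ∀ {m : ℕ} {t : Multiset (A × ℕ)}, FAdm (fun _ => False) Q m t →
    FAdm (fun _ => False) Q (wt t) t := fun h => h.cast h.adm.wt_eq.symm
  suffices ∃ m, FAdm (fun _ => False) Q m (et κ n t s) from key this.choose_spec
  unfold et
  induction n with
  | zero => exact ⟨m, by simpa using h⟩
  | succ n ih =>
    obtain ⟨m, ih⟩ := ih
    rw [sum_range_succ, ← add_assoc]
    exact ⟨_, ih.add ((fadm_replicate (one_zpow _) (one_pow _) (by omega) _).add
      (fadm_replicate (one_zpow _) (one_pow _) (by omega) _))⟩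

theorem et_inj (ht : ∀ x ∈ t, x.1 ≠ 1) (ht' : ∀ x ∈ t', x.1 ≠ 1) (h : et κ n t s = et κ n t' s') :
    t = t' ∧ ∀ k < n, s.count (.ev k) = s'.count (.ev k) ∧ co κ s k = co κ s' k := by
  classical
  have h1 : ∀ (t : Multiset (A × ℕ)) s, (∀ x ∈ t, x.1 ≠ 1) →
      (et κ n t s).filter (fun x => x.1 ≠ 1) = t := fun t s ht => by
    rw [et, Multiset.filter_add, Multiset.filter_eq_self.2 ht, Multiset.filter_eq_nil.2, add_zero]
    intro x hx
    obtain ⟨k, -, hk⟩ := Multiset.mem_sum.1 hx
    rcases Multiset.mem_add.1 hk with hk | hk <;> simp [Multiset.eq_of_mem_replicate hk]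
  have h2 : ∀ (t : Multiset (A × ℕ)) s, (∀ x ∈ t, x.1 ≠ 1) → ∀ k < n,
      (et κ n t s).count (1, 2 * k + 2) = 2 * s.count (.ev k) ∧
      (et κ n t s).count (1, 2 * k + 1) = 2 * co κ s k := fun t s ht k hk => by
    have h3 : ∀ e, t.count (1, e) = 0 := fun e => Multiset.count_eq_zero.2 fun h => ht _ h rfl
    have h4 : ∀ j, 2 * j ≠ 2 * k + 1 := fun j => by omega
    have h5 : ∀ j, 2 * j + 2 ≠ 2 * k + 1 := fun j => by omega
    simp [et, h3, Multiset.count_sum', Multiset.count_replicate, h4, h5, hk]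
  refine ⟨by rw [← h1 t s ht, h, h1 t' s' ht'], fun k hk => ?_⟩
  have h3 := h2 t s ht k hk
  have h4 := h2 t' s' ht' k hk
  rw [h] at h3
  omega

theorem Good.sum_map_eq (h : Good s) (h' : Good s') (hn : ∀ b ∈ s, b.top / 2 < n)
    (hn' : ∀ b ∈ s', b.top / 2 < n) (h1 : ∀ k < n, s.count (.ev k) = s'.count (.ev k) ∧
      co κ s k = co κ s' k) (h2 : ∀ i : Fin n, letter κ s i = letter κ s' i) {M : Type*}
    [AddCommMonoid M] (f : Blk → M) (hf : s.count (.cyc κ true) + s.count (.odd κ true) =
      s'.count (.cyc κ true) + s'.count (.odd κ true) ∨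
      f (.cyc κ true) = f (.cyc κ false) ∧ f (.odd κ true) = f (.odd κ false)) :
    (s.map f).sum = (s'.map f).sum := by
  rw [sum_map_blk f hn, sum_map_blk f hn']
  refine sum_congr rfl fun k hk => ?_
  have h3 := h1 k (mem_range.1 hk)
  have h4 : letter κ s k = letter κ s' k := h2 ⟨k, mem_range.1 hk⟩
  have h5 := h.co_add (κ := κ) k
  have h6 := h.letter_fst (κ := κ) k
  rw [h4, h3.2, h'.co_add] at h5
  rw [h4, h'.letter_fst] at h6
  by_cases h7 : s.count (.cyc k true) + s.count (.odd k true) =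
      s'.count (.cyc k true) + s'.count (.odd k true)
  · have h8 := h.mid k
    have h9 := h'.mid k
    have h10 := h.one k
    rw [h3.1, show s.count (.cyc k true) = s'.count (.cyc k true) by omega,
      show s.count (.cyc k false) = s'.count (.cyc k false) by omega,
      show s.count (.odd k true) = s'.count (.odd k true) by omega,
      show s.count (.odd k false) = s'.count (.odd k false) by omega]
  · obtain rfl : k = κ := by
      by_contra hk'
      have h8 := h.one k
      have h9 := h'.one k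
      have h10 := decide_eq_decide.1 (congrArg Prod.snd h4)
      omega
    obtain ⟨h8, h9⟩ := hf.resolve_left h7
    rw [h8, h9, ← add_smul, ← add_smul, add_assoc (_ • _), add_assoc (_ • _) (_ • _) (_ • _),
      ← add_smul, ← add_smul, h3.1, h5, h6]

theorem Good.eq_of_parity (h : Good s) (h' : Good s') (hn : ∀ b ∈ s, b.top / 2 < n)
    (hn' : ∀ b ∈ s', b.top / 2 < n) (h1 : ∀ k < n, s.count (.ev k) = s'.count (.ev k) ∧
      co κ s k = co κ s' k) (h2 : ∀ i : Fin n, letter κ s i = letter κ s' i)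
    (h3 : (s.map fun b => b.lab.toNat).sum % 2 = (s'.map fun b => b.lab.toNat).sum % 2) :
    s = s' := by
  have h4 := h.sum_map_eq h' hn hn' h1 h2 (fun b => if b.top / 2 = κ then 0 else b.lab.toNat)
    (Or.inr (by simp [Blk.top, Nat.mul_add_div]))
  have h5 : ∀ s : Multiset Blk, (s.map fun b => b.lab.toNat).sum =
      (s.map fun b => if b.top / 2 = κ then 0 else b.lab.toNat).sum +
        (s.count (.cyc κ true) + s.count (.odd κ true)) := fun s => by
    induction s using Multiset.induction_on with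
    | empty => simp
    | cons b s ih =>
      have : b.lab.toNat = (if b.top / 2 = κ then 0 else b.lab.toNat) +
          ((if .cyc κ true = b then 1 else 0) + if .odd κ true = b then 1 else 0) := by
        rcases b with ⟨k, _ | _⟩ | ⟨k, _ | _⟩ | k <;>
          simp [Blk.top, Blk.lab, Nat.mul_add_div, eq_comm (a := κ)] <;> split_ifs <;> rfl
      simp only [Multiset.map_cons, Multiset.sum_cons, ih, Multiset.count_cons]
      omega
  have h6 := h.one κ
  have h7 := h'.one κ
  rw [h5 s, h5 s', h4] at h3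
  simpa using h.sum_map_eq h' hn hn' h1 h2 (fun b => ({b} : Multiset Blk)) (Or.inl (by omega))

end Code

open QuadraticMap Module
open H30 (O)

variable {F : Type u} [Field F] [Fintype F] {V : Type v} [AddCommGroup V] [Module F V]
  [FiniteDimensional F V] {L : Type w} [Field L] [Algebra F L] [IsAlgClosed L]
  {Q : QuadraticForm F V} {δ : F}

theorem Dat.code (h2 : (2 : F) = 0) (hQ : (polarBilin Q).Nondegenerate) {g : O Q}
    {t : Multiset (Lˣ × ℕ)} {s : Multiset Blk} (h : Dat L δ g t s) (hs : Good s) {n m : ℕ}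
    (hV : finrank F V = 2 * n) (hm : n ≤ m) (κ : ℕ) : (∀ b ∈ s, b.top / 2 < m) ∧
      ∑ i : Fin m, dw i (letter κ s i) ≤ n ∧ FAdm (fun _ => False) (Fintype.card F : ℤ)
        (2 * (n - ∑ i : Fin m, dw i (letter κ s i))) (et κ m t s) := by
  obtain ⟨h3, h4, h5, h6, h7⟩ := h.spec h2 hQ
  have h8 := top_lt_of_wt (s := s) (n := m) (by omega)
  have h9 := hs.wt_et (κ := κ) (t := t) h8
  have h10 : (2 : L) = 0 := by rw [← map_ofNat (algebraMap F L) 2, h2, map_zero]
  exact ⟨h8, by omega, (fadm_et (fadm_of_free ⟨h3, h4, rfl⟩ h5 fun x hx h => h6 x hx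
    ((units_sq_eq_one_iff.1 h).elim id fun h => h.trans (Units.ext (by
      rw [Units.val_neg, Units.val_one]; linear_combination -h10))))).cast (by omega)⟩

theorem two_le_card : (2 : ℚ) ≤ Fintype.card F := by exact_mod_cast Fintype.one_lt_card (α := F)

theorem card_o_two_le (h2 : (2 : F) = 0) (hQ : (polarBilin Q).Nondegenerate) {n : ℕ}
    (hV : finrank F V = 2 * n) : Nat.card (ConjClasses (O Q)) ≤ 15 * Fintype.card F ^ n := by
  let L := AlgebraicClosure F
  obtain ⟨δ, hδ⟩ := H79.exists_aniso F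
  replace hδ := H79.aniso_one_iff.1 hδ
  choose t s h3 h4 using exists_dat L h2 hδ hQ
  let κ := fun g => kap (letter 0 (s g) 0).1 (letter 0 (s g) 1).1
  have h5 := fun g => (h3 g).code h2 hQ (h4 g) hV (Nat.le_add_right n 2) (κ g)
  have h6 := card_le_of_code (μ := ow n) two_le_card (by norm_num) (card_evdata F L)
    (fun x => by unfold ow; split_ifs <;> first | exact cw_nonneg _ _ _ _ | rfl)
    (fun x => ∑ i : Fin (n + 2), dw i (x i))
    (fun c : ConjClasses (O Q) => (et (κ c.out) (n + 2) (t c.out) (s c.out),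
      fun i => letter (κ c.out) (s c.out) i)) (fun c d h => by
      obtain ⟨k1, k2⟩ := Prod.mk.inj h
      have k3 : κ c.out = κ d.out :=
        congrArg₂ kap (congrArg Prod.fst (congrFun k2 0) :) (congrArg Prod.fst (congrFun k2 1) :)
      rw [← k3] at k1 k2
      obtain ⟨k4, k5⟩ := et_inj ((h3 _).spec h2 hQ).2.2.2.1 ((h3 _).spec h2 hQ).2.2.2.1 k1
      have k6 := h3 d.out
      rw [← k4] at k6
      have k7 := (h3 _).tpw_eq h2 hδ hQ hQ k6
      have k8 := (h4 _).eq_of_parity (h4 _) (h5 _).1 (h5 _).1 k5 (congrFun k2) (by omega)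
      obtain ⟨e, k9, -, k10⟩ := (h3 _).rel h2 hQ hQ k6 (o := true) (by rw [k8])
      rw [← c.out_eq, ← d.out_eq]
      exact ConjClasses.mk_eq_mk_iff_isConj.2 (isConj_iff.2 ⟨⟨e, k10 rfl⟩,
        mul_inv_eq_iff_eq_mul.2 (H30.O_ext k9)⟩)) n fun c => ⟨(h5 _).2.1, (h5 _).2.2, by
      have k1 := cw_eq _ ((h4 c.out).letter_link (κ := κ c.out)) (n + 2) 0 false fun _ => rfl
      simp only [zero_add] at k1
      rw [ow, if_pos, k1]
      change (if κ c.out = 0 then (letter (κ c.out) (s c.out) 0).2
        else (letter (κ c.out) (s c.out) 1).2) = false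
      split_ifs with h
      · simp [letter, h]
      · have : κ c.out = 1 := by
          simp only [κ, kap] at h ⊢
          split_ifs at h ⊢ <;> simp_all
        simp [letter, this]⟩
  have h7 := sum_ow_le n
  have h8 : (0 : ℚ) ≤ (Fintype.card F : ℚ) ^ n := by positivity
  have h9 : (Nat.card (ConjClasses (O Q)) : ℚ) ≤ 15 * (Fintype.card F : ℚ) ^ n := by nlinarith
  exact_mod_cast h9

theorem card_sp_two_le (h2 : (2 : F) = 0) (n : ℕ) :
    5 * Nat.card (ConjClasses (Matrix.symplecticGroup (Fin n) F)) ≤ 76 * Fintype.card F ^ n := by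
  let L := AlgebraicClosure F
  obtain ⟨δ, hδ⟩ := H79.exists_aniso F
  replace hδ := H79.aniso_one_iff.1 hδ
  have h0 : ∀ x y, polar (H30.qPlus F n) x y = H27.jBilin (Fin n) F x y := fun x y => by
    rw [H30.polar_qPlus, H27.jBilin_apply_sum]
    exact sum_congr rfl fun i _ => by linear_combination x (.inl i) * y (.inr i) * h2
  choose Q hQ hg using fun g : Matrix.symplecticGroup (Fin n) F => exists_dye h2 (H30.qPlus F n)
    (g := H31.glEquiv _ F (H27.spToGL n F g)) fun x y => by
      rw [h0, h0]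
      exact H27.jBilin_sp g x y
  have h1 : ∀ g, (polarBilin (Q g)).Nondegenerate := fun g =>
    H30.nondegenerate_of_forall fun x hx =>
      H30.eq_zero_of_polar (H30.qPlus_nondegenerate n) fun y => (hQ g x y).symm.trans (hx y)
  choose t s h3 h4 using fun g => exists_dat L h2 hδ (h1 g) ⟨_, hg g⟩
  have h5 := fun g => (h3 g).code h2 (h1 g) (h4 g) (n := n) (by simp [two_mul]) le_rfl 0
  have h6 := card_le_of_code (μ := cw n 0 true) two_le_card (by norm_num) (card_evdata F L)
    (cw_nonneg _ _ _) (fun x => ∑ i : Fin n, dw i (x i))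
    (fun c : ConjClasses (Matrix.symplecticGroup (Fin n) F) => (et 0 n (t c.out) (s c.out),
      fun i => letter 0 (s c.out) i)) (fun c d h => by
      obtain ⟨k1, k2⟩ := Prod.mk.inj h
      obtain ⟨k4, k5⟩ := et_inj ((h3 _).spec h2 (h1 _)).2.2.2.1 ((h3 _).spec h2 (h1 _)).2.2.2.1 k1
      have k6 := h3 d.out
      rw [← k4] at k6
      have k8 := (h4 _).sum_map_eq (h4 _) (h5 _).1 (h5 _).1 k5 (congrFun k2)
        (fun b => ({b.er false} : Multiset Blk)) (Or.inr ⟨rfl, rfl⟩)
      obtain ⟨e, k9, k10, -⟩ := (h3 _).rel h2 (h1 _) (h1 _) k6 (o := false) (by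
        rw [← Multiset.sum_map_singleton (Multiset.map _ _), Multiset.map_map,
          ← Multiset.sum_map_singleton (Multiset.map _ (s d.out)), Multiset.map_map]
        exact k8)
      rw [← c.out_eq, ← d.out_eq]
      refine ConjClasses.mk_eq_mk_iff_isConj.2 ((isConj_sp_iff_exists _ _).2
        ⟨_, fun v w => ?_, conj_eq_of_intertwine e k9⟩)
      rw [Matrix.toLin'_apply, Matrix.toLin'_apply, H31.glEquiv_symm_mulVec,
        H31.glEquiv_symm_mulVec, ← h0, ← h0, ← hQ d.out, k10, hQ]) n
    fun c => ⟨(h5 _).2.1, (h5 _).2.2, by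
      have k1 := cw_eq _ ((h4 c.out).letter_link (κ := 0)) n 0 true fun h => by simp [letter] at h
      simp only [zero_add] at k1
      exact k1.ge⟩
  have h7 := sum_cw_le n 0 true
  rw [bf] at h7
  have h8 : (0 : ℚ) ≤ (Fintype.card F : ℚ) ^ n := by positivity
  have h9 : (5 * Nat.card (ConjClasses (Matrix.symplecticGroup (Fin n) F)) : ℚ) ≤
    76 * (Fintype.card F : ℚ) ^ n := by nlinarith
  exact_mod_cast h9

end Cfsg.Agent.H76
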