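import Cfsg.Agent.H76.C2Blk

/-! Unipotent isometries in characteristic two: normal forms. -/

set_option autoImplicit false

namespace Cfsg.Agent.H76

open QuadraticMap Module
open H30 (NondegOn perp mem_perp mem_perp' polar_smul_left' polar_smul_right' le_perp_comm)
open H28 (tp)

universe u v w

variable {F V V' : Type*} [Field F] [AddCommGroup V] [Module F V] [AddCommGroup V'] [Module F V']
  {Q : QuadraticForm F V} {N : End F V} {Q' : QuadraticForm F V'} {N' : End F V'}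
  {U W : Submodule F V} {δ : F} {s : Multiset Blk} {b : Blk}

/-- `W` is an orthogonal sum of blocks of the given types. -/
inductive NF (δ : F) (Q : QuadraticForm F V) (N : End F V) : Submodule F V → Multiset Blk → Prop
  | nil : NF δ Q N ⊥ 0
  | cons {b : Blk} {U W : Submodule F V} {s : Multiset Blk} :
      IsBlk δ Q N b U → W ≤ perp Q U → NF δ Q N W s → NF δ Q N (U ⊔ W) (b ::ₘ s)

namespace NF

theorem extract (h : NF δ Q N W s) {t : Multiset Blk} (hs : s = b ::ₘ t) :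
    ∃ U W', IsBlk δ Q N b U ∧ W' ≤ perp Q U ∧ NF δ Q N W' t ∧ W = U ⊔ W' := by
  induction h generalizing t with
  | nil => exact absurd hs.symm Multiset.cons_ne_zero
  | @cons b₀ U₀ W₀ s₀ h1 h2 h3 ih =>
    rcases Multiset.cons_eq_cons.1 hs with ⟨rfl, rfl⟩ | ⟨-, r, rfl, rfl⟩
    · exact ⟨_, _, h1, h2, h3, rfl⟩
    · obtain ⟨U, W', k1, k2, k3, rfl⟩ := ih rfl
      exact ⟨U, U₀ ⊔ W', k1, sup_le (le_perp_comm.1 (le_sup_left.trans h2)) k2,
        .cons h1 (le_sup_right.trans h2) k3, sup_left_comm _ _ _⟩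

theorem exists_blk (h : NF δ Q N W s) (hb : b ∈ s) : ∃ U ≤ W, IsBlk δ Q N b U := by
  obtain ⟨U, W', h1, -, -, rfl⟩ := h.extract (Multiset.cons_erase hb).symm
  exact ⟨U, le_sup_left, h1⟩

theorem eq_bot (h : NF δ Q N W 0) : W = ⊥ := by
  generalize hs : (0 : Multiset Blk) = s at h
  cases h with
  | nil => rfl
  | cons => exact absurd hs.symm Multiset.cons_ne_zero

theorem rel {o : Bool} {W' : Submodule F V'} {s' : Multiset Blk} (h : NF δ Q N W s)
    (h' : NF δ Q' N' W' s') (hI : Iso2 Q N) (hI' : Iso2 Q' N')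
    (hs : s.map (Blk.er o) = s'.map (Blk.er o)) : Rel o Q N Q' N' W W' := by
  induction h generalizing W' s' with
  | nil =>
    rw [Multiset.map_zero, eq_comm, Multiset.map_eq_zero] at hs
    subst hs
    rw [h'.eq_bot]
    exact rel_bot
  | @cons b U W s h1 h2 h3 ih =>
    rw [Multiset.map_cons, eq_comm] at hs
    obtain ⟨b', hb', hb⟩ := Multiset.mem_map.1 (hs ▸ Multiset.mem_cons_self _ _)
    obtain ⟨t, rfl⟩ := Multiset.exists_cons_of_mem hb'
    rw [Multiset.map_cons, hb, Multiset.cons_inj_right] at hs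
    obtain ⟨U', W'', k1, k2, k3, rfl⟩ := h'.extract rfl
    exact (h1.rel k1 hI hI' hb.symm).sup (ih k3 hs.symm) h2 k2

theorem nondegOn (h : NF δ Q N W s) (hI : Iso2 Q N) : NondegOn Q W := by
  induction h with
  | nil => exact H28.ndOn_bot
  | cons h1 h2 _ ih => exact H28.ndOn_sup (h1.nondegOn hI) ih h2

variable [FiniteDimensional F V]

theorem finrank_eq (h : NF δ Q N W s) (hI : Iso2 Q N) : finrank F W = 2 * (s.map Blk.wt).sum := by
  induction h with
  | nil => simp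
  | cons h1 h2 _ ih =>
    rw [H28.finrank_sup_perp (h1.nondegOn hI) h2, ih, h1.finrank_eq hI, Multiset.map_cons,
      Multiset.sum_cons, mul_add]

theorem tp_eq [Fintype F] (hδ : ∀ t : F, t ^ 2 + t + δ ≠ 0) (h : NF δ Q N W s) (hI : Iso2 Q N) :
    tp Q W % 2 = (s.map fun b => b.lab.toNat).sum % 2 := by
  induction h with
  | nil => rw [H28.tp_eq_zero_of_finrank (finrank_bot F V)]; simp
  | cons h1 h2 h3 ih =>
    rw [H28.tp_sup_even (h1.nondegOn hI) (h3.nondegOn hI) h2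
      (Or.inl (h1.finrank_eq hI ▸ even_two_mul _)), h1.tp_eq hδ hI, Multiset.map_cons,
      Multiset.sum_cons]
    omega

end NF

/-! ### Finding blocks -/

namespace Iso2

theorem blk_cyc (h : Iso2 Q N) (hW : NInv N W) {k : ℕ} (h0 : ∀ x ∈ W, (N ^ (2 * k + 1 + 1)) x = 0)
    {v : V} (hv : v ∈ W) (h1 : Q ((N ^ (k + 1)) v) = 1) {ε : Bool} (h2 : Q ((N ^ k) v) = lb δ ε) :
    ∃ U ≤ W, IsBlk δ Q N (.cyc k ε) U := by
  obtain ⟨z, hz, h3⟩ := h.kill hW (J := k) (w := v) hv (h0 v hv) (by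
    rw [h.q_top (h0 v hv), h1]; exact one_ne_zero) (by omega)
    fun j hj => h.q_eq_zero (h0 v hv) (by omega)
  have h4 := W.add_mem hv (hW _ hz)
  refine ⟨_, cy_le hW fun i => by fin_cases i; exact h4, _, rfl, h0 _ h4, fun j => ?_⟩
  rw [h3]
  rcases lt_trichotomy j k with hj | rfl | hj
  · rw [if_pos hj, spk_of_ne (by omega), spk_of_ne (by omega), add_zero]
  · rw [if_neg (by omega), spk_of_ne (by omega), spk_self, zero_add, h2]
  · rw [if_neg (by omega), spk_of_ne (k := k) (by omega), add_zero]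
    rcases Nat.lt_iff_add_one_le.1 hj |>.eq_or_lt with rfl | hj
    · rw [h1, spk_self]
    · rw [h.q_eq_zero (h0 v hv) (by omega), spk_of_ne (by omega)]

theorem blk_odd (h : Iso2 Q N) (hW : NInv N W) {k : ℕ} (h0 : ∀ x ∈ W, (N ^ (2 * k + 1)) x = 0)
    {v w : V} (hv : v ∈ W) (hw : w ∈ W) (hb : polar Q v ((N ^ (2 * k)) w) = 1)
    (h1 : Q ((N ^ k) v) = 1) {ε : Bool} (h2 : Q ((N ^ k) w) = lb δ ε) :
    ∃ U ≤ W, IsBlk δ Q N (.odd k ε) U := by
  obtain ⟨v', hv', w', hw', h3⟩ := h.exists_pr hW (J := k) h0 (by omega) le_rfl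
    (fun y hy j hj => h.q_eq_zero (h0 y hy) (by omega)) hv hw hb (h.top_self (h0 v hv))
    (h.top_self (h0 w hw))
  have key : ∀ x ∈ W, (fun j => if j < k then 0 else Q ((N ^ j) x)) = spk k (Q ((N ^ k) x)) :=
    fun x hx => funext fun j => by
      rcases lt_trichotomy j k with hj | rfl | hj
      · rw [if_pos hj, spk_of_ne hj.ne]
      · rw [if_neg (by omega), spk_self]
      · rw [if_neg (by omega), spk_of_ne hj.ne', h.q_eq_zero (h0 x hx) (by omega)]
  rw [key v hv, key w hw, h1, h2] at h3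
  exact ⟨_, cy_le hW fun i => by fin_cases i; exacts [hv', hw'], _, _, rfl, h3⟩

theorem blk_ev (h : Iso2 Q N) (hW : NInv N W) {k : ℕ} (h0 : ∀ x ∈ W, (N ^ (2 * k + 1 + 1)) x = 0)
    {v w : V} (hv : v ∈ W) (hw : w ∈ W) (hb : polar Q v ((N ^ (2 * k + 1)) w) ≠ 0)
    (h1 : Q ((N ^ (k + 1)) v) = 0) (h2 : Q ((N ^ (k + 1)) w) = 0) :
    ∃ U ≤ W, IsBlk δ Q N (.ev k) U := by
  let K : Submodule F V :=
    { carrier := {y | y ∈ W ∧ Q ((N ^ (k + 1)) y) = 0}
      add_mem' := fun {x y} hx hy => ⟨W.add_mem hx.1 hy.1, by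
        rw [map_add, Q_add', hx.2, hy.2, h.eq_zero (h0 y hy.1) _ (by omega)]; simp⟩
      zero_mem' := ⟨W.zero_mem, by simp⟩
      smul_mem' := fun c x hx => ⟨W.smul_mem c hx.1, by rw [map_smul, Q_smul', hx.2, mul_zero]⟩ }
  have hK : NInv N K := fun y hy => ⟨hW y hy.1, by
    rw [← pow_succ_apply', h.q_eq_zero (h0 y hy.1) (by omega)]⟩
  have h3 : ∀ y ∈ K, ∀ j, k + 1 ≤ j → Q ((N ^ j) y) = 0 := fun y hy j hj => by
    rcases hj.eq_or_lt with rfl | hj
    · exact hy.2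
    · exact h.q_eq_zero (h0 y hy.1) (by omega)
  have hw' := K.smul_mem (polar Q v ((N ^ (2 * k + 1)) w))⁻¹ (⟨hw, h2⟩ : w ∈ K)
  obtain ⟨v', hv', w', hw'', h4⟩ := h.exists_pr hK (m := 2 * k + 1) (J := k + 1)
    (fun x hx => h0 x hx.1) (by omega) (by omega) (fun y hy j hj => h3 y hy j (by omega))
    (⟨hv, h1⟩ : v ∈ K) hw' (by rw [map_smul, polar_smul_right', inv_mul_cancel₀ hb])
    (by rw [h.q_top (h0 v hv), h1]) (by rw [h.q_top (h0 _ hw'.1), hw'.2])
  have key : ∀ x ∈ K, (fun j => if j < k + 1 then 0 else Q ((N ^ j) x)) = 0 :=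
    fun x hx => funext fun j => by
      split_ifs with hj
      · rfl
      · exact h3 x hx j (by omega)
  rw [key v ⟨hv, h1⟩, key _ hw'] at h4
  exact ⟨_, cy_le hW fun i => by fin_cases i; exacts [hv'.1, hw''.1], _, _, rfl, h4⟩

theorem blk_odd_false (h : Iso2 Q N) (hW : NInv N W) {k : ℕ}
    (h0 : ∀ x ∈ W, (N ^ (2 * k + 1)) x = 0) {v w : V} (hv : v ∈ W) (hw : w ∈ W)
    (hb : polar Q v ((N ^ (2 * k)) w) = 1) (h2 : Q ((N ^ k) w) = 0) :
    ∃ U ≤ W, IsBlk δ Q N (.odd k false) U :=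
  h.blk_odd hW h0 (W.add_mem hv (W.smul_mem (1 - Q ((N ^ k) v)) hw)) hw (by
    rw [polar_add_left, polar_smul_left', h.top_self (h0 w hw), hb, mul_zero, add_zero]) (by
    rw [map_add, map_smul, Q_add_smul, h2, h.eq_top (h0 w hw) _ (by omega), hb]; ring) h2

variable [Finite F]

theorem exists_lb (h2 : (2 : F) = 0) (hδ : ∀ t : F, t ^ 2 + t + δ ≠ 0) (a : F) :
    ∃ c ε, a + c ^ 2 + c = lb δ ε := by
  by_cases h : ∀ t : F, t ^ 2 + t + a ≠ 0
  · obtain ⟨t, ht⟩ := H79.artin_schreier h2 h hδ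
    exact ⟨t, true, by simp only [lb, if_true]; linear_combination ht - δ * h2⟩
  · push Not at h
    obtain ⟨t, ht⟩ := h
    exact ⟨t, false, by simp only [lb, Bool.false_eq_true, if_false]; linear_combination ht⟩

theorem exists_cyc (h : Iso2 Q N) (hδ : ∀ t : F, t ^ 2 + t + δ ≠ 0) (hW : NInv N W) {k : ℕ}
    (h0 : ∀ x ∈ W, (N ^ (2 * k + 1 + 1)) x = 0) {v : V} (hv : v ∈ W)
    (h1 : Q ((N ^ (k + 1)) v) ≠ 0) : ∃ ε, ∃ U ≤ W, IsBlk δ Q N (.cyc k ε) U := by
  obtain ⟨r, hr⟩ := H79.exists_sq_eq_of_two_eq_zero h.two (Q ((N ^ (k + 1)) v))⁻¹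
  have h2 : Q ((N ^ (k + 1)) (r • v)) = 1 := by rw [map_smul, Q_smul', hr, inv_mul_cancel₀ h1]
  have h3 := W.smul_mem r hv
  generalize r • v = v at h2 h3
  obtain ⟨c, ε, hc⟩ := exists_lb h.two hδ (Q ((N ^ k) v))
  refine ⟨ε, h.blk_cyc hW h0 (W.add_mem h3 (W.smul_mem c (hW v h3))) ?_ ?_⟩
  · rw [map_add, map_smul, ← pow_succ_apply', Q_add_smul, ← h.q_succ, h.q_eq_zero (j := k + 1 + 1) (h0 v h3) (by omega), h2]
    ring
  · rw [map_add, map_smul, ← pow_succ_apply', Q_add_smul, ← h.q_succ, h2, ← hc]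
    ring

theorem exists_odd (h : Iso2 Q N) (hδ : ∀ t : F, t ^ 2 + t + δ ≠ 0) (hW : NInv N W) {k : ℕ}
    (h0 : ∀ x ∈ W, (N ^ (2 * k + 1)) x = 0) {v w : V} (hv : v ∈ W) (hw : w ∈ W)
    (hb : polar Q v ((N ^ (2 * k)) w) ≠ 0) : ∃ ε, ∃ U ≤ W, IsBlk δ Q N (.odd k ε) U := by
  by_cases h1 : Q ((N ^ k) v) = 0
  · exact ⟨false, h.blk_odd_false hW h0 (W.smul_mem (polar Q v ((N ^ (2 * k)) w))⁻¹ hw) hv (by
      rw [polar_smul_left', h.top_comm (h0 w hw), inv_mul_cancel₀ hb]) h1⟩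
  obtain ⟨r, hr⟩ := H79.exists_sq_eq_of_two_eq_zero h.two (Q ((N ^ k) v))⁻¹
  have hr0 : r ≠ 0 := by
    rintro rfl
    exact inv_ne_zero h1 (by rw [← hr]; ring)
  have h2 : Q ((N ^ k) (r • v)) = 1 := by rw [map_smul, Q_smul', hr, inv_mul_cancel₀ h1]
  have h3 := W.smul_mem r hv
  have h4 := W.smul_mem (r * polar Q v ((N ^ (2 * k)) w))⁻¹ hw
  have h5 : polar Q (r • v) ((N ^ (2 * k)) ((r * polar Q v ((N ^ (2 * k)) w))⁻¹ • w)) = 1 := by
    rw [map_smul, polar_smul_left', polar_smul_right']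
    field_simp
  generalize r • v = v, (r * polar Q v ((N ^ (2 * k)) w))⁻¹ • w = w at h2 h3 h4 h5
  obtain ⟨c, ε, hc⟩ := exists_lb h.two hδ (Q ((N ^ k) w))
  refine ⟨ε, h.blk_odd hW h0 h3 (W.add_mem h4 (W.smul_mem c h3)) ?_ h2 ?_⟩
  · rw [map_add, map_smul, polar_add_right, polar_smul_right', h.top_self (h0 v h3), h5]
    ring
  · rw [map_add, map_smul, Q_add_smul, h2, h.eq_top (h0 v h3) _ (by omega), h.top_comm (h0 w h4),
      h5, ← hc]
    ring

theorem cyc_false_of_link (h : Iso2 Q N) (hW : NInv N W) {k : ℕ}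
    (h0 : ∀ x ∈ W, (N ^ (2 * k + 1 + 1)) x = 0) {ε : Bool} (hU : U ≤ W)
    (hb : IsBlk δ Q N (.cyc k ε) U) {z : V} (hz : z ∈ W ⊓ perp Q U) {j : ℕ} (hj : k ≤ j)
    (hq : Q ((N ^ j) z) ≠ 0) : ∃ U ≤ W, IsBlk δ Q N (.cyc k false) U := by
  have h1 := hW.inf (h.nInv_perp (hb.nInv h) (hb.pow_eq_zero h))
  obtain ⟨z, hz, h2, h3⟩ : ∃ z ∈ W ⊓ perp Q U, Q ((N ^ k) z) ≠ 0 ∧ Q ((N ^ (k + 1)) z) = 0 := by
    by_cases h2 : Q ((N ^ (k + 1)) z) = 0
    · refine ⟨z, hz, fun h3 => hq ?_, h2⟩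
      rcases hj.eq_or_lt with rfl | hj
      · exact h3
      rcases Nat.lt_iff_add_one_le.1 hj |>.eq_or_lt with rfl | hj
      · exact h2
      · exact h.q_eq_zero (h0 z hz.1) (by omega)
    · exact ⟨N z, h1 z hz, by rwa [← pow_succ_apply'], by
        rw [← pow_succ_apply', h.q_eq_zero (h0 z hz.1) (by omega)]⟩
  have h4 := hb.nInv h
  obtain ⟨v, rfl, -, h5⟩ := hb
  have hv : v ∈ cy N ![v] := mem_cy ![v] 0
  obtain ⟨r, hr⟩ := H79.exists_sq_eq_of_two_eq_zero h.two (lb δ ε / Q ((N ^ k) z))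
  refine h.blk_cyc hW h0 (W.add_mem (hU hv) (W.smul_mem r hz.1)) ?_ ?_
  · rw [map_add, map_smul, Q_add_smul, h3, mem_perp.1 (h1.pow _ hz).2 _ (h4.pow _ hv), h5,
      spk_self, spk_of_ne k.succ_ne_self]
    ring
  · rw [map_add, map_smul, Q_add_smul, hr, mem_perp.1 (h1.pow _ hz).2 _ (h4.pow _ hv), h5,
      spk_self, spk_of_ne k.succ_ne_self.symm, div_mul_cancel₀ _ h2]
    simp only [lb, Bool.false_eq_true, if_false]
    linear_combination (if ε = true then δ else 0) * h.two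

theorem odd_false_of_link (h : Iso2 Q N) (hW : NInv N W) {k : ℕ}
    (h0 : ∀ x ∈ W, (N ^ (2 * k + 1)) x = 0) {ε : Bool} (hU : U ≤ W)
    (hb : IsBlk δ Q N (.odd k ε) U) {z : V} (hz : z ∈ W ⊓ perp Q U) {j : ℕ} (hj : k ≤ j)
    (hq : Q ((N ^ j) z) ≠ 0) : ∃ U ≤ W, IsBlk δ Q N (.odd k false) U := by
  have h1 := hW.inf (h.nInv_perp (hb.nInv h) (hb.pow_eq_zero h))
  obtain rfl : k = j := hj.eq_or_lt.resolve_right fun hj =>
    hq (h.q_eq_zero (h0 z hz.1) (by omega))
  have h4 := hb.nInv h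
  obtain ⟨v, w, rfl, h5⟩ := hb
  have hv : v ∈ cy N ![v, w] := mem_cy ![v, w] 0
  have hw : w ∈ cy N ![v, w] := mem_cy ![v, w] 1
  obtain ⟨r, hr⟩ := H79.exists_sq_eq_of_two_eq_zero h.two (lb δ ε / Q ((N ^ k) z))
  refine h.blk_odd_false hW h0 (hU hv) (W.add_mem (hU hw) (W.smul_mem r hz.1)) ?_ ?_
  · rw [map_add, map_smul, polar_add_right, polar_smul_right', h5.top,
      mem_perp.1 (h1.pow _ hz).2 _ hv]
    ring
  · rw [map_add, map_smul, Q_add_smul, hr, mem_perp.1 (h1.pow _ hz).2 _ (h4.pow _ hw), h5.qw,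
      spk_self, div_mul_cancel₀ _ hq]
    linear_combination lb δ ε * h.two

end Iso2

/-! ### Existence of normal forms -/

/-- The restrictions on the blocks of a normal form. -/
structure Good (s : Multiset Blk) : Prop where
  two : ∀ k, s.count (.cyc k false) + s.count (.cyc k true) ≤ 2
  one : ∀ k, s.count (.cyc k true) + s.count (.odd k true) ≤ 1
  mid : ∀ k, 0 < s.count (.cyc k true) → s.count (.odd k false) = 0
  link : ∀ k, 0 < s.count (.cyc (k + 1) true) + s.count (.odd (k + 1) true) →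
    s.count (.cyc k false) + s.count (.cyc k true) = 0

theorem NF.top_le (h : NF δ Q N W s) (hI : Iso2 Q N) {m : ℕ} (h0 : ∀ x ∈ W, (N ^ (m + 1)) x = 0)
    (hb : m < b.top) : s.count b = 0 :=
  Multiset.count_eq_zero.2 fun hb' => by
    obtain ⟨U, h1, h2⟩ := h.exists_blk hb'
    obtain ⟨y, h3, h4⟩ := h2.exists_top hI
    exact h4 (pow_apply_eq_zero (h0 y (h1 h3)) hb)

theorem NF.lev_lt (h : NF δ Q N W s) (hI : Iso2 Q N) {k : ℕ}
    (h0 : ∀ z ∈ W, ∀ j, k ≤ j → Q ((N ^ j) z) = 0) (hb : k ≤ b.lev) : s.count b = 0 :=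
  Multiset.count_eq_zero.2 fun hb' => by
    obtain ⟨U, h1, h2⟩ := h.exists_blk hb'
    obtain ⟨y, h3, h4⟩ := h2.exists_lev hI
    exact h4 (h0 y (h1 h3) _ hb)

theorem NF.exists_two (h : NF δ Q N W s) {k : ℕ}
    (hk : 2 ≤ s.count (.cyc k false) + s.count (.cyc k true)) :
    ∃ ε ε' U U', U ≤ W ∧ U' ≤ W ∧ U' ≤ perp Q U ∧ IsBlk δ Q N (.cyc k ε) U ∧
      IsBlk δ Q N (.cyc k ε') U' := by
  have key : ∀ t : Multiset Blk, 0 < t.count (.cyc k false) + t.count (.cyc k true) →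
      ∃ ε, Blk.cyc k ε ∈ t := fun t ht => by
    by_contra h
    push Not at h
    rw [Multiset.count_eq_zero.2 (h _), Multiset.count_eq_zero.2 (h _)] at ht
    exact ht.false
  obtain ⟨ε, h1⟩ := key s (by omega)
  obtain ⟨t, rfl⟩ := Multiset.exists_cons_of_mem h1
  obtain ⟨ε', h2⟩ := key t (by cases ε <;> simp at hk <;> omega)
  obtain ⟨U, W', k1, k2, k3, rfl⟩ := h.extract rfl
  obtain ⟨U', k4, k5⟩ := k3.exists_blk h2
  exact ⟨ε, ε', U, U', le_sup_left, k4.trans le_sup_right, k4.trans k2, k1, k5⟩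

theorem IsBlk.exists_cyc {k : ℕ} {ε : Bool} (h : IsBlk δ Q N (.cyc k ε) U) :
    ∃ v ∈ U, Q ((N ^ (k + 1)) v) = 1 := by
  obtain ⟨v, rfl, -, h1⟩ := h
  exact ⟨v, mem_cy ![v] 0, by rw [h1, spk_self, spk_of_ne k.succ_ne_self, add_zero]⟩

theorem Iso2.exists_nf [Finite F] [FiniteDimensional F V] (h : Iso2 Q N)
    (hδ : ∀ t : F, t ^ 2 + t + δ ≠ 0) (hW : NInv N W) (hW' : NondegOn Q W) {M : ℕ}
    (hM : ∀ x ∈ W, (N ^ M) x = 0) : ∃ s, NF δ Q N W s ∧ Good s := by
  induction hd : finrank F W using Nat.strong_induction_on generalizing W with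
  | _ d ih =>
  by_cases hb : W = ⊥
  · exact ⟨0, hb ▸ .nil, by simp, by simp, by simp, by simp⟩
  obtain ⟨m, h0, x, hx, hx'⟩ : ∃ m, (∀ x ∈ W, (N ^ (m + 1)) x = 0) ∧ ∃ x ∈ W, (N ^ m) x ≠ 0 := by
    by_contra hc
    push Not at hc
    have : ∀ m, ∀ x ∈ W, (N ^ m) x = 0 :=
      down_ind M (fun c hc x hx => pow_apply_eq_zero (hM x hx) hc) hc
    exact hb (eq_bot_iff.2 fun x hx => by simpa using this 0 x hx)
  obtain ⟨y, hy, hy'⟩ : ∃ y ∈ W, polar Q y ((N ^ m) x) ≠ 0 := by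
    by_contra hc
    push Not at hc
    exact hx' (hW' _ (hW.pow m hx) fun y hy => by rw [polar_comm, hc y hy])
  have step : ∀ b U, U ≤ W → IsBlk δ Q N b U → ∃ s, NF δ Q N (W ⊓ perp Q U) s ∧ Good s ∧
      NF δ Q N W (b ::ₘ s) ∧ ∀ b, m < b.top → s.count b = 0 := fun b U hU hb => by
    have h1 := hb.nondegOn h
    have h2 := H28.finrank_sup_perp (W := W ⊓ perp Q U) h1 inf_le_right
    rw [H28.sup_inf_perp h1 hU, hb.finrank_eq h] at h2
    obtain ⟨s, h3, h4⟩ := ih _ (by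
      have : 0 < b.wt := by cases b <;> simp [Blk.wt]
      omega) (hW.inf (h.nInv_perp (hb.nInv h) (hb.pow_eq_zero h))) (H28.ndOn_inf_perp h1 hW' hU)
      (fun x hx => hM x hx.1) rfl
    exact ⟨s, h3, h4, H28.sup_inf_perp h1 hU ▸ .cons hb inf_le_right h3,
      fun b hb => h3.top_le h (fun x hx => h0 x hx.1) hb⟩
  rcases Nat.even_or_odd' m with ⟨k, rfl | rfl⟩
  · by_cases h1 : ∃ U ≤ W, IsBlk δ Q N (.odd k false) U
    · obtain ⟨U, hU, h1⟩ := h1
      obtain ⟨s, -, h3, h4, h5⟩ := step _ U hU h1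
      refine ⟨_, h4, fun j => by simpa using h3.two j, fun j => by simpa using h3.one j,
        fun j hj => ?_, fun j => by simpa using h3.link j⟩
      have hj' : 0 < s.count (.cyc j true) := by simpa using hj
      have : j ≠ k := by
        rintro rfl
        rw [h5 _ (by simp [Blk.top])] at hj'
        exact hj'.false
      simpa [this] using h3.mid j hj'
    · obtain ⟨ε, U, hU, h2⟩ := h.exists_odd hδ hW h0 hy hx hy'
      obtain ⟨s, h6, h3, h4, h5⟩ := step _ U hU h2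
      have h7 : ∀ b : Blk, k ≤ b.lev → s.count b = 0 := fun b hb => h6.lev_lt h (fun z hz j hj =>
        by_contra fun hq => h1 (h.odd_false_of_link hW h0 hU h2 hz hj hq)) hb
      obtain rfl : ε = true := by
        cases ε
        exacts [absurd ⟨U, hU, h2⟩ h1, rfl]
      refine ⟨_, h4, fun j => by simpa using h3.two j, fun j => ?_,
        fun j => by simpa using h3.mid j, fun j hj => ?_⟩
      · by_cases hj : j = k
        · subst hj
          simp [h7 (.cyc j true) (by simp [Blk.lev]), h7 (.odd j true) (by simp [Blk.lev])]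
        · simpa [hj] using h3.one j
      · by_cases hj' : j + 1 = k
        · subst hj'
          simp [h7 (.cyc j true) (by simp [Blk.lev]), h7 (.cyc j false) (by simp [Blk.lev])]
        · simpa using h3.link j (by simpa [hj'] using hj)
  · by_cases h1 : ∃ v ∈ W, ∃ w ∈ W, polar Q v ((N ^ (2 * k + 1)) w) ≠ 0 ∧
        Q ((N ^ (k + 1)) v) = 0 ∧ Q ((N ^ (k + 1)) w) = 0
    · obtain ⟨v, hv, w, hw, h1, h2, h3⟩ := h1
      obtain ⟨U, hU, h1⟩ := h.blk_ev (δ := δ) hW h0 hv hw h1 h2 h3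
      obtain ⟨s, -, h3, h4, -⟩ := step _ U hU h1
      exact ⟨_, h4, fun j => by simpa using h3.two j, fun j => by simpa using h3.one j,
        fun j => by simpa using h3.mid j, fun j => by simpa using h3.link j⟩
    by_cases h2 : ∃ U ≤ W, IsBlk δ Q N (.cyc k false) U
    · obtain ⟨U, hU, h2⟩ := h2
      obtain ⟨s, h6, h3, h4, h5⟩ := step _ U hU h2
      refine ⟨_, h4, fun j => ?_, fun j => by simpa using h3.one j,
        fun j => by simpa using h3.mid j, fun j hj => ?_⟩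
      · by_cases hj : j = k
        · subst hj
          have : s.count (.cyc j false) + s.count (.cyc j true) ≤ 1 := by
            by_contra hc
            obtain ⟨ε, ε', U₁, U₂, k1, k2, k3, k4, k5⟩ := h6.exists_two (k := j) (by omega)
            obtain ⟨v₀, k6, k7⟩ := h2.exists_cyc
            obtain ⟨v₁, k8, k9⟩ := k4.exists_cyc
            obtain ⟨v₂, k10, k11⟩ := k5.exists_cyc
            have k12 := h.nInv_perp (h2.nInv h) (h2.pow_eq_zero h)
            have k13 := h.nInv_perp (k4.nInv h) (k4.pow_eq_zero h)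
            refine h1 ⟨v₀ + v₁, W.add_mem (hU k6) (k1 k8).1, v₁ + v₂,
              W.add_mem (k1 k8).1 (k2 k10).1, ?_, ?_, ?_⟩
            · rw [map_add, polar_add_left, polar_add_right, polar_add_right,
                mem_perp.1 (k12.pow _ (k1 k8).2) _ k6, mem_perp.1 (k12.pow _ (k2 k10).2) _ k6,
                mem_perp.1 (k13.pow _ (k3 k10)) _ k8, h.q_top (h0 _ (k1 k8).1), k9]
              simp
            · rw [map_add, Q_add', k7, k9, h.eq_zero (h0 _ (k1 k8).1) _ (by omega), add_zero,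
                one_add_one_eq_two, h.two]
            · rw [map_add, Q_add', k11, k9, h.eq_zero (h0 _ (k2 k10).1) _ (by omega), add_zero,
                one_add_one_eq_two, h.two]
          simp only [Multiset.count_cons_self, ne_eq, Blk.cyc.injEq, Bool.true_eq_false, and_false,
            not_false_eq_true, Multiset.count_cons_of_ne]
          omega
        · simpa [hj] using h3.two j
      · have hj' : 0 < s.count (.cyc (j + 1) true) + s.count (.odd (j + 1) true) := by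
          simpa using hj
        have : j ≠ k := by
          rintro rfl
          rw [h5 _ (by simp [Blk.top]), h5 _ (by simp only [Blk.top]; omega)] at hj'
          exact hj'.false
        simpa [this] using h3.link j hj'
    · obtain ⟨v, hv, hv'⟩ : ∃ v ∈ W, Q ((N ^ (k + 1)) v) ≠ 0 := by
        by_contra hc
        push Not at hc
        exact h1 ⟨y, hy, x, hx, hy', hc y hy, hc x hx⟩
      obtain ⟨ε, U, hU, h8⟩ := h.exists_cyc hδ hW h0 hv hv'
      obtain ⟨s, h6, h3, h4, h5⟩ := step _ U hU h8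
      have h7 : ∀ b : Blk, k ≤ b.lev → s.count b = 0 := fun b hb => h6.lev_lt h (fun z hz j hj =>
        by_contra fun hq => h2 (h.cyc_false_of_link hW h0 hU h8 hz hj hq)) hb
      obtain rfl : ε = true := by
        cases ε
        exacts [absurd ⟨U, hU, h8⟩ h2, rfl]
      refine ⟨_, h4, fun j => ?_, fun j => ?_, fun j hj => ?_, fun j hj => ?_⟩
      · by_cases hj : j = k
        · subst hj
          simp [h7 (.cyc j true) (by simp [Blk.lev]), h7 (.cyc j false) (by simp [Blk.lev])]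
        · simpa [hj] using h3.two j
      · by_cases hj : j = k
        · subst hj
          simp [h7 (.cyc j true) (by simp [Blk.lev]), h7 (.odd j true) (by simp [Blk.lev])]
        · simpa [hj] using h3.one j
      · by_cases hj' : j = k
        · subst hj'
          simp [h7 (.odd j false) (by simp [Blk.lev])]
        · simpa using h3.mid j (by simpa [hj'] using hj)
      · by_cases hj' : j + 1 = k
        · subst hj'
          simp [h7 (.cyc j true) (by simp [Blk.lev]), h7 (.cyc j false) (by simp [Blk.lev])]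
        · have hj'' : 0 < s.count (.cyc (j + 1) true) + s.count (.odd (j + 1) true) := by
            simpa [hj'] using hj
          have : j ≠ k := by
            rintro rfl
            rw [h5 _ (by simp [Blk.top]), h5 _ (by simp only [Blk.top]; omega)] at hj''
            exact hj''.false
          simpa [this] using h3.link j hj''

end Cfsg.Agent.H76
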