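import Cfsg.Agent.H76.OCount

/-! Numerical bounds for the class numbers in characteristic two. -/

set_option autoImplicit false

namespace Cfsg.Agent.H76

open Finset PowerSeries

universe u v w

/-- The number of cyclic blocks of a given size, and a label. -/
abbrev Dg := Fin 3 × Bool

/-- The weight of a letter. -/
def dw (k : ℕ) (a : Dg) : ℕ := (k + 1) * a.1 + if a.2 = true ∧ a.1 = 0 then 2 * k + 1 else 0

/-- The transition weights. -/
def tw (k : ℕ) (σ : Bool) (a : Dg) : ℚ := if a.2 = true ∧ σ = true then 0 else (1 / 2) ^ dw k a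

/-- The weight of a word. -/
def cw : (K : ℕ) → ℕ → Bool → (Fin K → Dg) → ℚ
  | 0, _, _, _ => 1
  | K + 1, k, σ, x => tw k σ (x 0) * cw K (k + 1) ((x 0).1 != 0) (Fin.tail x)

theorem tw_nonneg (k : ℕ) (σ : Bool) (a : Dg) : 0 ≤ tw k σ a := by
  unfold tw
  split_ifs <;> positivity

theorem cw_nonneg (K k : ℕ) (σ : Bool) (x : Fin K → Dg) : 0 ≤ cw K k σ x := by
  induction K generalizing k σ with
  | zero => exact zero_le_one
  | succ K ih => exact mul_nonneg (tw_nonneg _ _ _) (ih _ _ _)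

theorem cw_eq (c : ℕ → Dg) (hc : ∀ k, (c (k + 1)).2 = true → (c k).1 = 0) (K k : ℕ) (σ : Bool)
    (h : (c k).2 = true → σ = false) :
    cw K k σ (fun i => c (k + i)) = (1 / 2) ^ ∑ i : Fin K, dw (k + i) (c (k + i)) := by
  induction K generalizing k σ with
  | zero => simp [cw]
  | succ K ih =>
    have h1 := ih (k + 1) ((c k).1 != 0) fun h => by simp [hc k h]
    have h2 : ∀ i : Fin K, k + 1 + (i : ℕ) = k + (i.succ : ℕ) := fun i => by
      rw [Fin.val_succ]; ring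
    simp only [h2] at h1
    rw [cw, Fin.sum_univ_succ, pow_add, ← h1, tw, if_neg (fun h' => by simp [h h'.1] at h')]
    rfl

theorem sum_succ_eq {K : ℕ} (f : (Fin (K + 1) → Dg) → ℚ) :
    ∑ x, f x = ∑ a : Dg, ∑ y : Fin K → Dg, f (Fin.cons a y) := by
  rw [← (Fin.consEquiv fun _ => Dg).sum_comp, Fintype.sum_prod_type]
  rfl

/-- Upper bounds for the total weights. -/
def bf : ℕ → Bool → ℚ
  | 0, false => 7.3757
  | 0, true => 4.3856
  | 1, false => 2.791
  | 1, true => 2.1261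
  | 2, false => 1.6699
  | 2, true => 1.4597
  | 3, false => 1.2898
  | 3, true => 1.2079
  | 4, false => 1.1349
  | 4, true => 1.099
  | 5, false => 1.0652
  | 5, true => 1.0485
  | k + 6, false => 1 + 2.06 * (1 / 2) ^ (k + 6)
  | k + 6, true => 1 + 1.545 * (1 / 2) ^ (k + 6)

theorem one_le_bf (k : ℕ) (σ : Bool) : 1 ≤ bf k σ := by
  rcases k with _ | _ | _ | _ | _ | _ | k <;> cases σ <;> simp only [bf] <;> norm_num

theorem bf_step (k : ℕ) (σ : Bool) : ∑ a : Dg, tw k σ a * bf (k + 1) (a.1 != 0) ≤ bf k σ := by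
  rcases k with _ | _ | _ | _ | _ | _ | k
  iterate 6
    cases σ <;> simp +decide [Fintype.sum_prod_type, Fin.sum_univ_three, tw, dw, bf] <;> norm_num
  have h1 : (0 : ℚ) < (1 / 2) ^ (k + 6) := by positivity
  have h2 : (1 / 2 : ℚ) ^ (k + 6) ≤ 1 / 64 := by
    rw [pow_add]
    have : (1 / 2 : ℚ) ^ k ≤ 1 := pow_le_one₀ (by norm_num) (by norm_num)
    linarith
  have h3 : ∀ σ, bf (k + 1 + 1 + 1 + 1 + 1 + 1 + 1) σ =
      1 + (if σ then 1.545 else 2.06) * ((1 / 2) ^ (k + 6) / 2) := fun σ => by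
    cases σ <;> simp only [bf, Bool.false_eq_true, if_true, if_false] <;> ring
  have h7 : ∀ σ, bf (k + 1 + 1 + 1 + 1 + 1 + 1) σ =
      1 + (if σ then 1.545 else 2.06) * (1 / 2) ^ (k + 6) := fun σ => by
    cases σ <;> simp only [bf, Bool.false_eq_true, if_true, if_false]
  have h4 : (1 / 2 : ℚ) ^ (k + 1 + 1 + 1 + 1 + 1 + 1 + 1) = (1 / 2) ^ (k + 6) / 2 := by ring
  have h5 : (1 / 2 : ℚ) ^ ((k + 1 + 1 + 1 + 1 + 1 + 1 + 1) * 2) = ((1 / 2) ^ (k + 6) / 2) ^ 2 := by
    ring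
  have h6 : (1 / 2 : ℚ) ^ (2 * (k + 1 + 1 + 1 + 1 + 1 + 1) + 1) = ((1 / 2) ^ (k + 6)) ^ 2 / 2 := by
    ring
  cases σ <;>
    simp +decide only [Fintype.sum_prod_type, Fin.sum_univ_three, Fintype.sum_bool, tw, dw, h3,
      if_true, if_false, Fin.val_zero, Fin.val_one, Fin.val_two, mul_zero, mul_one, zero_add,
      add_zero, pow_zero, h4, h5, h6, h7] <;>
    generalize (1 / 2 : ℚ) ^ (k + 6) = u at h1 h2 <;>
    nlinarith [mul_pos h1 h1, mul_le_mul_of_nonneg_left h2 (mul_pos h1 h1).le,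
      mul_le_mul_of_nonneg_left h2 h1.le]

theorem sum_cw_le (K k : ℕ) (σ : Bool) : ∑ x, cw K k σ x ≤ bf k σ := by
  induction K generalizing k σ with
  | zero => simpa [cw] using one_le_bf k σ
  | succ K ih =>
    rw [sum_succ_eq]
    refine le_trans (sum_le_sum fun a _ => ?_) (bf_step k σ)
    simp only [cw, Fin.cons_zero, Fin.tail_cons, ← mul_sum]
    exact mul_le_mul_of_nonneg_left (ih _ _) (tw_nonneg _ _ _)

/-- The position of the label which is determined by the type of the form. -/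
def kap (a b : Fin 3) : ℕ := if a = 0 ∧ b ≠ 0 then 1 else 0

/-- The weight of a word with one label less. -/
def ow (K : ℕ) (x : Fin (K + 2) → Dg) : ℚ :=
  if (if kap (x 0).1 (x 1).1 = 0 then (x 0).2 else (x 1).2) = false then cw (K + 2) 0 false x else 0

theorem sum_ow_le (K : ℕ) : ∑ x, ow K x ≤ 4.16 := by
  rw [sum_succ_eq]
  simp only [sum_succ_eq (K := K)]
  have : ∀ a b : Dg, ∑ y : Fin K → Dg, ow K (Fin.cons a (Fin.cons b y)) ≤
      if (if kap a.1 b.1 = 0 then a.2 else b.2) = false then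
        tw 0 false a * (tw 1 (a.1 != 0) b * bf 2 (b.1 != 0)) else 0 := fun a b => by
    simp only [ow, cw, Fin.cons_zero, Fin.cons_one, Fin.tail_cons]
    split_ifs
    any_goals simp only [sum_const_zero, le_refl]
    all_goals
      simp only [← mul_sum]
      exact mul_le_mul_of_nonneg_left (mul_le_mul_of_nonneg_left (sum_cw_le _ _ _)
        (tw_nonneg _ _ _)) (tw_nonneg _ _ _)
  refine (sum_le_sum fun a _ => sum_le_sum fun b _ => this a b).trans ?_
  simp +decide [Fintype.sum_prod_type, Fin.sum_univ_three, tw, dw, bf, kap]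
  norm_num

theorem bd2_two {q : ℚ} (hq : 2 ≤ q) (N : ℕ) :
    Bd2 q 3.464 0 (∏ i ∈ range N, geo q (2 * (i + 1))) := by
  have h0 : 0 ≤ q := by linarith
  have h1 : (1 : ℚ) < 2 := by norm_num
  have key : ∀ k, Bd2 q (3.464 * (1 - 1 / 2 ^ (k + 5))) 0
      (∏ i ∈ range (k + 6), geo q (2 * (i + 1))) := fun k => by
    induction k with
    | zero =>
      have := (((((bd2_geo (e := 1) (by linarith) one_pos).mul_geo h1 hq (e := 1) one_pos).mul_geo
        h1 hq (e := 2) two_pos).mul_geo h1 hq (e := 3) (by omega)).mul_geo h1 hq (e := 4)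
        (by omega)).mul_geo h1 hq (e := 5) (by omega)
      convert this.mono h0 _ _ using 1
      · simp +decide [prod_range_succ, mul_assoc]
      all_goals norm_num
    | succ k ih =>
      rw [show k + 1 + 6 = k + 6 + 1 by ring, prod_range_succ]
      refine (ih.mul_geo h1 hq (e := k + 6) (by omega)).mono h0 ?_ (by simp)
      have h2 : (1 : ℚ) / 2 ^ (k + 5) = 2 * (1 / 2 ^ (k + 6)) := by field_simp; ring
      have h3 : (1 : ℚ) / 2 ^ (k + 6) < 1 := by
        rw [div_lt_one (by positivity)]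
        exact one_lt_pow₀ h1 (by omega)
      rw [h2, show k + 1 + 5 = k + 6 by ring, div_le_iff₀ (by linarith)]
      nlinarith [sq_nonneg (1 / 2 ^ (k + 6) : ℚ)]
  have h2 := (key N).mono (a' := 3.464) h0 (mul_le_of_le_one_right (by norm_num)
    (sub_le_self _ (by positivity))) le_rfl
  have hF : ∀ i, NN (geo q (2 * (i + 1)) - 1) := fun i => nn_geo_sub_one h0 (by omega)
  exact ⟨by norm_num, le_rfl, fun n => ⟨(coeff_prod_mono hF _ (by omega)).trans (h2.2.2 n).1,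
    (coeff_prod_mono hF _ (by omega)).trans (h2.2.2 n).2⟩⟩

theorem card_evdata (F : Type u) [Field F] [Fintype F] (L : Type w) [Field L] [Algebra F L]
    [IsAlgClosed L] (j : ℕ) :
    Finite {t : Multiset (Lˣ × ℕ) // FAdm (fun _ => False) (Fintype.card F : ℤ) (2 * j) t} ∧
    (Nat.card {t : Multiset (Lˣ × ℕ) // FAdm (fun _ => False) (Fintype.card F : ℤ) (2 * j) t} : ℚ) ≤
      3.464 * (Fintype.card F : ℚ) ^ j := by
  obtain ⟨p, hp⟩ := CharP.exists F
  have hpp := Fact.mk (CharP.char_is_prime F p)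
  have : CharP L p := charP_of_injective_algebraMap (algebraMap F _).injective p
  have h2 : (2 : ℚ) ≤ Fintype.card F := by exact_mod_cast Fintype.one_lt_card (α := F)
  obtain ⟨r, hr, hq⟩ := exists_card_eq_pow F p
  rw [hq] at h2 ⊢
  obtain ⟨h3, h4⟩ := card_data (A := Lˣ) (2 * j) (fun _ u => Ev ((p ^ r : ℕ) : ℤ) u)
    (fun _ => Ev.zero) fun e b => (card_ev_mul hr e.succ_pos b).1
  have h5 : ∀ t : Multiset (Lˣ × ℕ), FAdm (fun _ => False) ((p ^ r : ℕ) : ℤ) (2 * j) t →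
      (∀ x ∈ t, 0 < x.2) ∧ wt t = 2 * j ∧ ∀ e, Ev ((p ^ r : ℕ) : ℤ) (part e t) :=
    fun t ht => ⟨ht.adm.pos, ht.adm.wt_eq, fun e => ht.ev_part id⟩
  refine ⟨finite_of_imp h5, (Nat.cast_le.2 (card_le_of_imp h5)).trans (h4.le.trans ?_)⟩
  refine le_of_eq_of_le ?_ ((bd2_two h2 (2 * j)).2.2 j).1
  congr 1
  refine prod_congr rfl fun e _ => PowerSeries.ext fun b => ?_
  rw [coeff_mk, (card_ev_mul hr e.succ_pos b).2]

theorem card_le_of_code {α T X : Type*} [Fintype X] {P : ℕ → T → Prop} {C q : ℚ} (hq : 2 ≤ q)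
    (hC0 : 0 ≤ C) (hC : ∀ j, Finite {t // P j t} ∧ (Nat.card {t // P j t} : ℚ) ≤ C * q ^ j)
    {μ : X → ℚ} (hμ : ∀ x, 0 ≤ μ x) (W : X → ℕ) (f : α → T × X) (hf : Function.Injective f) (n : ℕ)
    (h : ∀ a, W (f a).2 ≤ n ∧ P (n - W (f a).2) (f a).1 ∧ (1 / 2) ^ W (f a).2 ≤ μ (f a).2) :
    (Nat.card α : ℚ) ≤ C * q ^ n * ∑ x, μ x := by
  have h1 : ∀ x, Finite {t // W x ≤ n ∧ P (n - W x) t ∧ (1 / 2) ^ W x ≤ μ x} := fun x =>
    have := (hC (n - W x)).1
    finite_of_imp fun _ h => h.2.1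
  have h2 := Nat.card_le_card_of_injective (fun a => (⟨(f a).2, (f a).1, h a⟩ :
    Σ x, {t // W x ≤ n ∧ P (n - W x) t ∧ (1 / 2) ^ W x ≤ μ x})) fun a b hab => hf (Prod.ext
      (congrArg (fun z : Σ x, {t // W x ≤ n ∧ P (n - W x) t ∧ (1 / 2) ^ W x ≤ μ x} => z.2.1) hab)
      (congrArg Sigma.fst hab))
  rw [Nat.card_sigma] at h2
  refine (Nat.cast_le.2 h2).trans ?_
  rw [Nat.cast_sum, mul_sum]
  refine sum_le_sum fun x _ => ?_
  by_cases hx : W x ≤ n ∧ (1 / 2) ^ W x ≤ μ x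
  · have := (hC (n - W x)).1
    refine (Nat.cast_le.2 (card_le_of_imp fun _ h => h.2.1)).trans ((hC _).2.trans ?_)
    rw [mul_assoc]
    refine mul_le_mul_of_nonneg_left ((pow_sub_le two_pos hq hx.1).trans ?_) hC0
    rw [div_eq_mul_one_div, ← one_div_pow]
    exact mul_le_mul_of_nonneg_left hx.2 (by positivity)
  · have : IsEmpty {t // W x ≤ n ∧ P (n - W x) t ∧ (1 / 2) ^ W x ≤ μ x} :=
      ⟨fun t => hx ⟨t.2.1, t.2.2.2⟩⟩
    rw [Nat.card_of_isEmpty, Nat.cast_zero]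
    exact mul_nonneg (mul_nonneg hC0 (by positivity)) (hμ x)

end Cfsg.Agent.H76
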