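import Cfsg.Agent.H50.E72Defs
import Cfsg.Agent.S1064

/-!
# A maximal subgroup of `E₇(2)` with a fixed vector is large
-/

set_option autoImplicit false

namespace Cfsg.Agent.H76.E72MaxA

open Cfsg.Agent.H50.E72 MulAction
open scoped Matrix

section

variable {G : Type*} [Group G] {n : Type} [Fintype n] [DecidableEq n]
  (π : G →* Matrix n n (ZMod 2))

/-- The action on the vectors. -/
@[reducible] def vact : MulAction G (n → ZMod 2) where
  smul g v := π g *ᵥ v
  one_smul v := by
    change π 1 *ᵥ v = v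
    rw [map_one, Matrix.one_mulVec]
  mul_smul g h v := by
    change π (g * h) *ᵥ v = π g *ᵥ (π h *ᵥ v)
    rw [map_mul, Matrix.mulVec_mulVec]

/-- The vectors fixed by a subgroup. -/
def fixS (L : Subgroup G) : AddSubgroup (n → ZMod 2) where
  carrier := {v | ∀ g ∈ L, π g *ᵥ v = v}
  zero_mem' g _ := Matrix.mulVec_zero _
  add_mem' ha hb g hg := by rw [Matrix.mulVec_add, ha g hg, hb g hg]
  neg_mem' ha g hg := by rw [Matrix.mulVec_neg, ha g hg]

/-- The action on the vectors fixed by a normal subgroup. -/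
@[reducible] def fact (L : Subgroup G) [hL : L.Normal] : MulAction G (fixS π L) where
  smul g v := ⟨π g *ᵥ v.1, fun l hl => by
    have h := v.2 _ (hL.conj_mem' l hl g)
    rw [Matrix.mulVec_mulVec, ← map_mul, show l * g = g * (g⁻¹ * l * g) by group, map_mul,
      ← Matrix.mulVec_mulVec, h]⟩
  one_smul v := Subtype.ext (by
    change π 1 *ᵥ v.1 = v.1
    rw [map_one, Matrix.one_mulVec])
  mul_smul g h v := Subtype.ext (by
    change π (g * h) *ᵥ v.1 = π g *ᵥ (π h *ᵥ v.1)
    rw [map_mul, Matrix.mulVec_mulVec])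

theorem exists_fix (L : Subgroup G) [L.Normal] {k : ℕ} (hk : L.index = 2 ^ k)
    (h : ∃ v : n → ZMod 2, v ≠ 0 ∧ ∀ g ∈ L, π g *ᵥ v = v) :
    ∃ v : n → ZMod 2, v ≠ 0 ∧ ∀ g, π g *ᵥ v = v := by
  obtain ⟨v, hv, hL⟩ := h
  let _ := fact π L
  let f := toPermHom G (fixS π L)
  have hle : L ≤ f.ker := by
    intro g hg
    rw [MonoidHom.mem_ker]
    exact Equiv.ext fun w => Subtype.ext (w.2 g hg)
  have hp : IsPGroup 2 f.range := by
    have h1 : Nat.card f.range ∣ 2 ^ k := by
      rw [← hk, ← Subgroup.index_ker]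
      exact Subgroup.index_dvd_of_le hle
    obtain ⟨j, -, hj⟩ := (Nat.dvd_prime_pow Nat.prime_two).mp h1
    exact IsPGroup.of_card hj
  have h2 : 2 ∣ Nat.card (fixS π L) := by
    have : addOrderOf (⟨v, hL⟩ : fixS π L) = 2 := by
      refine addOrderOf_eq_prime ?_ fun h => hv (congrArg Subtype.val h)
      apply Subtype.ext
      funext i
      change (2 : ℕ) • v i = 0
      rw [two_nsmul]
      exact CharTwo.add_self_eq_zero _
    have h3 := addOrderOf_dvd_natCard (⟨v, hL⟩ : fixS π L)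
    rwa [this] at h3
  have h0 : (0 : fixS π L) ∈ fixedPoints f.range (fixS π L) := by
    rintro ⟨_, g, rfl⟩
    exact Subtype.ext (Matrix.mulVec_zero _)
  obtain ⟨w, hw, hw0⟩ := hp.exists_fixed_point_of_prime_dvd_card_of_fixed_point _ h2 h0
  refine ⟨w.1, fun h => hw0 (Subtype.ext h.symm), fun g => ?_⟩
  exact congrArg Subtype.val (hw ⟨f g, g, rfl⟩)

theorem card_le [Finite G] (H : Subgroup G) (hH : IsCoatom H) {v : n → ZMod 2}
    (hv : ∀ g ∈ H, π g *ᵥ v = v) (hn : ¬ ∀ g, π g *ᵥ v = v) :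
    Nat.card G ≤ Nat.card H * 2 ^ Fintype.card n := by
  let _ := vact π
  have h1 : H ≤ stabilizer G v := hv
  have h2 : stabilizer G v = H := by
    rcases h1.lt_or_eq with h | h
    · exact absurd (fun g => (show g ∈ stabilizer G v by rw [hH.2 _ h]; trivial)) hn
    · exact h.symm
  rw [← H.card_mul_index]
  refine Nat.mul_le_mul_left _ ?_
  rw [← h2, index_stabilizer]
  refine (Set.ncard_le_card _).trans ?_
  rw [Nat.card_eq_fintype_card, Fintype.card_fun, ZMod.card]

end

theorem card_G0 : Nat.card G0 = 7997476042075799759100487262680802918400 := by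
  have hcard := S1064.result (F := ZMod 2) (q := 2) (ZMod.card 2)
  rw [show Nat.gcd 2 (2 - 1) = 1 by norm_num, one_mul] at hcard
  rw [hcard]
  norm_num

theorem maxA : MaxAStmt := by
  intro π hπ H L _ hH ⟨k, hk⟩ hc hv
  have hfin : Finite G0 := Nat.finite_of_card_ne_zero (by rw [card_G0]; norm_num)
  obtain ⟨v, hv0, hv⟩ := exists_fix (π.comp H.subtype) L hk hv
  have h := card_le π H hH (v := v) (fun g hg => hv ⟨g, hg⟩) fun h => hv0 (hπ.nofix v h)
  rw [card_G0, Fintype.card_fin] at h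
  have h2 := h.trans (Nat.mul_le_mul_right _ hc)
  norm_num at h2

end Cfsg.Agent.H76.E72MaxA
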