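import Cfsg.Agent.H6.E82Defs

/-! Project E82, piece FIT1: the Fitting decomposition for `Eop`. -/

set_option autoImplicit false

namespace Cfsg.Agent.H76.E82Fit1

open Cfsg.Agent.H6.E82 Filter

theorem fit1 (hE : EdecStmt) : Fit1Stmt := by
  intro W _ _ _ ρ B hB
  obtain ⟨-, hc, ha, -⟩ := hE W ρ
  obtain ⟨m, hm⟩ := eventually_atTop.1 (LinearMap.eventually_isCompl_ker_pow_range_pow (Eop ρ))
  have h := hm (m + 1) (Nat.le_succ m)
  have hc' : ∀ g v, ρ g ((Eop ρ ^ (m + 1)) v) = (Eop ρ ^ (m + 1)) (ρ g v) := fun g v =>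
    LinearMap.congr_fun ((hc g).pow_right (m + 1)).eq v
  have ha' : ∀ (n : ℕ) a b, B ((Eop ρ ^ n) a) b = B a ((Eop ρ ^ n) b) := fun n => by
    induction n with
    | zero => intro a b; rfl
    | succ n ih =>
      intro a b
      rw [pow_succ' (Eop ρ) n, Module.End.mul_apply, ha B hB, ih, ← pow_succ', pow_succ,
        Module.End.mul_apply]
  refine ⟨LinearMap.ker (Eop ρ ^ (m + 1)), LinearMap.range (Eop ρ ^ (m + 1)), fun g v hv => ?_,
    fun g v hv => ?_, h, fun a ha b hb => ?_, ⟨m + 1, fun a ha => ha⟩, fun b hb => ?_,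
    fun b hb e => ?_⟩
  · rw [LinearMap.mem_ker] at hv ⊢
    rw [← hc', hv, map_zero]
  · obtain ⟨w, rfl⟩ := hv
    exact ⟨ρ g w, (hc' g w).symm⟩
  · obtain ⟨w, rfl⟩ := hb
    rw [← ha', LinearMap.mem_ker.1 ha, map_zero, LinearMap.zero_apply]
  · obtain ⟨w, rfl⟩ := hb
    obtain ⟨x, hx, y, ⟨z, rfl⟩, rfl⟩ := Submodule.mem_sup.1
      (show w ∈ LinearMap.ker (Eop ρ ^ (m + 1)) ⊔ LinearMap.range (Eop ρ ^ (m + 1)) by
        rw [h.sup_eq_top]; trivial)
    refine ⟨(Eop ρ ^ (m + 1)) ((Eop ρ ^ m) z), ⟨_, rfl⟩, ?_⟩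
    rw [map_add, LinearMap.mem_ker.1 hx, zero_add]
    simp only [← Module.End.mul_apply, ← pow_add, ← pow_succ']
    rfl
  · refine (Submodule.disjoint_def.1 h.disjoint) b ?_ hb
    rw [LinearMap.mem_ker, pow_succ, Module.End.mul_apply, e, map_zero]

end Cfsg.Agent.H76.E82Fit1
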