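import Cfsg.Agent.H6.E82Defs

/-! Project E82, piece JAC: the Jacobi identity. -/

set_option autoImplicit false

namespace Cfsg.Agent.H76.E82Jac

open Cfsg.Agent.H6.E82 Finset

theorem two (v : V) : v + v = 0 := funext fun i => CharTwo.add_self_eq_zero (v i)

theorem ind (hc : BrcStmt) (P : V → Prop) (h1 : ∀ h ∈ Cart, P h) (h2 : ∀ r, P (ee r))
    (ha : ∀ a b, P a → P b → P (a + b)) (hs : ∀ (c : K) a, P a → P (c • a)) (v : V) : P v := by
  obtain ⟨h, hh, -, e⟩ := hc.2.2.2.2.2.2.2.2.2.1 v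
  rw [e]
  exact ha _ _ (h1 h hh) (Finset.sum_induction _ P ha (h1 0 Cart.zero_mem)
    fun r _ => hs _ _ (h2 r))

/-- The Jacobi identity for one triple. -/
def J (a b c : V) : Prop := br a (br b c) = br (br a b) c + br b (br a c)

theorem J.s23 (hb : BrbStmt) {a b c : V} (h : J a b c) : J a c b := by
  unfold J at h ⊢
  rw [hb.2.1 c b, h, hb.2.1 (br a b) c, hb.2.1 b (br a c), add_comm]

theorem J.s12 (hb : BrbStmt) {a b c : V} (h : J a b c) : J b a c := by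
  unfold J at h ⊢
  rw [h, hb.2.1 b a, ← add_assoc, two, zero_add]

theorem J.add1 {a a' b c : V} (h : J a b c) (h' : J a' b c) : J (a + a') b c := by
  unfold J at h h' ⊢
  simp only [map_add, LinearMap.add_apply]
  rw [h, h']
  abel

theorem J.smul1 {a b c : V} (k : K) (h : J a b c) : J (k • a) b c := by
  unfold J at h ⊢
  simp only [map_smul, LinearMap.smul_apply]
  rw [h, smul_add]

theorem ind1 (hc : BrcStmt) (b c : V) (h1 : ∀ h ∈ Cart, J h b c) (h2 : ∀ r, J (ee r) b c)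
    (a : V) : J a b c :=
  ind hc (fun a => J a b c) h1 h2 (fun _ _ => J.add1) (fun k _ => J.smul1 k) a

theorem cc (hb : BrbStmt) (hc : BrcStmt) {h h' : V} (hh : h ∈ Cart) (hh' : h' ∈ Cart) (c : V) :
    J h h' c := by
  refine ((ind1 hc h h' (fun k hk => ?_) (fun r => ?_) c).s12 hb).s23 hb
  · unfold J
    rw [hb.2.2.1 h hh h' hh', hb.2.2.1 k hk h hh, hb.2.2.1 k hk h' hh']
    simp
  · unfold J
    rw [hb.2.2.1 h hh h' hh', hb.2.1 (ee r) h, hb.2.1 (ee r) h', hb.2.2.2.1 h hh, hb.2.2.2.1 h' hh',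
      map_zero, map_smul, map_smul, LinearMap.smul_apply, hb.2.1 (ee r) h', hb.2.2.2.1 h hh,
      hb.2.2.2.1 h' hh', smul_smul, smul_smul, mul_comm, two]

theorem cee (hr' : RfStmt) (hb : BrbStmt) (hc : BrcStmt) {h : V} (hh : h ∈ Cart) (r s : Rt) :
    J h (ee r) (ee s) := by
  unfold J
  rw [hb.2.2.2.1 h hh, hb.2.2.2.1 h hh, map_smul, map_smul, LinearMap.smul_apply, ← add_smul]
  rcases hr'.1 r s with e | e | e
  · rw [e, hb.2.2.2.2.1, hb.2.2.1 h hh _ (hc.1 r), hc.2.2.2.2.2.2.2.1,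
      CharTwo.add_self_eq_zero, zero_smul]
  · rw [hb.2.2.2.2.2.1 r s e, hb.2.2.2.1 h hh, hc.2.2.2.2.2.2.2.2.1 r s h e]
  · rw [hb.2.2.2.2.2.2.1 r s e, map_zero, smul_zero]

theorem cart (hr' : RfStmt) (hb : BrbStmt) (hc : BrcStmt) {h : V} (hh : h ∈ Cart) (b c : V) :
    J h b c := by
  refine (ind1 hc h c (fun k hk => cc hb hc hk hh c) (fun r => ?_) b).s12 hb
  refine ((ind1 hc (ee r) h (fun k hk => (cc hb hc hk hh _).s23 hb) (fun s => ?_) c).s12 hb).s23 hb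
  exact ((cee hr' hb hc hh s r).s12 hb).s23 hb

theorem jac (hr' : RfStmt) (hb : BrbStmt) (hc : BrcStmt) (h1 : Jac1Stmt) : JacStmt := by
  intro a b c
  refine ind1 hc b c (fun h hh => cart hr' hb hc hh b c) (fun r => ?_) a
  refine (ind1 hc (ee r) c (fun h hh => cart hr' hb hc hh _ c) (fun s => ?_) b).s12 hb
  exact ((ind1 hc (ee s) (ee r) (fun h hh => cart hr' hb hc hh _ _) (fun t => h1 t s r) c).s12
    hb).s23 hb

end Cfsg.Agent.H76.E82Jac
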