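import Mathlib
import Cfsg.Agent.H11.ElDefs

/-!
# No elements of order four in the case with `J₁`
-/

set_option autoImplicit false

namespace Cfsg.Agent.H76.ElJ6

open Subgroup Cfsg.Agent.H11.EL

universe u

variable {G : Type u} [Group G] [Finite G]

theorem eq_one_of_odd {K : Subgroup G} (hK : Odd (Nat.card K)) {k : G} (hk : k ∈ K)
    (h : k ^ 4 = 1) : k = 1 := by
  have h1 : orderOf k ∣ Nat.card K := K.orderOf_dvd_natCard hk
  have h2 : orderOf k ∣ 2 ^ 2 := orderOf_dvd_of_pow_eq_one h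
  have h3 : Nat.Coprime (2 ^ 2) (Nat.card K) :=
    Nat.Coprime.pow_left _ (Nat.coprime_two_left.mpr hK)
  exact orderOf_eq_one_iff.mp (Nat.eq_one_of_dvd_coprimes h3 h2 h1)

omit [Finite G] in
theorem exists_gen {A : Subgroup G} (hA : Nat.card A = 11) : ∃ a ∈ A, orderOf a = 11 := by
  have : Finite A := Nat.finite_of_card_ne_zero (by omega)
  have : Fact (Nat.Prime 11) := ⟨by norm_num⟩
  obtain ⟨a, ha⟩ := exists_prime_orderOf_dvd_card' (G := A) 11 (by rw [hA])
  exact ⟨a, a.2, by rw [← ha, Subgroup.orderOf_coe]⟩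

omit [Finite G] in
theorem mem_Nm_sup {A B : Subgroup G} {g : G} (h : cj g A ⊔ cj g B = A ⊔ B) : g ∈ Nm (A ⊔ B) := by
  rw [← cj_eq_iff, cj_sup, h]

theorem mem_of_Nm {L A : Subgroup G} (hL : JA L) (hA : A ≤ L) (ho : Odd (Nat.card (Ct A)))
    {g : G} (hg : g ∈ Nm L) (h4 : g ^ 4 = 1) : g ∈ L := by
  obtain ⟨k, hk, l, hl, rfl⟩ := hL.inn g hg
  have hc : Commute k l := (mem_centralizer_iff.mp hk l hl).symm
  rw [hc.mul_pow, mul_eq_one_iff_eq_inv] at h4
  have h1 : k ^ 4 = 1 := hL.ctr _ (by rw [h4]; exact L.inv_mem (L.pow_mem hl 4)) (pow_mem hk 4)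
  rw [eq_one_of_odd ho (centralizer_le hA hk) h1, one_mul]
  exact hl

theorem j6 (b : Base.{u}) (h4 : J4Stmt.{u}) : J6Stmt.{u} := by
  intro G _ _ D y A hD hS ho
  obtain ⟨hA, hyy, hyA, -⟩ := id hS
  obtain ⟨a, haA, ha⟩ := exists_gen (hD.card A hA)
  have hy1 : y ≠ 1 := by
    rintro rfl
    have h := hyA a haA
    rw [one_mul, inv_one, mul_one, zpow_neg_one, eq_inv_iff_mul_eq_one, ← pow_two] at h
    have := orderOf_dvd_of_pow_eq_one h
    rw [ha] at this
    norm_num at this
  have hyi : y⁻¹ = y := inv_eq_of_mul_eq_one_right hyy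
  have hy2 : orderOf y = 2 := orderOf_eq_prime (by rw [pow_two, hyy]) hy1
  have hyN : y ∈ Nm A := by
    rw [mem_normalizer_iff]
    intro x
    constructor
    · intro hx
      rw [hyA x hx]
      exact A.zpow_mem hx _
    · intro hx
      have := hyA _ hx
      rw [show y * (y * x * y⁻¹) * y⁻¹ = (y * y) * x * (y * y)⁻¹ by group, hyy] at this
      rw [show x = 1 * x * 1⁻¹ by group, this]
      exact A.zpow_mem hx _
  -- elements whose square lies in `⟨y⟩`
  have key : ∀ u : G, Commute u y → u * u = 1 ∨ u * u = y → u ≠ 1 → u ≠ y →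
      u * u = 1 ∧ IsConj u y := by
    intro u hc hu hu1 huy
    have hu4 : u ^ 4 = 1 := by
      rw [show u ^ 4 = (u * u) * (u * u) by simp only [pow_succ, pow_zero, one_mul, mul_assoc]]
      rcases hu with h | h <;> rw [h]
      · exact one_mul _
      · exact hyy
    have huN : u * u ∈ Nm A := by
      rcases hu with h | h <;> rw [h]
      · exact one_mem _
      · exact hyN
    by_cases hB : cj u A = A
    · exfalso
      rcases (b.mb D hD).tri A hA u (cj_eq_iff.mp hB) with h | h | ⟨i, hi, hi2⟩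
      · exact hu1 (eq_one_of_odd ho h hu4)
      · have h1 : u * y ∈ Ct A := by
          rw [mem_centralizer_iff]
          intro x hx
          have e1 := hyA x hx
          have e2 := h x⁻¹ (A.inv_mem hx)
          rw [zpow_neg_one] at e1
          rw [zpow_neg_one, inv_inv, ← e1] at e2
          calc x * (u * y) = u * (y * x * y⁻¹) * u⁻¹ * (u * y) := by rw [e2]
            _ = u * y * x := by group
        have h2 : (u * y) ^ 4 = 1 := by
          rw [hc.mul_pow, hu4, one_mul, show 4 = 2 * 2 from rfl, pow_mul, pow_two y, hyy, one_pow]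
        have h3 := eq_one_of_odd ho h1 h2
        exact huy ((eq_inv_of_mul_eq_one_left h3).trans hyi)
      · have e : u * u * a * (u * u)⁻¹ = a ^ (i ^ 2) := by
          have e1 := hi a haA
          have e2 := hi _ (A.zpow_mem haA i)
          rw [← zpow_mul, ← pow_two] at e2
          rw [← e2, ← e1]
          group
        rcases hu with h | h <;> rw [h] at e
        · apply hi2
          have : a ^ (i ^ 2 - 1) = 1 := by
            rw [zpow_sub, ← e]
            group
          have := orderOf_dvd_iff_zpow_eq_one.mpr this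
          rw [ha] at this
          exact_mod_cast this
        · rw [hyA a haA] at e
          have : a ^ (i ^ 2 + 1) = 1 := by
            rw [zpow_add, ← e]
            group
          have := orderOf_dvd_iff_zpow_eq_one.mpr this
          rw [ha] at this
          have h5 : ((i ^ 2 + 1 : ℤ) : ZMod 11) = 0 :=
            (ZMod.intCast_zmod_eq_zero_iff_dvd _ 11).mpr this
          push_cast at h5
          revert h5
          generalize (i : ZMod 11) = j
          revert j
          decide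
    · have hyB : cj y (cj u A) = cj u A := by
        rw [← cj_mul, ← hc.eq, cj_mul, cj_eq_iff.mpr hyN]
      have hJ := b.ja _ (h4 D y A hD hS _ (hD.conj A hA u) hB (cj_eq_iff.mp hyB))
      have huL : u ∈ A ⊔ cj u A := by
        refine mem_of_Nm hJ le_sup_left ho (mem_Nm_sup ?_) hu4
        rw [← cj_mul, cj_eq_iff.mpr huN, sup_comm]
      have hyL : y ∈ A ⊔ cj u A := by
        refine mem_of_Nm hJ le_sup_left ho (mem_Nm_sup ?_) ?_
        · rw [hyB, cj_eq_iff.mpr hyN]
        · rw [show 4 = 2 * 2 from rfl, pow_mul, pow_two y, hyy, one_pow]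
      have hu2 := hJ.no4 u huL hu4
      obtain ⟨g, -, hg⟩ := hJ.cls u huL y hyL (orderOf_eq_prime hu2 hu1) hy2
      exact ⟨by rw [← pow_two, hu2], isConj_iff.mpr ⟨g, hg⟩⟩
  -- `y` is central in a Sylow subgroup
  have hcen : ∃ S : Sylow 2 G, ∀ s ∈ (S : Subgroup G), Commute s y := by
    have hp : IsPGroup 2 (zpowers y) := IsPGroup.of_card (n := 1) (by rw [Nat.card_zpowers, hy2, pow_one])
    obtain ⟨S, hS⟩ := hp.exists_le_sylow
    have hyS : y ∈ (S : Subgroup G) := hS (mem_zpowers y)
    have hnt : Nontrivial (S : Subgroup G) :=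
      ⟨⟨⟨y, hyS⟩, 1, fun h => hy1 (congrArg Subtype.val h)⟩⟩
    have hc := S.isPGroup'.center_nontrivial
    have hpc : IsPGroup 2 (center (S : Subgroup G)) := S.isPGroup'.to_subgroup _
    obtain ⟨n, hn0, hn⟩ := hpc.nontrivial_iff_card.mp hc
    obtain ⟨z, hz⟩ := exists_prime_orderOf_dvd_card' (G := center (S : Subgroup G)) 2
      (by rw [hn]; exact dvd_pow_self 2 hn0.ne')
    have hz2 : orderOf (z.1.1 : G) = 2 := by rw [Subgroup.orderOf_coe, Subgroup.orderOf_coe, hz]
    have hzc : ∀ s ∈ (S : Subgroup G), Commute s z.1.1 := fun s hs =>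
      congrArg Subtype.val (mem_center_iff.mp z.2 ⟨s, hs⟩)
    by_cases hzy : (z.1.1 : G) = y
    · exact ⟨S, fun s hs => hzy ▸ hzc s hs⟩
    · have hzz : (z.1.1 : G) * z.1.1 = 1 := by
        have := pow_orderOf_eq_one (z.1.1 : G)
        rwa [hz2, pow_two] at this
      obtain ⟨g, hg⟩ := isConj_iff.mp (key _ (hzc y hyS).symm (Or.inl hzz)
        (by rintro h; rw [h, orderOf_one] at hz2; omega) hzy).2
      refine ⟨g • S, fun s hs => ?_⟩
      rw [Sylow.coe_subgroup_smul, mem_pointwise_smul_iff_inv_smul_mem] at hs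
      have h := (hzc _ hs).eq
      rw [← map_inv, MulAut.smul_def, MulAut.conj_apply, inv_inv] at h
      rw [← hg]
      calc s * (g * z.1.1 * g⁻¹) = g * (g⁻¹ * s * g * z.1.1) * g⁻¹ := by group
        _ = g * z.1.1 * g⁻¹ * s := by rw [h]; group
  obtain ⟨S, hS⟩ := hcen
  intro u hu
  by_contra hu2
  have hp : IsPGroup 2 (zpowers u) := by
    obtain ⟨j, -, hj⟩ := (Nat.dvd_prime_pow Nat.prime_two).mp
      (orderOf_dvd_of_pow_eq_one (n := 2 ^ 2) hu)
    exact IsPGroup.of_card (by rw [Nat.card_zpowers, hj])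
  obtain ⟨T, hT⟩ := hp.exists_le_sylow
  obtain ⟨g, rfl⟩ := MulAction.exists_smul_eq G T S
  have hu1 : g * u * g⁻¹ ∈ ((g • T : Sylow 2 G) : Subgroup G) := by
    rw [Sylow.coe_subgroup_smul]
    exact smul_mem_pointwise_smul _ _ _ (hT (mem_zpowers u))
  have hv : Commute (g * u ^ 2 * g⁻¹) y := by
    rw [← conj_pow]
    exact (hS _ hu1).pow_left 2
  have hc : IsConj (u ^ 2) y := by
    refine (isConj_iff.mpr ⟨g, rfl⟩).trans ?_
    by_cases h : g * u ^ 2 * g⁻¹ = y
    · rw [h]
    · refine (key _ hv (Or.inl ?_) (fun h' => hu2 (by simpa using h')) h).2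
      rw [← pow_two, conj_pow, ← pow_mul, hu]
      group
  obtain ⟨c, hc⟩ := isConj_iff.mp hc
  have hw : c * u * c⁻¹ * (c * u * c⁻¹) = y := by rw [← pow_two, conj_pow, hc]
  have := (key (c * u * c⁻¹) (by rw [← hw]; exact (Commute.refl _).mul_right (Commute.refl _))
    (Or.inr hw) (fun h => hy1 (by rw [← hw, h, one_mul])) fun h => hy1 (by
      rw [h, hyy] at hw; exact hw.symm)).1
  exact hy1 (hw.symm.trans this)

end Cfsg.Agent.H76.ElJ6
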