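import Cfsg.Agent.H98.GbL

/-! Project GB, piece CB: the count in the case `p ∣ q - 1`. -/

set_option autoImplicit false

namespace Cfsg.Agent.H76.GbCb

open Cfsg Finset Cfsg.Agent.H98.GB

universe u

theorem wgt_one (S : Finset ℕ) : H19.wgt 1 S = H19.wtS S := by
  rw [H19.wgt, Fin.sum_univ_one]
  congr 1
  ext x
  simp [H19.mem_run]

theorem cb (hN : NUMBStmt) (hL : LABStmt.{u}) (hI : IDXStmt.{u}) (hF : FIXStmt.{u}) :
    CBStmt.{u} := by
  intro F _ _ _ C hq n hn n0 Λ0 hl hb i hi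
  classical
  have L := hL F C
  obtain ⟨B, act, X, hB, hX, hc, hfix⟩ := hF F C n hn Λ0 hl hb
  have q1 : (Fintype.card F : ZMod C.p) = 1 := by
    have := (ZMod.natCast_eq_zero_iff _ _).2 hq
    rw [Nat.cast_sub Fintype.card_pos, Nat.cast_one] at this
    exact sub_eq_zero.1 this
  have e1 : ∀ Γ, C.eG Γ = 1 := fun Γ => by rw [Ctx.eG, q1, one_pow, orderOf_one]
  have hII : ∀ Γ, C.II Λ0 Γ ↔ C.Reg Γ ∧ H19.wtS (Λ0 Γ) ≠ 0 := fun Γ => by
    rw [Ctx.II, e1, wgt_one]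
  have hsm : ∀ Γ, C.sm Λ0 Γ ≠ 0 → C.II Λ0 Γ := fun Γ h => by
    obtain ⟨φ, hφ, -⟩ := exists_ne_zero_of_sum_ne_zero h
    have hr : C.Reg Γ := (mem_filter.1 hφ).2 ▸ L.reg_lp φ
    rw [L.sm_bas _ _ hb hr] at h
    exact (hII Γ).2 ⟨hr, right_ne_zero_of_mul h⟩
  have hsum : ∑ Γ, C.sm Λ0 Γ = n := (L.sum_sm Λ0).trans hl.2
  have : Nonempty {Γ // C.II Λ0 Γ} := by
    obtain ⟨Γ, -, h⟩ := exists_ne_zero_of_sum_ne_zero (hsum.trans_ne n0.ne')
    exact ⟨⟨Γ, hsm Γ h⟩⟩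
  have hA : ∀ c ∈ B, C.qL * c = c ∧ C.uu * c = c := fun c h =>
    ⟨(mem_filter.1 ((hB c).1 h)).2.1, (mem_filter.1 ((hB c).1 h)).2.2.1⟩
  have hp : ¬ C.p ∣ Fintype.card (Multiplicative B) := fun h => by
    obtain ⟨g, hg⟩ := exists_prime_orderOf_dvd_card C.p h
    refine (L.uu_iff _).1 (hA _ (Multiplicative.toAdd g).2).2 ?_
    rw [AddSubgroup.addOrderOf_coe, ← hg]
    rfl
  have h := hN (Multiplicative B) {Γ // C.II Λ0 Γ} C.p C.hp hp X (fun j => H19.wtS (Λ0 j.1)) i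
    (fun g j => (hX g j).2.1) (fun g j => by simpa only [e1, wgt_one] using (hX g j).2.2.2.2)
    (fun j => Nat.pos_of_ne_zero ((hII _).1 j.2).2)
    (fun j => by rw [hc, e1, wgt_one, H19.bk_one]) fun j => by
      have := hi j.1
      rw [L.sm_bas _ _ hb j.2.1, mul_comm (C.dg _)] at this
      exact Nat.dvd_of_mul_dvd_mul_right (L.dg_pos _) this
  have s1 : ∑ ν : Multiplicative B, fixN X ν = ∑ c ∈ C.A' Λ0, C.fixB n Λ0 c := by
    rw [sum_subtype (C.A' Λ0) (fun c => (hB c).symm)]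
    exact Fintype.sum_equiv Multiplicative.toAdd _ _ hfix
  have s2 : ∑ j : {Γ // C.II Λ0 Γ}, H19.wtS (Λ0 j.1) = C.ww Λ0 := by
    symm
    rw [Ctx.ww, ← sum_filter_ne_zero, sum_subtype (p := C.II Λ0) (F := inferInstance) _ fun Γ => by
      simp only [mem_filter, mem_univ, true_and, Ctx.II]]
    simp only [e1, wgt_one]
  have s3 : Nat.card (⨅ j : {Γ // C.II Λ0 Γ}, MulAction.stabilizer (Multiplicative B) j :
      Subgroup (Multiplicative B)) ≤ #(C.A1 Λ0) := by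
    rw [← Nat.card_eq_finsetCard]
    refine Nat.card_le_card_of_injective (fun g => ⟨(Multiplicative.toAdd g.1).1,
      mem_filter.2 ⟨(hB _).1 (Multiplicative.toAdd g.1).2, fun φ hφ => ?_⟩⟩)
      fun g g' e => Subtype.ext (Multiplicative.toAdd.injective
        (Subtype.ext (Subtype.mk.inj e)))
    obtain ⟨a, ha, h2⟩ := hI F C _ hφ.1
    rw [e1, q1, orderOf_one, mul_one] at ha
    let B' : AddSubgroup C.L :=
      { carrier := {c | C.qL * c = c ∧ C.uu * c = c ∧ C.tw c (C.lp φ) = C.lp φ}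
        add_mem' := fun {a b} ha hb => ⟨by rw [mul_add, ha.1, hb.1], by rw [mul_add, ha.2.1, hb.2.1],
          by rw [← L.tw_tw _ _ _ ha.1 hb.1, hb.2.2, ha.2.2]⟩
        zero_mem' := ⟨mul_zero _, mul_zero _, L.tw_zero _⟩
        neg_mem' := fun {a} ha => ⟨by rw [mul_neg, ha.1], by rw [mul_neg, ha.2.1], by
          have := L.tw_tw (-a) a (C.lp φ) (by rw [mul_neg, ha.1]) ha.1
          rwa [ha.2.2, neg_add_cancel, L.tw_zero] at this⟩ }
    have h3 := h2 B' fun c hc => hc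
    rw [ha, one_mul] at h3
    have h4 := Set.eq_of_subset_of_ncard_le (t := (B' : Set C.L)) (fun c hc => hc.1) h3
    have h5 : (Multiplicative.toAdd g.1).1 ∈ (B' : Set C.L) :=
      ⟨(hA _ (Multiplicative.toAdd g.1).2).1, (hA _ (Multiplicative.toAdd g.1).2).2,
        (hX g.1 ⟨_, hφ⟩).1.symm.trans (congrArg Subtype.val (Subgroup.mem_iInf.1 g.2 ⟨_, hφ⟩))⟩
    rw [← h4] at h5
    exact h5.2 φ rfl
  rw [s1] at h
  rcases h with h | ⟨h2, h1, k, h, hk⟩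
  · rw [s2] at h
    exact Or.inl (h.trans (Nat.mul_le_mul_right _ s3))
  · obtain ⟨Γ, hΓ⟩ := Fintype.card_eq_one_iff.1 h1
    have hz : ∀ Γ', Γ' ≠ Γ.1 → C.sm Λ0 Γ' = 0 := fun Γ' hne => by
      by_contra h0
      exact hne (congrArg Subtype.val (hΓ ⟨Γ', hsm Γ' h0⟩))
    rw [Fintype.sum_eq_single Γ fun j hj => absurd (hΓ j) hj] at hk
    refine Or.inr ⟨h2, Γ.1, _, k, Γ.2.1, ?_, (L.sup_iff _ _ hl.1).2 hz,
      h.trans (Nat.mul_le_mul_right _ s3), hk⟩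
    rw [← hsum, Fintype.sum_eq_single Γ.1 hz, L.sm_bas _ _ hb Γ.2.1]

end Cfsg.Agent.H76.GbCb
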