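import Cfsg.Agent.H98.GbH

/-! Project GB, piece JT: Schur functions are integral polynomials in the Newton sequence. -/

set_option autoImplicit false

namespace Cfsg.Agent.H76.GbJt

open Cfsg Finset Cfsg.Agent.H98.GB

universe u

section alg
variable {A : Type*} [CommRing A] [Algebra ℂ A]

theorem nw_zero (P : ℕ → A) : nw P 0 = 1 := by rw [nw]

theorem nw_succ' (P : ℕ → A) (k : ℕ) : nw P (k + 1) =
    ((k + 1 : ℕ) : ℂ)⁻¹ • ∑ ij ∈ antidiagonal k, P (ij.1 + 1) * nw P ij.2 := by
  rw [nw, Finset.Nat.sum_antidiagonal_eq_sum_range_succ (fun i j => P (i + 1) * nw P j),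
    ← Fin.sum_univ_eq_sum_range (fun i => P (i + 1) * nw P (k - i))]

theorem cast_smul (k : ℕ) (x : A) : ((k + 1 : ℕ) : ℂ) • x = x * (k + 1) := by
  rw [Nat.cast_smul_eq_nsmul, nsmul_eq_mul, mul_comm]; push_cast; rfl

theorem nw_succ (P : ℕ → A) (k : ℕ) :
    nw P (k + 1) * (k + 1) = ∑ ij ∈ antidiagonal k, P (ij.1 + 1) * nw P ij.2 := by
  rw [← cast_smul, nw_succ', smul_inv_smul₀ (Nat.cast_ne_zero.2 k.succ_ne_zero)]

theorem nw_unique (P h : ℕ → A) (h0 : h 0 = 1)
    (hs : ∀ k : ℕ, h (k + 1) * (k + 1) = ∑ ij ∈ antidiagonal k, P (ij.1 + 1) * h ij.2) (k : ℕ) :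
    nw P k = h k := by
  induction k using Nat.strong_induction_on with
  | _ k ih =>
    rcases k with _ | k
    · rw [nw_zero, h0]
    · have e : ∑ ij ∈ antidiagonal k, P (ij.1 + 1) * nw P ij.2 =
          ∑ ij ∈ antidiagonal k, P (ij.1 + 1) * h ij.2 := sum_congr rfl fun ij hij => by
        rw [ih ij.2 (by have := mem_antidiagonal.1 hij; omega)]
      rw [nw_succ', e, ← hs, ← cast_smul, inv_smul_smul₀ (Nat.cast_ne_zero.2 k.succ_ne_zero)]

theorem der (P : ℕ → A) : PowerSeries.derivative A (PowerSeries.mk (nw P)) =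
    PowerSeries.mk (fun i => P (i + 1)) * PowerSeries.mk (nw P) := by
  ext k
  rw [PowerSeries.coeff_derivative, PowerSeries.coeff_mul]
  simp only [PowerSeries.coeff_mk]
  exact nw_succ P k

theorem nw_add (P Q : ℕ → A) (k : ℕ) :
    nw (P + Q) k = ∑ ij ∈ antidiagonal k, nw P ij.1 * nw Q ij.2 := by
  have h := nw_unique (P + Q)
    (fun k => PowerSeries.coeff k (PowerSeries.mk (nw P) * PowerSeries.mk (nw Q)))
    (by simp [PowerSeries.coeff_mul, nw_zero]) (fun k => ?_) k
  · rw [h, PowerSeries.coeff_mul]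
    simp only [PowerSeries.coeff_mk]
  · have e : PowerSeries.derivative A (PowerSeries.mk (nw P) * PowerSeries.mk (nw Q)) =
        PowerSeries.mk (fun i => (P + Q) (i + 1)) *
          (PowerSeries.mk (nw P) * PowerSeries.mk (nw Q)) := by
      have : PowerSeries.mk (fun i => (P + Q) (i + 1)) =
          PowerSeries.mk (fun i => P (i + 1)) + PowerSeries.mk (fun i => Q (i + 1)) := by
        ext i; simp
      rw [Derivation.leibniz, der, der, this, smul_eq_mul, smul_eq_mul]
      ring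
    rw [← PowerSeries.coeff_derivative, e, PowerSeries.coeff_mul]
    simp only [PowerSeries.coeff_mk]

theorem nw_nil (k : ℕ) : nw (0 : ℕ → A) k = if k = 0 then 1 else 0 :=
  nw_unique 0 (fun k => if k = 0 then 1 else 0) (by simp) (fun k => by simp) k

theorem nw_pow (x : A) (P : ℕ → A) (k : ℕ) : nw (fun r => x ^ r * P r) k = x ^ k * nw P k := by
  refine nw_unique _ (fun k => x ^ k * nw P k) (by simp [nw_zero]) (fun k => ?_) k
  rw [mul_assoc, nw_succ, mul_sum]
  refine sum_congr rfl fun ij hij => ?_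
  rw [← mem_antidiagonal.1 hij]
  ring

theorem nw_sum_mem {ι : Type*} (s : Finset ι) (Q : ι → ℕ → A) (R : Subring A) (K : ℕ)
    (h : ∀ i ∈ s, ∀ j ≤ K, nw (Q i) j ∈ R) : ∀ j ≤ K, nw (∑ i ∈ s, Q i) j ∈ R := by
  refine sum_induction Q (fun P => ∀ j ≤ K, nw P j ∈ R) (fun P P' h1 h2 j hj => ?_)
    (fun j _ => ?_) h
  · rw [nw_add]
    exact R.sum_mem fun ij hij => R.mul_mem (h1 _ (by have := mem_antidiagonal.1 hij; omega))
      (h2 _ (by have := mem_antidiagonal.1 hij; omega))
  · rw [nw_nil]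
    split_ifs
    exacts [R.one_mem, R.zero_mem]

theorem prod_sign (P : ℕ → A) (μ : Multiset ℕ) :
    (μ.map fun i => (-1 : ℂ) ^ (i + 1) • P i).prod =
      (-1 : ℂ) ^ (μ.sum + μ.card) • (μ.map P).prod := by
  induction μ using Multiset.induction_on with
  | empty => simp
  | cons r μ ih =>
    rw [Multiset.map_cons, Multiset.prod_cons, ih, Multiset.map_cons, Multiset.prod_cons,
      Multiset.sum_cons, Multiset.card_cons, smul_mul_smul_comm, ← pow_add]
    congr 2
    ring

end alg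

theorem nw_eq (hN : NWEHStmt.{u}) {A : Type u} [CommRing A] [Algebra ℂ A] (P : ℕ → A) (k : ℕ) :
    nw P k = ∑ μ ∈ H19.Par k, ((H19.zM μ : ℂ))⁻¹ • (μ.map P).prod := by
  have h := (hN A).2.2.2.2.2.2.2 (fun i => (-1 : ℂ) ^ (i + 1) • P i) k
  have e : ∀ n : ℕ, (-1 : ℂ) ^ n * (-1) ^ n = 1 := fun n => by rw [← mul_pow]; simp
  simp only [ee, smul_smul, e, one_smul, prod_sign] at h
  rw [h]
  refine sum_congr rfl fun μ _ => ?_
  rw [div_mul_eq_mul_div, e, one_div]

open MvPolynomial in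
theorem jt (hN : NWEHStmt.{u}) : JTStmt.{u} := by
  intro A _ _ P R N S _ hP
  let R' : Subring (MvPolynomial (Fin N) A) := (MvPolynomial.map R.subtype).range
  let f : MvPolynomial (Fin N) ℤ →+* MvPolynomial (Fin N) A := MvPolynomial.map (Int.castRingHom A)
  have hf : ∀ x, f x ∈ R' := fun x => ⟨MvPolynomial.map (Int.castRingHom R) x, by
    rw [MvPolynomial.map_map]; exact congrArg (fun g => MvPolynomial.map g x) (RingHom.ext_int _ _)⟩
  have h1 := nw_sum_mem univ (fun (i : Fin N) r => (X i : MvPolynomial (Fin N) A) ^ r * C (P r)) R'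
    (H19.wtS S) (fun i _ j hj => by
      rw [nw_pow]
      have := ((hN A).2.2.2.1 _ (IsScalarTower.toAlgHom ℂ A (MvPolynomial (Fin N) A)) P).1 j
      refine R'.mul_mem (R'.pow_mem ⟨X i, by simp⟩ j) ⟨C ⟨_, hP j hj⟩, ?_⟩
      rw [map_C]
      exact this) _ le_rfl
  have e : (∑ i : Fin N, fun r => (X i : MvPolynomial (Fin N) A) ^ r * C (P r)) =
      fun r => f (H19.pSum N r) * C (P r) := by
    funext r
    simp [f, H19.pSum, sum_mul]
  rw [e, nw_eq hN] at h1
  obtain ⟨y, hy⟩ := R'.mul_mem h1 (hf (H19.aDel N))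
  have h2 := congrArg (coeff (Finsupp.equivFunOnFinite.symm (H19.enumS N S))) hy
  rw [coeff_map, sum_mul, coeff_sum] at h2
  have h3 : sch N P S = _ := (sum_congr rfl fun μ _ => ?_).trans h2.symm
  · rw [h3]; exact Subtype.prop _
  · have e1 : (μ.map fun r => f (H19.pSum N r)).prod = f (μ.map (H19.pSum N)).prod := by
      rw [map_multiset_prod, Multiset.map_map]; rfl
    have e2 : (μ.map fun r => (C (P r) : MvPolynomial (Fin N) A)).prod = C (μ.map P).prod := by
      rw [map_multiset_prod, Multiset.map_map]; rfl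
    rw [smul_mul_assoc, coeff_smul, Multiset.prod_map_mul, e1, e2, mul_right_comm, ← map_mul,
      mul_comm (f _), coeff_C_mul, coeff_map, div_eq_inv_mul, mul_smul, Int.cast_smul_eq_zsmul,
      zsmul_eq_mul, mul_comm]
    rfl

end Cfsg.Agent.H76.GbJt
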