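import Cfsg.Agent.H98.GbG
import Cfsg.Agent.H58.Avg
import Cfsg.Agent.H14.Induce
import Cfsg.Agent.H21.Basic
import Cfsg.Agent.S0165

/-! Project GB: twisted inductions below a character of defect zero. -/

set_option autoImplicit false
open Cfsg

namespace Cfsg.Agent.H76.GbVac0

open Cfsg.Agent.H98.GB Subgroup

universe u

theorem vanish {G : Type u} [Group G] [Finite G] {p : ℕ} (hp : p.Prime) {χ : G → ℂ}
    (hχ : IsIrrCharacter G χ) (hdvd : p ^ (Nat.card G).factorization p ∣ charDegree χ) {g : G}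
    (hg : p ∣ orderOf g) : χ g = 0 := by
  obtain ⟨n, ρ, hρ, rfl⟩ := hχ
  have h0 : Nat.card G ≠ 0 := Nat.card_pos.ne'
  refine S0165.result ρ p _ hp (Nat.ordProj_dvd _ p)
    (Nat.pow_succ_factorization_not_dvd h0 hp) ?_ g hg
  rwa [H21.charDegree_eq ρ.char_one] at hdvd

theorem not_dvd_index {G : Type u} [Group G] [Finite G] {p : ℕ} [Fact p.Prime] {l : G →* ℂˣ}
    (h : ¬ p ∣ orderOf l) : ¬ p ∣ l.ker.index := by
  intro hp
  rw [index_ker] at hp
  have : Finite l.range := Finite.Set.finite_range l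
  obtain ⟨⟨_, g, rfl⟩, hy⟩ := exists_prime_orderOf_dvd_card' p hp
  apply h
  rw [← hy, ← Subgroup.orderOf_coe]
  refine orderOf_dvd_of_pow_eq_one ?_
  change l g ^ orderOf l = 1
  rw [← MonoidHom.pow_apply, pow_orderOf_eq_one, MonoidHom.one_apply]

theorem vac0 (hO : ONEStmt.{u}) : VAC0Stmt.{u} := by
  intro G _ _ p hp l hl χ hχ hreg θ hθ j
  classical
  have h1 := (hO G l χ hχ θ hθ).1
  have hv : ∀ g, p ∣ orderOf g → χ.1 g = 0 := by
    intro g hg
    rw [← hreg, pRegularPart, if_neg (show ¬ IsPRegular p g from not_not.mpr hg)]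
  have hK : (Nat.card l.ker : ℂ) ≠ 0 := by exact_mod_cast Nat.card_pos.ne'
  have hdeg : charDegree χ.1 = l.ker.index * charDegree θ.1 := by
    refine H21.charDegree_eq ?_
    rw [← h1, av]
    simp only [MonoidHom.one_apply, Units.val_one, one_mul, mul_one, inv_mul_cancel]
    rw [H14.extendByZero_of_mem _ _ (one_mem _), Finset.sum_const, Finset.card_univ,
      ← Nat.card_eq_fintype_card, ← l.ker.card_mul_index, nsmul_eq_mul]
    push_cast
    rw [H21.cast_deg, mul_assoc, inv_mul_cancel_left₀ hK]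
    rfl
  obtain ⟨Q⟩ : Nonempty (Sylow p l.ker) := inferInstance
  have hQ : Nat.card ((Q : Subgroup l.ker).map l.ker.subtype) =
      p ^ (Nat.card l.ker).factorization p := by
    rw [card_map_of_injective l.ker.subtype_injective, Q.card_eq_multiplicity]
  have h2 : p ^ (Nat.card l.ker).factorization p ∣ charDegree χ.1 := by
    have e := H58.card_mul_fixDim ((Q : Subgroup l.ker).map l.ker.subtype) (H11.irr_isCharacter χ)
    rw [H58.sumOn_of_const (c := 0) (fun x hx x1 => hv x ?_), mul_zero, add_zero, ← H21.cast_deg,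
      hQ] at e
    · exact ⟨_, by exact_mod_cast e.symm⟩
    · have h3 := Subgroup.orderOf_dvd_natCard _ hx
      rw [hQ] at h3
      obtain ⟨k, -, hk⟩ := (Nat.dvd_prime_pow hp.out).mp h3
      rw [hk]
      exact dvd_pow_self p fun h0 => x1 (by rwa [h0, pow_zero, orderOf_eq_one_iff] at hk)
  rw [hdeg] at h2
  have h3 := (Nat.Coprime.pow_left _
    ((Nat.Prime.coprime_iff_not_dvd hp.out).mpr (not_dvd_index hl))).dvd_of_dvd_mul_left h2
  funext g
  rw [pRegularPart]
  split_ifs with hg
  · rfl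
  · rw [av, Finset.sum_eq_zero, mul_zero]
    intro x _
    by_cases hx : x⁻¹ * g * x ∈ l.ker
    · rw [H14.extendByZero_of_mem _ _ hx, vanish hp.out θ.2 h3, mul_zero]
      rw [← Subgroup.orderOf_coe]
      have := (MulAut.conj x⁻¹).orderOf_eq g
      rw [MulAut.conj_apply, inv_inv] at this
      rw [this]
      exact not_not.mp hg
    · rw [H14.extendByZero_of_not_mem _ _ hx, mul_zero]

end Cfsg.Agent.H76.GbVac0
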