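import Mathlib
import Cfsg.Agent.H89.L27Defs
import Cfsg.Agent.H50.E83Nact

/-! The number of points of the twisted form of `v + sl₃` on the invariant quadric. -/

set_option autoImplicit false
set_option maxRecDepth 100000

namespace Cfsg.Agent.H76.L27Cnt

open Equiv Cfsg.Lie H37 H40 H34 H29 Module Cfsg.Agent.H50.E83 Cfsg.Agent.H89.L27
open scoped Matrix MatrixGroups Classical

open Polynomial in
theorem exists_roots {F : Type*} [Field F] (a : F) {k : ℕ} (hk : 2 ≤ k) :
    ∃ R : Finset F, R.card ≤ k ∧ ∀ x, x = a * x ^ k → x ∈ R := by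
  have h0 : (C a * X ^ k - X : F[X]) ≠ 0 := by
    intro h
    have := congrArg (coeff · 1) h
    simp [coeff_X_pow, show 1 ≠ k by omega] at this
  refine ⟨(C a * X ^ k - X : F[X]).roots.toFinset, ?_, fun x hx => ?_⟩
  · refine (Multiset.toFinset_card_le _).trans ((card_roots' _).trans ?_)
    refine (natDegree_sub_le _ _).trans (max_le (natDegree_C_mul_X_pow_le _ _) ?_)
    rw [natDegree_X]
    omega
  · rw [Multiset.mem_toFinset, mem_roots h0, IsRoot.def]
    simp only [eval_sub, eval_mul, eval_C, eval_pow, eval_X]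
    rw [← hx, sub_self]

theorem nr : chevE8.nroots = 240 := by decide +kernel
theorem rk : chevE8.rank = 8 := by decide +kernel
theorem s6 : chevE8.simple 6 = 121 := by decide +kernel
theorem s7 : chevE8.simple 7 = 120 := by decide +kernel

/-- A root by its number. -/
def rt (k : ℕ) (h : k < 240 := by norm_num) : Rt := ⟨k, h.trans_eq nr.symm⟩
/-- A node by its number. -/
def nd (k : ℕ) (h : k < 8 := by norm_num) : Fin chevE8.rank := ⟨k, h.trans_eq rk.symm⟩

theorem expand (u : V) : u = ∑ i : Fin chevE8.rank, u (Sum.inl i) • hV chevE8 K i +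
    ∑ r : Rt, u (Sum.inr r) • eV chevE8 K r := by
  funext x
  rcases x with j | s
  · simp [hV, eV, Finset.sum_apply, Fin.val_inj]
  · simp [hV, eV, Finset.sum_apply, Fin.val_inj]

section

variable {N : Module.End K V} {w : Perm Rt} {c : Rt → Kˣ}
  (h1 : ∀ r : Rt, N (eV chevE8 K r) = (c r : K) • eV chevE8 K (w r))
  (h2 : ∀ r : Rt, N (hR chevE8 K r) = hR chevE8 K (w r))
include h1 h2

theorem N_expand (u : V) : N u =
    ∑ i : Fin chevE8.rank, u (Sum.inl i) • hR chevE8 K (w (C8.R.simple i)) +
    ∑ r : Rt, u (Sum.inr r) • (c r : K) • eV chevE8 K (w r) := by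
  conv_lhs => rw [expand u]
  rw [map_add, map_sum, map_sum]
  congr 1
  · refine Finset.sum_congr rfl fun i _ => ?_
    rw [map_smul, ← h2, C8.simple_val, hR_simple C8.V.basic i.2]
  · exact Finset.sum_congr rfl fun r _ => by rw [map_smul, h1]

theorem N_inr (u : V) (r : Rt) : N u (Sum.inr (w r)) = c r * u (Sum.inr r) := by
  rw [N_expand h1 h2]
  simp [hR, eV, Finset.sum_apply, Fin.val_inj, mul_comm]

theorem N_inl (hw : Sw w) {u : V} (hu : u ∈ U8) :
    N u (Sum.inl (nd 7)) = u (Sum.inl (nd 6)) ∧ N u (Sum.inl (nd 6)) = u (Sum.inl (nd 7)) := by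
  have e6 : hR chevE8 K (w (C8.R.simple (nd 6))) = hV chevE8 K 7 := by
    rw [hw _ (121, 120) (by simp) ((C8.simple_val _).trans s6)]
    exact (congrArg _ s7.symm).trans (hR_simple C8.V.basic (nd 7).2)
  have e7 : hR chevE8 K (w (C8.R.simple (nd 7))) = hV chevE8 K 6 := by
    rw [hw _ (120, 121) (by simp) ((C8.simple_val _).trans s7)]
    exact (congrArg _ s6.symm).trans (hR_simple C8.V.basic (nd 6).2)
  have e : ∑ i : Fin chevE8.rank, u (Sum.inl i) • hR chevE8 K (w (C8.R.simple i)) =
      u (Sum.inl (nd 6)) • hV chevE8 K 7 + u (Sum.inl (nd 7)) • hV chevE8 K 6 := by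
    rw [← e6, ← e7]
    refine Fintype.sum_eq_add (nd 6) (nd 7) (fun h => by simpa [nd] using congrArg Fin.val h)
      fun i hi => ?_
    have h6 : (i : ℕ) ≠ 6 := fun h => hi.1 (Fin.ext h)
    have h7 : (i : ℕ) ≠ 7 := fun h => hi.2 (Fin.ext h)
    have h8 : (i : ℕ) < 8 := i.2.trans_eq rk
    rw [hu.1 i (by omega), zero_smul]
  rw [N_expand h1 h2, e]
  constructor <;> simp [hV, eV, Finset.sum_apply, nd]

end

theorem σV_sub (a b : V) : σV (a - b) = σV a - σV b := by
  funext i
  exact map_sub fr (a i) (b i)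

theorem σV_mem {u : V} (hu : u ∈ U8) : σV u ∈ U8 :=
  ⟨fun i hi => by simp [σV, hu.1 i hi], fun r hr => by simp [σV, hu.2 r hr]⟩

theorem kap_eq {a b : V} (hl : ∀ i, a (Sum.inl i) = b (Sum.inl i))
    (hr : ∀ r : Rt, r ≠ rt 117 → a (Sum.inr r) = b (Sum.inr r)) (h0 : a (Sum.inr (rt 122)) ≠ 0)
    (h : kap a a = kap b b) : a (Sum.inr (rt 117)) = b (Sum.inr (rt 117)) := by
  have r1 : Fin.rev (rt 117) = rt 122 := Fin.ext (by
    rw [Fin.val_rev]
    have := nr
    change chevE8.nroots - (117 + 1) = 122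
    omega)
  have r2 : Fin.rev (rt 122) = rt 117 := by rw [← r1, Fin.rev_rev]
  have ne : rt 117 ≠ rt 122 := fun h => by simpa [rt] using congrArg Fin.val h
  simp only [kap, hl, add_right_inj] at h
  rw [← sub_eq_zero, ← Finset.sum_sub_distrib, Fintype.sum_eq_add (rt 117) (rt 122) ne
    (fun r hr' => by
      rw [hr r hr'.1, hr (Fin.rev r) (fun e => hr'.2 (by rw [← r1, ← e, Fin.rev_rev])), sub_self]),
    r1, r2, ← hr _ ne.symm] at h
  have h3 : (3 : K) = 0 := CharP.cast_eq_zero K 3
  have h4 : a (Sum.inr (rt 122)) * (a (Sum.inr (rt 117)) - b (Sum.inr (rt 117))) = 0 := by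
    linear_combination (-1 : K) * h +
      (a (Sum.inr (rt 122)) * (a (Sum.inr (rt 117)) - b (Sum.inr (rt 117)))) * h3
  exact sub_eq_zero.mp ((mul_eq_zero.mp h4).resolve_left h0)

theorem cnt : H89.L27.CntStmt := by
  intro n hn hw v hv T hT
  obtain ⟨⟨c, h1⟩, h2⟩ := nact n hn
  have ν : ∀ (a b : ℕ) (ha : a < 240) (hb : b < 240), (a, b) ∈ [(117, 117), (118, 119), (119, 118),
      (120, 121), (121, 120), (122, 122)] → ∀ w ∈ T,
      w (Sum.inr (rt b hb)) = c (rt a ha) * w (Sum.inr (rt a ha)) ^ 3 := by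
    intro a b ha hb hab w hwT
    have e : P8.ν n (rt a ha) = rt b hb := Fin.ext (hw _ _ hab rfl)
    have := N_inr h1 h2 (σV w) (rt a ha)
    rw [(hT w hwT).2.1, e] at this
    exact this
  have μ : ∀ w ∈ T, (w - v) (Sum.inl (nd 7)) = (w - v) (Sum.inl (nd 6)) ^ 3 ∧
      (w - v) (Sum.inl (nd 6)) = (w - v) (Sum.inl (nd 7)) ^ 3 := by
    intro w hwT
    have := N_inl h1 h2 hw (σV_mem (hT w hwT).1)
    rw [σV_sub, map_sub, (hT w hwT).2.1, hv, ← σV_sub] at this
    exact this
  obtain ⟨R1, c1, m1⟩ := exists_roots ((c (rt 121) : K) * c (rt 120) ^ 3) (k := 9) (by norm_num)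
  obtain ⟨R2, c2, m2⟩ := exists_roots ((c (rt 118) : K) * c (rt 119) ^ 3) (k := 9) (by norm_num)
  obtain ⟨R3, c3, m3⟩ := exists_roots (1 : K) (k := 9) (by norm_num)
  obtain ⟨R4, c4, m4⟩ := exists_roots (c (rt 117) : K) (k := 3) (by norm_num)
  obtain ⟨R5, c5, m5⟩ := exists_roots (c (rt 122) : K) (k := 3) (by norm_num)
  have c6 : (R5.erase 0).card ≤ 2 := by
    rw [Finset.card_erase_of_mem (m5 0 (by simp))]
    omega
  let Φ : V → K × K × K × (K ⊕ K) := fun w => (w (Sum.inr (rt 120)), w (Sum.inr (rt 119)),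
    (w - v) (Sum.inl (nd 6)), if w (Sum.inr (rt 122)) = 0 then Sum.inl (w (Sum.inr (rt 117)))
      else Sum.inr (w (Sum.inr (rt 122))))
  have hc : T.card ≤ (R1 ×ˢ R2 ×ˢ R3 ×ˢ (R4.disjSum (R5.erase 0))).card := by
    refine Finset.card_le_card_of_injOn Φ (fun w hwT => ?_) fun a ha b hb hab => ?_
    · simp only [Finset.coe_product, Set.mem_prod, Finset.mem_coe, Φ]
      refine ⟨m1 _ ?_, m2 _ ?_, m3 _ ?_, ?_⟩
      · have e1 := ν 121 120 (by norm_num) (by norm_num) (by simp) w hwT
        have e2 := ν 120 121 (by norm_num) (by norm_num) (by simp) w hwT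
        rw [e2] at e1
        linear_combination e1
      · have e1 := ν 118 119 (by norm_num) (by norm_num) (by simp) w hwT
        have e2 := ν 119 118 (by norm_num) (by norm_num) (by simp) w hwT
        rw [e2] at e1
        linear_combination e1
      · obtain ⟨e1, e2⟩ := μ w hwT
        rw [e1] at e2
        linear_combination e2
      · split_ifs with h
        · exact Finset.inl_mem_disjSum.mpr
            (m4 _ (ν 117 117 (by norm_num) (by norm_num) (by simp) w hwT))
        · exact Finset.inr_mem_disjSum.mpr (Finset.mem_erase.mpr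
            ⟨h, m5 _ (ν 122 122 (by norm_num) (by norm_num) (by simp) w hwT)⟩)
    · simp only [Φ, Prod.mk.injEq] at hab
      obtain ⟨q1, q2, q3, q4⟩ := hab
      have hl : ∀ i, a (Sum.inl i) = b (Sum.inl i) := by
        intro i
        have key : (a - v) (Sum.inl i) = (b - v) (Sum.inl i) := by
          have h8 : (i : ℕ) < 8 := i.2.trans_eq rk
          by_cases h6 : (i : ℕ) < 6
          · rw [(hT a ha).1.1 i h6, (hT b hb).1.1 i h6]
          · rcases (by omega : (i : ℕ) = 6 ∨ (i : ℕ) = 7) with h | h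
            · rw [show i = nd 6 from Fin.ext h, q3]
            · rw [show i = nd 7 from Fin.ext h, (μ a ha).1, (μ b hb).1, q3]
        exact sub_left_injective key
      have hr : ∀ r : Rt, r ≠ rt 117 → r ≠ rt 122 → a (Sum.inr r) = b (Sum.inr r) := by
        intro r r1 r2
        by_cases hA : (r : ℕ) ∈ A2
        · have n1 : (r : ℕ) ≠ 117 := fun h => r1 (Fin.ext h)
          have n2 : (r : ℕ) ≠ 122 := fun h => r2 (Fin.ext h)
          simp only [A2, List.mem_cons, List.not_mem_nil, or_false, n1, n2, false_or] at hA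
          rcases hA with h | h | h | h
          · rw [show r = rt 118 from Fin.ext h,
              ν 119 118 (by norm_num) (by norm_num) (by simp) a ha,
              ν 119 118 (by norm_num) (by norm_num) (by simp) b hb, q2]
          · rw [show r = rt 119 from Fin.ext h, q2]
          · rw [show r = rt 120 from Fin.ext h, q1]
          · rw [show r = rt 121 from Fin.ext h,
              ν 120 121 (by norm_num) (by norm_num) (by simp) a ha,
              ν 120 121 (by norm_num) (by norm_num) (by simp) b hb, q1]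
        · have key : (a - v) (Sum.inr r) = (b - v) (Sum.inr r) := by
            rw [(hT a ha).1.2 r hA, (hT b hb).1.2 r hA]
          exact sub_left_injective key
      have h2 : a (Sum.inr (rt 117)) = b (Sum.inr (rt 117)) ∧
          a (Sum.inr (rt 122)) = b (Sum.inr (rt 122)) := by
        split_ifs at q4 with ha0 hb0 hb0
        · exact ⟨Sum.inl_injective q4, ha0.trans hb0.symm⟩
        · have q5 := Sum.inr_injective q4
          refine ⟨kap_eq hl (fun r r1 => ?_) ha0 ((hT a ha).2.2.trans (hT b hb).2.2.symm), q5⟩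
          by_cases r2 : r = rt 122
          · rw [r2, q5]
          · exact hr r r1 r2
      funext x
      rcases x with i | r
      · exact hl i
      · by_cases r1 : r = rt 117
        · rw [r1, h2.1]
        · by_cases r2 : r = rt 122
          · rw [r2, h2.2]
          · exact hr r r1 r2
  rw [Finset.card_product, Finset.card_product, Finset.card_product, Finset.card_disjSum] at hc
  refine hc.trans ?_
  calc R1.card * (R2.card * (R3.card * (R4.card + (R5.erase 0).card)))
      ≤ 9 * (9 * (9 * (3 + 2))) := by gcongr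
    _ = 3645 := by norm_num

end Cfsg.Agent.H76.L27Cnt
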