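import Mathlib

/-!
# A Lagrangian invariant under `g + g⁻¹` meeting its image in eigenvectors
-/

set_option autoImplicit false

namespace Cfsg.Agent.H76.OreSp

open Module Polynomial

variable {F V : Type*} [Field F] [AddCommGroup V] [Module F V]

/-- `g` is an isometry of the alternating form `B` with inverse `h` -/
structure Sy (B : LinearMap.BilinForm F V) (g h : End F V) : Prop where
  alt : B.IsAlt
  gh : ∀ x, g (h x) = x
  hg : ∀ x, h (g x) = x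
  adj : ∀ x y, B (g x) y = B x (h y)

theorem ev_mul (T : End F V) (r s : F[X]) (x : V) :
    aeval T (r * s) x = aeval T r (aeval T s x) := by rw [map_mul]; rfl

theorem ev_comm (T : End F V) (r s : F[X]) (x : V) :
    aeval T r (aeval T s x) = aeval T s (aeval T r x) := by rw [← ev_mul, mul_comm, ev_mul]

theorem ev_of_comm {T k : End F V} (hk : ∀ x, k (T x) = T (k x)) (r : F[X]) (x : V) :
    k (aeval T r x) = aeval T r (k x) := by
  induction r using Polynomial.induction_on generalizing x with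
  | C a => simp [Algebra.algebraMap_eq_smul_one]
  | add p q hp hq => simp [hp, hq]
  | monomial n a ih => rw [pow_succ, ← mul_assoc, ev_mul _ _ X, ev_mul _ _ X, ih, aeval_X, hk]

theorem ev_mem {T : End F V} {W : Submodule F V} (hW : ∀ x ∈ W, T x ∈ W) (r : F[X]) {x : V}
    (hx : x ∈ W) : aeval T r x ∈ W := by
  induction r using Polynomial.induction_on generalizing x with
  | C a => simpa [Algebra.algebraMap_eq_smul_one] using W.smul_mem a hx
  | add p q hp hq => simpa using W.add_mem (hp hx) (hq hx)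
  | monomial n a ih => rw [pow_succ, ← mul_assoc, ev_mul, aeval_X]; exact ih (hW x hx)

theorem ev_red (T : End F V) {c : F} {j : ℕ} {e : V} (he : aeval T ((X - C c) ^ (j + 1)) e = 0)
    (a : F[X]) : aeval T ((X - C c) ^ j * a) e = a.eval c • aeval T ((X - C c) ^ j) e := by
  obtain ⟨a', ha⟩ : X - C c ∣ a - C (a.eval c) := dvd_iff_isRoot.2 (by simp)
  rw [show (X - C c) ^ j * a = C (a.eval c) * (X - C c) ^ j + a' * (X - C c) ^ (j + 1) by
    linear_combination (X - C c) ^ j * ha, map_add, LinearMap.add_apply, ev_mul _ a', he, map_zero,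
    add_zero, ev_mul]
  simp [Algebra.algebraMap_eq_smul_one]

/-- the cyclic submodule -/
noncomputable def cyc (T : End F V) (e : V) : Submodule F V :=
  LinearMap.range (LinearMap.applyₗ e ∘ₗ (aeval T).toLinearMap)

theorem mem_cyc {T : End F V} {e x : V} : x ∈ cyc T e ↔ ∃ r : F[X], aeval T r e = x := Iff.rfl

theorem self_mem_cyc (T : End F V) (e : V) : e ∈ cyc T e := ⟨1, by simp⟩

theorem cyc_inv (T : End F V) (e : V) : ∀ x ∈ cyc T e, T x ∈ cyc T e := by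
  rintro _ ⟨r, rfl⟩
  exact mem_cyc.2 ⟨X * r, by rw [ev_mul, aeval_X]; rfl⟩

theorem cyc_le {T : End F V} {W : Submodule F V} (hW : ∀ x ∈ W, T x ∈ W) {e : V} (he : e ∈ W) :
    cyc T e ≤ W := by
  rintro _ ⟨r, rfl⟩
  exact ev_mem hW r he

theorem sup_inv {T : End F V} {W W' : Submodule F V} (hW : ∀ x ∈ W, T x ∈ W)
    (hW' : ∀ x ∈ W', T x ∈ W') : ∀ x ∈ W ⊔ W', T x ∈ W ⊔ W' := fun x hx => by
  obtain ⟨y, hy, z, hz, rfl⟩ := Submodule.mem_sup.1 hx
  rw [map_add]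
  exact Submodule.add_mem_sup (hW y hy) (hW' z hz)

theorem iter (T : End F V) {Y : Submodule F V} (hY : ∀ x ∈ Y, T x ∈ Y) (φ ψ : V →ₗ[F] F)
    {m₁ m₃ : End F V} (c1 : ∀ x, m₁ (T x) = T (m₁ x)) (c3 : ∀ x, m₃ (T x) = T (m₃ x))
    (h3 : ∀ x ∈ Y, m₃ x ∈ Y) {c : F} {d : ℕ}
    (h0 : ∀ y ∈ Y, aeval T ((X - C c) ^ (d + 1)) (m₁ y) = 0) (h1 : ∀ y ∈ Y, ψ (m₃ y) = 0)
    (h2 : ∀ y ∈ Y, ψ y ≠ 0 → φ (aeval T ((X - C c) ^ d) (m₁ (m₃ y))) ≠ 0) {e : V} (he : e ∈ Y)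
    (he' : ψ e ≠ 0) : ∃ e' ∈ Y, ψ e' ≠ 0 ∧ ∀ r : F[X], φ (aeval T r (m₁ e')) = 0 := by
  have key : ∀ i ≤ d + 1, ∃ e' ∈ Y, ψ e' ≠ 0 ∧
      ∀ r, φ (aeval T ((X - C c) ^ (d + 1 - i) * r) (m₁ e')) = 0 := by
    intro i
    induction i with
    | zero => exact fun _ => ⟨e, he, he', fun r => by
        rw [Nat.sub_zero, mul_comm, ev_mul, h0 e he, map_zero, map_zero]⟩
    | succ i ih =>
      intro hi
      obtain ⟨e₁, k1, k2, k3⟩ := ih (by omega)
      obtain ⟨l, rfl⟩ : ∃ l, d = l + i := ⟨d - i, by omega⟩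
      rw [show l + i + 1 - i = l + 1 by omega] at k3
      rw [show l + i + 1 - (i + 1) = l by omega]
      have m := ev_mem hY ((X - C c) ^ i) k1
      refine ⟨e₁ - (φ (aeval T ((X - C c) ^ l) (m₁ e₁)) /
        φ (aeval T ((X - C c) ^ (l + i)) (m₁ (m₃ e₁)))) • m₃ (aeval T ((X - C c) ^ i) e₁),
        Y.sub_mem k1 (Y.smul_mem _ (h3 _ m)), by rwa [map_sub, map_smul, h1 _ m, smul_zero, sub_zero], fun r => ?_⟩
      obtain ⟨r', hr⟩ : X - C c ∣ r - C (r.eval c) := dvd_iff_isRoot.2 (by simp)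
      have e1 : φ (aeval T ((X - C c) ^ l * r) (m₁ e₁)) =
          r.eval c * φ (aeval T ((X - C c) ^ l) (m₁ e₁)) := by
        rw [show (X - C c) ^ l * r = C (r.eval c) * (X - C c) ^ l + (X - C c) ^ (l + 1) * r' by
          linear_combination (X - C c) ^ l * hr, map_add, LinearMap.add_apply, map_add, k3, ev_mul]
        simp [Algebra.algebraMap_eq_smul_one]
      rw [map_sub, map_sub, map_sub, e1, map_smul, map_smul, map_smul, ev_of_comm c3,
        ev_of_comm c1, ← ev_mul, mul_right_comm, ← pow_add, ev_red _ (h0 _ (h3 _ k1)), map_smul]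
      have := h2 _ k1 k2
      simp only [smul_eq_mul]
      field_simp
      ring
  simpa using key (d + 1) le_rfl

variable {B : LinearMap.BilinForm F V} {g h : End F V}

namespace Sy
variable (S : Sy B g h)
include S

theorem adj' (x y : V) : B (h x) y = B x (g y) := by
  rw [← S.hg y, ← S.adj, S.gh, S.hg]

theorem skew (x y : V) : B x y = -B y x := (S.alt.neg_eq y x).symm

theorem gT (x : V) : g ((g + h) x) = (g + h) (g x) := by simp [S.gh, S.hg]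

theorem hT (x : V) : h ((g + h) x) = (g + h) (h x) := by simp [S.gh, S.hg]

theorem ev_adj (r : F[X]) (x y : V) : B (aeval (g + h) r x) y = B x (aeval (g + h) r y) := by
  induction r using Polynomial.induction_on generalizing x y with
  | C a => simp [Algebra.algebraMap_eq_smul_one]
  | add p q hp hq => simp [hp, hq]
  | monomial n a ih =>
    rw [pow_succ, ← mul_assoc, ev_mul, ih, mul_comm _ X, ev_mul _ X, aeval_X]
    generalize aeval (g + h) (C a * X ^ n) y = z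
    simp [S.adj, S.adj', add_comm]

theorem ev_iso (r : F[X]) (x : V) : B x (aeval (g + h) r x) = 0 := by
  have key : ∀ n : ℕ, ∀ x, B x (aeval (g + h) (X ^ n : F[X]) x) = 0 := by
    intro n
    induction n using Nat.twoStepInduction with
    | zero => intro x; simpa using S.alt x
    | one => intro x; simp [← S.adj, S.skew (g x) x]
    | more n ih _ =>
      intro x
      rw [show (X ^ (n + 2) : F[X]) = X * (X ^ n * X) by ring, ev_mul, ← S.ev_adj, ev_mul, ih]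
  induction r using Polynomial.induction_on' with
  | add p q hp hq => simp [hp, hq]
  | monomial n a => rw [← smul_X_eq_monomial, map_smul, LinearMap.smul_apply, map_smul, key,
      smul_zero]

theorem cyc_iso (e : V) : ∀ x ∈ cyc (g + h) e, ∀ y ∈ cyc (g + h) e, B x y = 0 := by
  rintro _ ⟨r, rfl⟩ _ ⟨s, rfl⟩
  exact (S.ev_adj r e _).trans ((congrArg (B e) (ev_mul _ r s e).symm).trans (S.ev_iso _ e))

theorem sup_iso {e₁ e₂ : V} (h12 : ∀ r : F[X], B e₁ (aeval (g + h) r e₂) = 0) :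
    ∀ x ∈ cyc (g + h) e₁ ⊔ cyc (g + h) e₂, ∀ y ∈ cyc (g + h) e₁ ⊔ cyc (g + h) e₂, B x y = 0 := by
  have k : ∀ x ∈ cyc (g + h) e₁, ∀ y ∈ cyc (g + h) e₂, B x y = 0 := by
    rintro _ ⟨r, rfl⟩ _ ⟨s, rfl⟩
    exact (S.ev_adj r e₁ _).trans ((congrArg (B e₁) (ev_mul _ r s e₂).symm).trans (h12 _))
  intro x hx y hy
  obtain ⟨x₁, a1, x₂, a2, rfl⟩ := Submodule.mem_sup.1 hx
  obtain ⟨y₁, b1, y₂, b2, rfl⟩ := Submodule.mem_sup.1 hy
  simp [S.cyc_iso _ _ a1 _ b1, S.cyc_iso _ _ a2 _ b2, k _ a1 _ b2, S.skew x₂ y₁, k _ b1 _ a2]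

end Sy

/-- a good Lagrangian `L` of the invariant nondegenerate subspace `U` -/
structure Pc (B : LinearMap.BilinForm F V) (g h : End F V) (U L : Submodule F V) : Prop where
  gU : ∀ u ∈ U, g u ∈ U
  hU : ∀ u ∈ U, h u ∈ U
  le : L ≤ U
  nd : ∀ u ∈ U, (∀ y ∈ U, B u y = 0) → u = 0
  inv : ∀ x ∈ L, (g + h) x ∈ L
  iso : ∀ x ∈ L, ∀ y ∈ L, B x y = 0
  max : ∀ u ∈ U, (∀ y ∈ L, B u y = 0) → u ∈ L
  eig : ∀ x ∈ L, g x ∈ L → g (g x) = x ∧ ((2 : F) = 0 → g x = x)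
  all : (∀ x ∈ L, g x ∈ L) → ∀ u ∈ U, g (g u) = u

theorem pc_bot : Pc B g h ⊥ ⊥ := by
  constructor <;> simp +contextual

theorem Pc.sup (S : Sy B g h) {U L U' L' : Submodule F V} (P : Pc B g h U L) (P' : Pc B g h U' L')
    (o : ∀ x ∈ U, ∀ y ∈ U', B x y = 0) : Pc B g h (U ⊔ U') (L ⊔ L') := by
  have o' : ∀ x ∈ U', ∀ y ∈ U, B x y = 0 := fun x hx y hy => by rw [S.skew, o y hy x hx, neg_zero]
  have iso : ∀ x ∈ L ⊔ L', ∀ y ∈ L ⊔ L', B x y = 0 := fun x hx y hy => by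
    obtain ⟨x₁, a1, x₂, a2, rfl⟩ := Submodule.mem_sup.1 hx
    obtain ⟨y₁, b1, y₂, b2, rfl⟩ := Submodule.mem_sup.1 hy
    simp [P.iso _ a1 _ b1, P'.iso _ a2 _ b2, o _ (P.le a1) _ (P'.le b2), o' _ (P'.le a2) _ (P.le b1)]
  have mx : ∀ x₁ ∈ U, ∀ x₂ ∈ U', (∀ y ∈ L ⊔ L', B (x₁ + x₂) y = 0) → x₁ ∈ L ∧ x₂ ∈ L' :=
    fun x₁ a1 x₂ a2 H => ⟨P.max _ a1 fun y hy => by
      simpa [o' _ a2 _ (P.le hy)] using H y (Submodule.mem_sup_left hy), P'.max _ a2 fun y hy => by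
      simpa [o _ a1 _ (P'.le hy)] using H y (Submodule.mem_sup_right hy)⟩
  refine ⟨sup_inv P.gU P'.gU, sup_inv P.hU P'.hU, sup_le_sup P.le P'.le, fun u hu H => ?_,
    sup_inv P.inv P'.inv, iso, fun u hu H => ?_, fun x hx H => ?_, fun H u hu => ?_⟩
  · obtain ⟨x₁, a1, x₂, a2, rfl⟩ := Submodule.mem_sup.1 hu
    rw [P.nd _ a1 fun y hy => by simpa [o' _ a2 _ hy] using H y (Submodule.mem_sup_left hy),
      P'.nd _ a2 fun y hy => by simpa [o _ a1 _ hy] using H y (Submodule.mem_sup_right hy), add_zero]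
  · obtain ⟨x₁, a1, x₂, a2, rfl⟩ := Submodule.mem_sup.1 hu
    exact Submodule.add_mem_sup (mx _ a1 _ a2 H).1 (mx _ a1 _ a2 H).2
  · obtain ⟨x₁, a1, x₂, a2, rfl⟩ := Submodule.mem_sup.1 hx
    rw [map_add] at H
    obtain ⟨k1, k2⟩ := mx _ (P.gU _ (P.le a1)) _ (P'.gU _ (P'.le a2)) (iso _ H)
    exact ⟨by rw [map_add, map_add, (P.eig _ a1 k1).1, (P'.eig _ a2 k2).1], fun h2 => by
      rw [map_add, (P.eig _ a1 k1).2 h2, (P'.eig _ a2 k2).2 h2]⟩
  · obtain ⟨x₁, a1, x₂, a2, rfl⟩ := Submodule.mem_sup.1 hu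
    rw [map_add, map_add, P.all (fun x hx => (mx _ (P.gU _ (P.le hx)) _ (zero_mem _) (by
      simpa using iso _ (H x (Submodule.mem_sup_left hx)))).1) _ a1,
      P'.all (fun x hx => (mx _ (zero_mem _) _ (P'.gU _ (P'.le hx)) (by
      simpa using iso _ (H x (Submodule.mem_sup_right hx)))).2) _ a2]

theorem pc_of_nd (S : Sy B g h) {L : Submodule F V} (inv : ∀ x ∈ L, (g + h) x ∈ L)
    (iso : ∀ x ∈ L, ∀ y ∈ L, B x y = 0) (nd : ∀ x ∈ L, (∀ y ∈ L, B x (g y) = 0) → x = 0) :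
    Pc B g h (L ⊔ L.map g) L := by
  have nd' : ∀ x ∈ L, (∀ y ∈ L, B (g x) y = 0) → x = 0 := fun x hx H => nd x hx fun y hy => by
    have := iso x hx _ (inv y hy)
    rwa [LinearMap.add_apply, map_add, ← S.adj, H y hy, add_zero] at this
  have mem : ∀ x ∈ L, ∀ y ∈ L, x + g y ∈ L ⊔ L.map g := fun x hx y hy =>
    Submodule.add_mem_sup hx ⟨y, hy, rfl⟩
  have mx : ∀ u ∈ L ⊔ L.map g, (∀ y ∈ L, B u y = 0) → u ∈ L := fun u hu H => by
    obtain ⟨x, a1, _, ⟨y, a2, rfl⟩, rfl⟩ := Submodule.mem_sup.1 hu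
    rwa [nd' y a2 fun z hz => by simpa [iso x a1 z hz] using H z hz, map_zero, add_zero]
  have k : ∀ x ∈ L, g x ∈ L → x = 0 := fun x hx H => nd' x hx (iso _ H)
  refine ⟨fun u hu => ?_, fun u hu => ?_, le_sup_left, fun u hu H => nd u
    (mx u hu fun y hy => H y (Submodule.mem_sup_left hy)) fun y hy => H _
      (Submodule.mem_sup_right ⟨y, hy, rfl⟩), inv, iso, mx, fun x hx H => by simp [k x hx H],
    fun H u hu => ?_⟩
  · obtain ⟨x, a1, _, ⟨y, a2, rfl⟩, rfl⟩ := Submodule.mem_sup.1 hu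
    convert mem _ (neg_mem a2) _ (add_mem a1 (inv y a2)) using 1
    simp only [map_add, LinearMap.add_apply, S.gh]; abel
  · obtain ⟨x, a1, _, ⟨y, a2, rfl⟩, rfl⟩ := Submodule.mem_sup.1 hu
    convert mem _ (add_mem a2 (inv x a1)) _ (neg_mem a1) using 1
    simp only [map_add, LinearMap.add_apply, S.hg, map_neg]; abel
  · obtain ⟨x, a1, _, ⟨y, a2, rfl⟩, rfl⟩ := Submodule.mem_sup.1 hu
    simp [k x a1 (H x a1), k y a2 (H y a2)]

theorem le_of_nd {L Y : Submodule F V} (hL : L ≤ Y) (hY : ∀ y ∈ Y, g y ∈ Y) : L ⊔ L.map g ≤ Y :=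
  sup_le hL (by rintro _ ⟨y, hy, rfl⟩; exact hY y (hL hy))

theorem pc_one (S : Sy B g h) {p a : F[X]} (hp : Irreducible p) {j : ℕ} {x : V}
    (h0 : aeval (g + h) (p ^ (j + 1)) x = 0) (h1 : B x (aeval (g + h) (a * p ^ j) (g x)) ≠ 0) :
    Pc B g h (cyc (g + h) x ⊔ (cyc (g + h) x).map g) (cyc (g + h) x) := by
  refine pc_of_nd S (cyc_inv _ _) (S.cyc_iso x) ?_
  rintro _ ⟨b, rfl⟩ H
  change aeval (g + h) b x = 0
  by_contra hb
  obtain ⟨i, b', k1, rfl⟩ := WfDvdMonoid.max_power_factor (a₀ := b) (by rintro rfl; simp at hb) hp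
  obtain ⟨l, rfl⟩ : ∃ l, j = i + l := Nat.exists_eq_add_of_le (by
    by_contra hj
    obtain ⟨l, rfl⟩ : ∃ l, i = j + 1 + l := Nat.exists_eq_add_of_le (by omega)
    exact hb (by rw [pow_add, mul_assoc, mul_comm, ev_mul, h0, map_zero]))
  obtain ⟨u, v, e⟩ := hp.coprime_iff_not_dvd.2 k1
  refine h1 ?_
  rw [show a * p ^ (i + l) = p ^ i * b' * (a * v * p ^ l) + a * u * p ^ (i + l + 1) by
    linear_combination (-a * p ^ (i + l)) * e, map_add, LinearMap.add_apply, ev_mul _ (a * u),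
    ← ev_of_comm S.gT (p ^ (i + l + 1)), h0, map_zero, map_zero, add_zero, ev_mul, ← S.ev_adj,
    ← ev_of_comm S.gT]
  exact H _ ⟨_, rfl⟩

theorem pc_two (S : Sy B g h) {c : F} {j : ℕ} {e₁ e₂ : V}
    (z1 : aeval (g + h) ((X - C c) ^ (j + 1)) e₁ = 0)
    (z2 : aeval (g + h) ((X - C c) ^ (j + 1)) e₂ = 0)
    (h12 : ∀ r : F[X], B e₁ (aeval (g + h) r e₂) = 0)
    (θ : B e₁ (aeval (g + h) ((X - C c) ^ j) (g e₂)) ≠ 0)
    (h1 : B e₁ (aeval (g + h) ((X - C c) ^ j) (g e₁)) = 0)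
    (h2 : B e₂ (aeval (g + h) ((X - C c) ^ j) (g e₂)) = 0) :
    Pc B g h (cyc (g + h) e₁ ⊔ cyc (g + h) e₂ ⊔ (cyc (g + h) e₁ ⊔ cyc (g + h) e₂).map g)
      (cyc (g + h) e₁ ⊔ cyc (g + h) e₂) := by
  have inv := sup_inv (cyc_inv (g + h) e₁) (cyc_inv (g + h) e₂)
  refine pc_of_nd S inv (S.sup_iso h12) fun x hx H => ?_
  obtain ⟨_, ⟨a, rfl⟩, _, ⟨b, rfl⟩, rfl⟩ := Submodule.mem_sup.1 hx
  change ∀ y ∈ _, B (aeval (g + h) a e₁ + aeval (g + h) b e₂) _ = 0 at H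
  change aeval (g + h) a e₁ + aeval (g + h) b e₂ = 0
  have θ' : B e₂ (aeval (g + h) ((X - C c) ^ j) (g e₁)) =
      B e₁ (aeval (g + h) ((X - C c) ^ j) (g e₂)) := by
    have := h12 ((X - C c) ^ j * X)
    rw [ev_mul, aeval_X, LinearMap.add_apply, map_add, map_add, ← ev_of_comm S.hT, ← S.adj] at this
    rw [← S.ev_adj, S.skew]
    linear_combination -this
  have key : ∀ i ≤ j + 1, (X - C c) ^ i ∣ a ∧ (X - C c) ^ i ∣ b := by
    intro i
    induction i with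
    | zero => simp
    | succ i ih =>
      intro hi
      obtain ⟨⟨a', rfl⟩, ⟨b', rfl⟩⟩ := ih (by omega)
      obtain ⟨l, rfl⟩ : ∃ l, j = l + i := ⟨j - i, by omega⟩
      have k : ∀ y ∈ cyc (g + h) e₁ ⊔ cyc (g + h) e₂,
          a'.eval c * B e₁ (aeval (g + h) ((X - C c) ^ (l + i)) (g y)) +
          b'.eval c * B e₂ (aeval (g + h) ((X - C c) ^ (l + i)) (g y)) = 0 := fun y hy => by
        have := H _ (ev_mem inv ((X - C c) ^ l) hy)
        rwa [ev_of_comm S.gT, ← S.ev_adj, map_add, ← ev_mul, ← ev_mul, ← mul_assoc, ← mul_assoc,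
          ← pow_add, ev_red _ z1, ev_red _ z2, map_add, map_smul, map_smul, LinearMap.add_apply,
          LinearMap.smul_apply, LinearMap.smul_apply, S.ev_adj, S.ev_adj] at this
      have k1 := k _ (Submodule.mem_sup_left (self_mem_cyc _ _))
      have k2 := k _ (Submodule.mem_sup_right (self_mem_cyc _ _))
      rw [h1, θ', mul_zero, zero_add, mul_eq_zero_iff_right θ] at k1
      rw [h2, mul_zero, add_zero, mul_eq_zero_iff_right θ] at k2
      exact ⟨pow_succ (X - C c) i ▸ mul_dvd_mul_left _ (dvd_iff_isRoot.2 k2),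
        pow_succ (X - C c) i ▸ mul_dvd_mul_left _ (dvd_iff_isRoot.2 k1)⟩
  obtain ⟨⟨a', rfl⟩, ⟨b', rfl⟩⟩ := key _ le_rfl
  rw [mul_comm, mul_comm _ b', ev_mul, ev_mul, z1, z2, map_zero, map_zero, add_zero]

/-- `g - ε` -/
def nn (g : End F V) (ε : F) : End F V := g - ε • 1

theorem nn_apply (g : End F V) (ε : F) (x : V) : nn g ε x = g x - ε • x := rfl

theorem pi_apply (T : End F V) (c : F) (x : V) : aeval T (X - C c) x = T x - c • x := by
  simp [Algebra.algebraMap_eq_smul_one]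

namespace Sy
variable (S : Sy B g h) {ε : F}
include S

theorem nT (x : V) : nn g ε ((g + h) x) = (g + h) (nn g ε x) := by
  rw [nn_apply, nn_apply, S.gT, map_sub, map_smul]

theorem nT' (x : V) : nn h ε ((g + h) x) = (g + h) (nn h ε x) := by
  rw [nn_apply, nn_apply, S.hT, map_sub, map_smul]

theorem n_adj (x y : V) : B (nn g ε x) y = B x (nn h ε y) := by simp [nn_apply, S.adj]

theorem nn' (hε : ε * ε = 1) (x : V) :
    nn h ε (nn g ε x) = -ε • aeval (g + h) (X - C (2 * ε)) x := by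
  rw [pi_apply]
  simp only [nn_apply, map_sub, map_smul, S.hg, LinearMap.add_apply]
  linear_combination (norm := module) (-hε) • x

theorem n'n (hε : ε * ε = 1) (x : V) :
    nn g ε (nn h ε x) = -ε • aeval (g + h) (X - C (2 * ε)) x := by
  rw [pi_apply]
  simp only [nn_apply, map_sub, map_smul, S.gh, LinearMap.add_apply]
  linear_combination (norm := module) (-hε) • x

theorem n_n (hε : ε * ε = 1) (x : V) :
    nn g ε (nn g ε x) = g (aeval (g + h) (X - C (2 * ε)) x) := by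
  rw [pi_apply]
  simp only [nn_apply, map_sub, map_smul, map_add, S.gh, LinearMap.add_apply]
  linear_combination (norm := module) hε • x

theorem succ_zero (hε : ε * ε = 1) {j : ℕ} {e : V}
    (z : aeval (g + h) ((X - C (2 * ε)) ^ j) (nn g ε e) = 0) :
    aeval (g + h) ((X - C (2 * ε)) ^ (j + 1)) e = 0 := by
  have := congrArg (nn h ε) z
  rw [ev_of_comm S.nT', S.nn' hε, map_smul, ← ev_mul, ← pow_succ, map_zero, smul_eq_zero] at this
  exact this.resolve_left (neg_ne_zero.2 (left_ne_zero_of_mul_eq_one hε))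

theorem sw (hε : ε * ε = 1) {j : ℕ} {e₁ e₂ : V}
    (z1 : aeval (g + h) ((X - C (2 * ε)) ^ j) (nn g ε e₁) = 0)
    (z2 : aeval (g + h) ((X - C (2 * ε)) ^ j) (nn g ε e₂) = 0)
    (θ : B e₁ (aeval (g + h) ((X - C (2 * ε)) ^ j) e₂) ≠ 0) (a b : F[X])
    (H1 : ∀ r : F[X], B (aeval (g + h) a (nn g ε e₁) + aeval (g + h) b e₂) (aeval (g + h) r e₁) = 0)
    (H2 : ∀ r : F[X], B (aeval (g + h) a (nn g ε e₁) + aeval (g + h) b e₂)
      (aeval (g + h) r (nn g ε e₂)) = 0) :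
    aeval (g + h) a (nn g ε e₁) = 0 ∧ aeval (g + h) b e₂ = 0 := by
  have c1 : ∀ i ≤ j, (X - C (2 * ε)) ^ i ∣ a → (X - C (2 * ε)) ^ i ∣ b →
      (X - C (2 * ε)) ^ (i + 1) ∣ b := by
    rintro i hi ⟨a', rfl⟩ ⟨b', rfl⟩
    obtain ⟨l, rfl⟩ : ∃ l, j = l + i := ⟨j - i, by omega⟩
    have := H1 ((X - C (2 * ε)) ^ l)
    rw [← S.ev_adj, map_add, ← ev_mul, ← ev_mul, ← mul_assoc, ← mul_assoc, ← pow_add,
      ev_red _ (S.succ_zero hε z2), mul_comm _ a', ev_mul, z1, map_zero, zero_add, map_smul,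
      LinearMap.smul_apply, S.skew, smul_eq_mul, mul_eq_zero_iff_right (neg_ne_zero.2 θ)] at this
    exact pow_succ (X - C (2 * ε)) i ▸ mul_dvd_mul_left _ (dvd_iff_isRoot.2 this)
  have key : ∀ i ≤ j, (X - C (2 * ε)) ^ i ∣ a ∧ (X - C (2 * ε)) ^ i ∣ b := by
    intro i
    induction i with
    | zero => simp
    | succ i ih =>
      intro hi
      obtain ⟨k1, k2⟩ := ih (by omega)
      have k3 := c1 i (by omega) k1 k2
      refine ⟨?_, k3⟩
      obtain ⟨a', rfl⟩ := k1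
      obtain ⟨b', rfl⟩ := k3
      obtain ⟨l, rfl⟩ : ∃ l, j = l + i + 1 := ⟨j - i - 1, by omega⟩
      have := H2 ((X - C (2 * ε)) ^ l)
      rw [← S.ev_adj, map_add, ← ev_mul, ← ev_mul, ← mul_assoc, ← mul_assoc, ← pow_add, ← pow_add,
        ev_red _ z1, map_add, LinearMap.add_apply, ← add_assoc, ev_mul, S.ev_adj _ _ (nn g ε e₂), z2,
        map_zero, add_zero, map_smul, LinearMap.smul_apply, S.ev_adj, S.n_adj, ev_of_comm S.nT',
        S.nn' hε, map_smul, ← ev_mul, ← pow_succ, map_smul, smul_eq_mul, smul_eq_mul,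
        mul_eq_zero_iff_right (mul_ne_zero (neg_ne_zero.2 (left_ne_zero_of_mul_eq_one hε)) θ)] at this
      exact pow_succ (X - C (2 * ε)) i ▸ mul_dvd_mul_left _ (dvd_iff_isRoot.2 this)
  obtain ⟨b', rfl⟩ := c1 j le_rfl (key j le_rfl).1 (key j le_rfl).2
  obtain ⟨a', rfl⟩ := (key j le_rfl).1
  rw [mul_comm _ a', mul_comm _ b', ev_mul, ev_mul, z1, S.succ_zero hε z2, map_zero, map_zero]
  exact ⟨rfl, rfl⟩

end Sy

theorem pc_three (S : Sy B g h) {ε : F} (hε : ε * ε = 1) {j : ℕ} {e₁ e₂ : V}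
    (z1 : aeval (g + h) ((X - C (2 * ε)) ^ j) (nn g ε e₁) = 0)
    (z2 : aeval (g + h) ((X - C (2 * ε)) ^ j) (nn g ε e₂) = 0)
    (θ : B e₁ (aeval (g + h) ((X - C (2 * ε)) ^ j) e₂) ≠ 0)
    (h12 : ∀ r : F[X], B e₁ (aeval (g + h) r (nn g ε e₂)) = 0) :
    Pc B g h (cyc (g + h) e₁ ⊔ cyc (g + h) (nn g ε e₂) ⊔ (cyc (g + h) (nn g ε e₁) ⊔ cyc (g + h) e₂))
      (cyc (g + h) e₁ ⊔ cyc (g + h) (nn g ε e₂)) := by
  set L := cyc (g + h) e₁ ⊔ cyc (g + h) (nn g ε e₂)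
  set L' := cyc (g + h) (nn g ε e₁) ⊔ cyc (g + h) e₂
  have iL : ∀ x ∈ L, (g + h) x ∈ L := sup_inv (cyc_inv _ _) (cyc_inv _ _)
  have iU := sup_inv iL (sup_inv (cyc_inv (g + h) (nn g ε e₁)) (cyc_inv (g + h) e₂))
  have m1 : e₁ ∈ L := Submodule.mem_sup_left (self_mem_cyc _ _)
  have m2 : nn g ε e₂ ∈ L := Submodule.mem_sup_right (self_mem_cyc _ _)
  have m3 : nn g ε e₁ ∈ L ⊔ L' := Submodule.mem_sup_right (Submodule.mem_sup_left (self_mem_cyc _ _))
  have m4 : e₂ ∈ L ⊔ L' := Submodule.mem_sup_right (Submodule.mem_sup_right (self_mem_cyc _ _))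
  have iso := S.sup_iso h12
  have nU : ∀ u ∈ L ⊔ L', nn g ε u ∈ L ⊔ L' := by
    have i : ∀ x ∈ (L ⊔ L').comap (nn g ε), (g + h) x ∈ (L ⊔ L').comap (nn g ε) := fun x hx => by
      rw [Submodule.mem_comap, S.nT]; exact iU _ hx
    have k : ∀ e ∈ L ⊔ L', nn g ε e ∈ L ⊔ L' → nn g ε e ∈ (L ⊔ L').comap (nn g ε) := fun e a b => by
      rw [Submodule.mem_comap, S.n_n hε, ev_of_comm S.gT, show g e = nn g ε e + ε • e by
        rw [nn_apply, sub_add_cancel]]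
      exact ev_mem iU _ (add_mem b (Submodule.smul_mem _ _ a))
    exact sup_le (sup_le (cyc_le i m3) (cyc_le i (k _ m4 (Submodule.mem_sup_left m2))))
      (sup_le (cyc_le i (k _ (Submodule.mem_sup_left m1) m3)) (cyc_le i (Submodule.mem_sup_left m2)))
  have gU : ∀ u ∈ L ⊔ L', g u ∈ L ⊔ L' := fun u hu => by
    simpa [nn_apply] using add_mem (nU u hu) (Submodule.smul_mem _ ε hu)
  have s1 : ∀ a b : F[X], (∀ y ∈ L, B (aeval (g + h) a (nn g ε e₁) + aeval (g + h) b e₂) y = 0) →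
      aeval (g + h) a (nn g ε e₁) = 0 ∧ aeval (g + h) b e₂ = 0 := fun a b H =>
    S.sw hε z1 z2 θ a b (fun r => H _ (ev_mem iL r m1)) fun r => H _ (ev_mem iL r m2)
  have mx : ∀ u ∈ L ⊔ L', (∀ y ∈ L, B u y = 0) → u ∈ L := fun u hu H => by
    obtain ⟨x, a1, y, a2, rfl⟩ := Submodule.mem_sup.1 hu
    obtain ⟨_, ⟨a, rfl⟩, _, ⟨b, rfl⟩, rfl⟩ := Submodule.mem_sup.1 a2
    obtain ⟨k1, k2⟩ := s1 a b fun y hy => by
      have := H y hy
      rwa [map_add, LinearMap.add_apply, iso x a1 y hy, zero_add] at this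
    change x + (aeval (g + h) a (nn g ε e₁) + aeval (g + h) b e₂) ∈ L
    rwa [k1, k2, add_zero, add_zero]
  have kn : ∀ x ∈ L, g x ∈ L → nn g ε x = 0 := fun x hx H => by
    have H' : nn g ε x ∈ L := sub_mem H (L.smul_mem _ hx)
    obtain ⟨_, ⟨a, rfl⟩, _, ⟨b, rfl⟩, rfl⟩ := Submodule.mem_sup.1 hx
    change nn g ε (aeval (g + h) a e₁ + aeval (g + h) b (nn g ε e₂)) ∈ L at H'
    change nn g ε (aeval (g + h) a e₁ + aeval (g + h) b (nn g ε e₂)) = 0
    have e : nn g ε (aeval (g + h) b (nn g ε e₂)) = g (aeval (g + h) (b * (X - C (2 * ε))) e₂) := by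
      rw [ev_of_comm S.nT, S.n_n hε, ev_mul, ev_of_comm S.gT b]
    rw [map_add, e, ev_of_comm S.nT] at H' ⊢
    obtain ⟨k1, k2⟩ := s1 a (C ε * (b * (X - C (2 * ε)))) fun y hy => by
      refine iso _ ?_ y hy
      convert sub_mem H' (ev_mem iL (b * (X - C (2 * ε))) m2) using 1
      rw [← ev_of_comm S.nT _ e₂, nn_apply g ε (aeval (g + h) (b * (X - C (2 * ε))) e₂), ev_mul _ (C ε), aeval_C,
        Module.algebraMap_end_apply]
      abel
    rw [ev_mul, aeval_C, Module.algebraMap_end_apply, smul_eq_zero_iff_right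
      (left_ne_zero_of_mul_eq_one hε)] at k2
    rw [k1, k2, map_zero, add_zero]
  have gg : ∀ x, nn g ε x = 0 → g (g x) = x := fun x hx => by
    rw [nn_apply, sub_eq_zero] at hx
    rw [hx, map_smul, hx, smul_smul, hε, one_smul]
  refine ⟨gU, fun u hu => by simpa using sub_mem (iU u hu) (gU u hu), le_sup_left, fun u hu H => ?_,
    iL, iso, mx, fun x hx H => ⟨gg x (kn x hx H), fun h2 => ?_⟩, fun H u hu => gg u ?_⟩
  · obtain ⟨_, ⟨a, rfl⟩, _, ⟨b, rfl⟩, rfl⟩ := Submodule.mem_sup.1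
      (mx u hu fun y hy => H y (Submodule.mem_sup_left hy))
    change ∀ y ∈ _, B (aeval (g + h) a e₁ + aeval (g + h) b (nn g ε e₂)) y = 0 at H
    change aeval (g + h) a e₁ + aeval (g + h) b (nn g ε e₂) = 0
    rw [add_comm] at H ⊢
    obtain ⟨k1, k2⟩ := S.sw hε z2 z1 (by rw [← S.ev_adj, S.skew]; exact neg_ne_zero.2 θ) b a
      (fun r => H _ (ev_mem iU r m4)) fun r => H _ (ev_mem iU r m3)
    rw [k1, k2, add_zero]
  · have := kn x hx H
    rw [nn_apply, sub_eq_zero] at this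
    rw [this, show ε = 1 from sub_eq_zero.1 (pow_eq_zero_iff two_ne_zero |>.1 (by
      linear_combination hε + (1 - ε) * h2)), one_smul]
  · have k := kn _ m1 (H _ m1)
    obtain rfl : j = 0 := by
      by_contra hj
      obtain ⟨l, rfl⟩ := Nat.exists_eq_succ_of_ne_zero hj
      have := S.succ_zero hε (j := 0) (e := e₁) (by simpa using k)
      rw [← S.ev_adj, pow_succ, ev_mul] at θ
      rw [zero_add, pow_one] at this
      exact θ (by rw [this, map_zero, map_zero, LinearMap.zero_apply])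
    have k' : nn g ε e₂ = 0 := by simpa using z2
    have i : ∀ x ∈ LinearMap.ker (nn g ε), (g + h) x ∈ LinearMap.ker (nn g ε) := fun x hx => by
      rw [LinearMap.mem_ker, S.nT, LinearMap.mem_ker.1 hx, map_zero]
    exact (sup_le (sup_le (cyc_le i k) (cyc_le i (by simp [k']))) (sup_le (cyc_le i (by simp [k]))
      (cyc_le i k')) : L ⊔ L' ≤ _) hu

theorem exists_piece' (S : Sy B g h) {Y : Submodule F V} (gY : ∀ y ∈ Y, g y ∈ Y)
    (hY : ∀ y ∈ Y, h y ∈ Y) (nd : ∀ u ∈ Y, (∀ y ∈ Y, B u y = 0) → u = 0) {p : F[X]} (hm : p.Monic)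
    (hp : Irreducible p) {j : ℕ} (h0 : ∀ y ∈ Y, aeval (g + h) (p ^ (j + 1)) y = 0) {y₀ : V}
    (m0 : y₀ ∈ Y) (n0 : aeval (g + h) (p ^ j) y₀ ≠ 0) :
    ∃ U L, U ≤ Y ∧ U ≠ ⊥ ∧ Pc B g h U L := by
  have TY : ∀ y ∈ Y, (g + h) y ∈ Y := fun y hy => add_mem (gY y hy) (hY y hy)
  have nd' : ∀ u ∈ Y, u ≠ 0 → ∃ y ∈ Y, B y u ≠ 0 := fun u hu h1 => by
    by_contra H
    push Not at H
    exact h1 (nd u hu fun y hy => by rw [S.skew, H y hy, neg_zero])
  have nb : ∀ {U : Submodule F V} {x y : V}, x ∈ U → B x y ≠ 0 → U ≠ ⊥ := fun {U x y} hx h1 h2 => by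
    rw [h2, Submodule.mem_bot] at hx
    simp [hx] at h1
  by_cases H : ∃ x ∈ Y, ∃ a : F[X], B x (aeval (g + h) (a * p ^ j) (g x)) ≠ 0
  · obtain ⟨x, hx, a, ha⟩ := H
    exact ⟨_, _, le_of_nd (cyc_le TY hx) gY, nb (Submodule.mem_sup_left (self_mem_cyc _ _)) ha,
      pc_one S hp (h0 x hx) ha⟩
  push Not at H
  replace H : ∀ x ∈ Y, B x (aeval (g + h) (p ^ j) (g x)) = 0 := fun x hx => by simpa using H x hx 1
  obtain ⟨ε, hε, rfl⟩ : ∃ ε : F, ε * ε = 1 ∧ p = X - C (2 * ε) := by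
    have mz := ev_mem TY (p ^ j) m0
    have e1 : g (aeval (g + h) (p ^ j) y₀) - h (aeval (g + h) (p ^ j) y₀) = 0 := by
      by_contra h1
      obtain ⟨x, hx, h2⟩ := nd' _ (sub_mem (gY _ mz) (hY _ mz)) h1
      have := H _ (add_mem hx m0)
      simp only [map_add, LinearMap.add_apply, H x hx, H _ m0] at this
      rw [← S.ev_adj _ y₀, ← S.adj', S.skew _ x, ← ev_of_comm S.gT] at this
      exact h2 (by rw [map_sub]; linear_combination this)
    have e2 : aeval (g + h) p (aeval (g + h) (p ^ j) y₀) = 0 := by rw [← ev_mul, ← pow_succ', h0 _ m0]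
    generalize aeval (g + h) (p ^ j) y₀ = z at e1 e2 n0
    obtain ⟨ε, hε, z', k1, k2, k3⟩ : ∃ ε : F, ε * ε = 1 ∧ ∃ z', z' ≠ 0 ∧ g z' = ε • z' ∧
        aeval (g + h) p z' = 0 := by
      by_cases h1 : g z + z = 0
      · exact ⟨-1, by simp, z, n0, by rw [neg_one_smul, eq_neg_iff_add_eq_zero, h1], e2⟩
      · refine ⟨1, by simp, _, h1, ?_, by rw [map_add, ← ev_of_comm S.gT, e2, map_zero, add_zero]⟩
        rw [map_add, one_smul, sub_eq_zero.1 e1, S.gh, add_comm]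
    have k4 : h z' = ε • z' := by
      have := S.hg (ε • z')
      rwa [map_smul, k2, smul_smul, hε, one_smul] at this
    have k5 := ev_red (g + h) (c := 2 * ε) (j := 0) (e := z') (by
      rw [zero_add, pow_one, pi_apply, LinearMap.add_apply, k2, k4]; module) p
    rw [pow_zero, one_mul, k3, map_one, End.one_apply, eq_comm, smul_eq_zero_iff_left k1] at k5
    exact ⟨ε, hε, eq_of_monic_of_associated hm (monic_X_sub_C _)
      ((irreducible_X_sub_C _).associated_of_dvd hp (dvd_iff_isRoot.2 k5)).symm⟩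
  have nY : ∀ y ∈ Y, nn g ε y ∈ Y := fun y hy => sub_mem (gY y hy) (Y.smul_mem _ hy)
  by_cases H2 : ∃ y ∈ Y, aeval (g + h) ((X - C (2 * ε)) ^ j) (nn g ε y) ≠ 0
  · obtain ⟨y, hy, h1⟩ := H2
    obtain ⟨e₁, m1, h2⟩ := nd' _ (ev_mem TY _ (nY y hy)) h1
    obtain ⟨e₂, m2, k1, k2⟩ := iter (g + h) TY (B e₁)
      (B e₁ ∘ₗ aeval (g + h) ((X - C (2 * ε)) ^ j) ∘ₗ nn g ε) (m₁ := 1) (fun _ => rfl) S.nT nY h0
      (fun y hy => by
        rw [LinearMap.comp_apply, LinearMap.comp_apply, S.n_n hε, ← ev_of_comm S.gT, ← ev_mul,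
          ← pow_succ, h0 y hy, map_zero, map_zero]) (fun y _ h => h) hy h2
    have θ : B e₁ (aeval (g + h) ((X - C (2 * ε)) ^ j) (g e₂)) ≠ 0 := by
      rwa [LinearMap.comp_apply, LinearMap.comp_apply, nn_apply, map_sub, map_sub, map_smul, map_smul,
        show B e₁ (aeval (g + h) ((X - C (2 * ε)) ^ j) e₂) = 0 from k2 _, smul_zero, sub_zero] at k1
    exact ⟨_, _, le_of_nd (sup_le (cyc_le TY m1) (cyc_le TY m2)) gY,
      nb (Submodule.mem_sup_left (Submodule.mem_sup_left (self_mem_cyc _ _))) θ,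
      pc_two S (h0 _ m1) (h0 _ m2) k2 θ (H _ m1) (H _ m2)⟩
  push Not at H2
  obtain ⟨e₁, m1, h2⟩ := nd' _ (ev_mem TY _ m0) n0
  obtain ⟨e₂, m2, k1, k2⟩ : ∃ e₂ ∈ Y, B e₁ (aeval (g + h) ((X - C (2 * ε)) ^ j) e₂) ≠ 0 ∧
      ∀ r : F[X], B e₁ (aeval (g + h) r (nn g ε e₂)) = 0 := by
    rcases j with _ | d
    · exact ⟨y₀, m0, h2, fun r => by
        rw [show nn g ε y₀ = 0 by simpa using H2 _ m0, map_zero, map_zero]⟩
    · refine iter (g + h) TY (B e₁) (B e₁ ∘ₗ aeval (g + h) ((X - C (2 * ε)) ^ (d + 1))) S.nT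
        (S.nT' (ε := ε))
        (fun y hy => sub_mem (hY y hy) (Y.smul_mem _ hy)) H2 (fun y hy => ?_) (fun y hy h => ?_) m0 h2
      · rw [LinearMap.comp_apply, show nn h ε y = -ε • nn g ε (h y) by
          rw [nn_apply, nn_apply, S.gh]; linear_combination (norm := module) (-hε) • h y,
          map_smul, H2 _ (hY y hy), smul_zero, map_zero]
      · rw [S.n'n hε, map_smul, ← ev_mul, ← pow_succ, map_smul]
        exact smul_ne_zero (neg_ne_zero.2 (left_ne_zero_of_mul_eq_one hε)) h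
  exact ⟨_, _, sup_le (sup_le (cyc_le TY m1) (cyc_le TY (nY _ m2)))
    (sup_le (cyc_le TY (nY _ m1)) (cyc_le TY m2)),
    nb (Submodule.mem_sup_left (Submodule.mem_sup_left (self_mem_cyc _ _))) k1,
    pc_three S hε (H2 _ m1) (H2 _ m2) k1 k2⟩

variable [FiniteDimensional F V]

theorem exists_piece (S : Sy B g h) {W : Submodule F V} (gW : ∀ y ∈ W, g y ∈ W)
    (hW : ∀ y ∈ W, h y ∈ W) (nd : ∀ u ∈ W, (∀ y ∈ W, B u y = 0) → u = 0) (h0 : W ≠ ⊥) :
    ∃ U L, U ≤ W ∧ U ≠ ⊥ ∧ Pc B g h U L := by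
  have TW : ∀ y ∈ W, (g + h) y ∈ W := fun y hy => add_mem (gW y hy) (hW y hy)
  obtain ⟨f, ⟨f0, f1⟩, f2⟩ := (measure (natDegree (R := F))).wf.has_min
    {f | f ≠ 0 ∧ ∀ w ∈ W, aeval (g + h) f w = 0} ⟨_, (LinearMap.charpoly_monic (g + h)).ne_zero,
      fun w _ => by rw [LinearMap.aeval_self_charpoly]; rfl⟩
  obtain ⟨p, hm, hp, hd⟩ := exists_monic_irreducible_factor f fun hu => h0 (eq_bot_iff.2 fun w hw => by
    obtain ⟨u, hu⟩ := hu.exists_left_inv
    have := congrArg (aeval (g + h) u) (f1 w hw)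
    rwa [← ev_mul, hu, map_one, map_zero] at this)
  obtain ⟨k, ν, k1, rfl⟩ := WfDvdMonoid.max_power_factor f0 hp
  obtain ⟨j, rfl⟩ : ∃ j, k = j + 1 := Nat.exists_eq_succ_of_ne_zero (by
    rintro rfl; exact k1 (by simpa using hd))
  have ν0 : ν ≠ 0 := right_ne_zero_of_mul f0
  obtain ⟨w, hw, n0⟩ : ∃ w ∈ W, aeval (g + h) (p ^ j * ν) w ≠ 0 := by
    by_contra H
    push Not at H
    refine f2 _ ⟨mul_ne_zero (pow_ne_zero j hp.ne_zero) ν0, H⟩ ?_
    change natDegree _ < natDegree _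
    rw [natDegree_mul (pow_ne_zero _ hp.ne_zero) ν0, natDegree_mul (pow_ne_zero _ hp.ne_zero) ν0,
      natDegree_pow, natDegree_pow, add_mul]
    have := hp.natDegree_pos
    omega
  have mν : ∀ w ∈ W, aeval (g + h) ν w ∈ W ⊓ LinearMap.ker (aeval (g + h) (p ^ (j + 1))) :=
    fun w hw => ⟨ev_mem TW _ hw, (ev_mul _ _ _ _).symm.trans (f1 w hw)⟩
  obtain ⟨U, L, a1, a2⟩ := exists_piece' S (Y := W ⊓ LinearMap.ker (aeval (g + h) (p ^ (j + 1))))
    (fun y hy => ⟨gW y hy.1, (ev_of_comm S.gT _ _).symm.trans (by rw [hy.2, map_zero])⟩)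
    (fun y hy => ⟨hW y hy.1, (ev_of_comm S.hT _ _).symm.trans (by rw [hy.2, map_zero])⟩)
    (fun u hu H => by
      obtain ⟨a, b, e⟩ := (hp.coprime_iff_not_dvd.2 k1).pow_left (m := j + 1)
      have := congrArg (fun r => aeval (g + h) r u) e
      simp only [map_add, LinearMap.add_apply, ev_mul, map_one, End.one_apply] at this
      rwa [hu.2, nd _ (ev_mem TW ν hu.1) fun y hy => by rw [S.ev_adj, H _ (mν y hy)], map_zero,
        map_zero, add_zero, eq_comm] at this) hm hp (fun y hy => hy.2) (mν w hw) (by rwa [← ev_mul])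
  exact ⟨U, L, a1.trans inf_le_left, a2⟩

theorem exists_pc (S : Sy B g h) (W : Submodule F V) (gW : ∀ y ∈ W, g y ∈ W)
    (hW : ∀ y ∈ W, h y ∈ W) (nd : ∀ u ∈ W, (∀ y ∈ W, B u y = 0) → u = 0) : ∃ L, Pc B g h W L := by
  induction hk : finrank F W using Nat.strong_induction_on generalizing W with
  | _ k ih =>
  by_cases h0 : W = ⊥
  · exact ⟨⊥, by rw [h0]; exact pc_bot⟩
  obtain ⟨U, L, a1, a2, P⟩ := exists_piece S gW hW nd h0
  have hd : Disjoint U (B.orthogonal U) := Submodule.disjoint_def.2 fun x hx hx' =>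
    P.nd x hx fun y hy => by rw [S.skew, hx' y hy, neg_zero]
  have hc := (LinearMap.BilinForm.restrict_nondegenerate_iff_isCompl_orthogonal S.alt.isRefl).1
    (B.nondegenerate_restrict_of_disjoint_orthogonal S.alt.isRefl hd)
  have e : U ⊔ W ⊓ B.orthogonal U = W := by
    rw [inf_comm, ← sup_inf_assoc_of_le _ a1, hc.sup_eq_top, top_inf_eq]
  obtain ⟨L', P'⟩ := ih _ (hk ▸ Submodule.finrank_lt_finrank_of_lt (lt_of_le_of_ne inf_le_left
    fun e' => a2 (hd.eq_bot_of_le (a1.trans (e'.ge.trans inf_le_right))))) (W ⊓ B.orthogonal U)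
    (fun y hy => ⟨gW y hy.1, fun u hu => by rw [← S.adj']; exact hy.2 _ (P.hU u hu)⟩)
    (fun y hy => ⟨hW y hy.1, fun u hu => by rw [← S.adj]; exact hy.2 _ (P.gU u hu)⟩)
    (fun u hu H => nd u hu.1 fun y hy => by
      obtain ⟨y₁, b1, y₂, b2, rfl⟩ := Submodule.mem_sup.1 (e.ge hy)
      rw [map_add, H _ b2, S.skew, hu.2 _ b1, neg_zero, add_zero]) rfl
  exact ⟨L ⊔ L', e ▸ P.sup S P' fun x hx y hy => hy.2 x hx⟩

end Cfsg.Agent.H76.OreSp
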