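import Cfsg.Agent.H76.OrePoly

/-!
# Involutions of determinant one as products of two fixed point free elements
-/

set_option autoImplicit false

namespace Cfsg.Agent.H76.OreSp

open Module Matrix Polynomial

variable {F : Type*} [Field F]

/-- `M = E N^{±1} E⁻¹ N` with `p(N) = 0 = p'(N⁻¹)` -/
def Gd (p p' : F[X]) (s : Bool) {A : Type*} [Ring A] [Algebra F A] (M : A) : Prop :=
  ∃ E E' N N' : A, E * E' = 1 ∧ N' * N = 1 ∧ aeval N p = 0 ∧ aeval N' p' = 0 ∧
    M = E * (bif s then N else N') * E' * N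

section Alg
variable {p p' : F[X]} {s : Bool} {A A' : Type*} [Ring A] [Algebra F A] [Ring A'] [Algebra F A']

theorem Gd.map (φ : A →ₐ[F] A') {M : A} (h : Gd p p' s M) : Gd p p' s (φ M) := by
  obtain ⟨E, E', N, N', h1, h2, h3, h4, h5⟩ := h
  refine ⟨φ E, φ E', φ N, φ N', by rw [← map_mul, h1, map_one], by rw [← map_mul, h2, map_one],
    by rw [aeval_algHom_apply, h3, map_zero], by rw [aeval_algHom_apply, h4, map_zero], ?_⟩
  cases s <;> simp [h5]

theorem Gd.prod {M : A} {M' : A'} (h : Gd p p' s M) (h' : Gd p p' s M') : Gd p p' s (M, M') := by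
  obtain ⟨E, E', N, N', h1, h2, h3, h4, h5⟩ := h
  obtain ⟨D, D', K, K', k1, k2, k3, k4, k5⟩ := h'
  refine ⟨(E, D), (E', D'), (N, K), (N', K'), Prod.ext h1 k1, Prod.ext h2 k2,
    by rw [aeval_prod_apply, h3, k3]; rfl, by rw [aeval_prod_apply, h4, k4]; rfl, ?_⟩
  cases s <;> exact Prod.ext h5 k5

/-- conjugation by a unit -/
def conjHom (P : Aˣ) : A →ₐ[F] A where
  toFun x := P * x * (P⁻¹ : Aˣ)
  map_one' := by simp
  map_mul' x y := by simp [mul_assoc]
  map_zero' := by simp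
  map_add' x y := by simp [mul_add, add_mul]
  commutes' c := by simp [Algebra.algebraMap_eq_smul_one]

end Alg

/-- block diagonal matrices -/
def blockHom (ι κ : Type*) [Fintype ι] [DecidableEq ι] [Fintype κ] [DecidableEq κ] :
    Matrix ι ι F × Matrix κ κ F →ₐ[F] Matrix (ι ⊕ κ) (ι ⊕ κ) F where
  toFun x := fromBlocks x.1 0 0 x.2
  map_one' := fromBlocks_one
  map_mul' x y := by simp [fromBlocks_multiply]
  map_zero' := fromBlocks_zero
  map_add' x y := by simp [fromBlocks_add]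
  commutes' c := by simp [Algebra.algebraMap_eq_smul_one, ← fromBlocks_one, fromBlocks_smul]

variable (F) in
/-- the signs -/
def sg (a b : ℕ) : Fin a ⊕ Fin b → F := Sum.elim (fun _ => 1) fun _ => -1

/-- the standard involution is good -/
def G (p p' : F[X]) (s : Bool) (a b : ℕ) : Prop := Gd p p' s (diagonal (sg F a b))

theorem Gd.reindex {p p' : F[X]} {s : Bool} {ι κ : Type*} [Fintype ι] [DecidableEq ι] [Fintype κ]
    [DecidableEq κ] {d : ι → F} (h : Gd p p' s (diagonal d)) (e : ι ≃ κ) {d' : κ → F}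
    (H : ∀ i, d' (e i) = d i) : Gd p p' s (diagonal d') := by
  obtain rfl : d = d' ∘ e := funext fun i => (H i).symm
  simpa [Function.comp_assoc] using h.map (reindexAlgEquiv F F e).toAlgHom

namespace G
variable {p p' : F[X]} {s : Bool} {a b a' b' : ℕ}

theorem zero : G p p' s 0 0 :=
  ⟨1, 1, 1, 1, by simp, by simp, Subsingleton.elim _ _, Subsingleton.elim _ _, Subsingleton.elim _ _⟩

theorem add (h : G p p' s a b) (h' : G p p' s a' b') : G p p' s (a + a') (b + b') := by
  have := (Gd.prod h h').map (blockHom _ _)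
  change Gd p p' s (fromBlocks _ 0 0 _) at this
  rw [fromBlocks_diagonal] at this
  refine this.reindex ((Equiv.sumSumSumComm _ _ _ _).trans
    (Equiv.sumCongr finSumFinEquiv finSumFinEquiv)) ?_
  rintro ((i | i) | (i | i)) <;> rfl

theorem cast (h : G p p' s a b) (ha : a = a') (hb : b = b') : G p p' s a' b' := ha ▸ hb ▸ h

theorem mul (h : G p p' s a b) (n : ℕ) : G p p' s (n * a) (n * b) := by
  induction n with
  | zero => rw [zero_mul, zero_mul]; exact zero
  | succ n ih => rw [add_mul, add_mul, one_mul, one_mul]; exact ih.add h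

end G

/-- a good matrix -/
def Good {A : Type*} [Ring A] [Algebra F A] (M : A) : Prop :=
  ∃ p p' : F[X], ∃ s, IsCoprime p p' ∧ Gd p p' s M

theorem g_one {p p' : F[X]} {γ : F} (h0 : γ ≠ 0) (h1 : p.eval γ = 0) (h2 : p'.eval γ⁻¹ = 0) :
    G p p' false 1 0 := by
  have : Gd p p' false (1 : F) := ⟨1, 1, γ, γ⁻¹, by simp, inv_mul_cancel₀ h0, by simpa using h1,
    by simpa using h2, by simp [h0]⟩
  have := this.map (Algebra.ofId F (Matrix (Fin 1) (Fin 1) F))
  rw [map_one, ← diagonal_one] at this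
  exact this.reindex (Equiv.sumEmpty _ _).symm fun _ => rfl

theorem good_big {γ : F} (h0 : γ ≠ 0) (h2 : γ ^ 2 ≠ 1) (h3 : γ ^ 3 ≠ 1) (a j : ℕ) :
    Good (F := F) (diagonal (sg F a (j * 2))) := by
  refine ⟨(X - C γ) * (X ^ 2 - C γ), (X - C γ⁻¹) * (X ^ 2 - C γ⁻¹), false, ?_, ?_⟩
  · have k : ∀ (c : F) (f : F[X]), f.eval c ≠ 0 → IsCoprime (X - C c) f := fun c f h =>
      (irreducible_X_sub_C c).coprime_iff_not_dvd.2 (by rwa [dvd_iff_isRoot])
    have n1 : γ - γ⁻¹ ≠ 0 := fun h => h2 (by field_simp at h; linear_combination h)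
    refine IsCoprime.mul_left (k _ _ ?_) (IsCoprime.mul_right (k _ _ ?_).symm
      ⟨-C (γ - γ⁻¹)⁻¹, C (γ - γ⁻¹)⁻¹, ?_⟩)
    · simp only [eval_mul, eval_sub, eval_X, eval_C, eval_pow]
      exact mul_ne_zero n1 fun h => h3 (by field_simp at h; linear_combination h)
    · simp only [eval_sub, eval_X, eval_C, eval_pow]
      exact fun h => h3 (by field_simp at h; linear_combination -h)
    · have := congrArg C (inv_mul_cancel₀ n1)
      rw [map_mul, map_sub, map_one] at this
      linear_combination this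
  · have h1 : G ((X - C γ) * (X ^ 2 - C γ)) ((X - C γ⁻¹) * (X ^ 2 - C γ⁻¹)) false 0 2 := by
      have : Gd ((X - C γ) * (X ^ 2 - C γ)) ((X - C γ⁻¹) * (X ^ 2 - C γ⁻¹)) false
          (diagonal fun _ : Fin 2 => (-1 : F)) := by
        refine ⟨!![1, 0; 0, -1], !![1, 0; 0, -1], !![0, γ; 1, 0], !![0, 1; γ⁻¹, 0], ?_, ?_, ?_, ?_, ?_⟩
        · simp [one_fin_two]
        · simp [one_fin_two, h0]
        · rw [map_mul, map_sub _ (X ^ 2), map_pow, aeval_X, aeval_C]
          refine mul_eq_zero_of_right _ (sub_eq_zero.2 ?_)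
          ext i k; fin_cases i <;> fin_cases k <;> simp [pow_two, algebraMap_matrix_apply]
        · rw [map_mul, map_sub _ (X ^ 2), map_pow, aeval_X, aeval_C]
          refine mul_eq_zero_of_right _ (sub_eq_zero.2 ?_)
          ext i k; fin_cases i <;> fin_cases k <;> simp [pow_two, algebraMap_matrix_apply]
        · ext i k; fin_cases i <;> fin_cases k <;> simp [h0]
      exact this.reindex (Equiv.emptySum _ _).symm fun _ => rfl
    exact (((g_one h0 (by simp) (by simp)).mul a).add (h1.mul j)).cast (by omega) (by omega)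

section Three

theorem blk (φ : ZMod 3 →+* F) (s : Bool) (a b : ℕ)
    (E E' N N' : Matrix (Fin (a + b)) (Fin (a + b)) (ZMod 3))
    (h : E * E' = 1 ∧ N' * N = 1 ∧ (N ^ 2 - N - 1) ^ 2 * (N ^ 3 - N + 1) = 0 ∧
      (N' ^ 2 + N' - 1) ^ 2 * (N' ^ 3 - N' ^ 2 + 1) = 0 ∧
      diagonal (fun i : Fin (a + b) => if i.val < a then 1 else -1) =
        E * (bif s then N else N') * E' * N) :
    G ((X ^ 2 - X - 1) ^ 2 * (X ^ 3 - X + 1) : F[X]) ((X ^ 2 + X - 1) ^ 2 * (X ^ 3 - X ^ 2 + 1))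
      s a b := by
  obtain ⟨h1, h2, h3, h4, h5⟩ := h
  have : Gd ((X ^ 2 - X - 1) ^ 2 * (X ^ 3 - X + 1) : F[X])
      ((X ^ 2 + X - 1) ^ 2 * (X ^ 3 - X ^ 2 + 1)) s
      (diagonal fun i : Fin (a + b) => if i.val < a then (1 : F) else -1) := by
    refine ⟨φ.mapMatrix E, φ.mapMatrix E', φ.mapMatrix N, φ.mapMatrix N',
      by rw [← map_mul, h1, map_one], by rw [← map_mul, h2, map_one], ?_, ?_, ?_⟩
    · simpa only [map_mul, map_pow, map_sub, map_add, map_one, map_zero, aeval_X] using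
        congrArg φ.mapMatrix h3
    · simpa only [map_mul, map_pow, map_sub, map_add, map_one, map_zero, aeval_X] using
        congrArg φ.mapMatrix h4
    · have := congrArg φ.mapMatrix h5
      rw [RingHom.mapMatrix_apply, diagonal_map (map_zero φ), map_mul, map_mul, map_mul] at this
      simp only [apply_ite φ, map_one, map_neg] at this
      cases s <;> exact this
  refine this.reindex finSumFinEquiv.symm fun i => ?_
  obtain ⟨i | i, rfl⟩ := finSumFinEquiv.surjective i <;> simp [sg]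

theorem good_three (h3 : (3 : F) = 0) {a j : ℕ} (h : 2 ≤ a + j * 2) :
    Good (F := F) (diagonal (sg F a (j * 2))) := by
  have : CharP F 3 := (CharP.charP_iff_prime_eq_zero Nat.prime_three).2 (by exact_mod_cast h3)
  have φ : ZMod 3 →+* F := ZMod.castHom (dvd_refl 3) F
  replace h3 : (3 : F[X]) = 0 := by rw [← map_ofNat C 3, h3, map_zero]
  have hc : IsCoprime ((X ^ 2 - X - 1) ^ 2 * (X ^ 3 - X + 1) : F[X])
      ((X ^ 2 + X - 1) ^ 2 * (X ^ 3 - X ^ 2 + 1)) :=
    IsCoprime.mul_left (IsCoprime.pow_left (IsCoprime.mul_right (IsCoprime.pow_right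
      ⟨1 + X, 1 + 2 * X, by linear_combination (-1 - X + X ^ 2 + X ^ 3) * h3⟩)
      ⟨1 + X + X ^ 2, 2 + 2 * X, by linear_combination (-X ^ 2 + X ^ 4) * h3⟩))
      (IsCoprime.mul_right (IsCoprime.pow_right
      ⟨1 + X, 2 * X ^ 2, by linear_combination (-X ^ 2 + X ^ 3 + X ^ 4) * h3⟩)
      ⟨2 * X, 1 + X, by linear_combination (X - X ^ 2 + X ^ 4) * h3⟩)
  by_cases ha : a ≤ j * 2
  · have b1 := blk φ true 0 2 !![2, 0; 1, 1] !![2, 0; 1, 1] !![0, 2; 2, 1] !![2, 2; 2, 0]
      (by decide +kernel)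
    have b2 := blk φ true 1 2 !![2, 2, 2; 0, 1, 0; 2, 0, 1] !![1, 1, 1; 0, 1, 0; 1, 1, 2]
      !![2, 2, 1; 2, 2, 0; 0, 1, 2] !![2, 0, 2; 1, 2, 1; 1, 2, 0] (by decide +kernel)
    have b3 := blk φ true 2 2 !![0, 2, 1, 0; 0, 1, 2, 1; 2, 0, 0, 1; 1, 1, 1, 1]
      !![1, 1, 2, 0; 0, 2, 2, 2; 1, 2, 2, 2; 1, 1, 0, 0]
      !![2, 2, 2, 2; 1, 1, 0, 1; 0, 2, 2, 2; 2, 2, 2, 0]
      !![2, 0, 1, 0; 2, 1, 2, 2; 2, 2, 0, 0; 2, 0, 0, 1] (by decide +kernel)
    exact ⟨_, _, true, hc, (((b1.mul (j - a / 2 - a % 2)).add (b2.mul (a % 2))).add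
      (b3.mul (a / 2))).cast (by omega) (by omega)⟩
  · have b1 := blk φ false 2 0 1 1 !![0, 2; 2, 1] !![2, 2; 2, 0] (by decide +kernel)
    have b2 := blk φ false 3 0 1 1 !![0, 2, 0; 0, 1, 2; 2, 0, 2] !![1, 1, 2; 2, 0, 0; 2, 2, 0]
      (by decide +kernel)
    have b3 := blk φ false 1 2 !![2, 0, 1; 2, 1, 2; 0, 0, 2] !![2, 0, 2; 2, 1, 1; 0, 0, 2]
      !![0, 2, 0; 0, 1, 2; 2, 0, 2] !![1, 1, 2; 2, 0, 0; 2, 2, 0] (by decide +kernel)
    exact ⟨_, _, false, hc, (((b1.mul ((a - j - 3 * ((a - j) % 2)) / 2)).add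
      (b2.mul ((a - j) % 2))).add (b3.mul j)).cast (by omega) (by omega)⟩

end Three

variable {ι : Type*} [Fintype ι] [DecidableEq ι]

theorem Good.map {A A' : Type*} [Ring A] [Algebra F A] [Ring A'] [Algebra F A'] (φ : A →ₐ[F] A')
    {M : A} (h : Good (F := F) M) : Good (F := F) (φ M) := by
  obtain ⟨p, p', s, h1, h2⟩ := h
  exact ⟨p, p', s, h1, h2.map φ⟩

theorem exists_diag (h2 : (2 : F) ≠ 0) {M : Matrix ι ι F} (hM : M * M = 1) :
    ∃ (a b : ℕ) (e : Fin a ⊕ Fin b ≃ ι) (P : GL ι F),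
      M = P * diagonal (sg F a b ∘ e.symm) * (P⁻¹ : GL ι F) := by
  have hc : IsCompl (LinearMap.ker (toLin' (M - 1))) (LinearMap.ker (toLin' (M + 1))) := by
    refine ⟨Submodule.disjoint_def.2 fun x h h' => ?_, codisjoint_iff.2 (eq_top_iff.2 fun x _ => ?_)⟩
    · rw [LinearMap.mem_ker, toLin'_apply] at h h'
      rw [sub_mulVec, one_mulVec] at h
      rw [add_mulVec, one_mulVec] at h'
      exact (smul_eq_zero_iff_right h2).1 (by linear_combination (norm := module) h' - h)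
    · refine Submodule.mem_sup.2 ⟨(2 : F)⁻¹ • (M + 1) *ᵥ x, Submodule.smul_mem _ _ ?_,
        (2 : F)⁻¹ • (1 - M) *ᵥ x, Submodule.smul_mem _ _ ?_, ?_⟩
      · rw [LinearMap.mem_ker, toLin'_apply, mulVec_mulVec, show (M - 1) * (M + 1) = M * M - 1 by
          noncomm_ring, hM, sub_self, zero_mulVec]
      · rw [LinearMap.mem_ker, toLin'_apply, mulVec_mulVec, show (M + 1) * (1 - M) = 1 - M * M by
          noncomm_ring, hM, sub_self, zero_mulVec]
      · rw [← smul_add, ← add_mulVec, show M + 1 + (1 - M) = (2 : F) • 1 by module, smul_mulVec,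
          one_mulVec, inv_smul_smul₀ h2]
  let v := ((finBasis F _).prod (finBasis F _)).map (Submodule.prodEquivOfIsCompl _ _ hc)
  let e := v.indexEquiv (Pi.basisFun F ι)
  let w := v.reindex e
  have hv : ∀ i, M *ᵥ v i = sg F _ _ i • v i := by
    rintro (i | i)
    · have := (finBasis F (LinearMap.ker (toLin' (M - 1))) i).2
      rw [LinearMap.mem_ker, toLin'_apply, sub_mulVec, one_mulVec, sub_eq_zero] at this
      simpa [v, sg] using this
    · have := (finBasis F (LinearMap.ker (toLin' (M + 1))) i).2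
      rw [LinearMap.mem_ker, toLin'_apply, add_mulVec, one_mulVec, add_eq_zero_iff_eq_neg] at this
      simpa [v, sg] using this
  refine ⟨_, _, e, ⟨(Pi.basisFun F ι).toMatrix w, w.toMatrix (Pi.basisFun F ι),
    Basis.toMatrix_mul_toMatrix_flip _ _, Basis.toMatrix_mul_toMatrix_flip _ _⟩, ?_⟩
  rw [Units.eq_mul_inv_iff_mul_eq]
  ext i j
  have := congrFun (hv (e.symm j)) i
  rw [mul_diagonal, mul_apply]
  simp only [Basis.toMatrix_apply, Pi.basisFun_repr, w, Basis.reindex_apply, Function.comp_apply]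
  rw [mul_comm]
  exact this

theorem good_invol [Fintype F] (h2 : (2 : F) ≠ 0) (h3 : Fintype.card F = 3 → 2 ≤ Fintype.card ι)
    {M : Matrix ι ι F} (hM : M * M = 1) (hd : M.det = 1) : Good (F := F) M := by
  obtain ⟨a, b, e, P, rfl⟩ := exists_diag h2 hM
  have hb : Even b := by
    rw [det_units_conj, det_diagonal, ← e.prod_comp] at hd
    simp only [Function.comp_apply, Equiv.symm_apply_apply, Fintype.prod_sum_type, sg, Sum.elim_inl,
      Sum.elim_inr, Finset.prod_const, one_pow, one_mul, Finset.card_univ, Fintype.card_fin] at hd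
    exact (neg_one_pow_eq_one_iff_even fun h => h2 (by linear_combination -h)).1 hd
  obtain ⟨j, rfl⟩ : ∃ j, b = j * 2 := hb.two_dvd.imp fun j h => by omega
  suffices h : Good (F := F) (diagonal (sg F a (j * 2))) by
    obtain ⟨p, p', s, k1, k2⟩ := h
    exact Good.map (conjHom P) ⟨p, p', s, k1, k2.reindex e fun i => by simp⟩
  by_cases hq : Fintype.card F = 3
  · refine good_three (by exact_mod_cast hq ▸ FiniteField.cast_card_eq_zero F) ?_
    simpa [← Fintype.card_congr e] using h3 hq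
  · classical
    obtain ⟨γ, hγ⟩ := IsCyclic.exists_ofOrder_eq_natCard (α := Fˣ)
    have h4 : Fintype.card F % 2 = 1 := FiniteField.odd_card_of_char_ne_two fun h => h2 (by
      exact_mod_cast h ▸ ringChar.Nat.cast_ringChar)
    have h5 := Fintype.one_lt_card (α := F)
    rw [Nat.card_eq_fintype_card, Fintype.card_units] at hγ
    refine good_big γ.ne_zero (fun h => ?_) (fun h => ?_) a j
    · have := Nat.le_of_dvd two_pos (orderOf_dvd_of_pow_eq_one (x := γ) (Units.ext (by simpa using h)))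
      omega
    · have := Nat.le_of_dvd three_pos (orderOf_dvd_of_pow_eq_one (x := γ)
        (Units.ext (by simpa using h)))
      omega

theorem good_one [Fintype F] (h2 : (2 : F) = 0) (h3 : Fintype.card F = 2 → 3 ≤ Fintype.card ι) :
    Good (F := F) (1 : Matrix ι ι F) := by
  by_cases hF : H30.IsF2 F
  · have h4 := h3 (H30.isF2_iff_card.1 hF)
    obtain ⟨f, -, a1, a2, a3, -, -, a4, -⟩ := Ore.exists_irr_poly (F := F) (Fintype.card ι)
      (by omega) fun _ => h4
    have := Fact.mk a2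
    have h0 : AdjoinRoot.root f ≠ 0 := fun h => by
      have h5 := natDegree_le_of_dvd (AdjoinRoot.mk_eq_zero.1 h) X_ne_zero
      rw [natDegree_X] at h5
      omega
    have : Good (F := F) (1 : AdjoinRoot f) := ⟨f, f.reverse, false, a2.coprime_iff_not_dvd.2 a4,
      1, 1, _, _, by simp, inv_mul_cancel₀ h0, by simp, by
        rw [Ore.aeval_reverse_eq_zero_iff (inv_ne_zero h0)]; simp, by simp [h0]⟩
    simpa using this.map (Algebra.leftMulMatrix ((AdjoinRoot.powerBasis' a1).basis.reindex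
      (Fintype.equivFinOfCardEq a3.symm).symm))
  · obtain ⟨γ, h0, h1⟩ : ∃ γ : F, γ ≠ 0 ∧ γ ≠ 1 := by simpa [H30.IsF2] using hF
    have : Good (F := F) (1 : F) := ⟨X - C γ, X - C γ⁻¹, false, isCoprime_X_sub_C_of_isUnit_sub
      (IsUnit.mk0 _ fun h => h1 (sub_eq_zero.1 (pow_eq_zero_iff two_ne_zero |>.1 (by
        field_simp at h; linear_combination h + (1 - γ) * h2)))),
      1, 1, γ, γ⁻¹, by simp, inv_mul_cancel₀ h0, by simp, by simp, by simp [h0]⟩
    simpa using this.map (Algebra.ofId F (Matrix ι ι F))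

end Cfsg.Agent.H76.OreSp
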