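import Cfsg.Agent.H76.ThSp
import Cfsg.Agent.H76.OreSpA
import Cfsg.Agent.H76.OreSpB
import Cfsg.Agent.H27.SympBasic

/-!
# Every element of `Sp_2m(q)` is a commutator
-/

set_option autoImplicit false

namespace Cfsg.Agent.H76.OreSp

open Module Matrix Polynomial SymplecticGroup Th Th.Sp

/-- being a commutator -/
def IsC {G : Type*} [Group G] (g : G) : Prop := ∃ a b : G, g = a * b * a⁻¹ * b⁻¹

theorem IsC.of_conj {G : Type*} [Group G] {g g' : G} (h : IsConj g g') (h' : IsC g') : IsC g := by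
  obtain ⟨c, rfl⟩ := isConj_iff.1 h.symm
  obtain ⟨a, b, rfl⟩ := h'
  exact ⟨c * a * c⁻¹, c * b * c⁻¹, by group⟩

theorem isC_of_sq {G : Type*} [Group G] {c g : G} (h : IsConj c c⁻¹) (h' : Sq c g) : IsC g := by
  obtain ⟨z, hz⟩ := isConj_iff.1 h
  obtain ⟨x, y, rfl⟩ := h'
  refine ⟨x * c * x⁻¹, y * z⁻¹ * x⁻¹, ?_⟩
  calc _ = x * c * x⁻¹ * (y * z⁻¹ * (z * c * z⁻¹) * z * y⁻¹) := by group
    _ = _ := by rw [hz]; group

variable {F : Type*} [Field F] {ι : Type*} [Fintype ι] [DecidableEq ι]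

theorem aeval_transpose (N : Matrix ι ι F) (p : F[X]) : aeval Nᵀ p = (aeval N p)ᵀ := by
  induction p using Polynomial.induction_on' with
  | add p q hp hq => simp [hp, hq]
  | monomial n a => simp [aeval_monomial, ← Algebra.smul_def, transpose_pow]

theorem fix {N N' S : Matrix ι ι F} {p p' : F[X]} (hc : IsCoprime p p') (h1 : N' * N = 1)
    (h2 : aeval N p = 0) (h3 : aeval N' p' = 0) (h : N * S * Nᵀ = S) : S = 0 := by
  have k : S * Nᵀ = N' * S := by
    nth_rw 2 [← h]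
    rw [← Matrix.mul_assoc, ← Matrix.mul_assoc, h1, Matrix.one_mul]
  have key : ∀ r : F[X], aeval N' r * S = S * aeval Nᵀ r := fun r => by
    induction r using Polynomial.induction_on with
    | C a => simp [Algebra.algebraMap_eq_smul_one]
    | add p q hp hq => simp [add_mul, mul_add, hp, hq]
    | monomial n a ih => rw [pow_succ, ← mul_assoc, map_mul _ _ X, aeval_X, mul_assoc, ← k,
        ← mul_assoc, ih, map_mul _ _ X, aeval_X, mul_assoc]
  exact Ore.eq_zero_of_coprime hc h3 (by rw [key, aeval_transpose, h2, transpose_zero, mul_zero])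

theorem isC_of_good [Finite F] (g : symplecticGroup ι F) (h : Good (F := F) (a g)) : IsC g := by
  obtain ⟨p, p', s, hc, E₀, E', N₀, N', h1, h2, h3, h4, h5⟩ := h
  let E : GL ι F := ⟨E₀, E', h1, mul_eq_one_comm.1 h1⟩
  let N : GL ι F := ⟨N₀, N', mul_eq_one_comm.1 h2, h2⟩
  have fu : ∀ r ∈ Ru F ι, psi N * r = r * psi N → r = 1 := by
    rintro _ ⟨S, h, rfl⟩ e
    have e1 := congrArg (fun g : symplecticGroup ι F => g.1.toBlocks₁₂) e
    simp only [Submonoid.coe_mul, coe_psi, up, fromBlocks_multiply, toBlocks_fromBlocks₁₂,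
      Matrix.mul_zero, Matrix.zero_mul, add_zero, zero_add] at e1
    obtain rfl : S = 0 := fix hc h2 h3 h4 (by
      change (N : Matrix ι ι F) * S * (N : Matrix ι ι F)ᵀ = S
      rw [e1, Matrix.mul_assoc, gl_inv_mul', Matrix.mul_one])
    exact Subtype.ext (by simp [up])
  have fl : ∀ r ∈ Rl F ι, psi N * r = r * psi N → r = 1 := by
    rintro _ ⟨S, h, rfl⟩ e
    have e1 := congrArg (fun g : symplecticGroup ι F => g.1.toBlocks₂₁) e
    simp only [Submonoid.coe_mul, coe_psi, lo, fromBlocks_multiply, toBlocks_fromBlocks₂₁,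
      Matrix.mul_zero, Matrix.zero_mul, add_zero, zero_add] at e1
    obtain rfl : S = 0 := fix (N := N₀ᵀ) (N' := N'ᵀ) hc (gl_inv_mul' N)
      (by rw [aeval_transpose, h3, transpose_zero]) (by rw [aeval_transpose, h4, transpose_zero]) (by
      change (N : Matrix ι ι F)ᵀ * S * (N : Matrix ι ι F) = S
      rw [Matrix.mul_assoc, ← e1, ← Matrix.mul_assoc, gl_mul_inv', Matrix.one_mul])
    exact Subtype.ext (by simp [lo])
  obtain ⟨r', hr', r, hr, e⟩ := gauss g (E * (bif s then N else N⁻¹) * E⁻¹ * N) (by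
    cases s <;> exact h5)
  refine isC_of_sq (psi_real N) ?_
  rw [e, map_mul, map_mul, map_mul, map_inv]
  refine sq_of_fpf conj_Ru conj_Rl ?_ (IsConj.refl _) (mul_mem (mul_mem ⟨_, rfl⟩ ⟨_, rfl⟩)
    (inv_mem ⟨_, rfl⟩)) ⟨_, rfl⟩ (fpf_conj conj_Rl ⟨_, rfl⟩ ?_) fu hr hr'
  · refine IsConj.trans ?_ (isConj_iff.2 ⟨_, rfl⟩)
    cases s
    · exact map_inv (psi (ι := ι) (F := F)) N ▸ psi_real N
    · exact IsConj.refl _
  · cases s
    · exact map_inv (psi (ι := ι) (F := F)) N ▸ fpf_inv fl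
    · exact fl

omit [DecidableEq ι] in
theorem exists_ginv (c : Matrix ι ι F) : ∃ G : Matrix ι ι F, c * G * c = c := by
  classical
  obtain ⟨s, hs⟩ := (toLin' c).rangeRestrict.exists_rightInverse_of_surjective
    (LinearMap.range_rangeRestrict _)
  obtain ⟨G, hG⟩ := LinearMap.exists_extend s
  refine ⟨LinearMap.toMatrix' G, toLin'.injective (LinearMap.ext fun x => ?_)⟩
  rw [toLin'_mul, toLin'_mul, toLin'_toMatrix']
  exact (congrArg (toLin' c) (LinearMap.congr_fun hG ⟨_, x, rfl⟩)).trans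
    (congrArg Subtype.val (LinearMap.congr_fun hs ⟨_, x, rfl⟩))

theorem conj_to (g : symplecticGroup ι F) (hc : (c g)ᵀ = c g) {M : Matrix ι ι F}
    (h1 : ∀ x, c g *ᵥ x = 0 → M *ᵥ x = a g *ᵥ x) (h2 : (c g * M)ᵀ = c g * M) :
    ∃ g', IsConj g g' ∧ a g' = M := by
  obtain ⟨G, hG⟩ := exists_ginv (c g)
  have k1 : (M - a g) * G * c g = M - a g := ext_of_mulVec_single fun i => by
    have := h1 ((1 - G * c g) *ᵥ Pi.single i 1) (by
      rw [mulVec_mulVec, Matrix.mul_sub, ← Matrix.mul_assoc, hG, Matrix.mul_one, sub_self, zero_mulVec])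
    rw [← sub_eq_zero, ← sub_mulVec, mulVec_mulVec, Matrix.mul_sub, Matrix.mul_one, sub_mulVec,
      sub_eq_zero, ← Matrix.mul_assoc] at this
    exact this.symm
  have k2 : (M - a g)ᵀ * c g = c g * (M - a g) := by
    rw [transpose_sub, Matrix.sub_mul, Matrix.mul_sub, (rel g).1, ← h2, transpose_mul, hc]
  have k3 : (c g * (M - a g))ᵀ = c g * (M - a g) := by rw [transpose_mul, hc, k2]
  generalize hD : M - a g = D at k1 k2 k3
  have hS : (D * G + (D * G)ᵀ - Gᵀ * (c g * D) * G)ᵀ = D * G + (D * G)ᵀ - Gᵀ * (c g * D) * G := by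
    rw [transpose_sub, transpose_add, transpose_transpose, add_comm, transpose_mul (Gᵀ * _),
      transpose_mul Gᵀ, k3, transpose_transpose, Matrix.mul_assoc Gᵀ]
  refine ⟨up _ hS * g * (up _ hS)⁻¹, isConj_iff.2 ⟨_, rfl⟩, ?_⟩
  rw [up_inv, a, Submonoid.coe_mul, Submonoid.coe_mul, coe_eq g]
  simp only [up, fromBlocks_multiply, toBlocks_fromBlocks₁₁, Matrix.one_mul, Matrix.mul_one,
    Matrix.mul_zero, add_zero]
  rw [Matrix.sub_mul, Matrix.add_mul, k1, transpose_mul, Matrix.mul_assoc Gᵀ, k2, Matrix.mul_assoc,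
    Matrix.mul_assoc, Matrix.mul_assoc (c g), ← Matrix.mul_assoc D, k1, add_sub_cancel_right, ← hD,
    add_sub_cancel]

theorem exists_M (h2 : (2 : F) ≠ 0) {A c : Matrix ι ι F} (hc : cᵀ = c) (hA : Aᵀ * c = c * A)
    (h : ∀ x, c *ᵥ x = 0 → A *ᵥ A *ᵥ x = x) (h0 : c ≠ 0) : ∃ M : Matrix ι ι F, M * M = 1 ∧
      M.det = 1 ∧ (∀ x, c *ᵥ x = 0 → M *ᵥ x = A *ᵥ x) ∧ (c * M)ᵀ = c * M := by
  obtain ⟨G, hG⟩ := exists_ginv c
  obtain ⟨w₀, hw⟩ : ∃ w, w ⬝ᵥ c *ᵥ w ≠ 0 := by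
    by_contra H
    push Not at H
    refine h0 (Matrix.ext fun i j => mul_left_cancel₀ h2 ?_)
    have e1 := H (Pi.single i 1 + Pi.single j 1)
    rw [mulVec_add, add_dotProduct, dotProduct_add, dotProduct_add, H, H] at e1
    have e2 := congrFun (congrFun hc i) j
    simp only [mulVec_single_one, single_one_dotProduct, col_apply, transpose_apply] at e1 e2
    rw [Matrix.zero_apply]
    linear_combination e1 - e2
  have p1 : c * (1 - G * c) = 0 := by rw [Matrix.mul_sub, ← Matrix.mul_assoc, hG]; simp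
  have p2 : A * (A * (1 - G * c)) = 1 - G * c := ext_of_mulVec_single fun i => by
    rw [← mulVec_mulVec, ← mulVec_mulVec, h _ (by rw [mulVec_mulVec, p1, zero_mulVec])]
  have p3 : c * (A * (1 - G * c)) = 0 := by
    rw [← Matrix.mul_assoc, ← hA, Matrix.mul_assoc, p1, Matrix.mul_zero]
  have p4 : (1 - G * c) * (G * c) = 0 := by
    rw [Matrix.sub_mul, Matrix.mul_assoc, ← Matrix.mul_assoc c, hG]; simp
  obtain ⟨M, m1, m2, m3, m4⟩ : ∃ M : Matrix ι ι F, M * M = 1 ∧ c * M = c ∧ M * (G * c) = G * c ∧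
      ∀ x, c *ᵥ x = 0 → M *ᵥ x = A *ᵥ x := by
    refine ⟨G * c + A * (1 - G * c), ?_, ?_, ?_, fun x hx => ?_⟩
    · have : (1 - G * c) * (A * (1 - G * c)) = A * (1 - G * c) := by
        rw [Matrix.sub_mul, Matrix.mul_assoc G, p3]; simp
      rw [Matrix.add_mul, Matrix.mul_add, Matrix.mul_add, Matrix.mul_assoc A, Matrix.mul_assoc A, p4,
        this, p2, Matrix.mul_assoc G, Matrix.mul_assoc G, p3, ← Matrix.mul_assoc c, hG]
      simp
    · rw [Matrix.mul_add, p3, ← Matrix.mul_assoc, hG, add_zero]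
    · rw [Matrix.add_mul, Matrix.mul_assoc A, p4, Matrix.mul_assoc G, ← Matrix.mul_assoc c, hG]; simp
    · simp [add_mulVec, sub_mulVec, ← mulVec_mulVec, hx]
  have hd : M.det * M.det = 1 := by rw [← det_mul, m1, det_one]
  rcases mul_self_eq_one_iff.1 hd with hd | hd
  · exact ⟨M, m1, hd, m4, by rw [m2, hc]⟩
  obtain ⟨w, w1, w2⟩ : ∃ w, w ⬝ᵥ c *ᵥ w ≠ 0 ∧ M *ᵥ w = w := ⟨(G * c) *ᵥ w₀, by
    rwa [mulVec_mulVec, ← Matrix.mul_assoc, hG, dotProduct_mulVec, ← mulVec_transpose, hc,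
      mulVec_mulVec, ← Matrix.mul_assoc, hG, dotProduct_comm], by rw [mulVec_mulVec, m3]⟩
  have v1 : M * vecMulVec w (c *ᵥ w) = vecMulVec w (c *ᵥ w) := by rw [mul_vecMulVec, w2]
  have v2 : vecMulVec w (c *ᵥ w) * M = vecMulVec w (c *ᵥ w) := by
    rw [vecMulVec_mul, ← hc, mulVec_transpose, vecMul_vecMul, m2]
  refine ⟨M * (1 + (-2 / (w ⬝ᵥ c *ᵥ w)) • vecMulVec w (c *ᵥ w)), ?_, ?_, fun x hx => ?_, ?_⟩
  · simp only [Matrix.mul_add, Matrix.add_mul, Matrix.mul_one, Matrix.mul_smul, Matrix.smul_mul, v1,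
      v2, m1, vecMulVec_mul_vecMulVec, vecMulVec_smul, dotProduct_comm (c *ᵥ w) w]
    match_scalars <;> field_simp <;> ring
  · rw [det_mul, ← smul_vecMulVec, vecMulVec_eq Unit, det_one_add_replicateCol_mul_replicateRow,
      dotProduct_smul, dotProduct_comm (c *ᵥ w) w, smul_eq_mul, div_mul_cancel₀ _ w1, hd]
    ring
  · rw [← mulVec_mulVec, add_mulVec, one_mulVec, smul_mulVec, vecMulVec_mulVec, ← hc, mulVec_transpose,
      ← dotProduct_mulVec, hx, dotProduct_zero, MulOpposite.op_zero, zero_smul, smul_zero, add_zero,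
      m4 x hx]
  · rw [← Matrix.mul_assoc, m2]
    simp [Matrix.mul_add, mul_vecMulVec, hc, transpose_vecMulVec]

theorem isC_sym [Finite F] (h2 : (2 : F) ≠ 0) {D : GL ι F} (h1 : (D : Matrix ι ι F)ᵀ = D)
    (hD : (D : Matrix ι ι F) * D = 1) : IsC (psi D) := by
  obtain ⟨s, t, hst⟩ : ∃ s t : F, s ^ 2 + t ^ 2 = -1 := by
    have := Fintype.ofFinite F
    have : NeZero (ringChar F) := ⟨CharP.ringChar_ne_zero_of_finite F⟩
    obtain ⟨s, t, h⟩ := CharP.sq_add_sq F (ringChar F) (-1)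
    exact ⟨s, t, by exact_mod_cast h⟩
  have e : (psi D : Matrix (ι ⊕ ι) (ι ⊕ ι) F) = fromBlocks D 0 0 D := by
    rw [coe_psi, show D⁻¹ = D from inv_eq_of_mul_eq_one_right (Units.ext hD), h1]
  generalize (D : Matrix ι ι F) = A at h1 hD e
  refine ⟨⟨fromBlocks ((2 : F)⁻¹ • (1 + A)) (-(2 : F)⁻¹ • (1 - A)) ((2 : F)⁻¹ • (1 - A))
    ((2 : F)⁻¹ • (1 + A)), fromBlocks_mem_iff.2 ⟨?_, ?_, ?_⟩⟩,
    ⟨fromBlocks (s • 1) (t • 1) (t • 1) (-s • 1), fromBlocks_mem_iff.2 ⟨?_, ?_, ?_⟩⟩, ?_⟩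
  iterate 3
    simp only [transpose_smul, transpose_add, transpose_sub, transpose_one, h1, Matrix.mul_smul,
      Matrix.smul_mul, Matrix.mul_add, Matrix.add_mul, Matrix.mul_sub, Matrix.sub_mul, hD,
      Matrix.mul_one, Matrix.one_mul]
    match_scalars <;> field_simp <;> ring
  · simp [smul_smul, mul_comm]
  · simp [smul_smul, mul_comm]
  · simp only [transpose_smul, transpose_one, Matrix.mul_smul, Matrix.mul_one]
    match_scalars
    linear_combination -hst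
  rw [eq_mul_inv_iff_mul_eq, eq_mul_inv_iff_mul_eq]
  refine Subtype.ext ?_
  simp only [Submonoid.coe_mul, e, fromBlocks_multiply, Matrix.mul_smul,
      Matrix.smul_mul, Matrix.mul_add, Matrix.add_mul, Matrix.mul_sub, hD,
      Matrix.mul_one, Matrix.one_mul, Matrix.zero_mul, smul_zero, add_zero, zero_add]
  congr 1 <;> module

theorem isC_invol [Finite F] (h2 : (2 : F) ≠ 0) (g : symplecticGroup ι F) (hc : c g = 0)
    (hg : g * g = 1) : IsC g := by
  have e := congrArg Subtype.val hg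
  rw [Submonoid.coe_mul, coe_eq g, hc, fromBlocks_multiply, OneMemClass.coe_one, ← fromBlocks_one,
    fromBlocks_inj] at e
  obtain ⟨e1, e2, -, -⟩ := e
  obtain ⟨-, r1, r2⟩ := rel g
  rw [Matrix.mul_zero, add_zero] at e1
  rw [hc, transpose_zero, Matrix.zero_mul, sub_zero] at r2
  have e3 : d g = (a g)ᵀ := by
    rw [← Matrix.one_mul (d g), ← transpose_one, ← e1, transpose_mul, Matrix.mul_assoc, r2,
      Matrix.mul_one]
  obtain ⟨k, l, σ, P, hP⟩ := exists_diag h2 e1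
  have hd : diagonal (sg F k l ∘ σ.symm) * diagonal (sg F k l ∘ σ.symm) = 1 := by
    rw [diagonal_mul_diagonal, ← diagonal_one]
    congr 1
    funext i
    obtain ⟨i | i, rfl⟩ := σ.surjective i <;> simp [sg]
  let D : GL ι F := ⟨_, _, hd, hd⟩
  have hS : ((2 : F)⁻¹ • (a g * b g))ᵀ = (2 : F)⁻¹ • (a g * b g) := by
    rw [transpose_smul, transpose_mul, ← e3, r1, e3, transpose_transpose]
  refine IsC.of_conj (IsConj.trans (isConj_iff.2 ⟨up _ hS, ?_⟩)
    (psi.map_isConj (isConj_iff.2 ⟨P, rfl⟩).symm)) (isC_sym h2 (D := D) (diagonal_transpose _) hd)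
  have e4 : ((P * D * P⁻¹ : GL ι F) : Matrix ι ι F) = a g := hP.symm
  refine Subtype.ext ?_
  rw [coe_psi, show (P * D * P⁻¹)⁻¹ = P * D * P⁻¹ from inv_eq_of_mul_eq_one_right (Units.ext (by
    rw [Units.val_mul, e4, e1, Units.val_one])), e4, up_inv, Submonoid.coe_mul, Submonoid.coe_mul,
    coe_eq g, hc, ← e3]
  simp only [up, fromBlocks_multiply, Matrix.one_mul, Matrix.mul_one, Matrix.mul_zero, add_zero,
    Matrix.zero_mul, zero_add, Matrix.mul_neg, Matrix.mul_smul, Matrix.smul_mul, smul_zero, neg_zero]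
  congr 1
  rw [Matrix.mul_assoc (a g) (b g), ← neg_eq_of_add_eq_zero_right e2, Matrix.mul_neg,
    ← Matrix.mul_assoc, e1]
  simp only [Matrix.one_mul]
  match_scalars
  field_simp
  ring

theorem jBilin_elim (u v u' v' : ι → F) :
    H27.jBilin ι F (Sum.elim u v) (Sum.elim u' v') = v ⬝ᵥ u' - u ⬝ᵥ v' := by
  simp [H27.jBilin_apply_sum, dotProduct, Finset.sum_sub_distrib]

theorem exists_nice (g : symplecticGroup ι F) : ∃ g', IsConj g g' ∧ (c g')ᵀ = c g' ∧
    (∀ x, c g' *ᵥ x = 0 → a g' *ᵥ a g' *ᵥ x = x ∧ ((2 : F) = 0 → a g' *ᵥ x = x)) ∧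
    (c g' = 0 → g' * g' = 1) := by
  have inv : ∀ (k : symplecticGroup ι F) x, k.1 *ᵥ (k⁻¹).1 *ᵥ x = x := fun k x => by
    rw [mulVec_mulVec, ← Submonoid.coe_mul, mul_inv_cancel, OneMemClass.coe_one, one_mulVec]
  have inv' : ∀ (k : symplecticGroup ι F) x, (k⁻¹).1 *ᵥ k.1 *ᵥ x = x := fun k x => by
    simpa using inv k⁻¹ x
  have S : Sy (H27.jBilin ι F) (toLin' g.1) (toLin' (g⁻¹).1) := ⟨H27.jBilin_isAlt, inv g, inv' g,
    fun x y => by rw [toLin'_apply, toLin'_apply, ← H27.jBilin_sp g x, inv]⟩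
  obtain ⟨L, hL⟩ := exists_pc S ⊤ (fun _ _ => trivial) (fun _ _ => trivial) fun u _ h =>
    H27.jBilin_nondegenerate.1 u fun y => h y trivial
  have h1 : (H27.jBilin ι F).orthogonal L = L := le_antisymm
    (fun u hu => hL.max u trivial fun y hy => by rw [S.skew, hu y hy, neg_zero])
    fun u hu y hy => hL.iso y hy u hu
  have h2 := LinearMap.BilinForm.finrank_orthogonal H27.jBilin_nondegenerate L
  have h3 := L.finrank_le
  rw [finrank_fintype_fun_eq_card, Fintype.card_sum] at h3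
  rw [h1, finrank_fintype_fun_eq_card, Fintype.card_sum] at h2
  let v := (finBasisOfFinrankEq F L (n := Fintype.card ι) (by omega)).reindex
    (Fintype.equivFin ι).symm
  obtain ⟨P, -, hP⟩ := H27.sp_witt_family ⊤ (fun _ _ => trivial)
    (x := fun i : ι => Pi.single (Sum.inl i) (1 : F)) (y := fun i => v i)
    (by simpa [Function.comp_def] using
      (Pi.basisFun F (ι ⊕ ι)).linearIndependent.comp _ Sum.inl_injective)
    (v.linearIndependent.map' L.subtype L.ker_subtype) fun i j => by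
      rw [hL.iso _ (v i).2 _ (v j).2, H27.jBilin_single_inl_left]; simp
  have k1 : ∀ x, P.1 *ᵥ Sum.elim x 0 = (∑ i, x i • v i : L) := fun x => by
    rw [show Sum.elim x 0 = ∑ i, x i • (Pi.single (Sum.inl i) (1 : F) : ι ⊕ ι → F) by
      ext (i | i) <;> simp [Finset.sum_apply, Pi.single_apply]]
    simp [mulVec_sum, mulVec_smul, hP, -mulVec_single]
  have k2 : ∀ x, P.1 *ᵥ Sum.elim x 0 ∈ L := fun x => k1 x ▸ Subtype.property _
  have k3 : ∀ x, g.1 *ᵥ P.1 *ᵥ Sum.elim x 0 =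
      P.1 *ᵥ Sum.elim (a (P⁻¹ * g * P⁻¹⁻¹) *ᵥ x) (c (P⁻¹ * g * P⁻¹⁻¹) *ᵥ x) := fun x => by
    have : (P⁻¹ * g * P⁻¹⁻¹).1 *ᵥ Sum.elim x 0 =
        Sum.elim (a (P⁻¹ * g * P⁻¹⁻¹) *ᵥ x) (c (P⁻¹ * g * P⁻¹⁻¹) *ᵥ x) := by
      rw [coe_eq, fromBlocks_mulVec]
      simp only [Sum.elim_comp_inl, Sum.elim_comp_inr, mulVec_zero, add_zero]
    rw [← this, inv_inv, Submonoid.coe_mul, Submonoid.coe_mul, ← mulVec_mulVec, ← mulVec_mulVec, inv]
  have k4 : ∀ x y : ι → F, P.1 *ᵥ Sum.elim x 0 = P.1 *ᵥ Sum.elim y 0 → x = y := fun x y h => by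
    have := congrArg ((P⁻¹).1 *ᵥ ·) h
    simp only [inv'] at this
    exact funext fun i => congrFun this (Sum.inl i)
  refine ⟨P⁻¹ * g * P⁻¹⁻¹, isConj_iff.2 ⟨_, rfl⟩, ?_, fun x hx => ?_, fun h => ?_⟩
  · ext i j
    have := hL.iso _ (k2 (Pi.single i 1)) _ (hL.inv _ (k2 (Pi.single j 1)))
    rw [LinearMap.add_apply, map_add, ← S.adj, toLin'_apply, toLin'_apply, k3, k3, H27.jBilin_sp,
      H27.jBilin_sp, jBilin_elim, jBilin_elim] at this
    simp only [mulVec_single_one, single_one_dotProduct, dotProduct_single_one, col_apply,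
      zero_dotProduct, dotProduct_zero] at this
    rw [transpose_apply]
    linear_combination this
  · have e := k3 x
    rw [hx] at e
    obtain ⟨e1, e2⟩ := hL.eig _ (k2 x) (by rw [toLin'_apply, e]; exact k2 _)
    rw [toLin'_apply, toLin'_apply, e, k3] at e1
    rw [toLin'_apply, e] at e2
    have := congrArg ((P⁻¹).1 *ᵥ ·) e1
    simp only [inv'] at this
    exact ⟨funext fun i => congrFun this (Sum.inl i), fun h => k4 _ _ (e2 h)⟩
  · have e : g * g = 1 := H27.sp_ext fun u => by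
      rw [Submonoid.coe_mul, ← mulVec_mulVec, OneMemClass.coe_one, one_mulVec]
      refine hL.all (fun x hx => ?_) u trivial
      rw [show x = P.1 *ᵥ Sum.elim (v.repr ⟨x, hx⟩) 0 by rw [k1, v.sum_repr], toLin'_apply, k3, h,
        zero_mulVec]
      exact k2 _
    rw [conj_mul, e, mul_one, mul_inv_cancel]

theorem ore_sp [Fintype F] (h2 : Fintype.card F = 2 → 3 ≤ Fintype.card ι)
    (h3 : Fintype.card F = 3 → 2 ≤ Fintype.card ι) (g : symplecticGroup ι F) : IsC g := by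
  obtain ⟨g₁, k1, k2, k3, k4⟩ := exists_nice g
  refine IsC.of_conj k1 ?_
  by_cases h : (2 : F) = 0
  · obtain ⟨g₂, a1, a2⟩ := conj_to g₁ k2 (M := 1)
      (fun x hx => by rw [one_mulVec, (k3 x hx).2 h]) (by simpa using k2)
    exact IsC.of_conj a1 (isC_of_good g₂ (a2 ▸ good_one h h2))
  by_cases h0 : c g₁ = 0
  · exact isC_invol h g₁ h0 (k4 h0)
  obtain ⟨M, m1, m2, m3, m4⟩ := exists_M h k2 ((rel g₁).1.trans (by rw [k2]))
    (fun x hx => (k3 x hx).1) h0
  obtain ⟨g₂, a1, a2⟩ := conj_to g₁ k2 m3 m4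
  exact IsC.of_conj a1 (isC_of_good g₂ (a2 ▸ good_invol h h3 m1 m2))

end Cfsg.Agent.H76.OreSp
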