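import Cfsg.Agent.H54.RfKitP

/-! # Standard subgroups of type `²F₄(q)`: the action of `U₈` on the doubled group `V` -/

set_option autoImplicit false
set_option linter.unusedSimpArgs false
set_option linter.unnecessarySeqFocus false

namespace Cfsg.Agent.H76.RfAct

open Cfsg Cfsg.Agent.H15.O8 Cfsg.Agent.H39 Cfsg.Agent.H36.O8T Cfsg.Agent.H54.RF Subgroup

universe u v

variable {K : Type v} [Field K] {T : Tits K} {G : Type u} [Group G]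

theorem m2 (a : K) : x2 T a ∈ V T := by o8s
theorem m3 (a : K) : x3 T a ∈ V T := by o8s
theorem m4 (a : K) : x4 T a ∈ V T := by o8s
theorem m5 (a : K) : x5 T a ∈ V T := by o8s
theorem m6 (a : K) : x6 T a ∈ V T := by o8s

set_option maxRecDepth 8000 in
theorem V_ind {P : U T → Prop} (h2 : ∀ a, P (x2 T a)) (h3 : ∀ a, P (x3 T a)) (h4 : ∀ a, P (x4 T a))
    (h5 : ∀ a, P (x5 T a)) (h6 : ∀ a, P (x6 T a))
    (hm : ∀ a ∈ V T, ∀ b ∈ V T, P a → P b → P (a * b)) {g : U T} (hg : g ∈ V T) : P g := by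
  have a := mul_mem (m2 (T := T) g.a2) (m3 g.a3)
  have b := mul_mem a (m4 g.a4)
  have c1 := hm _ (m2 g.a2) _ (m3 g.a3) (h2 g.a2) (h3 g.a3)
  have c2 := hm _ a _ (m4 g.a4) c1 (h4 g.a4)
  have c3 := hm _ b _ (m5 g.a5) c2 (h5 g.a5)
  have c := mul_mem b (m5 (T := T) g.a5)
  have := hm _ c _ (m6 g.a6) c3 (h6 g.a6)
  rwa [← eq_V hg] at this

theorem x4_cen (z : K) (k : U T) : k * x4 T z * k⁻¹ = x4 T z := by
  rw [mul_inv_eq_iff_eq_mul]; ext <;> o8s <;> o8ring T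

theorem QV {u a : U T} (hu : u ∈ Q T) (ha : a ∈ V T) : ∃ c, u * a * u⁻¹ = a * x4 T c := by
  obtain ⟨h1, h2⟩ := hu
  obtain ⟨k1, k2, k3, k4, k5, k6, k7⟩ := ha
  refine ⟨u.a1 * a.a6 + u.b2 * a.a5 + u.b6 * a.a3 + u.a7 * a.a2, ?_⟩
  rw [mul_inv_eq_iff_eq_mul]
  ext <;> o8s <;> (try simp only [h1, h2, k1, k2, k3, k4, k5, k6, k7]) <;> o8ring T

theorem VQ {a : U T} (ha : a ∈ V T) (h : ∀ u ∈ Q T, u * a * u⁻¹ = a) : a = x4 T a.a4 := by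
  obtain ⟨k1, k2, k3, k4, k5, k6, k7⟩ := ha
  have e1 := congrArg U.a4 (mul_inv_eq_iff_eq_mul.1 (h (x1 T 1) ⟨rfl, rfl⟩))
  have e2 := congrArg U.a4 (mul_inv_eq_iff_eq_mul.1 (h (y2 T 1) ⟨rfl, rfl⟩))
  have e3 := congrArg U.a4 (mul_inv_eq_iff_eq_mul.1 (h (y6 T 1) ⟨rfl, rfl⟩))
  have e4 := congrArg U.a4 (mul_inv_eq_iff_eq_mul.1 (h (x7 T 1) ⟨rfl, rfl⟩))
  o8s at e1 e2 e3 e4
  simp [k1, k2, k3, k4, k5, k6, k7] at e1 e2 e3 e4
  ext <;> o8s <;> assumption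

variable (M : FF T G) (t : G) (p r : K → G)

/-- the lift of an element of `V` -/
def Λ (a : U T) : G := P2 M p a.a2 * P3 M r a.a3 * p a.a4 * r a.a5 * P6 M p a.a6

/-- the defect of equivariance -/
def Zp (k a : U T) (z : K) : Prop :=
  M.φ k * Λ M p r a * (M.φ k)⁻¹ = Λ M p r (k * a * k⁻¹) * M.φ (x4 T z)

structure Hy : Prop where
  c : Ctx2 M t
  h : HR M t p r
  vh : VH M t p
  hr : ∀ a, r a ∈ Vh M p

variable {M t p r}

namespace Hy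

variable (H : Hy M t p r)
include H

theorem comm {a b : G} (ha : a ∈ Vh M p) (hb : b ∈ Vh M p) : Commute a b := by
  have i : ∀ g ∈ Vh M p, g⁻¹ = g := fun g hg => inv_eq_of_mul_eq_one_right (H.vh.sq g hg)
  have := i _ (mul_mem ha hb)
  rw [mul_inv_rev, i a ha, i b hb] at this
  exact this.symm

omit H in
theorem v6 (a : K) : P6 M p a ∈ Vh M p :=
  mem_sup_left (subset_closure ⟨1, one_mem _, a, by simp⟩)

theorem vn {g : G} (hg : g ∈ Vh M p) : M.n8 * g * M.n8 ∈ Vh M p := by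
  have := H.vh.nK _ (n8K M) g hg
  rwa [inv_eq_of_mul_eq_one_right M.n8n8] at this

theorem v2 (a : K) : P2 M p a ∈ Vh M p := H.vn (v6 a)
theorem v3 (a : K) : P3 M r a ∈ Vh M p := H.vn (H.hr a)

omit H in
theorem vφ {a : U T} (ha : a ∈ V T) : M.φ a ∈ Vh M p := mem_sup_right ⟨a, ha, rfl⟩

theorem vΛ (a : U T) : Λ M p r a ∈ Vh M p :=
  mul_mem (mul_mem (mul_mem (mul_mem (H.v2 _) (H.v3 _)) (H.vh.pm _)) (H.hr _)) (v6 _)

theorem f2 : Fam M t (P2 M p) (x2 T) := H.h.toH4.f2 H.c.toCtx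
theorem f3 : Fam M t (P3 M r) (x3 T) := H.h.f3 H.c.toCtx
theorem f4 : Fam M t p (x4 T) := H.h.toH4.f4
theorem f5 : Fam M t r (x5 T) := H.h.f5
theorem f6 : Fam M t (P6 M p) (x6 T) := H.h.toH4.f6 H.c.toCtx

theorem Λ2 (a : K) : Λ M p r (x2 T a) = P2 M p a := by
  simp [Λ, x2, H.f3.zero, H.f4.zero, H.f5.zero, H.f6.zero]
theorem Λ3 (a : K) : Λ M p r (x3 T a) = P3 M r a := by
  simp [Λ, x3, H.f2.zero, H.f4.zero, H.f5.zero, H.f6.zero]
theorem Λ4 (a : K) : Λ M p r (x4 T a) = p a := by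
  simp [Λ, x4, H.f2.zero, H.f3.zero, H.f5.zero, H.f6.zero]
theorem Λ5 (a : K) : Λ M p r (x5 T a) = r a := by
  simp [Λ, x5, H.f2.zero, H.f3.zero, H.f4.zero, H.f6.zero]
theorem Λ6 (a : K) : Λ M p r (x6 T a) = P6 M p a := by
  simp [Λ, x6, H.f2.zero, H.f3.zero, H.f4.zero, H.f5.zero]

theorem Λ_mul {a b : U T} (ha : a ∈ V T) (hb : b ∈ V T) :
    Λ M p r (a * b) = Λ M p r a * Λ M p r b := by
  obtain ⟨h1, h2, h3, h4, h5, h6, h7⟩ := ha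
  obtain ⟨k1, k2, k3, k4, k5, k6, k7⟩ := hb
  have e : (a * b).a2 = a.a2 + b.a2 ∧ (a * b).a3 = a.a3 + b.a3 ∧ (a * b).a4 = a.a4 + b.a4 ∧
      (a * b).a5 = a.a5 + b.a5 ∧ (a * b).a6 = a.a6 + b.a6 := by
    o8s
    simp [h1, h2, h3, h4, h5, h6, h7, k1, k2, k3, k4, k5, k6, k7, add_comm]
  have a1 := mul_mem (H.v2 b.a2) (H.v3 b.a3)
  have a2 := mul_mem a1 (H.vh.pm b.a4)
  rw [Λ, Λ, Λ, e.1, e.2.1, e.2.2.1, e.2.2.2.1, e.2.2.2.2, H.f2.add, H.f3.add, H.f4.add, H.f5.add, H.f6.add,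
    (H.comm (v6 a.a6) (mul_mem a2 (H.hr b.a5))).mul_mul_mul_comm,
    (H.comm (H.hr a.a5) a2).mul_mul_mul_comm, (H.comm (H.vh.pm a.a4) a1).mul_mul_mul_comm,
    (H.comm (H.v3 a.a3) (H.v2 b.a2)).mul_mul_mul_comm]

theorem mov {a : U T} (ha : a ∈ V T) : Λ M p r a * t * (Λ M p r a)⁻¹ = t * M.φ a := by
  refine V_ind (P := fun a => Λ M p r a * t * (Λ M p r a)⁻¹ = t * M.φ a) (fun a => ?_) (fun a => ?_)
    (fun a => ?_) (fun a => ?_) (fun a => ?_) (fun a ha b hb e1 e2 => ?_) ha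
  · rw [H.Λ2, H.f2.mov]
  · rw [H.Λ3, H.f3.mov]
  · rw [H.Λ4, H.f4.mov]
  · rw [H.Λ5, H.f5.mov]
  · rw [H.Λ6, H.f6.mov]
  · calc _ = Λ M p r a * (Λ M p r b * t * (Λ M p r b)⁻¹) * (Λ M p r a)⁻¹ := by
          rw [H.Λ_mul ha hb]; group
      _ = Λ M p r a * t * (Λ M p r a)⁻¹ * M.φ b := by
          rw [e2, mul_assoc _ _ (M.φ b), (H.comm (H.vΛ a) (vφ hb)).inv_left.eq]; group
      _ = _ := by rw [e1, map_mul, mul_assoc]

theorem mov' {a : U T} (ha : a ∈ V T) (v : U T) :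
    Λ M p r a * M.φ v * t * (Λ M p r a * M.φ v)⁻¹ = t * M.φ a := by
  rw [← H.mov ha, mul_assoc _ (M.φ v), (H.c.toCtx.tφ v).eq]; group

theorem uniq {a b v w : U T} (ha : a ∈ V T) (hb : b ∈ V T)
    (e : Λ M p r a * M.φ v = Λ M p r b * M.φ w) : a = b ∧ v = w := by
  have := H.mov' ha v
  rw [e, H.mov' hb] at this
  obtain rfl := M.inj (mul_left_cancel this)
  exact ⟨rfl, M.inj (mul_left_cancel e)⟩

theorem movk {a : U T} (ha : a ∈ V T) (k : U T) : M.φ k * Λ M p r a * (M.φ k)⁻¹ * t *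
    (M.φ k * Λ M p r a * (M.φ k)⁻¹)⁻¹ = t * M.φ (k * a * k⁻¹) := by
  have c := H.c.toCtx.tφ k
  calc _ = M.φ k * (Λ M p r a * ((M.φ k)⁻¹ * t * M.φ k) * (Λ M p r a)⁻¹) * (M.φ k)⁻¹ := by group
    _ = _ := by
      rw [c.inv_left.eq, inv_mul_cancel_right, H.mov ha, ← mul_assoc, c.eq, map_mul, map_mul, map_inv]
      group

theorem zp_of {k a b : U T} (ha : a ∈ V T) (hb : b ∈ V T)
    (e : M.φ k * Λ M p r a * (M.φ k)⁻¹ = Λ M p r b) : Zp M p r k a 0 := by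
  have := H.movk ha k
  rw [e, H.mov hb] at this
  rw [Zp, ← M.inj (mul_left_cancel this), x4_zero, map_one, mul_one, e]

theorem zp_comm {k a : U T} (ha : a ∈ V T) (e : Commute (Λ M p r a) (M.φ k)) : Zp M p r k a 0 :=
  H.zp_of ha ha (by rw [← e.eq, mul_inv_cancel_right])

theorem zp_uniq {k a : U T} {z z' : K} (ha : a ∈ V T) (e : Zp M p r k a z) (e' : Zp M p r k a z') :
    z = z' :=
  congrArg U.a4 (H.uniq (nV.conj_mem a ha k) (nV.conj_mem a ha k) (e.symm.trans e')).2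

theorem zp_mul {k a b : U T} {z z' : K} (ha : a ∈ V T) (hb : b ∈ V T) (e : Zp M p r k a z)
    (e' : Zp M p r k b z') : Zp M p r k (a * b) (z + z') := by
  rw [Zp, H.Λ_mul ha hb, ← conj_mul, ← conj_mul, e, e', H.Λ_mul (nV.conj_mem a ha k) (nV.conj_mem b hb k),
    (H.comm (vφ (m4 z)) (H.vΛ _)).mul_mul_mul_comm, x4_add, map_mul]

omit H in
theorem zp_comp {k k' a : U T} {z z' : K} (e' : Zp M p r k' a z') (e : Zp M p r k (k' * a * k'⁻¹) z) :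
    Zp M p r (k * k') a (z + z') := by
  calc _ = M.φ k * (M.φ k' * Λ M p r a * (M.φ k')⁻¹) * (M.φ k)⁻¹ := by rw [map_mul]; group
    _ = M.φ k * Λ M p r (k' * a * k'⁻¹) * (M.φ k)⁻¹ * M.φ (k * x4 T z' * k⁻¹) := by
      rw [e', map_mul, map_mul, map_inv]; group
    _ = _ := by
      rw [e, x4_cen, x4_add, map_mul, mul_assoc]
      congr 2; group

theorem zp4 (k : U T) (a : K) : Zp M p r k (x4 T a) 0 :=
  H.zp_comm (m4 a) (H.Λ4 a ▸ H.h.toH4.pφ a k)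

theorem zp_split {k u a : U T} {P : G} (ha : a ∈ V T) (h1 : Λ M p r a = P)
    (h2 : Commute P (M.φ (k⁻¹ * u))) {c : K} (h3 : M.φ k * P * (M.φ k)⁻¹ = P * p c) :
    Zp M p r u a 0 := by
  refine H.zp_of ha (mul_mem ha (m4 c)) ?_
  rw [H.Λ_mul ha (m4 c), H.Λ4, h1, ← h3]
  conv_lhs => rw [← mul_inv_cancel_left k u, map_mul, mul_assoc _ _ P, ← h2.eq]
  group

theorem zpQ {u a : U T} (hu : u ∈ Q T) (ha : a ∈ V T) : Zp M p r u a 0 := by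
  have q : ∀ {k : U T}, k ∈ Q T → k⁻¹ * u ∈ Q T := fun hk => mul_mem (inv_mem hk) hu
  obtain ⟨h1, h2⟩ := hu
  refine V_ind (P := fun a => Zp M p r u a 0) (fun a => ?_) (fun a => ?_)
    (H.zp4 u) (fun a => ?_) (fun a => ?_) (fun a ha b hb e1 e2 => by simpa using H.zp_mul ha hb e1 e2) ha
  · exact H.zp_split (m2 a) (H.Λ2 a) (H.h.toH4.cen2 a (q ⟨rfl, rfl⟩) (by o8s; o8ring T))
      (H.h.toH4.x7P2 u.a7 a)
  · exact H.zp_split (m3 a) (H.Λ3 a) (H.h.cen3 a (q ⟨rfl, rfl⟩) (by o8s; o8ring T)) (H.h.y6P3 u.b6 a)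
  · exact H.zp_split (m5 a) (H.Λ5 a) (H.h.rcen a _ (by o8s; constructor <;> o8ring T)) (H.h.ry2 u.b2 a)
  · exact H.zp_split (m6 a) (H.Λ6 a) (H.h.toH4.cen6 a (by o8s; o8ring T)) (H.h.line u.a1 a)

theorem zp_ex (k : U T) {a : U T} (ha : a ∈ V T) : ∃ z, Zp M p r k a z := by
  have hb := nV.conj_mem a ha k
  have m := H.vh.nK _ (φK M k) _ (H.vΛ a)
  obtain ⟨v, hv, e⟩ := H.vh.fix _ (mul_mem (inv_mem (H.vΛ (k * a * k⁻¹))) m) (by
    rw [← conj_eq_iff, mul_inv_rev, mul_assoc, mul_assoc, ← mul_assoc t, ← mul_assoc _ (t * _),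
      ← mul_assoc _ t, H.movk ha, ← H.mov hb]
    group)
  rw [inv_mul_eq_iff_eq_mul] at e
  refine ⟨v.a4, ?_⟩
  rw [Zp, ← VQ hv fun u hu => ?_, e]
  have q := nQ.conj_mem u hu k⁻¹
  obtain ⟨c, hc⟩ := QV q ha
  have e1 := H.zpQ q ha
  have e2 := H.zpQ hu hb
  rw [Zp, x4_zero, map_one, mul_one] at e1 e2
  rw [hc, H.Λ_mul ha (m4 c), H.Λ4] at e1
  refine (H.uniq (nV.conj_mem _ hb u) (mul_mem hb (m4 c)) ?_).2
  calc _ = M.φ u * (M.φ k * Λ M p r a * (M.φ k)⁻¹) * (M.φ u)⁻¹ := by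
        rw [e, ← e2, map_mul, map_mul, map_inv]; group
    _ = M.φ k * (Λ M p r a * p c) * (M.φ k)⁻¹ := by
        rw [← e1]; simp only [map_mul, map_inv]; group
    _ = M.φ k * Λ M p r a * (M.φ k)⁻¹ * p c := by
        rw [← mul_assoc, mul_assoc _ (p c), (H.h.toH4.pφ c k).inv_right.eq, ← mul_assoc]
    _ = _ := by
        rw [e, H.Λ_mul hb (m4 c), H.Λ4, mul_assoc, ← (H.h.toH4.pφ c v).eq, ← mul_assoc]

theorem Λ_tor (d : Kˣ × Kˣ) {a : U T} (ha : a ∈ V T) :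
    M.h d * Λ M p r a * (M.h d)⁻¹ = Λ M p r (tor T d a) := by
  refine V_ind (P := fun a => M.h d * Λ M p r a * (M.h d)⁻¹ = Λ M p r (tor T d a)) (fun a => ?_)
    (fun a => ?_) (fun a => ?_) (fun a => ?_) (fun a => ?_) (fun a ha b hb e1 e2 => ?_) ha
  · rw [tor_x2, H.Λ2, H.Λ2, H.h.toH4.tor2]
  · rw [tor_x3, H.Λ3, H.Λ3, H.h.tor3]
  · rw [tor_x4, H.Λ4, H.Λ4, H.h.tor]
  · rw [tor_x5, H.Λ5, H.Λ5, H.h.rtor]
  · rw [tor_x6, H.Λ6, H.Λ6, H.h.toH4.tor6]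
  · rw [map_mul, H.Λ_mul ha hb, H.Λ_mul (tor_V d ha) (tor_V d hb), ← conj_mul, e1, e2]

theorem zp_tor (d : Kˣ × Kˣ) {k a : U T} {z : K} (ha : a ∈ V T) (e : Zp M p r k a z) :
    Zp M p r (tor T d k) (tor T d a) (Nu T d.1 * z) := by
  rw [Zp, ← map_inv (tor T d), ← map_mul, ← map_mul, ← H.Λ_tor d ha, ← H.Λ_tor d (nV.conj_mem a ha k),
    Nu_val, ← tor_x4, ← M.hφ, ← M.hφ, conj_mul (c := M.φ (x4 T z)), ← e]
  group

theorem act [Finite K] : ∃ e, A1 M p r e := by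
  choose! ζ hζ using fun k a ha => H.zp_ex k (a := a) ha
  have un : ∀ {k a z}, a ∈ V T → Zp M p r k a z → ζ k a = z := fun ha e => H.zp_uniq ha (hζ _ _ ha) e
  have add : ∀ k {a b}, a ∈ V T → b ∈ V T → ζ k (a * b) = ζ k a + ζ k b := fun k _ _ ha hb =>
    un (mul_mem ha hb) (H.zp_mul ha hb (hζ _ _ ha) (hζ _ _ hb))
  have coc : ∀ k k' {a}, a ∈ V T → ζ (k * k') a = ζ k (k' * a * k'⁻¹) + ζ k' a := fun k k' _ ha =>
    un ha (zp_comp (hζ _ _ ha) (hζ _ _ (nV.conj_mem _ ha _)))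
  have tr : ∀ d k {a}, a ∈ V T → ζ (tor T d k) (tor T d a) = Nu T d.1 * ζ k a := fun d k _ ha =>
    un (tor_V d ha) (H.zp_tor d ha (hζ _ _ ha))
  have z1 : ∀ {a}, a ∈ V T → ζ 1 a = 0 := fun ha => un ha (H.zpQ (one_mem _) ha)
  have z0 : ∀ k, ζ k 1 = 0 := fun k => un (one_mem _) (H.zp4 k 0)
  have z4 : ∀ k a, ζ k (x4 T a) = 0 := fun k a => un (m4 a) (H.zp4 k a)
  have z6 : ∀ {k}, k ∈ E T → ∀ a, ζ k (x6 T a) = 0 := fun hk a =>
    un (m6 a) (H.zp_comm (m6 a) (H.Λ6 a ▸ H.h.toH4.cen6 a hk))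
  have x5' : ∀ u a, ζ (x8 T u) (x5 T a) = 0 := fun u a =>
    un (m5 a) (H.zp_comm (m5 a) (H.Λ5 a ▸ H.h.rcen a _ ⟨rfl, rfl⟩))
  have y5 : ∀ u a, ζ (y8 T u) (x5 T a) = 0 := fun u a =>
    un (m5 a) (H.zp_of (m5 a) (mul_mem (m5 a) (m6 (u * a))) (by
      rw [H.Λ_mul (m5 a) (m6 _), H.Λ5, H.Λ6, H.h.y8r]))
  have c82 : ∀ u a, x8 T u * x2 T a * (x8 T u)⁻¹ =
      x2 T a * x4 T (T.θ a * u) * x5 T (a * u) * x6 T (a * T.θ u) := fun u a => by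
    ext <;> o8s <;> o8ring T
  have c83 : ∀ u a, x8 T u * x3 T a * (x8 T u)⁻¹ = x3 T a * x6 T (a * u) := fun u a => by
    ext <;> o8s <;> o8ring T
  have d83 : ∀ u a, y8 T u * x3 T a * (y8 T u)⁻¹ = x3 T a * x4 T (T.θ a * u) * x5 T (a * T.θ u) :=
    fun u a => by ext <;> o8s <;> o8ring T
  have d82 : ∀ u a, y8 T u * x2 T a * (y8 T u)⁻¹ =
      x2 T a * x3 T (a * u) * x5 T (a * (u * T.θ u)) * x6 T (a * u * (u * T.θ u)) := fun u a => by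
    ext <;> o8s <;> o8ring T
  have yy : ∀ u u', y8 T u * y8 T u' = y8 T (u + u') * x8 T (u * T.θ u') := fun u u' => by
    ext <;> o8s <;> o8ring T
  have f82 : ∀ u a, ζ (x8 T u) (x2 T a) = ζ (x8 T 1) (x2 T 1) * (T.θ a * u) := fun u a => by
    by_cases ha : a = 0
    · simp [ha, x2_zero, z0]
    by_cases hu : u = 0
    · simp [hu, x8_zero, z1 (m2 a)]
    exact hom_pair (wt2 T) (wt8 T) (fun d => Nu T d.1) w28 (fun a u => T.θ a * u)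
      (fun d => congrArg Units.val (i28a d)) (fun a u => ζ (x8 T u) (x2 T a))
      (fun d => by simpa only [tor_x8, tor_x2, mul_one] using tr d (x8 T 1) (m2 1)) ha hu
  have g83 : ∀ u a, ζ (y8 T u) (x3 T a) = ζ (y8 T 1) (x3 T 1) * (T.θ a * u) := fun u a => by
    by_cases ha : a = 0
    · simp [ha, x3_zero, z0]
    by_cases hu : u = 0
    · simp [hu, y8_zero, z1 (m3 a)]
    exact hom_pair (wt3 T) (wy8 T) (fun d => Nu T d.1) w3y8 (fun a u => T.θ a * u)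
      (fun d => congrArg Units.val (i3y8a d)) (fun a u => ζ (y8 T u) (x3 T a))
      (fun d => by simpa only [tor_y8, tor_x3, mul_one] using tr d (y8 T 1) (m3 1)) ha hu
  have g82 : ∀ u a, ζ (y8 T u) (x2 T a) = ζ (y8 T 1) (x2 T 1) * (T.θ a * (u * T.θ u)) := fun u a => by
    by_cases ha : a = 0
    · simp [ha, x2_zero, z0]
    by_cases hu : u = 0
    · simp [hu, y8_zero, z1 (m2 a)]
    exact hom_pair (wt2 T) (wy8 T) (fun d => Nu T d.1) w2y8 (fun a u => T.θ a * (u * T.θ u))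
      (fun d => congrArg Units.val (i2y8a d)) (fun a u => ζ (y8 T u) (x2 T a))
      (fun d => by simpa only [tor_y8, tor_x2, mul_one] using tr d (y8 T 1) (m2 1)) ha hu
  have f83 : ∀ u a, ζ (x8 T u) (x3 T a) = 0 := fun u a => by
    refine hom_zero (fun n : Kˣ => (Nu T n : K)) (fun n => (n : K)) (fun u => ζ (x8 T u) (x3 T a))
      (fun u u' => ?_) (fun n => ?_) (fun c hc => ?_) ?_ u
    · rw [x8_add, coc _ _ (m3 a), c83, add _ (m3 a) (m6 _), z6 rfl, add_zero]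
    · obtain ⟨s, rfl⟩ := Nu_surj (T := T) n
      have := tr (s, Nu T s) (x8 T 1) (m3 a)
      rwa [tor_x8, tor_x3, show wt3 T (s, Nu T s) = 1 by simp [wt3], show wt8 T (s, Nu T s) =
        Nu T (Nu T s) by simp [wt8], mul_one, Units.val_one, one_mul] at this
    · obtain ⟨n, hn⟩ := Nu_surj (T := T) (Units.mk0 c hc)
      exact ⟨n, congrArg Units.val hn⟩
    · obtain ⟨a, b, c, ha, hb, hc, e1, e2⟩ := Ninv_not_add (T := T) H.c.toCtx.q2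
      exact ⟨Units.mk0 a ha, Units.mk0 b hb, Units.mk0 c hc, e1, e2⟩
  have key : ∀ u u', ζ (y8 T (u + u')) (x2 T 1) + ζ (x8 T (u * T.θ u')) (x2 T 1) =
      ζ (y8 T u) (x2 T 1) + ζ (y8 T u) (x3 T (1 * u')) + ζ (y8 T u') (x2 T 1) := fun u u' => by
    have := coc (y8 T u) (y8 T u') (m2 1)
    rwa [yy, coc _ _ (m2 1), c82, d82, add _ (mul_mem (mul_mem (m2 _) (m4 _)) (m5 _)) (m6 _),
      add _ (mul_mem (m2 _) (m4 _)) (m5 _), add _ (m2 _) (m4 _),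
      add _ (mul_mem (mul_mem (m2 _) (m3 _)) (m5 _)) (m6 _), add _ (mul_mem (m2 _) (m3 _)) (m5 _),
      add _ (m2 _) (m3 _), z4, y5, y5, z6 rfl, z6 rfl, add_zero, add_zero, add_zero, add_zero,
      add_zero] at this
  have e1 : ζ (y8 T 1) (x3 T 1) = ζ (x8 T 1) (x2 T 1) := by
    have := key 1 1
    rw [add_self (T := T), y8_zero, z1 (m2 1), map_one, mul_one] at this
    have := add_self (T := T) (ζ (y8 T 1) (x2 T 1))
    grind
  have e2 : ζ (y8 T 1) (x2 T 1) = 0 := by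
    obtain ⟨a, -, -, h⟩ := N_not_add (T := T) H.c.toCtx.q2
    have := key a 1
    rw [g82 (a + 1), g82 a, f82, g83 a, e1] at this
    simp only [map_one, mul_one, one_mul] at this
    by_contra n
    exact h (mul_left_cancel₀ n (by linear_combination this))
  refine ⟨ζ (x8 T 1) (x2 T 1), fun u a => ?_, fun u a => ?_, fun u a => ?_, fun u a => ?_⟩
  · have := hζ (x8 T u) _ (m2 a)
    rw [Zp, c82, f82, H.Λ_mul (mul_mem (mul_mem (m2 _) (m4 _)) (m5 _)) (m6 _),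
      H.Λ_mul (mul_mem (m2 _) (m4 _)) (m5 _), H.Λ_mul (m2 _) (m4 _), H.Λ2, H.Λ4, H.Λ5, H.Λ6,
      mul_assoc _ (r _), mul_assoc _ (r _ * _), (H.comm (mul_mem (H.hr _) (v6 _)) (vφ (m4 _))).eq] at this
    simpa only [mul_assoc] using this
  · have := hζ (x8 T u) _ (m3 a)
    rwa [Zp, c83, f83, H.Λ_mul (m3 _) (m6 _), H.Λ3, H.Λ6, x4_zero, map_one, mul_one] at this
  · have := hζ (y8 T u) _ (m3 a)
    rw [Zp, d83, g83, e1, H.Λ_mul (mul_mem (m3 _) (m4 _)) (m5 _), H.Λ_mul (m3 _) (m4 _), H.Λ3, H.Λ4, H.Λ5,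
      mul_assoc _ (r _), (H.comm (H.hr _) (vφ (m4 _))).eq] at this
    simpa only [mul_assoc] using this
  · have := hζ (y8 T u) _ (m2 a)
    rwa [Zp, d82, g82, e2, zero_mul, H.Λ_mul (mul_mem (mul_mem (m2 _) (m3 _)) (m5 _)) (m6 _),
      H.Λ_mul (mul_mem (m2 _) (m3 _)) (m5 _), H.Λ_mul (m2 _) (m3 _), H.Λ2, H.Λ3, H.Λ5, H.Λ6, x4_zero,
      map_one, mul_one] at this

end Hy

theorem act : ActStmt.{u, v} := fun _ _ c _ _ h vh hr => Hy.act ⟨c, h, vh, hr⟩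

end Cfsg.Agent.H76.RfAct
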