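import Cfsg.Agent.H76.ThSL
import Cfsg.Agent.H34.Twist1
import Cfsg.Agent.H40.SplitPar

/-!
# Gauss decomposition with trivial semisimple part in the Chevalley groups
-/

set_option autoImplicit false

namespace Cfsg.Agent.H76.Th.Ex

open Cfsg.Lie Cfsg.Agent.H37 Cfsg.Agent.H40 Cfsg.Agent.H34 Cfsg.Agent.H34.Split

variable {D : ChevalleyDatum} (C : Cert D) (F : Type*) [Field F]

/-- the opposite unipotent radical -/
noncomputable def RadM (J : Set (Fin D.rank)) : Subgroup (D.group F) :=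
  (C.split F).U {r | ¬ C.S.pos r ∧ r ∉ C.S.Phi J}

/-- the common normaliser of the two radicals -/
noncomputable def Kn (J : Set (Fin D.rank)) : Subgroup (D.group F) :=
  Subgroup.normalizer (Rad (C.split F) J : Set (D.group F)) ⊓
    Subgroup.normalizer (RadM C F J : Set (D.group F))

variable {C F} (hω : IsAut D negP D.neg fun _ => -1)

theorem opp_U {A A' : Set (Fin D.nroots)} (h : ∀ r ∈ A, C.S.neg r ∈ A') {g : D.group F}
    (hg : g ∈ (C.split F).U A) : C.opp F hω g ∈ (C.split F).U A' :=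
  U_le (K := ((C.split F).U A').comap (C.opp F hω))
    (fun r hr x hx => mem_U (h r hr) (C.opp_mem_X hω r x hx)) hg

theorem opp_RadM {J : Set (Fin D.rank)} {g : D.group F} (hg : g ∈ RadM C F J) :
    C.opp F hω g ∈ Rad (C.split F) J :=
  opp_U hω (A' := {r | C.S.pos r ∧ r ∉ C.S.Phi J})
    (fun _ hr => ⟨(C.S.pos_neg _).2 hr.1, fun h => hr.2 (C.S.neg_mem_Phi_iff.1 h)⟩) hg

theorem opp_Rad {J : Set (Fin D.rank)} {g : D.group F} (hg : g ∈ Rad (C.split F) J) :
    C.opp F hω g ∈ RadM C F J :=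
  opp_U hω (A' := {r | ¬ C.S.pos r ∧ r ∉ C.S.Phi J})
    (fun _ hr => ⟨C.S.not_pos_neg.2 hr.1, fun h => hr.2 (C.S.neg_mem_Phi_iff.1 h)⟩) hg

theorem conj_Rad {J : Set (Fin D.rank)} : ∀ k ∈ Kn C F J, ∀ r ∈ Rad (C.split F) J,
    k * r * k⁻¹ ∈ Rad (C.split F) J := fun _ hk _ hr => conj_mem_of_mem_normalizer hk.1 hr

theorem conj_RadM {J : Set (Fin D.rank)} : ∀ k ∈ Kn C F J, ∀ r ∈ RadM C F J,
    k * r * k⁻¹ ∈ RadM C F J := fun _ hk _ hr => conj_mem_of_mem_normalizer hk.2 hr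

theorem H_le_Kn (J : Set (Fin D.rank)) : (C.split F).H ≤ Kn C F J :=
  le_inf ((H_le_Levi J).trans (Levi_le_normalizer_Rad J))
    (le_normalizer_of_conj_mem fun _ hg _ hu => conj_U_H hg hu)

include hω in
theorem U_le_Kn (J : Set (Fin D.rank)) : (C.split F).U (C.S.Phi J) ≤ Kn C F J := by
  refine le_inf (le_sup_right.trans (Levi_le_normalizer_Rad J))
    (le_normalizer_of_conj_mem fun g hg u hu => ?_)
  have h1 := conj_mem_of_mem_normalizer (Levi_le_normalizer_Rad J (Subgroup.mem_sup_right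
    (opp_U hω (fun _ hr => C.S.neg_mem_Phi hr) hg))) (opp_RadM hω hu)
  have h2 := opp_Rad hω h1
  rwa [map_mul, map_mul, map_inv, C.opp_opp, C.opp_opp] at h2

theorem RadM_le (J : Set (Fin D.rank)) : RadM C F J ≤ (C.split F).Vn := U_mono fun _ h => h.1

theorem dec_Up (J : Set (Fin D.rank)) {u : D.group F} (hu : u ∈ (C.split F).Up) :
    ∃ a ∈ (C.split F).U {r | C.S.pos r ∧ r ∈ C.S.Phi J}, ∃ r ∈ Rad (C.split F) J, u = a * r :=
  (cc_pos (P := C.split F)).exists_mul (B := C.S.Phi J) (C := (C.S.Phi J)ᶜ)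
    (fun r _ => em (r ∈ C.S.Phi J)) hu

include hω in
theorem dec_Vn (J : Set (Fin D.rank)) {v : D.group F} (hv : v ∈ (C.split F).Vn) :
    ∃ r ∈ RadM C F J, ∃ a ∈ (C.split F).U {r | ¬ C.S.pos r ∧ r ∈ C.S.Phi J}, v = r * a := by
  obtain ⟨a, ha, r, hr, e⟩ := dec_Up J (opp_U hω (A' := {r | C.S.pos r})
    (fun _ hr => (C.S.pos_neg _).2 hr) (inv_mem hv))
  refine ⟨_, inv_mem (opp_Rad hω hr), _, inv_mem (opp_U hω
    (A' := {r | ¬ C.S.pos r ∧ r ∈ C.S.Phi J}) (fun _ hr => ⟨C.S.not_pos_neg.2 hr.1, C.S.neg_mem_Phi hr.2⟩) ha), ?_⟩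
  rw [← mul_inv_rev, ← map_mul, ← e, C.opp_opp, inv_inv]

theorem fpf_Rad {J : Set (Fin D.rank)} {τ : D.group F} {χ : Fin D.nroots → F}
    (h : ∀ (r : Fin D.nroots) (s : F), τ * C.xg F r s * τ⁻¹ = C.xg F r (χ r * s))
    (h1 : ∀ r, C.S.pos r → r ∉ C.S.Phi J → χ r ≠ 1) :
    ∀ r ∈ Rad (C.split F) J, τ * r = r * τ → r = 1 := by
  intro g hg e
  have hA : CC (C.split F) {r | C.S.pos r ∧ r ∉ C.S.Phi J} := CC.of_cl (cl_rad J)
  obtain ⟨L, hL, hLA⟩ := Filt.exists_list (Set.toFinite {r | C.S.pos r ∧ r ∉ C.S.Phi J})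
  obtain ⟨y, h2, -, rfl⟩ := hA.exists_prod hL hLA hg
  choose t ht using fun r => Cert.mem_X.1 (h2 r)
  have e1 : (L.map fun r : Fin D.nroots => C.xg F r (χ r * t r)).prod = (L.map y).prod := by
    rw [← mul_inv_eq_iff_eq_mul] at e
    rw [← e, ← MulAut.conj_apply, map_list_prod, List.map_map]
    exact congrArg List.prod (List.map_congr_left fun r _ => by
      rw [Function.comp_apply, MulAut.conj_apply, ← ht, h])
  have e2 := hA.prod_inj hL hLA (fun r _ => Cert.xg_mem_X r _) (fun r _ => h2 r) e1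
  refine List.prod_eq_one fun x hx => ?_
  obtain ⟨r, hr, rfl⟩ := List.mem_map.1 hx
  have h3 := (hLA r).1 hr
  have h4 := Cert.xg_injective r.2 ((e2 r h3).trans (ht r).symm)
  have h5 : t r = 0 := by
    by_contra h5
    exact h1 r h3.1 h3.2 (mul_right_cancel₀ h5 (h4.trans (one_mul _).symm))
  rw [← ht, h5, Cert.xg_zero]

include hω in
theorem fpf_tg {J : Set (Fin D.rank)} {c : Fin D.rank → Fˣ}
    (h1 : ∀ r : Fin D.nroots, r ∉ C.S.Phi J → torChar D c r ≠ 1) :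
    (∀ r ∈ Rad (C.split F) J, C.tg F c * r = r * C.tg F c → r = 1) ∧
      ∀ r ∈ RadM C F J, C.tg F c * r = r * C.tg F c → r = 1 := by
  refine ⟨fpf_Rad (fun r s => Cert.tg_conj c r.2 s) fun r _ hr => by simpa using h1 r hr,
    fun g hg e => ?_⟩
  have := fpf_Rad (τ := C.opp F hω (C.tg F c)) (χ := fun r => torChar D c (C.S.neg r))
    (fun r s => by
      have h2 := C.V.basic.neg_lt _ r.2
      have h3 := congrArg (C.opp F hω) (Cert.tg_conj (C := C) c h2 (-s))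
      rw [map_mul, map_mul, map_inv, C.opp_xg hω h2, C.opp_xg hω h2, C.V.basic.neg_neg _ r.2,
        neg_neg, mul_neg, neg_neg] at h3
      rw [h3, sgn_neg, C.neg_val])
    (fun r _ hr => by simpa using h1 _ fun h => hr (C.S.neg_mem_Phi_iff.1 h)) _ (opp_RadM hω hg)
    (by rw [← map_mul, ← map_mul, e])
  rw [← C.opp_opp hω g, this, map_one]

/-! ### Rank one -/

variable (C F) in
theorem rk (i : Fin D.rank) : RankOneRel (C.xg F (D.simple i)) (C.xg F (D.neg (D.simple i))) :=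
  have h := C.V.rankOneRel (F := F) (C.V.basic.simple_lt _ i.2)
  ⟨Cert.xg_add _, Cert.xg_add _, fun t ht u => Subtype.ext (h.n_x t ht u),
    fun t u ht hu => Subtype.ext (h.h_mul t u ht hu)⟩

theorem rk_lu (i : Fin D.rank) (m : Matrix.SpecialLinearGroup (Fin 2) F) (s : Fˣ)
    (h : m 0 0 = s) : ∃ a b, (rk C F i).hom m =
      C.xg F (D.neg (D.simple i)) a * C.tg F (Pi.mulSingle i s) * C.xg F (D.simple i) b := by
  have hd := m.det_coe
  rw [Matrix.det_fin_two, h] at hd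
  have hs := s.ne_zero
  have e : m = slY (m 1 0 / s) * (slX (s : F) * slY (-(s : F)⁻¹) * slX (s : F) *
      (slX (-1) * slY (-(-1)⁻¹) * slX (-1))) * slX (m 0 1 / s) := by
    ext i j
    fin_cases i <;> fin_cases j <;>
      simp [coe_slX, coe_slY, Matrix.mul_apply, Fin.sum_univ_two, h] <;> field_simp
    linear_combination hd
  refine ⟨m 1 0 / s, m 0 1 / s, ?_⟩
  rw [← Cert.hg_simple]
  conv_lhs => rw [e]
  simp only [map_mul, RankOneRel.hom_X, RankOneRel.hom_Y]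
  rfl

theorem rk_dec (i : Fin D.rank) (m : Matrix.SpecialLinearGroup (Fin 2) F) :
    ∃ c a s b, (rk C F i).hom m = C.xg F (D.simple i) c *
      (C.xg F (D.neg (D.simple i)) a * C.tg F (Pi.mulSingle i s) * C.xg F (D.simple i) b) := by
  obtain ⟨c, hc⟩ : ∃ c : F, (slX (-c) * m) 0 0 ≠ 0 := by
    by_cases h : m 0 0 = 0
    · have hd := m.det_coe
      rw [Matrix.det_fin_two, h] at hd
      refine ⟨1, ?_⟩
      have : m 1 0 ≠ 0 := fun h1 => by simp [h1] at hd
      simpa [coe_slX, Matrix.mul_apply, Fin.sum_univ_two, h] using this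
    · exact ⟨0, by simpa [coe_slX, Matrix.mul_apply, Fin.sum_univ_two] using h⟩
  obtain ⟨a, b, e⟩ := rk_lu (C := C) i (slX (-c) * m) (Units.mk0 _ hc) rfl
  refine ⟨c, a, Units.mk0 _ hc, b, ?_⟩
  rw [← e, map_mul, RankOneRel.hom_X, Cert.xg_neg, mul_inv_cancel_left]

theorem α_eq (i : Fin D.rank) : (C.S.α i : ℕ) = D.simple i := C.simple_val i

theorem neg_α_eq (i : Fin D.rank) : (C.S.neg (C.S.α i) : ℕ) = D.neg (D.simple i) := by
  rw [sgn_neg, C.neg_val, α_eq]

theorem x_mem_X (i : Fin D.rank) (s : F) : C.xg F (D.simple i) s ∈ (C.split F).X (C.S.α i) :=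
  α_eq (C := C) i ▸ Cert.xg_mem_X _ s

theorem y_mem_X (i : Fin D.rank) (s : F) :
    C.xg F (D.neg (D.simple i)) s ∈ (C.split F).X (C.S.neg (C.S.α i)) :=
  neg_α_eq (C := C) i ▸ Cert.xg_mem_X _ s

theorem x_mem_Up (i : Fin D.rank) (s : F) : C.xg F (D.simple i) s ∈ (C.split F).Up :=
  mem_U (C.S.pos_α i) (x_mem_X i s)

theorem y_mem_Vn (i : Fin D.rank) (s : F) : C.xg F (D.neg (D.simple i)) s ∈ (C.split F).Vn :=
  mem_U (C.S.not_pos_neg.2 (C.S.pos_α i)) (y_mem_X i s)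

include hω in
theorem x_mem_Kn (i : Fin D.rank) (s : F) : C.xg F (D.simple i) s ∈ Kn C F {i} :=
  U_le_Kn hω {i} (mem_U (C.S.α_mem_Phi (Set.mem_singleton i)) (x_mem_X i s))

include hω in
theorem y_mem_Kn (i : Fin D.rank) (s : F) : C.xg F (D.neg (D.simple i)) s ∈ Kn C F {i} :=
  U_le_Kn hω {i} (mem_U (C.S.neg_mem_Phi (C.S.α_mem_Phi (Set.mem_singleton i))) (y_mem_X i s))

theorem dec_Up1 (i : Fin D.rank) {u : D.group F} (hu : u ∈ (C.split F).Up) :
    ∃ a, ∃ r ∈ Rad (C.split F) {i}, u = C.xg F (D.simple i) a * r := by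
  obtain ⟨a, ha, r, hr, rfl⟩ := dec_Up {i} hu
  obtain ⟨s, rfl⟩ := Cert.mem_X.1 (U_le_X (r := C.S.α i) (fun s hs => by
    have h1 := hs.2
    rw [Phi_singleton] at h1
    rcases h1 with h1 | rfl
    · exact h1
    · exact absurd hs.1 (C.S.not_pos_neg.2 (C.S.pos_α i))) ha)
  exact ⟨s, r, hr, by rw [α_eq]⟩

include hω in
theorem dec_Vn1 (i : Fin D.rank) {v : D.group F} (hv : v ∈ (C.split F).Vn) :
    ∃ r ∈ RadM C F {i}, ∃ a, v = r * C.xg F (D.neg (D.simple i)) a := by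
  obtain ⟨r, hr, a, ha, rfl⟩ := dec_Vn hω {i} hv
  obtain ⟨s, rfl⟩ := Cert.mem_X.1 (U_le_X (r := C.S.neg (C.S.α i)) (fun s hs => by
    have h1 := hs.2
    rw [Phi_singleton] at h1
    rcases h1 with rfl | h1
    · exact absurd (C.S.pos_α i) hs.1
    · exact h1) ha)
  exact ⟨r, hr, s, by rw [neg_α_eq]⟩

include hω in
/-- `G = U V H U` -/
theorem tavgen (g : D.group F) : ∃ u₁ ∈ (C.split F).Up, ∃ v ∈ (C.split F).Vn,
    ∃ h ∈ (C.split F).H, ∃ u ∈ (C.split F).Up, g = u₁ * v * h * u := by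
  let T : D.group F → Prop := fun g => ∃ u₁ ∈ (C.split F).Up, ∃ v ∈ (C.split F).Vn,
    ∃ h ∈ (C.split F).H, ∃ u ∈ (C.split F).Up, g = u₁ * v * h * u
  let K : Subgroup (D.group F) :=
    { carrier := {k | (∀ g, T g → T (k * g)) ∧ ∀ g, T g → T (k⁻¹ * g)}
      one_mem' := ⟨fun g h => by rwa [one_mul], fun g h => by rwa [inv_one, one_mul]⟩
      mul_mem' := fun ha hb => ⟨fun g h => by rw [mul_assoc]; exact ha.1 _ (hb.1 _ h),
        fun g h => by rw [mul_inv_rev, mul_assoc]; exact hb.2 _ (ha.2 _ h)⟩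
      inv_mem' := fun ha => ⟨ha.2, by rw [inv_inv]; exact ha.1⟩ }
  have k1 : ∀ k ∈ (C.split F).Up, ∀ g, T g → T (k * g) := by
    rintro k hk _ ⟨u₁, h1, v, h2, h, h3, u, h4, rfl⟩
    exact ⟨_, mul_mem hk h1, v, h2, h, h3, u, h4, by group⟩
  have k2 : ∀ k ∈ (C.split F).H, ∀ g, T g → T (k * g) := by
    rintro k hk _ ⟨u₁, h1, v, h2, h, h3, u, h4, rfl⟩
    exact ⟨_, conj_U_H hk h1, _, conj_U_H hk h2, _, mul_mem hk h3, u, h4, by group⟩
  have k3 : ∀ (i : Fin D.rank) (s : F) g, T g → T (C.xg F (D.neg (D.simple i)) s * g) := by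
    rintro i s _ ⟨u₁, h1, v, h2, h, h3, u, h4, rfl⟩
    obtain ⟨a, r, hr, rfl⟩ := dec_Up1 i h1
    obtain ⟨r', hr', b, rfl⟩ := dec_Vn1 hω i h2
    obtain ⟨c, a', s', b', e⟩ := rk_dec (C := C) i (slY s * slX a * slY b)
    simp only [map_mul, RankOneRel.hom_X, RankOneRel.hom_Y] at e
    have m1 := conj_Rad _ (mul_mem (y_mem_Kn hω i s) (x_mem_Kn hω i a)) r hr
    have m2 := conj_RadM _ (mul_mem (mul_mem (H_le_Kn _ (Cert.tg_mem_H (Pi.mulSingle i s')))
      (x_mem_Kn hω i b')) (inv_mem (y_mem_Kn hω i b))) r' hr'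
    refine ⟨_, mul_mem (Rad_le_Up _ m1) (x_mem_Up i c), _,
      mul_mem (y_mem_Vn i a') (RadM_le _ m2), _, mul_mem (Cert.tg_mem_H (Pi.mulSingle i s')) h3, _,
      mul_mem (conj_U_H' h3 (x_mem_Up i b')) h4, ?_⟩
    generalize C.xg F (D.neg (D.simple i)) s = y1 at e
    generalize C.xg F (D.neg (D.simple i)) b = y2 at e
    generalize C.xg F (D.simple i) a = x1 at e
    obtain rfl : y1 = _ := eq_mul_inv_of_mul_eq (eq_mul_inv_of_mul_eq e)
    group
  have hU : (C.split F).Up ≤ K := fun k hk => ⟨k1 k hk, k1 _ (inv_mem hk)⟩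
  have hK : Par (C.split F) Set.univ ≤ K := Par_le
    (sup_le hU fun k hk => ⟨k2 k hk, k2 _ (inv_mem hk)⟩) fun j _ =>
      ⟨_, Cert.ng_mem_N (C.V.basic.simple_lt _ j.2) one_ne_zero, by
        rw [Cert.ng_eq]
        exact mul_mem (mul_mem (hU (x_mem_Up j _)) ⟨k3 j _, by rw [← Cert.xg_neg]; exact k3 j _⟩)
          (hU (x_mem_Up j _)), Cert.ν_ng j one_ne_zero⟩
  have := (hK (Par_univ (P := C.split F) ▸ Subgroup.mem_top g)).1 1
    ⟨1, one_mem _, 1, one_mem _, 1, one_mem _, 1, one_mem _, by simp⟩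
  rwa [mul_one] at this

variable (C F) in
/-- the torus part `t` can be removed -/
def GP (t : Fin D.rank → Fˣ) : Prop := ∀ v ∈ (C.split F).Vn, ∀ u ∈ (C.split F).Up,
  ∃ v' ∈ (C.split F).Vn, ∃ u' ∈ (C.split F).Up, IsConj (v * C.tg F t * u) (v' * u')

theorem GP_of_eq {t : Fin D.rank → Fˣ} (h : C.tg F t = 1) : GP C F t := fun v hv u hu =>
  ⟨v, hv, u, hu, by rw [h, mul_one]⟩

include hω in
theorem GP.rule (h3 : ∀ a : F, ∃ c, c ≠ 0 ∧ c ≠ a) {t : Fin D.rank → Fˣ} {i : Fin D.rank}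
    (hi : torChar D t (D.simple i) ≠ 1) (s : Fˣ) (h : GP C F (Pi.mulSingle i s * t)) :
    GP C F t := by
  intro v hv u hu
  obtain ⟨α, r, hr, rfl⟩ := dec_Up1 i hu
  obtain ⟨r', hr', β, rfl⟩ := dec_Vn1 hω i hv
  have hi' := C.V.basic.simple_lt _ i.2
  have e1 := Cert.tg_conj (C := C) t hi'
  have e2 := Cert.tg_conj (C := C) t (C.V.basic.neg_lt _ hi')
  rw [(isRootCharacter_torChar C.V t).1 _ hi'] at e2
  generalize torChar D t (D.simple i) = a at hi e1 e2
  have ha := a.ne_zero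
  have ha1 : (a : F) ≠ 1 := fun h => hi (Units.ext h)
  obtain ⟨c', hc'⟩ : ∃ c' : F, (c' + β) * (1 - c' * α) - c' / a ≠ 0 := by
    by_cases hβ : β = 0
    · by_cases hα : α = 0
      · exact ⟨1, by
          rw [hβ, hα]; field_simp
          simpa [sub_eq_zero] using ha1⟩
      · obtain ⟨c, h1, h2⟩ := h3 ((1 - (a : F)⁻¹) / α)
        refine ⟨c, fun h => h2 ?_⟩
        rw [hβ] at h
        field_simp at h ⊢
        apply mul_left_cancel₀ h1
        linear_combination -h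
    · exact ⟨0, by simpa using hβ⟩
  set c := ((s : F) - (1 - c' * α)) / ((c' + β) * (1 - c' * α) - c' / a) with hc
  obtain ⟨a', b', e⟩ := rk_lu (C := C) i (slX c * slY c' * slY β * (slX (a * α) *
    slY (((a⁻¹ : Fˣ) : F) * -c') * slX (a * -c))) s (by
      have : c * ((c' + β) * (1 - c' * α) - c' / a) = s - (1 - c' * α) := by
        rw [hc, div_mul_cancel₀ _ hc']
      simp [coe_slX, coe_slY, Matrix.mul_apply, Fin.sum_univ_two]
      field_simp at this ⊢
      linear_combination this)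
  simp only [map_mul, RankOneRel.hom_X, RankOneRel.hom_Y, ← e1, ← e2, Cert.xg_neg] at e
  have m := mul_mem (x_mem_Kn (C := C) hω i c) (y_mem_Kn hω i c')
  obtain ⟨v', hv', u', hu', e'⟩ := h _ (mul_mem (RadM_le _ (conj_RadM _ m r' hr')) (y_mem_Vn i a'))
    _ (mul_mem (conj_U_H' (Cert.tg_mem_H t) (x_mem_Up i b')) (Rad_le_Up _ (conj_Rad _ m r hr)))
  refine ⟨v', hv', u', hu', IsConj.trans (isConj_iff.2 ⟨C.xg F (D.simple i) c *
    C.xg F (D.neg (D.simple i)) c', ?_⟩) e'⟩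
  rw [map_mul]
  generalize C.xg F (D.neg (D.simple i)) a' = y1 at e
  obtain rfl : y1 = _ := (eq_mul_inv_of_mul_eq (eq_mul_inv_of_mul_eq e.symm))
  group

omit [Field F] in
theorem exists_avoid {A : Type*} [CommGroup A] {γ : A}
    (hγ : ∀ k : ℤ, k ≠ 0 → k.natAbs ≤ 7 → γ ^ k ≠ 1) {m n : ℤ} (hm : m ≠ 0) (hn : n ≠ 0)
    (hm' : m.natAbs ≤ 3) (hn' : n.natAbs ≤ 3) (a b : A) : ∃ s : A, s ^ m * a ≠ 1 ∧ s ^ n * b ≠ 1 := by
  have key : ∀ (m : ℤ) (a : A) (j k : ℤ), m ≠ 0 → m.natAbs ≤ 3 → j - k ≠ 0 → (j - k).natAbs ≤ 2 →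
      (γ ^ j) ^ m * a = 1 → (γ ^ k) ^ m * a = 1 → False := fun m a j k h1 h2 h3 h4 h5 h6 => by
    refine hγ ((j - k) * m) (mul_ne_zero h3 h1) 
      (by rw [Int.natAbs_mul]; exact (Nat.mul_le_mul h4 h2).trans (by decide)) ?_
    rw [sub_mul, zpow_sub, zpow_mul, zpow_mul, mul_inv_eq_one]
    exact mul_right_cancel (h5.trans h6.symm)
  by_contra H
  push Not at H
  by_cases h0 : (γ ^ (0 : ℤ)) ^ m * a = 1
  · exact key n b 1 2 hn hn' (by decide) (by decide)
      (H _ fun h => key m a 0 1 hm hm' (by decide) (by decide) h0 h)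
      (H _ fun h => key m a 0 2 hm hm' (by decide) (by decide) h0 h)
  · by_cases h1 : (γ ^ (1 : ℤ)) ^ m * a = 1
    · exact key n b 0 2 hn hn' (by decide) (by decide) (H _ h0)
        (H _ fun h => key m a 1 2 hm hm' (by decide) (by decide) h1 h)
    · exact key n b 0 1 hn hn' (by decide) (by decide) (H _ h0) (H _ h1)

/-- the certificate for the game on the Dynkin diagram -/
def Game (D : ChevalleyDatum) (key : List ℕ) : Prop :=
  (∀ i j : Fin D.rank, key.getD i 0 = key.getD j 0 → i = j) ∧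
  (∀ i : Fin D.rank, key.getD i 0 ≠ 0 → ∃ p : Fin D.rank, key.getD p 0 < key.getD i 0 ∧
    D.cartan i (D.simple p) ≠ 0 ∧ D.cartan p (D.simple i) ≠ 0) ∧
  (∀ i j : Fin D.rank, (D.cartan i (D.simple j)).natAbs ≤ 3) ∧
  ∀ i : Fin D.rank, D.cartan i (D.simple i) ≠ 0

instance (D : ChevalleyDatum) (key : List ℕ) : Decidable (Game D key) := by
  unfold Game; infer_instance

theorem torChar_single (i : Fin D.rank) (s : Fˣ) (r : ℕ) :
    torChar D (Pi.mulSingle i s) r = s ^ D.cartan i r := by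
  rw [torChar, Finset.prod_eq_single i (fun j _ hj => by simp [Pi.mulSingle_eq_of_ne hj]) (by simp),
    Pi.mulSingle_eq_same]

include hω in
theorem GP_all [Fintype F] (hF : 9 ≤ Fintype.card F) {key : List ℕ} (hk : Game D key)
    (t : Fin D.rank → Fˣ) : GP C F t := by
  obtain ⟨γ, hγ⟩ := exists_gen_pow hF
  have h3 : ∀ a : F, ∃ c, c ≠ 0 ∧ c ≠ a := fun a => by
    by_cases h : a = 1
    · exact ⟨γ, γ.ne_zero, fun e => hγ 1 one_ne_zero (by decide)
        (Units.ext (by rw [zpow_one, e, h]; rfl))⟩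
    · exact ⟨1, one_ne_zero, Ne.symm h⟩
  obtain ⟨g1, g2, g3, g4⟩ := hk
  let Z : ℕ → Fin D.rank → Prop := fun m i => ∀ t : Fin D.rank → Fˣ,
    (∀ j : Fin D.rank, m ≤ key.getD j 0 → t j = 1) → torChar D t (D.simple i) ≠ 1 → GP C F t
  have sup : ∀ {m : ℕ} {i : Fin D.rank} {t : Fin D.rank → Fˣ} (s : Fˣ), key.getD i 0 < m →
      (∀ j : Fin D.rank, m ≤ key.getD j 0 → t j = 1) →
      ∀ j : Fin D.rank, m ≤ key.getD j 0 → (Pi.mulSingle i s * t : Fin D.rank → Fˣ) j = 1 :=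
    fun s h1 h2 j hj => by
      rw [Pi.mul_apply, h2 j hj, mul_one, Pi.mulSingle_eq_of_ne (by rintro rfl; omega)]
  have step : ∀ {m : ℕ} {i j : Fin D.rank}, key.getD i 0 < m → D.cartan i (D.simple j) ≠ 0 →
      Z m j → Z m i := fun {m i j} h1 h2 h t ht hi => by
    obtain ⟨s, hs, -⟩ := exists_avoid hγ h2 h2 (g3 _ _) (g3 _ _) (torChar D t (D.simple j)) 1
    exact GP.rule hω h3 hi s (h _ (sup s h1 ht) (by rwa [Cert.torChar_mul, torChar_single]))
  have move : ∀ {m : ℕ} {i j : Fin D.rank}, key.getD i 0 < m → key.getD j 0 < m → Z m j → Z m i := by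
    intro m i j hi hj h
    have A : ∀ n, ∀ j : Fin D.rank, key.getD j 0 = n → n < m → Z m j →
        ∀ r : Fin D.rank, key.getD r 0 = 0 → Z m r := fun n => by
      induction n using Nat.strong_induction_on with
      | _ n ih =>
        intro j h1 h2 h r hr
        by_cases h0 : key.getD j 0 = 0
        · rwa [g1 r j (hr.trans h0.symm)]
        · obtain ⟨p, p1, -, p3⟩ := g2 j h0
          exact ih _ (h1 ▸ p1) p rfl (by omega) (step (by omega) p3 h) r hr
    have B : ∀ n, ∀ i : Fin D.rank, key.getD i 0 = n → n < m → Z m i := fun n => by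
      induction n using Nat.strong_induction_on with
      | _ n ih =>
        intro i h1 h2
        by_cases h0 : key.getD i 0 = 0
        · exact A _ j rfl hj h i h0
        · obtain ⟨p, p1, p2, -⟩ := g2 i h0
          exact step (by omega) p2 (ih _ (h1 ▸ p1) p rfl (by omega))
    exact B _ i rfl hi
  have main : ∀ m, ∀ i : Fin D.rank, key.getD i 0 < m → Z m i := fun m => by
    induction m with
    | zero => exact fun i hi => absurd hi (Nat.not_lt_zero _)
    | succ m ih =>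
      intro i hi
      by_cases hk : ∃ k : Fin D.rank, key.getD k 0 = m
      swap
      · push Not at hk
        exact fun t ht => ih i (by have := hk i; omega) t fun j hj => ht j (by
          have := hk j; omega)
      obtain ⟨k, hk⟩ := hk
      have sup' : ∀ {t : Fin D.rank → Fˣ}, (∀ j : Fin D.rank, m + 1 ≤ key.getD j 0 → t j = 1) →
          ∀ j : Fin D.rank, m ≤ key.getD j 0 →
            (Pi.mulSingle k (t k)⁻¹ * t : Fin D.rank → Fˣ) j = 1 := fun {t} ht j hj => by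
        by_cases h : j = k
        · rw [h, Pi.mul_apply, Pi.mulSingle_eq_same, inv_mul_cancel]
        · exact sup _ (by omega) ht j (by
            have : key.getD j 0 ≠ m := fun e => h (g1 _ _ (e.trans hk.symm))
            omega)
      by_cases h0 : key.getD k 0 = 0
      · obtain rfl : i = k := g1 _ _ (by omega)
        refine fun t ht hi => GP.rule hω h3 hi (t i)⁻¹ (GP_of_eq ?_)
        rw [show (Pi.mulSingle i (t i)⁻¹ * t : Fin D.rank → Fˣ) = 1 from
          funext fun j => sup' ht j (by omega), map_one]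
      obtain ⟨p, p1, -, p3⟩ := g2 k h0
      refine move (j := p) hi (by omega) fun t ht hp => ?_
      obtain ⟨s, s1, s2⟩ := exists_avoid hγ p3 (g4 p) (g3 _ _) (g3 _ _) (torChar D t (D.simple k))
        ((t k)⁻¹ ^ D.cartan k (D.simple p) * torChar D t (D.simple p))
      refine GP.rule hω h3 hp s (GP.rule hω h3 (i := k)
        (by rwa [Cert.torChar_mul, torChar_single]) _
        (ih p (by omega) _ (sup' (sup s (by omega) ht)) ?_))
      rwa [Cert.torChar_mul, Cert.torChar_mul, torChar_single, torChar_single, Pi.mul_apply,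
        Pi.mulSingle_eq_of_ne (by rintro rfl; omega), one_mul, mul_left_comm]
  by_cases h : ∀ j : Fin D.rank, torChar D t (D.simple j) = 1
  · exact GP_of_eq (Cert.tg_eq_one_iff.2 h)
  · push Not at h
    obtain ⟨i, hi⟩ := h
    obtain ⟨M, hM⟩ := (Set.finite_range fun j : Fin D.rank => key.getD j 0).bddAbove
    exact main (M + 1) i (Nat.lt_succ_of_le (hM ⟨i, rfl⟩)) t
      (fun j hj => absurd (hM ⟨j, rfl⟩) (by simpa using hj)) hi

include hω in
theorem gauss [Fintype F] (hF : 9 ≤ Fintype.card F) {key : List ℕ} (hk : Game D key)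
    (g : D.group F) : ∃ v ∈ (C.split F).Vn, ∃ u ∈ (C.split F).Up, IsConj (v * u) g := by
  obtain ⟨u₁, h1, v, h2, h, h3, u, h4, rfl⟩ := tavgen hω (C := C) g
  obtain ⟨t, rfl⟩ := Cert.mem_H_iff.1 h3
  obtain ⟨v', hv', u', hu', e⟩ := GP_all hω hF hk t v h2 _ (mul_mem h4 h1)
  exact ⟨v', hv', u', hu', e.symm.trans (isConj_iff.2 ⟨u₁, by group⟩)⟩

end Cfsg.Agent.H76.Th.Ex
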