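import Cfsg.Agent.H76.ThSp
import Cfsg.Agent.H80.SLn

/-!
# A good matrix with one Jordan block and one simple eigenvalue
-/

set_option autoImplicit false

namespace Cfsg.Agent.H76.Th.Ex

open Matrix Polynomial Cfsg.Agent.H22.Lev Cfsg.Agent.H80
open Matrix.SpecialLinearGroup (toGL)

variable {F : Type*} [Field F]

section
variable {ι : Type*} [Fintype ι] [DecidableEq ι]

/-- conjugation by an invertible matrix -/
def cj (P : GL ι F) : Matrix.SpecialLinearGroup ι F →* Matrix.SpecialLinearGroup ι F where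
  toFun A := ⟨(P * toGL A * P⁻¹ : GL ι F), by
    rw [← GeneralLinearGroup.val_det_apply, map_mul, map_mul, mul_right_comm, ← map_mul,
      mul_inv_cancel, map_one, one_mul]
    exact A.2⟩
  map_one' := Subtype.ext (by simp)
  map_mul' A B := Subtype.ext (by
    change ((P * toGL (A * B) * P⁻¹ : GL ι F) : Matrix ι ι F) =
      ((P * toGL A * P⁻¹ * (P * toGL B * P⁻¹) : GL ι F) : Matrix ι ι F)
    rw [map_mul]; congr 1; group)

theorem toGL_cj (P : GL ι F) (A : Matrix.SpecialLinearGroup ι F) :
    toGL (cj P A) = P * toGL A * P⁻¹ := Units.ext rfl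

/-- invertible diagonal matrices -/
def dg : (ι → Fˣ) →* GL ι F where
  toFun c := ⟨diagonal fun i => c i, diagonal fun i => (c i)⁻¹, by simp, by simp⟩
  map_one' := Units.ext (by simp)
  map_mul' c d := Units.ext (by simp)

theorem coe_dg (c : ι → Fˣ) : (dg c : Matrix ι ι F) = diagonal fun i => (c i : F) := rfl

end

theorem cj_xA {n : ℕ} (c : Fin n → Fˣ) (r : RA n) (s : F) :
    cj (dg c) (xA r s) = xA r (c r.1.1 * (c r.1.2 : F)⁻¹ * s) := by
  apply Matrix.SpecialLinearGroup.toGL_injective
  rw [toGL_cj, mul_inv_eq_iff_eq_mul]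
  refine Units.ext ?_
  change (dg c : Matrix _ _ F) * (xA r s).1 = (xA r _).1 * (dg c : Matrix _ _ F)
  rw [coe_xA, coe_xA, coe_dg, mul_add, add_mul, mul_one, one_mul]
  congr 1
  ext a b
  simp only [diagonal_mul, mul_diagonal, single_apply]
  split_ifs with h
  · rw [← h.1, ← h.2]; field_simp
  · simp

theorem sl_ext {m : ℕ} {K : Subgroup (Matrix.SpecialLinearGroup (Fin (m + 1)) F)}
    (h : ∀ r s, xA r s ∈ K) (A : Matrix.SpecialLinearGroup (Fin (m + 1)) F) : A ∈ K := by
  have h1 : H34.rootU (rdA F m).X Set.univ ≤ K := (Subgroup.closure_le _).2 (by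
    rintro _ ⟨r, -, hx⟩
    obtain ⟨t, rfl⟩ := ((parA F m).mem r _).1 hx
    exact h r t)
  exact h1 (rdA_gen (K := F) ▸ Subgroup.mem_top A)

variable {k : ℕ}

/-- the edges of the block -/
def ed (j : Fin k) : RA (k + 2) := ⟨(j.castSucc.succ, j.succ.succ), by simp [Fin.ext_iff]⟩

variable (F k) in
/-- the regular unipotent element of the block -/
def Y : Matrix.SpecialLinearGroup (Fin (k + 2)) F :=
  ((List.finRange k).reverse.map fun j => xA (ed j) (1 : F)).prod

variable (F k) in
/-- its nilpotent part -/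
def N : Matrix (Fin (k + 2)) (Fin (k + 2)) F := ∑ j : Fin k, single j.castSucc.succ j.succ.succ 1

theorem coe_prod {n : ℕ} (L : List (RA n)) (h : L.Pairwise fun r s => r.1.2 ≠ s.1.1) :
    ((L.map fun r => xA r (1 : F)).prod).1 = 1 + (L.map fun r => single r.1.1 r.1.2 (1 : F)).sum := by
  induction L with
  | nil => simp
  | cons r L ih =>
    rw [List.pairwise_cons] at h
    have : single r.1.1 r.1.2 (1 : F) * (L.map fun r => single r.1.1 r.1.2 (1 : F)).sum = 0 := by
      rw [← List.sum_map_mul_left]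
      exact List.sum_eq_zero fun x hx => by
        obtain ⟨s, hs, rfl⟩ := List.mem_map.1 hx
        exact single_mul_single_of_ne _ _ _ _ (h.1 s hs) _
    rw [List.map_cons, List.prod_cons, Matrix.SpecialLinearGroup.coe_mul, ih h.2, coe_xA,
      List.map_cons, List.sum_cons, add_mul, mul_add (single _ _ _), this, one_mul, mul_one]
    abel

theorem coe_Y : (Y F k).1 = 1 + N F k := by
  have := coe_prod (F := F) ((List.finRange k).reverse.map ed) (by
    rw [List.pairwise_map, List.pairwise_reverse]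
    exact (List.pairwise_lt_finRange k).imp fun {a b} h => by
      have : (a : ℕ) < b := h
      simp [ed, Fin.ext_iff]; omega)
  rw [List.map_map, List.map_map] at this
  rw [Y, N, Fin.sum_univ_def, ← List.sum_reverse, ← List.map_reverse]
  exact this

theorem N_apply (a b : Fin (k + 2)) : N F k a b = if a ≠ 0 ∧ b.val = a.val + 1 then 1 else 0 := by
  rw [N, Matrix.sum_apply]
  split_ifs with h
  · have h1 : a.val ≠ 0 := fun e => h.1 (Fin.ext e)
    rw [Finset.sum_eq_single (⟨a.val - 1, by omega⟩ : Fin k)]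
    · rw [single_apply, if_pos (by simp [Fin.ext_iff]; omega)]
    · intro j _ hj
      rw [single_apply, if_neg]
      simp [Fin.ext_iff] at hj ⊢; omega
    · simp
  · refine Finset.sum_eq_zero fun j _ => ?_
    rw [single_apply, if_neg]
    rintro ⟨rfl, rfl⟩
    exact h ⟨Fin.succ_ne_zero _, by simp⟩

theorem Y_pow [Fintype F] (hk : k + 2 ≤ Fintype.card F) : Y F k ^ Fintype.card F = 1 := by
  obtain ⟨p, hp, n, h1, h2⟩ := FiniteField.card' F
  have := Fact.mk h1
  have h3 : (N F k).charpoly = X ^ (k + 2) := by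
    rw [charpoly_of_isUpperTriangular _ (fun a b h => by
      have : (b : ℕ) < a := h
      rw [N_apply, if_neg (by omega)])]
    simp [N_apply]
  have h4 := aeval_self_charpoly (N F k)
  rw [h3, map_pow, aeval_X] at h4
  refine Subtype.ext ?_
  rw [Matrix.SpecialLinearGroup.coe_pow, coe_Y, h2,
    add_pow_char_pow_of_commute _ _ (Commute.one_left _), one_pow, ← h2,
    pow_eq_zero_of_le hk h4, add_zero]
  rfl

/-- the diagonal part -/
def dl (k : ℕ) (γ : Fˣ) : Fin (k + 2) → Fˣ := Pi.mulSingle 0 γ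

theorem cj_Y (γ : Fˣ) : cj (dg (dl k γ)) (Y F k) = Y F k := by
  rw [Y, map_list_prod, List.map_map]
  refine congrArg List.prod (List.map_congr_left fun j _ => ?_)
  rw [Function.comp_apply, cj_xA]
  simp [dl, ed]

theorem good {γ : Fˣ} (hγ : γ ≠ 1) :
    Good (toGL (Y F k) * dg (dl k γ)) γ ((X - C 1) ^ (k + 1)) := by
  have hγ' : (γ : F) - 1 ≠ 0 := fun h => hγ (Units.ext (sub_eq_zero.1 h))
  have e : ∀ a b, ((toGL (Y F k) * dg (dl k γ) : GL (Fin (k + 2)) F) :
      Matrix (Fin (k + 2)) (Fin (k + 2)) F) a b =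
      (if a = b then (if a = 0 then (γ : F) else 1) else 0) + N F k a b := fun a b => by
    change ((Y F k).1 * (dg (dl k γ) : Matrix (Fin (k + 2)) (Fin (k + 2)) F) :
      Matrix (Fin (k + 2)) (Fin (k + 2)) F) a b = _
    rw [coe_Y, coe_dg, mul_diagonal, Matrix.add_apply, one_apply, N_apply, dl]
    by_cases hb : b = 0
    · subst hb; by_cases ha : a = 0 <;> simp [ha]
    · rw [Pi.mulSingle_eq_of_ne hb]
      by_cases ha : a = b <;> simp [ha, hb]
  generalize toGL (Y F k) * dg (dl k γ) = M at e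
  have e0 : (M : Matrix (Fin (k + 2)) (Fin (k + 2)) F) *ᵥ Pi.single 0 1 = (γ : F) • Pi.single 0 1 := by
    funext a
    rw [mulVec_single_one, col_apply, e, N_apply]
    by_cases ha : a = 0 <;> simp [ha]
  have e1 : (M : Matrix (Fin (k + 2)) (Fin (k + 2)) F) *ᵥ Pi.single (Fin.succ 0) 1 = Pi.single (Fin.succ 0) 1 := by
    funext a
    rw [mulVec_single_one, col_apply, e, N_apply, Pi.single_apply]
    have : ¬ (a ≠ 0 ∧ (Fin.succ (0 : Fin (k + 1))).val = a.val + 1) := by
      simp only [ne_eq, Fin.ext_iff, Fin.val_succ, Fin.val_zero]; omega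
    rw [if_neg this, add_zero]
    split_ifs with h1 h2
    · exact absurd (h1.symm.trans h2) (Fin.succ_ne_zero _)
    all_goals rfl
  have e2 : ∀ j : Fin k, (M : Matrix (Fin (k + 2)) (Fin (k + 2)) F) *ᵥ Pi.single j.succ.succ 1 =
      Pi.single j.succ.succ 1 + Pi.single j.castSucc.succ 1 := fun j => by
    funext a
    rw [mulVec_single_one, col_apply, e, N_apply, Pi.add_apply, Pi.single_apply, Pi.single_apply]
    congr 1
    · split_ifs with h1 h2
      · exact absurd (h1.symm.trans h2) (Fin.succ_ne_zero _)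
      all_goals rfl
    · refine if_congr ?_ rfl rfl
      simp only [ne_eq, Fin.ext_iff, Fin.val_succ, Fin.val_zero, Fin.val_castSucc]; omega
  refine ⟨⟨Pi.single 0 1 + Pi.single (Fin.last k).succ 1, trivial, le_top, fun S hv hS => ?_⟩,
    (monic_X_sub_C 1).pow _, ?_, by simpa using fun h => (hγ' h).elim,
    Pi.single 0 1, Pi.single 0 1, e0, ?_, by simp⟩
  · have hS' : ∀ x ∈ S, (M : Matrix (Fin (k + 2)) (Fin (k + 2)) F) *ᵥ x - x ∈ S := fun x hx =>
      S.sub_mem (hS ⟨x, hx, rfl⟩) hx
    have h1 : ∀ j : Fin (k + 1), ∃ c : F, c ≠ 0 ∧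
        c • (Pi.single 0 1 : Fin (k + 2) → F) + Pi.single j.succ 1 ∈ S := fun j => by
      induction j using Fin.reverseInduction with
      | last => exact ⟨1, one_ne_zero, by rwa [one_smul]⟩
      | cast j ih =>
        obtain ⟨c, hc, h⟩ := ih
        refine ⟨c * (γ - 1), mul_ne_zero hc hγ', ?_⟩
        convert hS' _ h using 1
        rw [mulVec_add, mulVec_smul, e0, e2]
        module
    have h2 : (Pi.single 0 1 : Fin (k + 2) → F) ∈ S := by
      obtain ⟨c, hc, h⟩ := h1 0
      have := hS' _ h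
      rw [mulVec_add, mulVec_smul, e0, e1] at this
      rw [← S.smul_mem_iff (mul_ne_zero hc hγ')]
      convert this using 1
      module
    intro x _
    rw [pi_eq_sum_univ' x]
    refine S.sum_mem fun i _ => S.smul_mem _ ?_
    induction i using Fin.cases with
    | zero => exact h2
    | succ j =>
      obtain ⟨c, -, h⟩ := h1 j
      simpa using S.sub_mem h (S.smul_mem c h2)
  · rw [charpoly_of_isUpperTriangular _ (fun a b h => by
      have : (b : ℕ) < a := h
      rw [e, N_apply, if_neg (by omega), if_neg (by omega), add_zero]), Fin.prod_univ_succ]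
    simp [e, N_apply]
  · funext b
    rw [single_one_vecMul, row_apply, e, N_apply]
    by_cases hb : b = 0 <;> simp [hb, eq_comm]

theorem exists_cj (b : Fin k → Fˣ) : ∃ c : Fin (k + 2) → Fˣ,
    cj (dg c) ((List.finRange k).reverse.map fun j => xA (ed j.rev) (b j : F)).prod = (Y F k)⁻¹ := by
  refine ⟨fun i => ∏ j : Fin k, if i.val ≤ j.val + 1 then -(b j.rev)⁻¹ else 1, ?_⟩
  rw [Y, List.prod_inv_reverse, map_list_prod, List.map_map, List.map_map, ← List.map_reverse,
    List.reverse_reverse, List.finRange_reverse, List.map_map]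
  refine congrArg List.prod (List.map_congr_left fun j _ => ?_)
  simp only [Function.comp_apply, cj_xA, Fin.rev_rev]
  have h1 : ∏ i : Fin k, (if (ed j).1.1.val ≤ i.val + 1 then -(b i.rev)⁻¹ else 1) =
      -(b j.rev)⁻¹ * ∏ i : Fin k, (if (ed j).1.2.val ≤ i.val + 1 then -(b i.rev)⁻¹ else 1) := by
    rw [← Finset.mul_prod_erase _ _ (Finset.mem_univ j),
      ← Finset.mul_prod_erase _ _ (Finset.mem_univ j), if_pos (by simp [ed]),
      if_neg (by simp [ed]), one_mul]
    congr 1
    refine Finset.prod_congr rfl fun i hi => if_congr ?_ rfl rfl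
    have : i.val ≠ j.val := fun e => (Finset.mem_erase.1 hi).1 (Fin.ext e)
    simp [ed]; omega
  rw [h1, eq_inv_iff_mul_eq_one, ← xA_add, Units.val_mul, mul_inv_cancel_right₀ (Units.ne_zero _)]
  simp [xA]

end Cfsg.Agent.H76.Th.Ex
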